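/-
S4984, chunks CUA, CUB, CUC, CUD, DU: cuspidal characters of general linear groups.
-/
import Cfsg.Agent.H16.DG0
import Cfsg.Agent.H6.GC6
import Cfsg.Agent.H22.Sim1

set_option autoImplicit false
set_option linter.unusedSectionVars false

namespace H3.DG
open H16.DG H6.GC Cfsg Module Finset Polynomial H5 H12
open scoped ComplexConjugate Classical TensorProduct

theorem du : DU := fun F U _ _ _ _ _ β h h' hβ e => by
  have : Module.Finite F U := Module.Finite.of_finite
  let b := Module.finBasis F U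
  let M := LinearMap.toMatrix₂ b b β
  have hM : IsUnit M := by
    rw [← Matrix.vecMul_injective_iff_isUnit, ← Matrix.coe_vecMulLinear, ← LinearMap.ker_eq_bot, LinearMap.ker_eq_bot']
    intro v hv
    have : ∑ i, v i • b i = 0 := hβ _ fun w => by
      rw [← b.sum_repr w]
      simp only [map_sum, map_smul, LinearMap.sum_apply, LinearMap.smul_apply, smul_eq_mul]
      refine sum_eq_zero fun j _ => ?_
      have := congrFun hv j
      simp only [Matrix.vecMulLinear_apply, Matrix.vecMul, dotProduct, M, LinearMap.toMatrix₂_apply, Pi.zero_apply] at this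
      rw [this, mul_zero]
    exact funext (Fintype.linearIndependent_iff.1 b.linearIndependent v this)
  let φ := LinearMap.toMatrixAlgEquiv b
  have k : (φ h⁻¹.toLinearMap).transpose * M = M * φ h'.toLinearMap := by
    have a := LinearMap.toMatrix₂_compl₁₂ b b b b β h⁻¹.toLinearMap LinearMap.id
    have c := LinearMap.toMatrix₂_compl₁₂ b b b b β LinearMap.id h'.toLinearMap
    rw [LinearMap.toMatrix_id, Matrix.mul_one] at a
    rw [LinearMap.toMatrix_id, Matrix.transpose_one, Matrix.one_mul] at c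
    refine a.symm.trans (Eq.trans (congrArg _ ?_) c)
    ext u v
    have := e (h⁻¹ u) v
    rw [show h (h⁻¹ u) = u from h.apply_symm_apply u] at this
    exact this.symm
  have c : IsConj (φ h'.toLinearMap) (φ h⁻¹.toLinearMap) :=
    (show IsConj _ _ from ⟨hM.unit, k.symm⟩).trans (H22.isConj_transpose _).symm
  have c := φ.symm.toMonoidHom.map_isConj c
  obtain ⟨u, hu⟩ := c
  refine isConj_iff.2 ⟨LinearMap.GeneralLinearGroup.generalLinearEquiv F U u, mul_inv_eq_iff_eq_mul.2 (LinearEquiv.ext fun x => ?_)⟩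
  simpa using LinearMap.congr_fun hu.eq x

theorem sum_mul_zero {G : Type} [Group G] {χ : G → ℂ} (h : IsCharacter G χ) (H : Subgroup G) [Fintype H]
    (h0 : ∑ u : H, χ u = 0) (g : G) : ∑ u : H, χ (g * u) = 0 := by
  obtain ⟨n, ρ, rfl⟩ := h
  have hc := card_ne_zero_complex H
  obtain ⟨P, hP⟩ : ∃ P : End ℂ (Fin n → ℂ), P = ∑ u : H, ρ u := ⟨_, rfl⟩
  have e : P * P = (Nat.card H : ℂ) • P := by
    rw [hP, sum_mul, sum_congr rfl fun (u : H) _ => (show ρ u * ∑ v : H, ρ v = ∑ v : H, ρ v by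
      rw [mul_sum, ← Equiv.sum_comp (Equiv.mulLeft u) fun v : H => ρ v]
      simp)]
    simp [Nat.card_eq_fintype_card, Nat.cast_smul_eq_nsmul]
  have z : (Nat.card H : ℂ)⁻¹ • P = 0 := LinearMap.IsIdempotentElem.eq_zero_of_trace_eq_zero
    (by rw [IsIdempotentElem, smul_mul_smul_comm, e, smul_smul, mul_assoc, inv_mul_cancel₀ hc, mul_one])
    (by rw [map_smul, hP, map_sum]; exact smul_eq_zero_of_right _ h0)
  have z : P = 0 := (smul_eq_zero.1 z).resolve_left (inv_ne_zero hc)
  have := congrArg (fun x => LinearMap.trace ℂ _ (ρ g * x)) (hP.symm.trans z)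
  simpa [mul_sum, Representation.character] using this

section
variable {F U : Type} [Field F] [Finite F] [AddCommGroup U] [Module F U] [Finite U]

instance finMod : Module.Finite F U := Module.Finite.of_finite

/-- the natural representation -/
def nr (F U : Type) [Field F] [AddCommGroup U] [Module F U] : (U ≃ₗ[F] U) →* End F U :=
  LinearEquiv.automorphismGroup.toLinearMapMonoidHom

theorem sum_nr (f : End F U → ℂ) : ∑ᶠ g, f (nr F U g) = ∑ g with IsUnit g, f g := by
  have := Fintype.ofFinite (U ≃ₗ[F] U)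
  rw [finsum_eq_sum_of_fintype]
  refine sum_bij (fun g _ => nr F U g) (fun g _ => mem_filter.2 ⟨mem_univ _, (Group.isUnit g).map _⟩)
    (fun g _ h _ e => LinearEquiv.toLinearMap_injective e) (fun g hg => ?_) fun _ _ => rfl
  obtain ⟨u, rfl⟩ := (mem_filter.1 hg).2
  exact ⟨LinearMap.GeneralLinearGroup.generalLinearEquiv F U u, mem_univ _, rfl⟩

theorem card_nr : (#{g : End F U | IsUnit g} : ℂ) = Nat.card (U ≃ₗ[F] U) := by
  have := Fintype.ofFinite (U ≃ₗ[F] U)
  have := sum_nr (F := F) (U := U) fun _ => 1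
  rw [finsum_eq_sum_of_fintype] at this
  simpa using this.symm

/-- the unipotent radical -/
def UA (A : Submodule F U) : Subgroup (U ≃ₗ[F] U) where
  carrier := {u | (∀ v, u v - v ∈ A) ∧ ∀ v ∈ A, u v = v}
  one_mem' := by simp
  mul_mem' := fun {a b} ha hb => ⟨fun v => by simpa using add_mem (ha.1 (b v)) (hb.1 v),
    fun v hv => by simp [hb.2 v hv, ha.2 v hv]⟩
  inv_mem' := fun {a} ha => ⟨fun v => by simpa using neg_mem (ha.1 (a⁻¹ v)),
    fun v hv => by conv_lhs => rw [← ha.2 v hv, inv_apply_apply]⟩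

theorem mem_UA {A : Submodule F U} {u : U ≃ₗ[F] U} : u ∈ UA A ↔ nr F U u - 1 ∈ H6.GC.U A A :=
  and_congr Iff.rfl (forall₂_congr fun _ _ => sub_eq_zero.symm)

theorem UA_le {A : Submodule F U} {K : Subgroup (U ≃ₗ[F] U)}
    (h : ∀ a ∈ A, ∀ φ : Dual F U, (∀ y ∈ A, φ y = 0) → Tr K a φ) : UA A ≤ K := fun u hu => by
  let b := Module.finBasis F A
  let ψ := (nr F U u - 1).codRestrict A hu.1
  have k : ∀ s : Finset (Fin (finrank F A)), ∃ k ∈ K, ∀ y, k y = y + (∑ i ∈ s, b.repr (ψ y) i • b i : A) := fun s => by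
    induction s using Finset.induction_on with
    | empty => exact ⟨1, K.one_mem, by simp⟩
    | insert i s hi ih =>
      obtain ⟨k, hk, e⟩ := ih
      have z : ∀ y ∈ A, ψ y = 0 := fun y hy => Subtype.ext (sub_eq_zero.2 (hu.2 y hy))
      obtain ⟨t, ht, e'⟩ := h (b i) (b i).2 (b.coord i ∘ₗ ψ) fun y hy => by simp [z y hy]
      refine ⟨t * k, K.mul_mem ht hk, fun y => ?_⟩
      rw [LinearEquiv.mul_apply, e', e, sum_insert hi, LinearMap.comp_apply, map_add ψ, z _ (Subtype.prop _), add_zero,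
        add_comm (_ • b i)]
      rw [Submodule.coe_add, add_assoc]
      rfl
  obtain ⟨k, hk, e⟩ := k univ
  rwa [show u = k from LinearEquiv.ext fun y => by rw [e, b.sum_repr]; exact (add_sub_cancel _ _).symm]

theorem cu_of {σ : (U ≃ₗ[F] U) → ℂ} (h : IsCharacter _ σ) {A : Submodule F U} (h0 : ∑ᶠ u : UA A, σ u = 0)
    (K : Subgroup (U ≃ₗ[F] U)) (hK : ∀ a ∈ A, ∀ φ : Dual F U, (∀ y ∈ A, φ y = 0) → Tr K a φ) (g : U ≃ₗ[F] U) :
    ∑ᶠ k : K, σ (g * k) = 0 := by
  have := Fintype.ofFinite (UA A)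
  have := Fintype.ofFinite K
  rw [finsum_eq_sum_of_fintype] at h0 ⊢
  refine mul_left_cancel₀ (card_ne_zero_complex (UA A)) ?_
  calc _ = ∑ u : UA A, ∑ k : K, σ (g * k * u) := by
        rw [sum_congr rfl fun (u : UA A) _ => (show ∑ k : K, σ (g * k * u) = ∑ k : K, σ (g * k) by
          rw [← Equiv.sum_comp (Equiv.mulRight ⟨u.1, UA_le hK u.2⟩) fun k : K => σ (g * k)]
          simp [mul_assoc])]
        simp
    _ = _ := by rw [sum_comm, mul_zero]; exact sum_eq_zero fun k _ => sum_mul_zero h _ h0 _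

theorem sum_UA {S : F[X] → ℂ} (hS : Ad S) {A : Submodule F U} (h0 : A ≠ ⊥) (h1 : A ≠ ⊤) :
    ∑ᶠ u : UA A, J S (nr F U u) ⊤ = 0 := by
  rw [finsum_subtype_eq_finsum_cond (f := fun u => J S (nr F U u) ⊤) (· ∈ UA A)]
  simp only [finsum_eq_if, mem_UA]
  rw [sum_nr fun g => if g - 1 ∈ H6.GC.U A A then J S g ⊤ else 0, ← sum_filter]
  have h3 : ∀ g ∈ (univ.filter fun g : End F U => IsUnit g).filter (fun g => g - 1 ∈ H6.GC.U A A), Iv g A :=
    fun g hg v hv => by simpa using add_mem ((mem_filter.1 hg).2.1 v) hv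
  simpa using cusp_wt hS (w := fun _ => 1) h0 h1 h3
    (fun g hg φ hφ => by
      have h4 := h3 g hg
      simp only [mem_filter, mem_univ, true_and, isUnit_iff_coeff] at hg ⊢
      exact ⟨by rw [charpoly_add_eq h4 hφ.1 hφ.2]; exact hg.1,
        by rw [add_sub_right_comm]; exact add_mem hg.2 hφ⟩) fun _ _ _ _ => rfl

theorem nt_of {σ : (U ≃ₗ[F] U) → ℂ} (h2 : 2 ≤ finrank F U) (cu : ∀ A : Submodule F U, A ≠ ⊥ → A ≠ ⊤ →
    ∀ K : Subgroup (U ≃ₗ[F] U), (∀ a ∈ A, ∀ φ : Dual F U, (∀ y ∈ A, φ y = 0) → Tr K a φ) → ∀ g, ∑ᶠ k : K, σ (g * k) = 0) :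
    ∑ᶠ h, σ h = 0 := by
  have : Nontrivial U := Module.nontrivial_of_finrank_pos (R := F) (by omega)
  obtain ⟨v, hv⟩ := exists_ne (0 : U)
  rw [← cu (F ∙ v) (by simpa using hv) (fun e => by
    have := finrank_span_singleton (K := F) hv
    rw [e, finrank_top] at this
    omega) ⊤ (fun a ha φ h => (tr_SLV (h a ha)).mono le_top) 1]
  exact (finsum_eq_of_bijective (fun k : (⊤ : Subgroup (U ≃ₗ[F] U)) => k.1) Subgroup.topEquiv.bijective
    fun k => by rw [one_mul]).symm

variable {K : Type} [Field K] [Algebra F K] [Fintype K] {θ : K →*₀ ℂ}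

theorem J_conj {S S' : F[X] → ℂ} (h : ∀ P, S' P = conj (S P)) (g : End F U) (W : Submodule F U) :
    J S' g W = conj (J S g W) := by
  induction W using WellFoundedLT.induction with
  | ind W ih =>
    rw [J_eq, J_eq g W, map_sub, map_sum, h]
    exact congrArg _ (sum_congr rfl fun A hA => ih A (mem_filter.1 hA).2.1)

theorem J_sc (c : F) (W : Submodule F U) : J (Sg θ) (c • (1 : End F U)) W = θ (algebraMap F K c) * J (Sg θ) 1 W := by
  have iv : ∀ (c : F) (A : Submodule F U), Iv (c • (1 : End F U)) A := fun c A v hv => A.smul_mem c hv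
  have e : ∀ (c : F) (A : Submodule F U), Sg θ (cp (c • (1 : End F U)) A) = finrank F A * θ (algebraMap F K c) := fun c A => by
    rw [cp_eq (iv c A), charpoly_diag (Module.finBasis F A) (x := fun _ => c) fun i => Subtype.ext rfl, Sg,
      Polynomial.map_prod]
    simp only [Polynomial.map_sub, map_X, map_C]
    rw [rs_prod]; simp
  induction W using WellFoundedLT.induction with
  | ind W ih =>
    have e1 := e 1 W
    have i1 := iv 1
    rw [one_smul] at e1 i1
    rw [J_eq, J_eq 1 W, e, e1, mul_sub, mul_sum]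
    simp only [iv, i1, and_true, map_one, mul_one, mul_comm (θ _) (finrank F W : ℂ)]
    exact congrArg _ (sum_congr rfl fun A hA => ih A (mem_filter.1 hA).2)
end

section Gen
variable {K : Type} [Field K] [Fintype K] {θ : K →*₀ ℂ} {p : ℕ} [hp : Fact p.Prime] [CharP K p]

theorem gen_rs2 {W : Type} [AddCommGroup W] [Module K W] [Module.Finite K W] (hθ : Function.Injective θ) {G : Type} [Group G]
    [Finite G] (ρ : G →* End K W) (hg : ∀ g : G, ¬ p ∣ orderOf g → orderOf g ∣ Fintype.card K - 1) :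
    IsGeneralizedCharacter G fun g => rs (pw θ 1) (ρ g).charpoly := by
  obtain ⟨χ, ψ, h1, h2, e⟩ := gen_rs hθ ρ hg
  convert h1.isGeneralizedCharacter_comp_sq.sub h2.isGeneralizedCharacter_comp_sq using 2 with g
  refine Eq.trans ?_ (congrFun e (g * g))
  obtain ⟨a, m, hm, o⟩ := Nat.exists_eq_pow_mul_and_not_dvd (orderOf_pos g).ne' p hp.out.ne_one
  obtain ⟨f, -, hf⟩ := FiniteField.card K p
  have k1 : (g ^ p ^ a) ^ Fintype.card K = g ^ p ^ a := by
    have := hg (g ^ p ^ a) (by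
      rwa [orderOf_pow_of_dvd (pow_ne_zero _ hp.out.ne_zero) ⟨m, o⟩, o, Nat.mul_div_cancel_left _ (pow_pos hp.out.pos _)])
    conv_lhs => rw [← Nat.sub_add_cancel (Fintype.card_pos (α := K)), pow_succ, orderOf_dvd_iff_pow_eq_one.1 this, one_mul]
  have k2 : ∀ j, (g ^ p ^ a) ^ Fintype.card K ^ j = g ^ p ^ a := fun j => by
    induction j with
    | zero => simp
    | succ j ih => rw [pow_succ, pow_mul, ih, k1]
  obtain ⟨s, hs⟩ : ∃ s, s = g ^ Fintype.card K ^ a := ⟨_, rfl⟩
  have s1 : g ^ p ^ a = s ^ p ^ a := by rw [hs, ← pow_mul, mul_comm, pow_mul, k2]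
  have s2 : s ^ Fintype.card K = s := by
    obtain ⟨c, hc⟩ : p ^ a ∣ Fintype.card K ^ a := pow_dvd_pow_of_dvd (hf ▸ dvd_pow_self p f.ne_zero) a
    rw [hs, hc, pow_mul, ← pow_mul _ c, mul_comm c, pow_mul, k1]
  obtain ⟨n, b, x, hx⟩ := exists_eigbasis (g := ρ s) (by rw [← map_pow, s2])
  have t : ∀ (θ : K →*₀ ℂ) (g s : G), g ^ p ^ a = s ^ p ^ a → rs θ (ρ g).charpoly = rs θ (ρ s).charpoly := fun θ g s h => by
    rw [rs_eq_sum, rs_eq_sum]
    exact sum_congr rfl fun x _ => by rw [rootMult_ppart (p := p) (a := a) (s := ρ s) (by rw [← map_pow, ← map_pow, h])]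
  rw [t _ g s s1, t θ (g * g) (s * s) (by rw [← sq, ← sq, ← pow_mul, ← pow_mul, mul_comm, pow_mul, pow_mul, s1]),
    charpoly_diag b hx, charpoly_diag b (x := fun i => x i ^ 2) fun i => by rw [← sq, map_pow, pow_eig (hx i)],
    rs_prod, rs_prod]
  simp [pw_apply]

variable {F V : Type} [Field F] [AddCommGroup V] [Module F V] [Module.Finite F V] [Algebra F K]

theorem gen_Sg2 (hθ : Function.Injective θ) {G : Type} [Group G] [Finite G] (ρ : G →* End F V)
    (hg : ∀ g : G, ¬ p ∣ orderOf g → orderOf g ∣ Fintype.card K - 1) :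
    IsGeneralizedCharacter G fun g => Sg (pw θ 1) (ρ g).charpoly := by
  let ρ' : G →* End K (K ⊗[F] V) :=
    { toFun := fun g => (ρ g).baseChange K
      map_one' := by rw [map_one, LinearMap.baseChange_one]
      map_mul' := fun g h => by rw [map_mul, LinearMap.baseChange_mul] }
  convert gen_rs2 hθ ρ' hg using 2 with g
  exact congrArg (rs _) (LinearMap.charpoly_baseChange _ K).symm

open Submodule MulAction in
theorem gen_J2 [Finite V] (hθ : Function.Injective θ) (W : Submodule F V) :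
    ∀ (G : Type) [Group G] [Finite G] (ρ : G →* End F V),
      (∀ g : G, ¬ p ∣ orderOf g → orderOf g ∣ Fintype.card K - 1) → (∀ g, Iv (ρ g) W) →
        IsGeneralizedCharacter G fun g => J (Sg (pw θ 1)) (ρ g) W := by
  induction W using WellFoundedLT.induction with
  | ind W ih =>
  intro G _ _ ρ hg hW
  let ρ' : G →* End F W :=
    { toFun := fun g => (hW g).r
      map_one' := by ext; simp
      map_mul' := fun g h => by ext; simp }
  let _ : MulAction G (Submodule F V) :=
    { smul := fun g A => A.map (ρ g)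
      one_smul := fun A => by
        change Submodule.map (ρ 1) A = A; rw [_root_.map_one]; exact A.map_id
      mul_smul := fun g h A => by
        change Submodule.map (ρ (g * h)) A = Submodule.map (ρ g) (Submodule.map (ρ h) A)
        rw [_root_.map_mul]; exact Submodule.map_comp _ _ _ }
  have hs : ∀ g (A : Submodule F V), g • A = A.map (ρ g) := fun _ _ => rfl
  have hi : ∀ g, Function.Injective (ρ g) := fun g a b e => by
    have := congrArg (ρ g⁻¹) e
    rwa [← End.mul_apply, ← End.mul_apply, ← _root_.map_mul, inv_mul_cancel, _root_.map_one] at this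
  have h1 : ∀ g (A : Submodule F V), Iv (ρ g) A ↔ g • A = A := fun g A =>
    ⟨fun h => eq_of_le_of_finrank_eq (map_le_iff_le_comap.2 h)
      (A.equivMapOfInjective _ (hi g)).finrank_eq.symm,
      fun h a ha => h ▸ (mem_map_of_mem ha : ρ g a ∈ g • A)⟩
  have h2 : ∀ h (A : Submodule F V), h • A < W ↔ A < W := fun h A => by
    conv_lhs => rw [← (h1 h W).1 (hW h)]
    exact map_lt_map_iff_of_injective (hi h)
  have h3 := gen_sum_fixed (G := G) (f := fun (A : Submodule F V) g =>
    if A < W ∧ Iv (ρ g) A then J (Sg (pw θ 1)) (ρ g) A else 0)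
    (fun A g h => if_neg fun h' => h ((h1 g A).1 h'.2)) (fun A g h => ?_) fun A => ?_
  · convert (gen_Sg2 hθ ρ' hg).sub h3 using 2 with g
    rw [J_eq, Pi.sub_apply, sum_filter, cp_eq (hW g)]; rfl
  · have h4 : Iv (ρ (h * g * h⁻¹)) (h • A) ↔ Iv (ρ g) A := by
      rw [h1, h1, mul_smul, inv_smul_smul, mul_smul, smul_left_cancel_iff]
    simp only [h2, h4]
    split_ifs with h5
    · refine J_map (by simp [LinearMap.ker_eq_bot.2 (hi h)]) h5.2 fun w _ => ?_
      rw [← End.mul_apply, ← End.mul_apply, ← _root_.map_mul, ← _root_.map_mul, inv_mul_cancel_right]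
    · rfl
  · by_cases h4 : A < W
    · convert ih A h4 _ (ρ.comp (stabilizer G A).subtype) (fun g => by simpa using hg g)
        (fun g => (h1 _ _).2 g.2) using 2 with g
      exact if_pos ⟨h4, (h1 _ _).2 g.2⟩
    · simp only [h4, false_and, if_false]; exact isGeneralizedCharacter_zero
end Gen

section
variable {F U : Type} [Field F] [Finite F] [AddCommGroup U] [Module F U] [Finite U]
  {K : Type} [Field K] [Algebra F K] [Fintype K] {θ : K →*₀ ℂ}

variable (U θ) in
/-- the cuspidal functions -/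
noncomputable def sg (a : ℕ) (h : U ≃ₗ[F] U) : ℂ := (-1) ^ (finrank F U - 1) * J (Sg (pw θ a)) (nr F U h) ⊤

variable (F U θ) in
/-- a suitable splitting field -/
structure Gd : Prop where
  inj : Function.Injective θ
  dvd : Nat.card F ^ finrank F U - 1 ∣ Fintype.card K - 1
  gen : ∀ a ≤ 1, IsGeneralizedCharacter (U ≃ₗ[F] U) (sg U θ a)

theorem ex_gd (hn : 1 ≤ finrank F U) :
    ∃ (K : Type) (_ : Field K) (_ : Algebra F K) (_ : Fintype K) (θ : K →*₀ ℂ), Gd F U θ := by
  have := Fintype.ofFinite F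
  obtain ⟨p, hc⟩ := CharP.exists F
  have hp : Fact p.Prime := ⟨CharP.char_is_prime F p⟩
  set n := finrank F U
  set q := Fintype.card F with hq
  have hq1 : 1 < q := Fintype.one_lt_card
  have h1 : 1 < q ^ n := Nat.one_lt_pow (by omega) hq1
  obtain ⟨f, _, hf⟩ := FiniteField.card F p
  set M := (q ^ n - 1) * ordCompl[p] (Nat.card (U ≃ₗ[F] U)) with hM
  have hG : Nat.card (U ≃ₗ[F] U) ≠ 0 := Nat.card_pos.ne'
  have hqM : q.Coprime M := by
    refine Nat.Coprime.mul_right ?_ (by
      rw [hq, hf]; exact (Nat.coprime_ordCompl hp.out hG).pow_left _)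
    refine Nat.Coprime.coprime_dvd_left (dvd_pow_self q (by omega : n ≠ 0)) ?_
    simpa using (Nat.coprime_self_sub_right h1.le).2 (by simp)
  have : NeZero M.totient := ⟨(Nat.totient_pos.2 (Nat.mul_pos (by omega) (Nat.ordCompl_pos p hG))).ne'⟩
  let K := FiniteField.Extension F p M.totient
  have iK := Fintype.ofFinite K
  have : CharP K p := charP_of_injective_algebraMap (algebraMap F K).injective p
  have hK : M ∣ Fintype.card K - 1 := by
    rw [← Nat.card_eq_fintype_card, FiniteField.natCard_extension, Nat.card_eq_fintype_card]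
    exact (Nat.modEq_iff_dvd' (Nat.one_le_pow _ _ (by omega))).1 (Nat.ModEq.pow_totient hqM).symm
  obtain ⟨θ, hθ⟩ := exists_theta K
  have hg : ∀ g : U ≃ₗ[F] U, ¬ p ∣ orderOf g → orderOf g ∣ Fintype.card K - 1 := fun g hg =>
    .trans (Dvd.dvd.mul_left (Nat.dvd_ordCompl_of_dvd_not_dvd (orderOf_dvd_natCard g) hg) _) hK
  refine ⟨K, inferInstance, inferInstance, iK, θ, hθ, Nat.card_eq_fintype_card (α := F) ▸ (dvd_mul_right _ _).trans hK,
    fun a ha => ?_⟩
  have : IsGeneralizedCharacter _ fun g => J (Sg (pw θ a)) (nr F U g) ⊤ := by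
    obtain rfl | rfl : a = 0 ∨ a = 1 := by omega
    · exact gen_J (p := p) (pw_inj hθ (by simp)) ⊤ _ _ hg fun _ => iv_top _
    · exact gen_J2 (p := p) hθ ⊤ _ _ hg fun _ => iv_top _
  convert this.intCast_smul ((-1) ^ (n - 1)) using 1
  ext g; simp [sg, n]

theorem sg_one (hn : 1 ≤ finrank F U) (a : ℕ) :
    sg U θ a (1 : U ≃ₗ[F] U) = (∏ i ∈ Ico 1 (finrank F U), (Nat.card F ^ i - 1) : ℕ) := by
  have := Fintype.ofFinite F
  have h8 : Sg (pw θ a) (X - 1 : F[X]) = 1 := by
    rw [Sg, rs, Polynomial.map_sub, map_X, Polynomial.map_one, ← C_1, roots_X_sub_C]; simp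
  simp only [sg, map_one, J_one (ad_Sg _), h8, finrank_top, dg, if_neg (show finrank F U ≠ 0 by omega), mul_one]
  rw [← Nat.card_Ico 1, ← prod_const, ← prod_mul_distrib, Nat.cast_prod]
  exact prod_congr rfl fun i _ => by
    rw [Nat.cast_pred (pow_pos Nat.card_pos i), Nat.cast_pow, Nat.card_eq_fintype_card]; ring

theorem sg_sc (a : ℕ) {h : U ≃ₗ[F] U} {c : F} (e : ∀ y, h y = c • y) :
    sg U θ a h = θ (algebraMap F K c) ^ (a + 1) * sg U θ a (1 : U ≃ₗ[F] U) := by
  rw [sg, sg, show nr F U h = c • 1 from LinearMap.ext e, J_sc, map_one, pw_apply, mul_left_comm]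

theorem sg_UA (a : ℕ) {A : Submodule F U} (h0 : A ≠ ⊥) (h1 : A ≠ ⊤) : ∑ᶠ u : UA A, sg U θ a u.1 = 0 := by
  have := Fintype.ofFinite (UA A)
  have := sum_UA (ad_Sg (pw θ a)) h0 h1
  rw [finsum_eq_sum_of_fintype] at this ⊢
  simp only [sg, ← mul_sum, this, mul_zero]

namespace Gd
variable (h : Gd F U θ) (hn : 1 ≤ finrank F U)
include h hn

theorem inner (a b : ℕ) : ∑ᶠ g : U ≃ₗ[F] U, sg U θ a g * conj (sg U θ b g) = Nat.card (U ≃ₗ[F] U) *
    #{j ∈ range (finrank F U) | a + 1 ≡ Nat.card F ^ j * (b + 1) [MOD Nat.card F ^ finrank F U - 1]} := by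
  have : Nontrivial U := Module.nontrivial_of_finrank_pos (R := F) hn
  rw [← card_nr, ← inner_pw h.inj h.dvd, ← sum_nr]
  refine finsum_congr fun g => ?_
  simp only [sg, map_mul, map_pow, map_neg, map_one]
  rw [mul_mul_mul_comm, ← mul_pow]; simp

theorem irr {a : ℕ} (ha : a ≤ 1) : IsIrrCharacter (U ≃ₗ[F] U) (sg U θ a) := by
  have := Fintype.ofFinite (U ≃ₗ[F] U)
  refine (h.gen a ha).isIrr_of_re_nonneg ?_ (by rw [sg_one hn, Complex.natCast_re]; positivity)
  have e := h.inner hn a a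
  rw [finsum_eq_sum_of_fintype, ← card_mul_classInner, mul_right_inj' (card_ne_zero_complex _)] at e
  rw [e, Nat.cast_eq_one, card_eq_one]
  refine ⟨0, eq_singleton_iff_unique_mem.2 ⟨mem_filter.2 ⟨mem_range.2 hn, by rw [pow_zero, one_mul]⟩, fun j hj => ?_⟩⟩
  obtain ⟨j1, j2⟩ := mem_filter.1 hj
  have q1 : 1 < Nat.card F := Finite.one_lt_card
  generalize Nat.card F = q at *
  have a1 := Nat.one_le_pow j q (by omega)
  have h8 := (Nat.modEq_iff_dvd' (Nat.le_mul_of_pos_left _ a1)).1 j2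
  have h9 : q ^ j * 2 ≤ q ^ finrank F U :=
    (Nat.mul_le_mul_left _ q1).trans (pow_succ q j ▸ Nat.pow_le_pow_right (by omega) (mem_range.1 j1))
  have h10 := Nat.eq_zero_of_dvd_of_lt h8 (by obtain rfl | rfl : a = 0 ∨ a = 1 := by omega
                                              all_goals omega)
  by_contra n
  have := Nat.one_lt_pow n q1
  obtain rfl | rfl : a = 0 ∨ a = 1 := by omega
  all_goals omega

theorem cu {a : ℕ} (ha : a ≤ 1) (h1 : finrank F U = 1 → a = 0 ∧ 3 ≤ Nat.card F) : Cu (sg U θ a : (U ≃ₗ[F] U) → ℂ) := by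
  have c := fun A h0 h1 => cu_of (h.irr hn ha).isCharacter (sg_UA (θ := θ) a (A := A) h0 h1)
  refine ⟨h.irr hn ha, sg_one hn a, ?_, c⟩
  by_cases n : finrank F U = 1
  swap
  · exact nt_of (by omega) c
  obtain ⟨rfl, q3⟩ := h1 n
  have := Fintype.ofFinite (U ≃ₗ[F] U)
  have := Fintype.ofFinite F
  rw [finsum_eq_sum_of_fintype]
  refine (h.irr hn ha).sum_eq_zero fun e => ?_
  obtain ⟨c, c0, c1⟩ : ∃ c : F, c ≠ 0 ∧ c ≠ 1 := by
    obtain ⟨x, y, z, a, b, c⟩ := Fintype.two_lt_card_iff.1 (show 2 < Fintype.card F from Nat.card_eq_fintype_card (α := F) ▸ q3)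
    by_contra! k
    have k : ∀ c : F, c = 0 ∨ c = 1 := fun c => or_iff_not_imp_left.2 (k c)
    rcases k x with rfl | rfl <;> rcases k y with rfl | rfl <;> rcases k z with rfl | rfl <;> contradiction
  have := sg_sc (θ := θ) 0 (h := LinearEquiv.smulOfNeZero F U c c0) (c := c) fun _ => rfl
  rw [e, zero_add, pow_one, mul_one, ← θ.map_one, h.inj.eq_iff, ← (algebraMap F K).map_one,
    (algebraMap F K).injective.eq_iff] at this
  exact c1 this.symm

theorem nr {a : ℕ} (ha : (a + 1) * (Nat.card F ^ (finrank F U - 1) + 1) < Nat.card F ^ finrank F U - 1) :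
    NR (sg U θ a : (U ≃ₗ[F] U) → ℂ) := by
  have K1 : 1 < Fintype.card K := Fintype.one_lt_card
  obtain ⟨m, hm⟩ : ∃ m, Fintype.card K - 1 = m + 1 := ⟨Fintype.card K - 2, by omega⟩
  obtain ⟨l, hl⟩ : ∃ l, l + 1 = (2 * m + 1) * (a + 1) := ⟨(2 * m + 1) * (a + 1) - 1, Nat.sub_add_cancel (Nat.mul_pos (by omega) (by omega))⟩
  have c : ∀ x, pw θ l x = conj (pw θ a x) := fun x => by
    rw [pw_apply, pw_apply, hl, pow_mul, map_pow]
    congr 1
    by_cases x0 : x = 0
    · simp [x0]
    have e : θ x ^ (m + 1) = 1 := by rw [← map_pow, ← hm, FiniteField.pow_card_sub_one_eq_one x x0, map_one]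
    rw [← Complex.inv_eq_conj (Complex.norm_eq_one_of_pow_eq_one e m.succ_ne_zero)]
    exact eq_inv_of_mul_eq_one_left (by rw [← pow_succ, show 2 * m + 1 + 1 = (m + 1) * 2 by ring, pow_mul, e, one_pow])
  have e := h.inner hn a l
  rw [card_eq_zero.2 (filter_eq_empty_iff.2 fun j hj k => ?_), Nat.cast_zero, mul_zero] at e
  · rw [NR, ← e]
    refine finsum_congr fun g => ?_
    rw [sq, sg, sg, J_conj (S := Sg (pw θ a)) (S' := Sg (pw θ l)) fun P => by
      rw [Sg, Sg, rs, rs, map_multiset_sum, Multiset.map_map]; exact congrArg _ (Multiset.map_congr rfl fun x _ => c x)]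
    simp
  have d := h.dvd
  have q1 : 1 < Nat.card F := Finite.one_lt_card
  generalize Nat.card F = q at *
  have k2 : (a + 1) * (q ^ j + 1) ≡ 0 [MOD q ^ finrank F U - 1] := by
    have := k.add_right (q ^ j * (a + 1))
    rw [hl, show q ^ j * ((2 * m + 1) * (a + 1)) + q ^ j * (a + 1) = (m + 1) * (2 * q ^ j * (a + 1)) by ring,
      show a + 1 + q ^ j * (a + 1) = (a + 1) * (q ^ j + 1) by ring] at this
    exact this.trans (Nat.modEq_zero_iff_dvd.2 ((hm ▸ d).mul_right _))
  have := Nat.eq_zero_of_dvd_of_lt (Nat.modEq_zero_iff_dvd.1 k2) (lt_of_le_of_lt (Nat.mul_le_mul_left _ (Nat.succ_le_succ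
    (Nat.pow_le_pow_right (by omega) (by have := mem_range.1 hj; omega)))) ha)
  exact absurd this (by positivity)
end Gd
end

theorem bd {q n a : ℕ} (hn : 1 ≤ n) (c : ℕ) (h1 : c ≤ q ^ (n - 1)) (h : (a + 1) * (c + 1) + 1 < c * q) (ha : a + 1 ≤ q) :
    (a + 1) * (q ^ (n - 1) + 1) < q ^ n - 1 := by
  obtain ⟨n, rfl⟩ : ∃ m, n = m + 1 := ⟨n - 1, by omega⟩
  rw [Nat.add_sub_cancel] at *
  obtain ⟨d, hd⟩ := Nat.exists_eq_add_of_le h1
  rw [pow_succ, hd]
  have := Nat.mul_le_mul_left d ha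
  refine Nat.lt_sub_of_add_lt ?_
  nlinarith

theorem cua : CUA := fun F U _ _ _ _ _ h => by
  have hn : 1 ≤ finrank F U := by omega
  have q1 : 1 < Nat.card F := Finite.one_lt_card
  obtain ⟨K, _, _, _, θ, g⟩ := ex_gd hn
  refine ⟨_, g.cu hn zero_le_one fun e => ⟨rfl, by omega⟩, g.nr hn ?_⟩
  rcases h with h | ⟨h, q⟩ | ⟨h, q⟩
  · exact bd hn 4 ((Nat.pow_le_pow_left q1 2).trans (Nat.pow_le_pow_right (by omega) (by omega))) (by omega) (by omega)
  · exact bd hn 3 (by rwa [h, pow_one]) (by omega) (by omega)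
  · exact bd hn 1 (Nat.one_le_pow _ _ (by omega)) (by omega) (by omega)

theorem cub : CUB := fun F U _ _ _ _ _ h => by
  by_cases h2 : (2 : F) = 0
  · obtain ⟨σ, a, b⟩ := cua F U (by omega)
    refine ⟨σ, a, b, fun h e => congrArg σ (LinearEquiv.ext fun y => (e y).trans (neg_eq_of_add_eq_zero_left ?_))⟩
    rw [LinearEquiv.coe_one, id, ← two_smul F, h2, zero_smul]
  have hn : 1 ≤ finrank F U := by omega
  have q3 : 3 ≤ Nat.card F := by
    have := Fintype.ofFinite F
    rw [Nat.card_eq_fintype_card]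
    exact Fintype.two_lt_card_iff.2 ⟨0, 1, -1, zero_ne_one, (neg_ne_zero.2 one_ne_zero).symm, fun e => h2 (by
      linear_combination e)⟩
  obtain ⟨K, _, _, _, θ, g⟩ := ex_gd hn
  refine ⟨_, g.cu hn le_rfl fun e => by omega, g.nr hn ?_, fun h e => ?_⟩
  · rcases h with h | ⟨h, q⟩
    · exact bd hn 9 ((Nat.pow_le_pow_left q3 2).trans (Nat.pow_le_pow_right (by omega) (by omega))) (by omega) (by omega)
    · exact bd hn 4 (by rwa [h, pow_one]) (by omega) (by omega)
  · rw [sg_sc 1 (c := -1) fun y => by rw [e, neg_one_smul], ← map_pow, ← map_pow]; simp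

theorem cud : CUD := fun F U _ _ _ _ _ h q => by
  have hn : 1 ≤ finrank F U := by omega
  obtain ⟨K, _, _, _, θ, g⟩ := ex_gd hn
  refine ⟨_, g.cu hn zero_le_one fun e => ⟨rfl, by omega⟩, fun k e => ?_⟩
  rw [sg_sc 0 (c := -1) fun y => by rw [e, neg_one_smul], sg_one hn, h, zero_add, pow_one, Ico_self, prod_empty,
    Nat.cast_one, mul_one]
  refine (sq_eq_one_iff.1 (by rw [← map_pow, ← map_pow]; simp)).resolve_left fun c => ?_
  rw [← θ.map_one, g.inj.eq_iff, ← (algebraMap F K).map_one, (algebraMap F K).injective.eq_iff] at c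
  have := Fintype.ofFinite F
  have := FiniteField.cast_card_eq_zero F
  rw [← Nat.card_eq_fintype_card, q] at this
  exact one_ne_zero (α := F) (by push_cast at this; linear_combination this + c)

section
variable {F K : Type} [Field F] [Finite F] [Field K] [Algebra F K] [Fintype K] {θ : K →*₀ ℂ}

theorem mem_F {x : K} : x ∈ (algebraMap F K).range ↔ x ^ Nat.card F = x := by
  rw [← minpoly.natDegree_eq_one_iff, ← Nat.dvd_one, H27.Sp.deg_dvd_iff, H27.Sp.fr_iter, pow_one]

theorem cond_iff (x : K) : (∃ δ : F, δ ≠ 0 ∧ ∃ m, X ^ 2 + C δ = minpoly F x ^ (m + 1)) ↔ x ^ (Nat.card F - 1) = -1 := by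
  have q1 : 1 < Nat.card F := Finite.one_lt_card
  have pw : ∀ y : K, y ≠ 0 → (y ∈ (algebraMap F K).range ↔ y ^ (Nat.card F - 1) = 1) := fun y y0 => by
    rw [mem_F, ← mul_left_inj' y0 (b := 1), ← pow_succ, Nat.sub_add_cancel q1.le, one_mul]
  constructor
  · rintro ⟨δ, d0, m, e⟩
    have a := congrArg (aeval x) e
    simp only [map_add, map_pow, aeval_X, aeval_C, minpoly.aeval, zero_pow m.succ_ne_zero] at a
    have x0 : x ≠ 0 := by rintro rfl; exact d0 (by simpa using a)
    have b := (pw _ (pow_ne_zero 2 x0)).1 ⟨-δ, by rw [map_neg]; linear_combination -a⟩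
    rw [← pow_mul, mul_comm, pow_mul, sq_eq_one_iff] at b
    rcases b with b | b
    swap
    · exact b
    obtain ⟨c, rfl⟩ := (pw x x0).2 b
    have f := congrArg (aeval (-algebraMap F K c)) e
    rw [minpoly.eq_X_sub_C] at f
    simp only [map_add, map_pow, map_sub, aeval_X, aeval_C, neg_sq, a] at f
    have f := pow_eq_zero_iff m.succ_ne_zero |>.1 f.symm
    rw [b]
    exact mul_right_cancel₀ x0 (by linear_combination -f)
  · intro e
    have x0 : x ≠ 0 := by rintro rfl; rw [zero_pow (by omega)] at e; simp at e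
    obtain ⟨δ, hδ⟩ := (pw _ (pow_ne_zero 2 x0)).2 (by rw [← pow_mul, mul_comm, pow_mul, e, neg_one_sq])
    refine ⟨-δ, neg_ne_zero.2 fun z => pow_ne_zero 2 x0 (by rw [← hδ, z, map_zero]), ?_⟩
    by_cases hx : x ∈ (algebraMap F K).range
    · have t := (pw x x0).1 hx
      obtain ⟨c, rfl⟩ := hx
      have t : (2 : F) = 0 := (algebraMap F K).injective (by rw [map_ofNat, map_zero]; linear_combination e - t)
      have t' : (2 : F[X]) = 0 := by rw [← map_ofNat C, t, map_zero]
      obtain rfl : δ = c ^ 2 := (algebraMap F K).injective (by rw [hδ, map_pow])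
      exact ⟨1, by rw [minpoly.eq_X_sub_C, map_neg, map_pow]; linear_combination (X * C c - C c ^ 2) * t'⟩
    · refine ⟨0, ?_⟩
      rw [zero_add, pow_one]
      exact eq_of_monic_of_dvd_of_natDegree_le (minpoly.monic (H27.Sp.integ x)) (monic_X_pow_add_C _ two_ne_zero)
        (minpoly.dvd _ _ (by simp [hδ])) (by
          rw [natDegree_X_pow_add_C]; exact (minpoly.two_le_natDegree_iff (H27.Sp.integ x)).2 hx)

theorem cnt (hθ : Function.Injective θ) (h : Nat.card F ^ 2 - 1 ∣ Fintype.card K - 1) :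
    #{x : K | x ^ (Nat.card F - 1) = -1} = Nat.card F - 1 := by
  have q1 : 1 < Nat.card F := Finite.one_lt_card
  have pr : ∀ N, N ∣ Fintype.card K - 1 → ∃ ζ : K, IsPrimitiveRoot ζ N := fun N hN => by
    have h0 : 0 < N := Nat.pos_of_dvd_of_pos hN (Nat.sub_pos_of_lt Fintype.one_lt_card)
    have hω := Complex.isPrimitiveRoot_exp N h0.ne'
    obtain ⟨k, hk⟩ := hN
    obtain ⟨ζ, hζ⟩ := exists_pre hθ (z := _) (by rw [hk, pow_mul, hω.pow_eq_one, one_pow])
    exact ⟨ζ, IsPrimitiveRoot.of_map_of_injective (f := θ) (hζ ▸ hω) hθ⟩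
  have f : Nat.card F ^ 2 - 1 = (Nat.card F + 1) * (Nat.card F - 1) := by rw [← Nat.sq_sub_sq, one_pow]
  obtain ⟨ζ, hζ⟩ := pr _ ((f ▸ dvd_mul_left _ _).trans h)
  have ex : ∃ α : K, α ^ (Nat.card F - 1) = -1 := by
    by_cases h2 : (2 : F) = 0
    · exact ⟨1, by have := congrArg (algebraMap F K) h2; rw [map_ofNat, map_zero] at this; linear_combination this⟩
    have := Fintype.ofFinite F
    have o : Nat.card F % 2 = 1 := Nat.card_eq_fintype_card (α := F) ▸ FiniteField.odd_card_of_char_ne_two fun e =>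
      h2 (by exact_mod_cast e ▸ ringChar.Nat.cast_ringChar (R := F))
    obtain ⟨α, hα⟩ := pr _ ((f ▸ mul_dvd_mul_right (show 2 ∣ Nat.card F + 1 by omega) (Nat.card F - 1)).trans h)
    exact ⟨α, (hα.pow (by omega) (mul_comm _ _)).eq_neg_one_of_two_right⟩
  have := hζ.card_nthRoots (-1)
  rw [if_pos ex, ← Multiset.toFinset_card_of_nodup (hζ.nthRoots_nodup (by simp))] at this
  refine Eq.trans (congrArg _ ?_) this
  ext x
  simp [mem_nthRoots (show 0 < Nat.card F - 1 by omega)]

theorem sum_jj [Fintype F] (hθ : Function.Injective θ) (h : Nat.card F ^ 2 - 1 ∣ Fintype.card K - 1) :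
    ∑ δ : F with δ ≠ 0, (θ (algebraMap F K δ))⁻¹ * jj (pw θ 1) (X ^ 2 + C δ) = θ (-1) * (Nat.card F - 1) := by
  have a : ∀ {δ : F} {x : K}, (∃ m, X ^ 2 + C δ = minpoly F x ^ (m + 1)) → x ^ 2 = -1 * algebraMap F K δ := fun {δ x} ⟨m, e⟩ => by
    have a := congrArg (aeval x) e
    simp only [map_add, map_pow, aeval_X, aeval_C, minpoly.aeval, zero_pow m.succ_ne_zero] at a
    linear_combination a
  rw [← Nat.cast_pred Nat.card_pos, ← cnt hθ h, card_eq_sum_ones, Nat.cast_sum, mul_sum]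
  simp only [jj, mul_sum]
  rw [sum_sigma']
  refine sum_bij (fun y _ => y.2) (fun y hy => ?_) (fun y hy z hz e => ?_) (fun x hx => ?_) fun y hy => ?_
  · simp only [mem_sigma, mem_filter, mem_univ, true_and] at hy ⊢
    exact (cond_iff _).1 ⟨_, hy⟩
  · simp only [mem_sigma, mem_filter, mem_univ, true_and] at hy hz
    refine Sigma.ext ((algebraMap F K).injective ?_) (heq_of_eq e)
    have := a hy.2
    rw [e, a hz.2] at this
    linear_combination this
  · obtain ⟨δ, k⟩ := (cond_iff x).2 (mem_filter.1 hx).2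
    exact ⟨⟨δ, x⟩, by simpa using k, rfl⟩
  · simp only [mem_sigma, mem_filter, mem_univ, true_and] at hy
    have : θ (algebraMap F K y.1) ≠ 0 := by simpa using hy.1
    rw [pw_apply, ← map_pow, a hy.2, map_mul]
    field_simp
    simp
end

theorem cuc : CUC := fun F U _ _ _ _ _ h => by
  have hn : 1 ≤ finrank F U := by omega
  have : Nontrivial U := Module.nontrivial_of_finrank_pos (R := F) hn
  have := Fintype.ofFinite F
  obtain ⟨K, _, _, _, θ, g⟩ := ex_gd (F := F) (U := U) hn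
  let f : (U ≃ₗ[F] U) →* ℂˣ := ((Units.map (θ.toMonoidHom.comp (algebraMap F K).toMonoidHom)).comp LinearEquiv.det)⁻¹
  have hf : ∀ k, (f k : ℂ) = (θ (algebraMap F K (LinearMap.det (nr F U k))))⁻¹ := fun k => by simp [f, nr]
  have i := (g.irr hn le_rfl).mul_unitsHom f
  have c : ∀ A : Submodule F U, A ≠ ⊥ → A ≠ ⊤ → _ := fun A h0 h1 => cu_of i.isCharacter (A := A) (by
    rw [← sg_UA (θ := θ) 1 h0 h1]
    refine finsum_congr fun u => ?_
    have := charpoly_add_eq (g := 1) (fun _ h => h) (mem_UA.1 u.2).1 (mem_UA.1 u.2).2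
    rw [add_sub_cancel] at this
    rw [hf, LinearMap.det_eq_sign_charpoly_coeff, this, ← LinearMap.det_eq_sign_charpoly_coeff]
    simp)
  refine ⟨_, ⟨i, by rw [map_one, Units.val_one, one_mul, sg_one hn], nt_of h.ge c, c⟩, fun k c e => ?_, ?_⟩
  · have c0 : c ≠ 0 := by
      rintro rfl
      obtain ⟨v, hv⟩ := exists_ne (0 : U)
      exact hv (k.map_eq_zero_iff.1 (by rw [e, zero_smul]))
    have : θ (algebraMap F K c) ≠ 0 := by simpa using c0
    simp only [hf, sg_sc 1 e, show nr F U k = c • 1 from LinearMap.ext e, LinearMap.det_smul, h, map_one, map_pow, mul_one]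
    field_simp
    simp
  have cp : ∀ k : End F U, k.charpoly = X ^ 2 - C (LinearMap.trace F U k) * X + C (LinearMap.det k) := fun k => by
    let b := Module.finBasisOfFinrankEq F U h
    rw [← LinearMap.charpoly_toMatrix k b, Matrix.charpoly_fin_two, LinearMap.trace_eq_matrix_trace F b, LinearMap.det_toMatrix]
  have q1 : 1 < Nat.card F := Finite.one_lt_card
  have cU : (Nat.card U : ℂ) = Nat.card F ^ 2 := by rw [Module.natCard_eq_pow_finrank (K := F), h, Nat.cast_pow]
  have n0 : (Nat.card U - 1 : ℂ) ≠ 0 := sub_ne_zero.2 (by exact_mod_cast Finite.one_lt_card.ne')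
  have cG : (#{g : End F U | IsUnit g} : ℂ) = (Nat.card U - 1) * (Nat.card F ^ 2 - Nat.card F) := by
    rw [card_nr, ← Nat.card_congr ((Matrix.GeneralLinearGroup.toLin' (Module.finBasisOfFinrankEq F U h)).trans
      (LinearMap.GeneralLinearGroup.generalLinearEquiv F U)).toEquiv, Matrix.card_GL_field, cU, Fin.prod_univ_two,
      ← Nat.card_eq_fintype_card]
    rw [Nat.cast_mul, Nat.cast_sub (Nat.pow_le_pow_right q1.le (by simp)), Nat.cast_sub (Nat.pow_le_pow_right q1.le (by simp))]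
    simp
  have e : (∑ᶠ k : U ≃ₗ[F] U, if LinearMap.trace F U k = 0 then (f k : ℂ) * sg U θ 1 k else 0) =
      -((Nat.card F ^ 2 - Nat.card F) * (θ (-1) * (Nat.card F - 1))) := by
    simp only [hf, sg]
    refine (sum_nr fun k => if LinearMap.trace F U k = 0 then (θ (algebraMap F K (LinearMap.det k)))⁻¹ *
      ((-1) ^ (finrank F U - 1) * J (Sg (pw θ 1)) k ⊤) else 0).trans ?_
    rw [← sum_jj g.inj (h ▸ g.dvd), ← sum_filter, ← sum_fiberwise_of_maps_to (t := {δ : F | δ ≠ 0}) (g := LinearMap.det)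
      fun k hk => mem_filter.2 ⟨mem_univ _, ((LinearMap.isUnit_iff_isUnit_det _).1 (mem_filter.1 (mem_filter.1 hk).1).2).ne_zero⟩,
      mul_sum, ← sum_neg_distrib]
    refine sum_congr rfl fun δ hδ => mul_left_cancel₀ n0 ?_
    have := sum_charpoly (V := U) (pw θ 1) (monic_X_pow_add_C δ two_ne_zero) (by rw [natDegree_X_pow_add_C, h])
    rw [cG] at this
    rw [sum_congr (s₂ := {k : End F U | k.charpoly = X ^ 2 + C δ}) (g := fun k => -(θ (algebraMap F K δ))⁻¹ * J (Sg (pw θ 1)) k ⊤),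
      ← mul_sum]
    · linear_combination -(θ (algebraMap F K δ))⁻¹ * this
    · ext k
      simp only [mem_filter, mem_univ, true_and, cp k]
      refine ⟨fun ⟨⟨_, a⟩, b⟩ => by simp [a, b], fun e => ?_⟩
      have a : LinearMap.det k = δ := by simpa using congrArg (coeff · 0) e
      exact ⟨⟨(LinearMap.isUnit_iff_isUnit_det _).2 (a ▸ (mem_filter.1 hδ).2.isUnit), by simpa using congrArg (coeff · 1) e⟩, a⟩
    · intro k hk
      have a : LinearMap.det k = δ := by simpa [cp k] using congrArg (coeff · 0) (mem_filter.1 hk).2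
      rw [a, h]; ring
  have t : θ (-1) ^ 2 = 1 := by rw [← map_pow]; simp
  rw [e]
  linear_combination ((Nat.card F ^ 2 - Nat.card F) * (Nat.card F - 1) : ℂ) ^ 2 * t

end H3.DG
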