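import Cfsg.Agent.H17.FV0

/-! S5720, chunk `L5`. -/

set_option autoImplicit false

open Module LinearMap

namespace H3.FV

universe u v w

variable {K V : Type*} [Field K] [AddCommGroup V] [Module K V] [FiniteDimensional K V]

theorem ker_mul_le (f g : End K V) :
    finrank K (ker (f * g)) ≤ finrank K (ker f) + finrank K (ker g) := by
  have h1 := (f * g).finrank_range_add_finrank_ker
  have h2 := g.finrank_range_add_finrank_ker
  have h3 := (f.domRestrict (range g)).finrank_range_add_finrank_ker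
  have h4 : range (f.domRestrict (range g)) = range (f * g) := by
    rw [range_domRestrict, Module.End.mul_eq_comp, range_comp]
  have h5 : finrank K (ker (f.domRestrict (range g))) ≤ finrank K (ker f) := by
    rw [← Submodule.finrank_map_subtype_eq]
    refine Submodule.finrank_mono ?_
    rintro _ ⟨x, hx, rfl⟩
    exact hx
  rw [h4] at h3
  omega

theorem ker_pow_le (f : End K V) (n : ℕ) : finrank K (ker (f ^ n)) ≤ n * finrank K (ker f) := by
  induction n with
  | zero => simp [Module.End.one_eq_id]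
  | succ n ih =>
    rw [pow_succ, add_mul, one_mul]
    exact (ker_mul_le _ _).trans (Nat.add_le_add_right ih _)

theorem nrm {g : End K V} (h : g ^ 5 = 1) (x : V) :
    (1 + g + g ^ 2 + g ^ 3 + g ^ 4 : End K V) x ∈ ker (g - 1) := by
  have : (g - 1) * (1 + g + g ^ 2 + g ^ 3 + g ^ 4) = 0 := by
    rw [← sub_eq_zero.2 h]; noncomm_ring
  exact congrArg (fun t : End K V => t x) this

theorem ident {R : Type*} [Ring R] {a b : R} (ha : a ^ 5 = 1) (h : Commute a b) :
    ∑ i ∈ Finset.range 5, (1 + a ^ i * b + (a ^ i * b) ^ 2 + (a ^ i * b) ^ 3 + (a ^ i * b) ^ 4) =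
      5 + (1 + a + a ^ 2 + a ^ 3 + a ^ 4) * (b + b ^ 2 + b ^ 3 + b ^ 4) := by
  have e : ∀ i j, (a ^ i * b) ^ j = a ^ (i * j % 5) * b ^ j := fun i j => by
    rw [(h.pow_left i).mul_pow, ← pow_mul, ← pow_eq_pow_mod _ ha]
  simp only [Finset.sum_range_succ, Finset.sum_range_zero, e]
  norm_num [add_mul, mul_add]
  rw [show (5 : R) = 1 + 1 + 1 + 1 + 1 by norm_num]
  abel

theorem l5 : H17.FV.L5.{u, v, w} := by
  intro H K V _ _ _ _ _ ρ hs a b ha hb hc a1
  by_contra hn
  have h1 := hs a a1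
  have pa : ρ a ^ 5 = 1 := by rw [← map_pow, ha, map_one]
  by_cases h5 : (5 : K) = 0
  · have e5 : (5 : End K V) = 0 := by
      rw [← map_ofNat (algebraMap K (End K V)) 5, h5, map_zero]
    have e : (ρ a - 1) ^ 5 = 0 := by
      rw [show (ρ a - 1) ^ 5 = ρ a ^ 5 - 1 - 5 * (ρ a ^ 4 - 2 * ρ a ^ 3 + 2 * ρ a ^ 2 - ρ a) by
        noncomm_ring, pa, e5, zero_mul, sub_self, sub_zero]
    have := ker_pow_le (ρ a - 1) 5
    rw [e, ker_zero, finrank_top] at this
    omega
  have k : ∀ i : ℕ, 6 * finrank K (ker (ρ a ^ i * ρ b - 1)) < finrank K V := fun i => by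
    rw [← map_pow, ← map_mul]
    exact hs _ fun e => hn (eq_inv_of_mul_eq_one_right e ▸ inv_mem (Subgroup.npow_mem_zpowers a i))
  have c : Commute (ρ a) (ρ b) := hc.map ρ
  have pb : ∀ i : ℕ, (ρ a ^ i * ρ b) ^ 5 = 1 := fun i => by
    rw [(c.pow_left i).mul_pow, ← pow_mul, mul_comm, pow_mul, pa, one_pow, one_mul, ← map_pow, hb,
      map_one]
  have t : (⊤ : Submodule K V) ≤ ker (ρ a - 1) ⊔ ker (ρ a ^ 0 * ρ b - 1) ⊔ ker (ρ a ^ 1 * ρ b - 1) ⊔
      ker (ρ a ^ 2 * ρ b - 1) ⊔ ker (ρ a ^ 3 * ρ b - 1) ⊔ ker (ρ a ^ 4 * ρ b - 1) := fun x _ => by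
    have e := congrArg (fun t : End K V => t x) (eq_sub_of_add_eq (ident pa c).symm)
    simp only [Finset.sum_range_succ, Finset.sum_range_zero, zero_add] at e
    rw [← map_ofNat (algebraMap K (End K V)) 5, Module.algebraMap_end_apply, LinearMap.sub_apply,
      LinearMap.add_apply, LinearMap.add_apply, LinearMap.add_apply, LinearMap.add_apply,
      Module.End.mul_apply, sub_eq_neg_add, ← add_assoc, ← add_assoc, ← add_assoc, ← add_assoc] at e
    rw [← Submodule.smul_mem_iff _ h5, e]
    exact Submodule.add_mem_sup (Submodule.add_mem_sup (Submodule.add_mem_sup (Submodule.add_mem_sup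
      (Submodule.add_mem_sup (neg_mem (nrm pa _)) (nrm (pb 0) x)) (nrm (pb 1) x)) (nrm (pb 2) x))
      (nrm (pb 3) x)) (nrm (pb 4) x)
  have t2 := Submodule.finrank_mono t
  rw [finrank_top] at t2
  have s := fun (X Y : Submodule K V) => Submodule.finrank_add_le_finrank_add_finrank X Y
  have s1 := (s _ _).trans' t2
  have s2 := (Nat.add_le_add_right (s _ _) _).trans' s1
  have s3 := (Nat.add_le_add_right (Nat.add_le_add_right (s _ _) _) _).trans' s2
  have s4 := (Nat.add_le_add_right (Nat.add_le_add_right (Nat.add_le_add_right (s _ _) _) _) _).trans' s3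
  have s5 := (Nat.add_le_add_right (Nat.add_le_add_right (Nat.add_le_add_right
    (Nat.add_le_add_right (s _ _) _) _) _) _).trans' s4
  have := k 0; have := k 1; have := k 2; have := k 3; have := k 4
  omega

end H3.FV
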