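import Cfsg.Agent.H29.AH0

/-! S4162, chunk SUM: numeric bounds for sums of reciprocals. -/

set_option autoImplicit false

namespace H3.AH
open H29.AH

/-- every finite set of numbers with property `P` has reciprocal sum at most `r` -/
def Bd (P : ℕ → Prop) (r : ℚ) : Prop :=
  ∀ S : Finset ℕ, (∀ c ∈ S, P c) → ∑ c ∈ S, (1 : ℚ) / c ≤ r

variable {P Q : ℕ → Prop} {r s : ℚ}

theorem Bd.nn (h : Bd P r) : 0 ≤ r := by simpa using h ∅ (by simp)

theorem Bd.mul (h : Bd P r) (k : Bd Q s) : Bd (fun c => ∃ x y, P x ∧ Q y ∧ c = x * y) (r * s) := by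
  intro S hS
  choose! x y hx hy hc using hS
  calc ∑ c ∈ S, (1 : ℚ) / c
      = ∑ z ∈ S.image (fun c => (x c, y c)), (1 : ℚ) / z.1 * (1 / z.2) := by
        rw [Finset.sum_image fun a ha b hb e =>
          (hc a ha).trans ((congrArg (fun z : ℕ × ℕ => z.1 * z.2) e).trans (hc b hb).symm)]
        refine Finset.sum_congr rfl fun c h => ?_
        conv_lhs => rw [hc c h]
        push_cast
        rw [one_div_mul_one_div]
    _ ≤ ∑ z ∈ S.image x ×ˢ S.image y, (1 : ℚ) / z.1 * (1 / z.2) := by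
        refine Finset.sum_le_sum_of_subset_of_nonneg (fun z hz => ?_) fun _ _ _ => by positivity
        obtain ⟨c, hc, rfl⟩ := Finset.mem_image.1 hz
        exact Finset.mem_product.2 ⟨Finset.mem_image_of_mem _ hc, Finset.mem_image_of_mem _ hc⟩
    _ = (∑ a ∈ S.image x, (1 : ℚ) / a) * ∑ b ∈ S.image y, (1 : ℚ) / b := by
        rw [Finset.sum_product, Finset.sum_mul_sum]
    _ ≤ r * s := by
        refine mul_le_mul (h _ fun a ha => ?_) (k _ fun a ha => ?_)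
          (Finset.sum_nonneg fun _ _ => by positivity) h.nn
        · obtain ⟨c, hc, rfl⟩ := Finset.mem_image.1 ha
          exact hx c hc
        · obtain ⟨c, hc, rfl⟩ := Finset.mem_image.1 ha
          exact hy c hc

theorem Bd.or (h : Bd P r) (k : Bd Q s) : Bd (fun c => P c ∨ Q c) (r + s) := by
  classical
  intro S hS
  rw [← Finset.sum_filter_add_sum_filter_not S P]
  exact add_le_add (h _ fun c hc => (Finset.mem_filter.1 hc).2)
    (k _ fun c hc => (hS c (Finset.mem_filter.1 hc).1).resolve_left (Finset.mem_filter.1 hc).2)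

theorem Bd.sub (h : Bd P r) (E : Finset ℕ) (hE : ∀ e ∈ E, P e) :
    Bd (fun c => P c ∧ c ∉ E) (r - ∑ e ∈ E, (1 : ℚ) / e) := by
  intro S hS
  rw [le_sub_iff_add_le, ← Finset.sum_union (Finset.disjoint_left.2 fun c hc => (hS c hc).2)]
  exact h _ fun c hc => (Finset.mem_union.1 hc).elim (fun h => (hS c h).1) (hE c)

theorem bd_fin (E : Finset ℕ) : Bd (· ∈ E) (∑ e ∈ E, (1 : ℚ) / e) := fun _ hS =>
  Finset.sum_le_sum_of_subset_of_nonneg hS fun _ _ _ => by positivity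

theorem bd_one (n m : ℕ) (hm : 0 < m) (h : m ≤ n) : Bd (· = n) (1 / m) := fun S hS => by
  refine (bd_fin {n} S fun c hc => Finset.mem_singleton.2 (hS c hc)).trans ?_
  rw [Finset.sum_singleton]
  exact one_div_le_one_div_of_le (by exact_mod_cast hm) (by exact_mod_cast h)

/-- powers of `p` -/
def Pw (p c : ℕ) : Prop := ∃ a, c = p ^ a

theorem bd_pow (p : ℕ) (hp : 2 ≤ p) : Bd (Pw p) (p / (p - 1)) := by
  intro S hS
  have hq : (2 : ℚ) ≤ p := by exact_mod_cast hp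
  have key : ∀ N, ∑ a ∈ Finset.range N, (1 : ℚ) / (p ^ a : ℕ) = (p - p / p ^ N) / (p - 1) := by
    intro N
    have h1 : (p : ℚ) - 1 ≠ 0 := by linarith [hq] |> fun h : (0 : ℚ) < p - 1 => h.ne'
    have h0 : (p : ℚ) ≠ 0 := by positivity
    induction N with
    | zero => simp
    | succ N ih => rw [Finset.sum_range_succ, ih]; push_cast; field_simp; ring
  refine (bd_fin ((Finset.range (S.sup id)).image (p ^ ·)) S fun c hc => ?_).trans ?_
  · obtain ⟨a, rfl⟩ := hS c hc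
    exact Finset.mem_image_of_mem _ (Finset.mem_range.2
      ((Nat.lt_pow_self hp).trans_le (Finset.le_sup (f := id) hc)))
  · rw [Finset.sum_image fun a _ b _ e => Nat.pow_right_injective hp e, key]
    exact div_le_div_of_nonneg_right (sub_le_self _ (by positivity)) (by linarith)

theorem fac {c : ℕ} (h : Sm 7 c) : ∃ a d b e, c = 2 ^ a * 5 ^ d * (3 ^ b * 7 ^ e) := by
  induction c using induction_on_primes with
  | zero => exact absurd rfl h.1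
  | one => exact ⟨0, 0, 0, 0, rfl⟩
  | prime_mul p n hp ih =>
    obtain ⟨a, d, b, e, rfl⟩ := ih ⟨fun h0 => h.1 (by rw [h0, mul_zero]),
      fun q hq hd => h.2 q hq (hd.mul_left _)⟩
    have h7 := h.2 p hp (dvd_mul_right _ _)
    interval_cases p
    all_goals first
      | exact absurd hp (by decide)
      | exact ⟨a + 1, d, b, e, by ring1⟩
      | exact ⟨a, d + 1, b, e, by ring1⟩
      | exact ⟨a, d, b + 1, e, by ring1⟩
      | exact ⟨a, d, b, e + 1, by ring1⟩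

theorem fac3 {c : ℕ} (h : Sm 3 c) : ∃ a b, c = 2 ^ a * 3 ^ b := by
  obtain ⟨a, d, b, e, rfl⟩ := fac ⟨h.1, fun q hq hd => (h.2 q hq hd).trans (by norm_num)⟩
  rcases d with _ | d
  · rcases e with _ | e
    · exact ⟨a, b, by ring⟩
    · exact absurd (h.2 7 (by norm_num) ⟨2 ^ a * 3 ^ b * 7 ^ e, by ring⟩) (by norm_num)
  · exact absurd (h.2 5 (by norm_num) ⟨2 ^ a * 5 ^ d * 3 ^ b * 7 ^ e, by ring⟩) (by norm_num)

theorem fac2 {c : ℕ} (h : Sm 2 c) : Pw 2 c := by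
  obtain ⟨a, b, rfl⟩ := fac3 ⟨h.1, fun q hq hd => (h.2 q hq hd).trans (by norm_num)⟩
  rcases b with _ | b
  · exact ⟨a, by ring⟩
  · exact absurd (h.2 3 (by norm_num) ⟨2 ^ a * 3 ^ b, by ring⟩) (by norm_num)

/-- the `{3,7}`-parts -/
def PB (y : ℕ) : Prop :=
  (∃ u v, Pw 3 u ∧ Pw 7 v ∧ y = u * v) ∧ y ∉ ({7, 21, 63, 189, 567, 1701} : Finset ℕ)

theorem bdB : Bd PB (7 / 4 - 364 / 1701) := by
  have := ((bd_pow 3 (by norm_num)).mul (bd_pow 7 (by norm_num))).sub {7, 21, 63, 189, 567, 1701} (by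
    intro e he
    simp only [Finset.mem_insert, Finset.mem_singleton] at he
    rcases he with rfl | rfl | rfl | rfl | rfl | rfl
    exacts [⟨_, _, ⟨0, rfl⟩, ⟨1, rfl⟩, rfl⟩, ⟨_, _, ⟨1, rfl⟩, ⟨1, rfl⟩, rfl⟩,
      ⟨_, _, ⟨2, rfl⟩, ⟨1, rfl⟩, rfl⟩, ⟨_, _, ⟨3, rfl⟩, ⟨1, rfl⟩, rfl⟩,
      ⟨_, _, ⟨4, rfl⟩, ⟨1, rfl⟩, rfl⟩, ⟨_, _, ⟨5, rfl⟩, ⟨1, rfl⟩, rfl⟩])
  exact fun S hS => (this S hS).trans (by norm_num)

theorem pB1 : PB 1 := ⟨⟨_, _, ⟨0, rfl⟩, ⟨0, rfl⟩, rfl⟩, by decide⟩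
theorem pB3 : PB 3 := ⟨⟨_, _, ⟨1, rfl⟩, ⟨0, rfl⟩, rfl⟩, by decide⟩

theorem ok_fac {c : ℕ} (h : Ok c) : ∃ a d y, PB y ∧ c = 2 ^ a * 5 ^ d * y ∧ (d = 1 → 4 ≤ a) := by
  obtain ⟨a, d, b, e, rfl⟩ := fac h.1
  have c1 : ∀ {m p k : ℕ}, m.Coprime p → m.Coprime (p ^ k) := fun h => h.pow_right _
  refine ⟨a, d, _, ⟨⟨_, _, ⟨b, rfl⟩, ⟨e, rfl⟩, rfl⟩, fun hy => ?_⟩, rfl, ?_⟩
  · have h7 : 7 ∣ 3 ^ b * 7 ^ e ∧ ¬ 49 ∣ 3 ^ b * 7 ^ e ∧ ¬ 729 ∣ 3 ^ b * 7 ^ e := by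
      generalize 3 ^ b * 7 ^ e = y at hy
      revert y; decide
    rcases h.2.2 (h7.1.mul_left _) with k | k
    · exact h7.2.1 (((c1 (by norm_num)).mul_right (c1 (by norm_num))).dvd_of_dvd_mul_left k)
    · exact h7.2.2 (((c1 (by norm_num)).mul_right (c1 (by norm_num))).dvd_of_dvd_mul_left k)
  · rintro rfl
    rcases h.2.1 ⟨2 ^ a * (3 ^ b * 7 ^ e), by ring⟩ with k | k
    · have := (c1 (by norm_num)).dvd_of_dvd_mul_left
        (((c1 (by norm_num)).mul_right (c1 (by norm_num))).dvd_of_dvd_mul_right k)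
      norm_num at this
    · have := (c1 (by norm_num)).dvd_of_dvd_mul_right
        (((c1 (by norm_num)).mul_right (c1 (by norm_num))).dvd_of_dvd_mul_right k)
      exact (Nat.pow_dvd_pow_iff_le_right (k := 4) (by norm_num)).1 this

theorem pw_lt {a k : ℕ} (h : ¬ 2 ^ k ∣ 2 ^ a) : a < k :=
  not_le.1 fun h' => h (pow_dvd_pow _ h')

theorem sum : SUM := by
  intro S hS
  have b2 := bd_pow 2 le_rfl
  have b3 := bd_pow 3 (by norm_num)
  have b5 := bd_pow 5 (by norm_num)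
  refine ⟨fun h => ?_, fun h => ?_, fun n hn h => ?_, fun h => ?_, fun a n ha hn h => ?_⟩
  · have := (b2.mul b3).sub {1, 2, 3, 4} (by
      intro e he
      simp only [Finset.mem_insert, Finset.mem_singleton] at he
      rcases he with rfl | rfl | rfl | rfl
      exacts [⟨_, _, ⟨0, rfl⟩, ⟨0, rfl⟩, rfl⟩, ⟨_, _, ⟨1, rfl⟩, ⟨0, rfl⟩, rfl⟩,
        ⟨_, _, ⟨0, rfl⟩, ⟨1, rfl⟩, rfl⟩, ⟨_, _, ⟨2, rfl⟩, ⟨0, rfl⟩, rfl⟩]) S fun c hc => by
      obtain ⟨a, b, e⟩ := fac3 (h c hc).1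
      have := (h c hc).2
      exact ⟨⟨_, _, ⟨a, rfl⟩, ⟨b, rfl⟩, e⟩, by simp; omega⟩
    rw [hS] at this; norm_num at this
  · have := ((bd_fin {1, 2, 4, 8}).mul b3).sub {1, 2, 3} (by
      intro e he
      simp only [Finset.mem_insert, Finset.mem_singleton] at he
      rcases he with rfl | rfl | rfl
      exacts [⟨1, _, by decide, ⟨0, rfl⟩, rfl⟩, ⟨2, _, by decide, ⟨0, rfl⟩, rfl⟩,
        ⟨1, _, by decide, ⟨1, rfl⟩, rfl⟩]) S fun c hc => by
      obtain ⟨a, b, e⟩ := fac3 (h c hc).1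
      have := (h c hc).2.1
      have h4 : a < 4 := pw_lt fun k => (h c hc).2.2 (e ▸ k.mul_right _)
      exact ⟨⟨_, _, by interval_cases a <;> decide, ⟨b, rfl⟩, e⟩, by simp; omega⟩
    rw [hS] at this; norm_num at this
  · have h0 : 2 ^ (S.sup id + 2) ∉ S := fun k => by
      have h1 : 2 ^ (S.sup id + 2) ≤ S.sup id := Finset.le_sup (f := id) k
      have h2 : S.sup id + 2 < 2 ^ (S.sup id + 2) := Nat.lt_pow_self (by norm_num)
      omega
    have := (bd_one 3 3 (by norm_num) le_rfl).or ((bd_one n 6 (by norm_num) hn).or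
      (b2.sub {1, 2} (by
        intro e he
        simp only [Finset.mem_insert, Finset.mem_singleton] at he
        rcases he with rfl | rfl
        exacts [⟨0, rfl⟩, ⟨1, rfl⟩]))) (insert (2 ^ (S.sup id + 2)) S) fun c hc => by
      rcases Finset.mem_insert.1 hc with rfl | hc
      · have : 0 < 2 ^ S.sup id := by positivity
        exact .inr (.inr ⟨⟨_, rfl⟩, by
          rw [pow_add, Finset.mem_insert, Finset.mem_singleton]
          generalize 2 ^ S.sup id = t at this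
          rintro (k | k) <;> omega⟩)
      · exact (h c hc).imp_right (Or.imp_right fun k => ⟨fac2 k.1, by have := k.2; simp; omega⟩)
    rw [Finset.sum_insert h0, hS] at this
    norm_num at this
    exact absurd this (not_le.2 (by positivity))
  · have bA := (b2.mul b5).sub {5, 10, 20, 40} (by
      intro e he
      simp only [Finset.mem_insert, Finset.mem_singleton] at he
      rcases he with rfl | rfl | rfl | rfl
      exacts [⟨_, _, ⟨0, rfl⟩, ⟨1, rfl⟩, rfl⟩, ⟨_, _, ⟨1, rfl⟩, ⟨1, rfl⟩, rfl⟩,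
        ⟨_, _, ⟨2, rfl⟩, ⟨1, rfl⟩, rfl⟩, ⟨_, _, ⟨3, rfl⟩, ⟨1, rfl⟩, rfl⟩])
    have := (bA.mul bdB).sub {1, 2, 3, 4, 6, 49} (by
      intro e he
      simp only [Finset.mem_insert, Finset.mem_singleton] at he
      rcases he with rfl | rfl | rfl | rfl | rfl | rfl
      exacts [⟨1, 1, ⟨⟨_, _, ⟨0, rfl⟩, ⟨0, rfl⟩, rfl⟩, by decide⟩, pB1, rfl⟩,
        ⟨2, 1, ⟨⟨_, _, ⟨1, rfl⟩, ⟨0, rfl⟩, rfl⟩, by decide⟩, pB1, rfl⟩,
        ⟨1, 3, ⟨⟨_, _, ⟨0, rfl⟩, ⟨0, rfl⟩, rfl⟩, by decide⟩, pB3, rfl⟩,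
        ⟨4, 1, ⟨⟨_, _, ⟨2, rfl⟩, ⟨0, rfl⟩, rfl⟩, by decide⟩, pB1, rfl⟩,
        ⟨2, 3, ⟨⟨_, _, ⟨1, rfl⟩, ⟨0, rfl⟩, rfl⟩, by decide⟩, pB3, rfl⟩,
        ⟨1, 49, ⟨⟨_, _, ⟨0, rfl⟩, ⟨0, rfl⟩, rfl⟩, by decide⟩,
          ⟨⟨_, _, ⟨0, rfl⟩, ⟨2, rfl⟩, rfl⟩, by decide⟩, rfl⟩]) S fun c hc => by
      obtain ⟨a, d, y, hy, e, hd⟩ := ok_fac (h c hc).1
      obtain ⟨h1, h2, h3⟩ := (h c hc).2
      refine ⟨⟨_, _, ⟨⟨_, _, ⟨a, rfl⟩, ⟨d, rfl⟩, rfl⟩, fun k => ?_⟩, hy, e⟩, by simp; omega⟩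
      have k' : 5 ∣ 2 ^ a * 5 ^ d ∧ ¬ 25 ∣ 2 ^ a * 5 ^ d ∧ ¬ 16 ∣ 2 ^ a * 5 ^ d := by
        generalize 2 ^ a * 5 ^ d = y at k
        revert y; decide
      rcases d with _ | _ | d
      · exact absurd ((Nat.Coprime.pow_right a (by norm_num)).dvd_of_dvd_mul_left k'.1) (by norm_num)
      · exact k'.2.2 ((pow_dvd_pow 2 (hd rfl)).mul_right _)
      · exact k'.2.1 ⟨2 ^ a * 5 ^ d, by ring⟩
    rw [hS] at this; norm_num at this
  · have bA := (bd_fin {1, 2, 4}).mul (b5.sub {5} (by simpa using ⟨1, rfl⟩))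
    have p1 : Pw 5 1 ∧ 1 ∉ ({5} : Finset ℕ) := ⟨⟨0, rfl⟩, by decide⟩
    have := ((bA.mul bdB).sub {1, 2, 3, 6} (by
      intro e he
      simp only [Finset.mem_insert, Finset.mem_singleton] at he
      rcases he with rfl | rfl | rfl | rfl
      exacts [⟨1, 1, ⟨1, 1, by decide, p1, rfl⟩, pB1, rfl⟩, ⟨2, 1, ⟨2, 1, by decide, p1, rfl⟩, pB1, rfl⟩,
        ⟨1, 3, ⟨1, 1, by decide, p1, rfl⟩, pB3, rfl⟩,
        ⟨2, 3, ⟨2, 1, by decide, p1, rfl⟩, pB3, rfl⟩])).or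
      ((bd_one a 8 (by norm_num) ha).or (bd_one n 40 (by norm_num) hn)) S fun c hc => by
      obtain ⟨a, d, y, hy, e, hd⟩ := ok_fac (h c hc).1
      obtain ⟨h1, h2, h3⟩ := (h c hc).2
      by_cases h8 : 8 ∣ c
      · exact .inr (h3 h8)
      have h4 : a < 3 := pw_lt fun k => h8 (e ▸ (k.mul_right _).mul_right _)
      refine .inl ⟨⟨_, _, ⟨_, _, by interval_cases a <;> decide, ⟨⟨d, rfl⟩, fun k => ?_⟩, rfl⟩, hy, e⟩,
        by simp; omega⟩
      have := hd (Nat.pow_right_injective (show 2 ≤ 5 by norm_num)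
        ((Finset.mem_singleton.1 k).trans (pow_one 5).symm))
      omega
    rw [hS] at this; norm_num at this

end H3.AH
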