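/-
Classes of subgroups of order `p` (rank at least two): definitions, the geometry of polar spaces, the chunks
(see notes/AS2.md).
-/
import Cfsg.Agent.H3.TB5
import Cfsg.Prelude.Def_Classical

set_option autoImplicit false
set_option linter.unusedSectionVars false

namespace H3.AS
open Cfsg Subgroup H19 H3.TB
universe u

section
variable {G P : Type*} [Group G] [MulAction G P]

/-- `s` lies on the line `{a, b}^⊥⊥` -/
def Ln (r : P → P → Prop) (a b s : P) : Prop := ∀ t, r t a → r t b → r t s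
/-- a braid pair -/
def Bp (x y : G) : Prop := x * y * x = y * x * y ∧ (x * y) ^ 6 = 1

/-- the class `D` of elements of order `p`, with its points -/
structure Hy (p : ℕ) (D : Set G) (pt : G → P) (r : P → P → Prop) : Prop where
  pp : p.Prime
  p5 : 5 ≤ p
  ord : ∀ x ∈ D, x ^ p = 1 ∧ x ≠ 1
  cj : ∀ g, ∀ x ∈ D, g * x * g⁻¹ ∈ D
  eqv : ∀ g : G, ∀ x ∈ D, pt (g * x * g⁻¹) = g • pt x
  sur : ∀ a, ∃ x ∈ D, pt x = a
  rel : ∀ x ∈ D, ∀ y ∈ D, r (pt x) (pt y) ↔ x * y = y * x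
  nd : ∀ a b, (∀ s, r s a ↔ r s b) → a = b
  tr : ∀ a b : P, ∃ g : G, g • a = b
  gen : closure D = ⊤
  sol : ∀ M : Subgroup G, M.Normal → Group.IsSolvable M → M = ⊥
  tk : ∀ s ∈ D, ∀ a ∈ D, ∀ b ∈ D, ∀ (k : ℕ) (c : G), s * a ≠ a * s → s * b ≠ b * s → b = a ^ k * c → c * s = s * c →
    c * a = a * c → c ^ p = 1 → c = 1
  br : ∀ a, ∀ y ∈ D, ¬ r a (pt y) → ∃ x ∈ D, pt x = a ∧ Bp x y

/-- a thick non-degenerate polar space of rank at least two -/
structure Pol (r : P → P → Prop) : Prop where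
  refl : ∀ a, r a a
  symm : ∀ {a b}, r a b → r b a
  nd : ∀ {a b}, (∀ s, r s a → r s b) → a = b
  ex : ∀ {a b s}, r a b → Ln r a b s → s ≠ a → Ln r a s b
  one : ∀ {a b}, r a b → a ≠ b → ∀ c, ∃ s, Ln r a b s ∧ r s c
  thick : ∀ {a b}, r a b → a ≠ b → ∃ s, Ln r a b s ∧ s ≠ a ∧ s ≠ b
  nb : ∀ a, ∃ b, r a b ∧ a ≠ b

/-- the unipotent radicals of the point stabilizers -/
structure PE (r : P → P → Prop) (Q : P → Subgroup G) : Prop extends Pol r where
  inv : ∀ (g : G) {a b}, r a b → r (g • a) (g • b)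
  fth : ∀ g : G, (∀ a : P, g • a = a) → g = 1
  eqv : ∀ (g : G) {a x}, x ∈ Q a → g * x * g⁻¹ ∈ Q (g • a)
  ln : ∀ {a b x}, x ∈ Q a → r a b → Ln r a b (x • b)
  q2 : ∀ {a b s x}, x ∈ Q a → r a b → a ≠ b → x • b = b → Ln r a b s → x • s = s
  q3 : ∀ {a b d d'}, r a b → r a d → ¬ r b d → Ln r a d d' → d' ≠ a → ∃ x, x ∈ Q a ∧ x ∈ Q b ∧ x • d = d'
  ab : ∀ {a b x y}, x ∈ Q a → y ∈ Q a → r a b → (x * y) • b = (y * x) • b
  z : ∀ {a} {g : G}, (∀ b, r a b → g • b = b) → g ∈ Q a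

structure PF (p : ℕ) (r : P → P → Prop) (Q : P → Subgroup G) : Prop extends PE r Q where
  q4 : ∀ {g e f}, r g e → r g f → ¬ r e f → ∃ x y, x ∈ Q g ∧ x ∈ Q e ∧ y ∈ Q g ∧ y ∈ Q f ∧ x * y ≠ y * x
  pz : ∀ a, ∃ x : G, x ≠ 1 ∧ x ^ p = 1 ∧ ∀ b, r a b → x • b = b
  gen : ⨆ a, Q a = ⊤

/-- the root datum with the stabilizer `D` of a point -/
structure RT (p n : ℕ) (X Y : Fin (n + 2) → Subgroup G) (U : Fin (n + 2) → Fin (n + 2) → ℤ → Subgroup G)
    (D : Subgroup G) : Prop where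
  rs : RS (tm n 4 pA) X Y U
  top : Gd X Y = ⊤
  core : D.normalCore = ⊥
  nb : ∀ i, (X i ⊔ Y i) ⊓ N(X i) ≤ D
  ub : ∀ i j, 3 ≤ tm n 4 pA i j → seg (U i j) 1 (tm n 4 pA i j) ≤ D
  nc : ¬ Com (rf 4 (U 0 1))
  ab : Ab (U 0 1 4)
  pd : p ∣ #(U 0 1 1)

variable {r : P → P → Prop} {a b c d s t : P}

theorem Ln.left : Ln r a b a := fun _ h _ => h
theorem Ln.right : Ln r a b b := fun _ _ h => h
theorem Ln.swap (h : Ln r a b s) : Ln r b a s := fun t h1 h2 => h t h2 h1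
theorem Ln.trans (h1 : Ln r a b c) (h2 : Ln r a b d) (h : Ln r c d s) : Ln r a b s :=
  fun t k1 k2 => h t (h1 t k1 k2) (h2 t k1 k2)

namespace Pol
variable (h : Pol r)
include h
theorem ra (k : r a b) (l : Ln r a b s) : r a s := l a (h.refl a) k
theorem rb (k : r a b) (l : Ln r a b s) : r b s := l b (h.symm k) (h.refl b)
theorem rr (k : r a b) (l : Ln r a b s) (l' : Ln r a b t) : r s t := l' s (h.symm (h.ra k l)) (h.symm (h.rb k l))
theorem self (l : Ln r a a s) : s = a := (h.nd fun t k => l t k k).symm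
theorem exn (e : a ≠ b) : ∃ s, r s a ∧ ¬ r s b := by
  by_contra k; push Not at k; exact e (h.nd k)
/-- two distinct points of a line span it -/
theorem span (k : r a b) (l : Ln r a b s) (l' : Ln r a b t) (e : s ≠ t) (m : Ln r a b c) : Ln r s t c := by
  have k1 : ∀ {a b s t : P}, r a b → Ln r a b s → Ln r a b t → s ≠ t → s ≠ a → Ln r s t a ∧ Ln r s t b := by
    intro a b s t k l l' e e'
    have l1 := h.ex k l e'
    have l2 := h.ex (h.symm (h.ra k l)) (Ln.left.trans l1 l').swap e.symm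
    exact ⟨l2, l2.trans .left l1⟩
  by_cases e' : s = a
  · subst e'
    exact Ln.left.trans (h.ex k l' e.symm) m
  · exact (k1 k l l' e e').1.trans (k1 k l l' e e').2 m
/-- the projection of a point onto a line is unique -/
theorem uniq (k : r a b) (l : Ln r a b s) (l' : Ln r a b t) (m : Ln r a b d) (n : ¬ r c d) (h1 : r c s) (h2 : r c t) :
    s = t := by_contra fun e => n (h.span k l l' e m c h1 h2)
/-- the residue of a point is non-degenerate -/
theorem res (k : r a b) (n : ¬ r b c) (hh : ∀ s, r s b → r s c → r s a) : a = b := (h.nd fun s l => by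
  by_cases e : b = s
  · exact e ▸ h.symm k
  obtain ⟨t, l1, l2⟩ := h.one (h.symm l) e c
  exact h.symm (h.ex (h.symm l) l1 (fun e => n (e ▸ l2)) a k (h.symm (hh t (h.symm (h.ra (h.symm l) l1)) l2)))).symm
theorem exr (k : r a b) (n : ¬ r b c) (e : a ≠ b) : ∃ s, r s b ∧ r s c ∧ ¬ r s a := by
  by_contra k'; push Not at k'; exact e (h.res k n k')
/-- two points have a common opposite point -/
theorem cn (a b : P) : ∃ c, ¬ r c a ∧ ¬ r c b := by
  have k : ∀ s t, r s t → r s b → ¬ r s a → ¬ r t b → ∃ c, ¬ r c a ∧ ¬ r c b := fun s t k1 k2 k3 k4 => by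
    by_cases e : r t a
    swap
    · exact ⟨t, e, k4⟩
    obtain ⟨c, c1, c2, c3⟩ := h.thick k1 fun e' => k3 (e' ▸ e)
    exact ⟨c, fun e' => c3 (h.uniq k1 c1 .right .left (mt h.symm k3) (h.symm e') (h.symm e)),
      fun e' => c2 (h.uniq k1 c1 .left .right (mt h.symm k4) (h.symm e') (h.symm k2))⟩
  obtain ⟨x, x1, x2⟩ := h.nb b
  by_cases e : a = b
  · obtain ⟨s, s1, s2⟩ := h.exn x2.symm
    exact ⟨s, e ▸ s2, s2⟩
  obtain ⟨s, s1, s2, s3⟩ : ∃ s, r s b ∧ ¬ r s a ∧ s ≠ b := by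
    obtain ⟨s, s1, s2⟩ := h.exn (Ne.symm e)
    by_cases e1 : s = b
    · subst e1
      by_cases e2 : r x a
      · obtain ⟨c, c1, c2, c3⟩ := h.thick x1 x2
        exact ⟨c, h.symm (h.ra x1 c1), fun e' => c3 (h.uniq x1 c1 .right .left (mt h.symm s2) (h.symm e') (h.symm e2)), c2⟩
      · exact ⟨x, h.symm x1, e2, x2.symm⟩
    · exact ⟨s, s1, s2, e1⟩
  obtain ⟨t, t1, t2⟩ := h.exn s3
  exact k s t (h.symm t1) s1 s2 t2
/-- the points opposite `a` are connected -/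
theorem conn {S : P → Prop} (hS : ∀ s t, ¬ r a s → ¬ r a t → r s t → S s → S t) (n : ¬ r a c) (n' : ¬ r a d) (k : S c) :
    S d := by
  by_cases e : r c d
  · exact hS _ _ n n' e k
  obtain ⟨b, k1, k2⟩ := h.nb c
  obtain ⟨t, l1, l2⟩ := h.one k1 k2 d
  by_cases e1 : ∀ t, r t c → r t d → r t a
  swap
  · push Not at e1
    obtain ⟨t, a1, a2, a3⟩ := e1
    exact hS _ _ (mt h.symm a3) n' a2 (hS _ _ n (mt h.symm a3) (h.symm a1) k)
  have ct := h.ra k1 l1
  have e2 : c ≠ t := fun e' => e (e' ▸ l2)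
  obtain ⟨s, m1, m2, m3⟩ := h.thick ct e2
  have ta := h.symm (e1 t (h.symm ct) l2)
  have ns : ¬ r a s := fun e' => m3 (h.uniq ct m1 .right .left n e' ta)
  have nd : ¬ r d s := fun e' => m3 (h.uniq ct m1 .right .left (mt h.symm e) e' (h.symm l2))
  obtain ⟨x, x1, x2, x3⟩ := h.exr (h.rb ct m1) (mt h.symm nd) m3.symm
  refine hS _ _ (fun xa => ?_) n' x2 (hS s x ns (fun xa => ?_) (h.symm x1) (hS _ _ n ns (h.ra ct m1) k)) <;>
  · have e3 : d ≠ x := fun e' => n' (e' ▸ xa)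
    obtain ⟨y, y1, y2⟩ := h.one (h.symm x2) e3 c
    obtain rfl := h.uniq (h.symm x2) y1 .right .left n' (h.symm (e1 y y2 (h.symm (h.ra (h.symm x2) y1)))) xa
    exact x3 (h.ex ct m1 m2 _ y2 x1)
end Pol

theorem Ln.smul (hi : ∀ (g : G) {a b}, r a b → r (g • a) (g • b)) (g : G) (l : Ln r a b s) :
    Ln r (g • a) (g • b) (g • s) := fun t h1 h2 => by
  simpa using hi g (l (g⁻¹ • t) (by simpa using hi g⁻¹ h1) (by simpa using hi g⁻¹ h2))
/-- an automorphism fixing `a^⊥` and a point opposite `a` fixes everything -/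
theorem Pol.fix (h : Pol r) (hi : ∀ (g : G) {a b}, r a b → r (g • a) (g • b)) {g : G} (hg : ∀ b, r a b → g • b = b)
    (n : ¬ r a c) (k : g • c = c) (s : P) : g • s = s := by
  by_cases e : r a s
  · exact hg s e
  refine h.conn (S := fun s => g • s = s) (fun c s n e l k => ?_) n e k
  by_cases e1 : c = s
  · exact e1 ▸ k
  obtain ⟨t, t1, t2⟩ := h.one l e1 a
  have e2 : s ≠ t := fun e' => e (e' ▸ h.symm t2)
  have e3 : c ≠ t := fun e' => n (e' ▸ h.symm t2)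
  obtain ⟨x, x1, x2, x3⟩ := h.exr t2 e fun e' => e (e' ▸ h.symm (h.rb l t1))
  have := (h.span l .left t1 e3 .right).smul hi g
  rw [k, hg t (h.symm t2)] at this
  exact h.uniq l (Ln.left.trans t1 this) .right t1 x3 (by simpa [hg x (h.symm x1)] using hi g x2) x2

namespace PE
variable {Q : P → Subgroup G} (h : PE r Q) {x : G}
include h
theorem fa (hx : x ∈ Q a) : x • a = a := h.self (h.ln hx (h.refl a))
theorem iff (g : G) : r (g • a) (g • b) ↔ r a b := ⟨fun k => by simpa using h.inv g⁻¹ k, h.inv g⟩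
/-- an element of `Q a` mapping a point of `j^⊥` opposite `a` into `j^⊥` fixes `j` -/
theorem fj (hx : x ∈ Q a) (n : ¬ r a c) (k : r a b) (k1 : r c b) (k2 : r (x • c) b) : x • b = b :=
  h.uniq k (h.ln hx k) .right .left (c := x • c) (fun e => n (h.symm ((h.iff x).1 (by rwa [h.fa hx])))) (h.inv x k1) k2
/-- `Q a` is semiregular on the points opposite `a` -/
theorem sr (hx : x ∈ Q a) (n : ¬ r a c) (k : x • c = c) : x = 1 := h.fth x (h.fix h.inv (fun b l => by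
  by_cases e : a = b
  · exact e ▸ h.fa hx
  obtain ⟨t, t1, t2⟩ := h.one l e c
  have e1 : t ≠ a := fun e' => n (e' ▸ t2)
  exact h.q2 hx (h.ra l t1) e1.symm (h.fj hx n (h.ra l t1) (h.symm t2) (k.symm ▸ h.symm t2)) (h.ex l t1 e1)) n k)
/-- `Q a` is transitive on the points opposite `a` -/
theorem tr (n : ¬ r a c) (n' : ¬ r a d) : ∃ x ∈ Q a, x • c = d :=
  h.conn (S := fun d => ∃ x ∈ Q a, x • c = d) (fun s t k k' l ⟨x, hx, e⟩ => by
    by_cases e1 : s = t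
    · exact ⟨x, hx, e1 ▸ e⟩
    obtain ⟨w, w1, w2⟩ := h.one l e1 a
    have e2 : w ≠ s := fun e' => k (e' ▸ h.symm w2)
    obtain ⟨y, -, y1, y2⟩ := h.q3 w2 (h.symm (h.ra l w1)) k (h.span l w1 .left e2 .right) fun e' => k' (e' ▸ h.symm w2)
    exact ⟨y * x, mul_mem y1 hx, by rw [mul_smul, e, y2]⟩) n n' ⟨1, one_mem _, one_smul _ _⟩
/-- `Z_a ∩ Q_b = 1` -/
theorem zq (hx : x ∈ Q b) (hz : ∀ s, r a s → x • s = s) (e : a ≠ b) : x = 1 :=
  let ⟨s, k1, k2⟩ := h.exn e; h.sr hx (mt h.symm k2) (hz s (h.symm k1))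
theorem nrm {g : G} (hg : g • a = a) (hx : x ∈ Q a) : g * x * g⁻¹ ∈ Q a := by simpa [hg] using h.eqv g hx
end PE
end

/-! ### the chunks -/

/-- the conclusion -/
def Cn (p : ℕ) (G : Type u) [Group G] : Prop := ∃ (F : Type) (_ : Field F) (_ : Fintype F), ringChar F = p ∧
  ((∃ m : ℕ, 1 ≤ m ∧ Nonempty (G ≃* PSp m F)) ∨ ∃ n q : ℕ, 2 ≤ n ∧ Fintype.card F = q ^ 2 ∧ Nonempty (G ≃* PSU n F q))
/-- squares in a finite field -/
theorem fd {K : Type*} [Field K] [Finite K] {M : K → Prop} (h6 : (6 : K) ≠ 0) (hm : ∀ {s t}, M s → M t → M (s * t))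
    (hi : ∀ {s}, M s → M s⁻¹) (hk : ∀ k : ℤ, (k : K) ≠ 0 → M k ∧ IsSquare (k : K))
    (hs : ∀ t, t ≠ 0 → 1 + t ≠ 0 → IsSquare t → IsSquare (1 + t) → M t) (s : K) (s0 : s ≠ 0) : M (s * s) := by
  classical
  have := Fintype.ofFinite K
  have h2 : (2 : K) ≠ 0 := fun e => h6 (by linear_combination 3 * e)
  have h3 : (3 : K) ≠ 0 := fun e => h6 (by linear_combination 2 * e)
  have m1 := hk (-1) (by simp)
  push_cast at m1
  have py : ∀ a b c : K, a + b = c → a ≠ 0 → b ≠ 0 → c ≠ 0 → IsSquare a → IsSquare b → IsSquare c →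
      M (a * b⁻¹) ∧ M (c * b⁻¹) := fun a b c e a0 b0 c0 ha hb hc => by
    have e1 : 1 + a * b⁻¹ = c * b⁻¹ := by rw [← e]; field_simp; ring
    have e2 : 1 + -1 * (c * b⁻¹) = -1 * (a * b⁻¹) := by rw [← e1]; ring
    refine ⟨hs _ (by simp [*]) (by simp [*]) (ha.mul hb.inv) (e1 ▸ hc.mul hb.inv), ?_⟩
    simpa using hm m1.1 (hs _ (by simp [*]) (by rw [e2]; simp [*]) (m1.2.mul (hc.mul hb.inv)) (e2 ▸ m1.2.mul (ha.mul hb.inv)))
  by_contra hv
  have sv : IsSquare (s * s) := ⟨s, rfl⟩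
  have v0 : s * s ≠ 0 := mul_ne_zero s0 s0
  generalize s * s = v at *
  have ns : ∀ k : ℤ, (k : K) ≠ 0 → v + k ≠ 0 ∧ ¬ IsSquare (v + k) := fun k k0 => by
    have e : v + k ≠ 0 := fun e => hv (by simpa [eq_neg_of_add_eq_zero_left e] using hm m1.1 (hk k k0).1)
    exact ⟨e, fun e' => hv (by simpa [k0] using hm (py _ _ _ rfl v0 k0 e sv (hk k k0).2 e').1 (hk k k0).1)⟩
  have pr : ∀ k l : ℤ, (k : K) ≠ 0 → (l : K) ≠ 0 → (v + k) * (v + l) ≠ 0 ∧ IsSquare ((v + k) * (v + l)) := fun k l k0 l0 =>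
    have e := mul_ne_zero (ns k k0).1 (ns l l0).1
    ⟨e, (quadraticChar_one_iff_isSquare e).1 (by
      rw [map_mul, quadraticChar_neg_one_iff_not_isSquare.2 (ns k k0).2, quadraticChar_neg_one_iff_not_isSquare.2 (ns l l0).2]
      rfl)⟩
  have key : ∀ k l : ℤ, (k : K) ≠ 0 → (l : K) ≠ 0 → ((2 * (k + l) : ℤ) : K) ≠ 0 → M ((v + k) * (v + l) * v⁻¹) := by
    intro k l k0 l0 e
    have a := pr (-k) (-l) (by simpa) (by simpa)
    have := hm (py _ _ _ (by push_cast; ring) a.1 (mul_ne_zero e v0) (pr k l k0 l0).1 a.2 ((hk _ e).2.mul sv)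
      (pr k l k0 l0).2).2 (hk _ e).1
    convert this using 1
    field_simp
  have a1 := key 1 2 (by simp) (by simpa) (by norm_num; exact h6)
  have a2 := key 2 (-1) (by simpa) (by simp) (by simpa)
  have a3 := key 2 2 (by simpa) (by simpa) (by
    norm_num; exact fun e => mul_ne_zero h2 (mul_ne_zero h2 h2) (by linear_combination e))
  have a4 := pr 1 (-1) (by simp) (by simp)
  have a5 := py _ 1 (v * v) (by push_cast; ring) a4.1 one_ne_zero (mul_ne_zero v0 v0) a4.2 ⟨1, by simp⟩ ⟨v, rfl⟩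
  have b1 := (ns 1 (by simp)).1
  have b2 := (ns 2 (by simpa)).1
  have b3 := (ns (-1) (by simp)).1
  refine hv ?_
  convert hm (hm (hm a1 a2) a5.2) (hm (hi a3) (hi a5.1)) using 1
  field_simp
/-- the translation of the hypotheses -/
def SL : Prop := ∀ (G : Type u) [Group G] [Finite G] (p : ℕ), p.Prime → 5 ≤ p →
  (∀ M : Subgroup G, M.Normal → Group.IsSolvable M → M = ⊥) → ∀ A₀ : Subgroup G, Nat.card A₀ = p →
  (⨆ g : G, A₀.map (MulAut.conj g).toMonoidHom) = ⊤ →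
  (∀ g h : G, A₀.map (MulAut.conj g).toMonoidHom ≠ A₀.map (MulAut.conj h).toMonoidHom →
    Nonempty (↥(A₀.map (MulAut.conj g).toMonoidHom ⊔ A₀.map (MulAut.conj h).toMonoidHom) ≃*
      (Multiplicative (ZMod p) × Multiplicative (ZMod p))) ∨
    ∃ (K : Type) (_ : Field K) (_ : Fintype K) (m : ℕ), 1 ≤ m ∧ Fintype.card K = p ^ m ∧
      (Nonempty (↥(A₀.map (MulAut.conj g).toMonoidHom ⊔ A₀.map (MulAut.conj h).toMonoidHom) ≃*
          Matrix.ProjectiveSpecialLinearGroup (Fin 2) K) ∨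
        Nonempty (↥(A₀.map (MulAut.conj g).toMonoidHom ⊔ A₀.map (MulAut.conj h).toMonoidHom) ≃*
          Matrix.SpecialLinearGroup (Fin 2) K))) →
  ∃ (P : Type u) (_ : MulAction G P) (_ : Finite P) (pt : G → P) (r : P → P → Prop),
    Hy p {x | x ≠ 1 ∧ ∃ g : G, x ∈ A₀.map (MulAut.conj g).toMonoidHom} pt r
/-- the common quantifiers -/
def AllH (C : ∀ {G P : Type u} [Group G] [MulAction G P], ℕ → Set G → (G → P) → (P → P → Prop) → Prop) : Prop :=
  ∀ (G P : Type u) [Group G] [Finite G] [MulAction G P] [Finite P] (p : ℕ) (D : Set G) (pt : G → P) (r : P → P → Prop),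
    Hy p D pt r → C p D pt r
/-- the polar space -/
def PS : Prop := AllH.{u} fun _ _ _ r => (∃ a b, r a b ∧ a ≠ b) → Pol r
/-- uniqueness of braid partners -/
def Un {G P : Type*} [Group G] (D : Set G) (pt : G → P) : Prop :=
  ∀ x ∈ D, ∀ x' ∈ D, ∀ y ∈ D, pt x = pt x' → Bp x y → Bp x' y → x = x'
/-- faithfulness and uniqueness -/
def FU : Prop := AllH.{u} fun {G P _ _} _ D pt r => Pol r → (∀ g : G, (∀ a : P, g • a = a) → g = 1) ∧ Un D pt
/-- the unipotent radicals -/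
def QQ : Prop := AllH.{u} fun {G P _ _} p D pt r => Pol r → (∀ g : G, (∀ a : P, g • a = a) → g = 1) → Un D pt →
  ∃ Q : P → Subgroup G, PF p r Q
/-- the root datum -/
def RR : Prop := ∀ (G P : Type u) [Group G] [Finite G] [MulAction G P] [Finite P] [Nonempty P] (p : ℕ) (r : P → P → Prop)
  (Q : P → Subgroup G), p.Prime → PF p r Q → ∃ n X Y U D, RT (G := G) p n X Y U D
/-- the long roots of the symplectic model -/
def FL : Prop := ∀ (F : Type) [Field F] [Fintype F] (n : ℕ), Odd (Fintype.card F) →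
  ∃ (D : Subgroup (PSp (n + 2) F)) (d d' : Prop), St D n 4 pA (Fintype.card F) (Fintype.card F) d d' ∧ ¬ d'
/-- the identification -/
def ID : Prop := FL → ∀ (G : Type u) [Group G] [Finite G] (p n : ℕ) X Y U D, p.Prime → 5 ≤ p → RT (G := G) p n X Y U D → Cn p G

/-- the rank two half -/
theorem half (ps : PS.{u}) (fu : FU.{u}) (qq : QQ.{u}) (rr : RR.{u}) (fl : FL) (id : ID.{u}) :
    AllH.{u} fun {G _ _ _} p _ _ r => (∃ a b, r a b ∧ a ≠ b) → Cn p G := fun G P _ _ _ _ p D pt r h k => by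
  have h1 := ps G P p D pt r h k
  obtain ⟨h2, h3⟩ := fu G P p D pt r h h1
  obtain ⟨Q, h4⟩ := qq G P p D pt r h h1 h2 h3
  have : Nonempty P := ⟨k.choose⟩
  obtain ⟨n, X, Y, U, E, h5⟩ := rr G P p r Q h.pp h4
  exact id fl G p n X Y U E h.pp h.p5 h5

end H3.AS
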