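/-
S4984, chunks AS, AB: arithmetic of the degrees, types B and C.
-/
import Cfsg.Agent.H16.DG0

set_option autoImplicit false

namespace H3.DG
open H16.DG Finset

/-- the factors of the group orders -/
def N (q j : ℕ) : ℕ := q ^ (2 * j) - 1

/-- a common multiple in `A` -/
def Cv (A : ℕ → Prop) (r s : ℕ) : Prop := ∃ d, A d ∧ r ∣ d ∧ s ∣ d

variable {A : ℕ → Prop} {q r s c d n m j k l : ℕ}

theorem Cv.symm (h : Cv A r s) : Cv A s r := h.imp fun _ h => ⟨h.1, h.2.2, h.2.1⟩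

theorem cov_of (h : ∀ r s : ℕ, r.Prime → s.Prime → r ≠ s → r ∣ n → s ∣ n → Cv A r s) : Cov A n := fun r s a b e f g =>
  (h r s a b e f g).imp fun _ h => ⟨h.1, ((Nat.coprime_primes a b).2 e).mul_dvd_of_dvd_of_dvd h.2.1 h.2.2⟩

/-- one degree for the good primes, a separate argument for the bad ones -/
theorem cov_bad (G B : ℕ → Prop) (h : ∀ r, r.Prime → r ∣ n → G r ∨ B r) (hG : ∀ r s, r.Prime → s.Prime → G r → G s → Cv A r s)
    (hB : ∀ r s, r.Prime → s.Prime → B r → s ∣ n → Cv A r s) : Cov A n := cov_of fun r s a b _ f g => by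
  rcases h r a f with x | x
  · rcases h s b g with y | y
    · exact hG r s a b x y
    · exact (hB s r b a y f).symm
  · exact hB r s a b x g

theorem sv (hc : c ∣ 4) (hr : r.Prime) (h : r ∣ d) (h2 : r = 2 → 2 * c ∣ d) {d' : ℕ} (e : d ∣ c * d') : r ∣ d' := by
  by_cases z : r = 2
  · rw [z]
    exact Nat.dvd_of_mul_dvd_mul_left (Nat.pos_of_dvd_of_pos hc (by norm_num)) (mul_comm 2 c ▸ (h2 z).trans e)
  · exact ((Nat.Prime.dvd_mul hr).1 (h.trans e)).resolve_left fun x => z ((Nat.prime_dvd_prime_iff_eq hr Nat.prime_two).1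
      (hr.dvd_of_dvd_pow (n := 2) (x.trans hc)))

theorem lo (h : Lo A c d) (hc : c ∣ 4) (hr : r.Prime) (hs : s.Prime) (h1 : r ∣ d) (h2 : s ∣ d)
    (h3 : r = 2 ∨ s = 2 → 2 * c ∣ d) : Cv A r s :=
  h.imp fun _ h => ⟨h.1, sv hc hr h1 (fun e => h3 (.inl e)) h.2, sv hc hs h2 (fun e => h3 (.inr e)) h.2⟩

theorem N_eq (q j : ℕ) : N q j = (q ^ j - 1) * (q ^ j + 1) := by
  rw [N, mul_comm 2, pow_mul, mul_comm, ← Nat.sq_sub_sq, one_pow]

theorem N_dvd (h : j ∣ k) : N q j ∣ N q k := Nat.pow_sub_one_dvd_pow_sub_one q (mul_dvd_mul_left 2 h)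

theorem N8 (h : Odd q) (j : ℕ) : 8 ∣ N q j := by
  rw [N, mul_comm, pow_mul]; exact Nat.eight_dvd_sq_sub_one_of_odd h.pow

theorem pos1 (hq : 2 ≤ q) (hk : 1 ≤ k) : 0 < q ^ k - 1 := Nat.sub_pos_of_lt (Nat.one_lt_pow (by omega) hq)

theorem ndq (hr : r.Prime) (hq : 2 ≤ q) (hk : 1 ≤ k) (h : r ∣ q ^ k - 1) : ¬ r ∣ q := fun e => by
  have := Nat.dvd_sub (e.trans (dvd_pow_self q (by omega : k ≠ 0))) h
  rw [Nat.sub_sub_self (Nat.one_le_pow _ _ (by omega))] at this
  exact hr.one_lt.ne' (Nat.dvd_one.1 this)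

theorem ndq' (hr : r.Prime) (hk : 1 ≤ k) (h : r ∣ q ^ k + 1) : ¬ r ∣ q := fun e =>
  hr.one_lt.ne' (Nat.dvd_one.1 ((Nat.dvd_add_right (e.trans (dvd_pow_self q (by omega : k ≠ 0)))).1 h))

theorem pd {a U : ℕ} (hr : r.Prime) (h : r ∣ q ^ a * U * ∏ i ∈ range m, (q ^ (2 * (i + 1)) - 1)) :
    r ∣ q ∨ r ∣ U ∨ ∃ j, 1 ≤ j ∧ j ≤ m ∧ r ∣ N q j := by
  rcases (Nat.Prime.dvd_mul hr).1 h with h | h
  · exact ((Nat.Prime.dvd_mul hr).1 h).imp hr.dvd_of_dvd_pow .inl
  · obtain ⟨i, hi, h⟩ := (Prime.dvd_finsetProd_iff hr.prime _).1 h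
    exact .inr (.inr ⟨i + 1, by omega, mem_range.1 hi, h⟩)

theorem canc {a b U : ℕ} (hq : 2 ≤ q) (h : d * (q ^ k - 1) = U * ∏ j ∈ Ico a b, N q j) (hk : 1 ≤ k) (ha : a ≤ k) (hb : k < b) :
    U ∣ d ∧ q ^ k + 1 ∣ d ∧ ∀ j, a ≤ j → j < b → j ≠ k → N q j ∣ d := by
  rw [← mul_prod_erase _ _ (mem_Ico.2 ⟨ha, hb⟩), N_eq, mul_assoc, mul_left_comm, mul_comm d] at h
  rw [Nat.eq_of_mul_eq_mul_left (pos1 hq hk) h]
  exact ⟨dvd_mul_right _ _, (dvd_mul_right _ _).mul_left _, fun j x y z =>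
    ((dvd_prod_of_mem _ (mem_erase.2 ⟨z, mem_Ico.2 ⟨x, y⟩⟩)).mul_left _).mul_left _⟩

theorem PkC (q k l : ℕ) : Pk q (k + l) q k = ∏ j ∈ Ico (l + 1) (k + l + 1), N q j := by
  induction k generalizing l with
  | zero => simp [Pk]
  | succ k ih =>
    have := ih (l + 1)
    rw [Pk] at this
    rw [Pk, prod_range_succ, show k + 1 + l = k + (l + 1) by omega, this, prod_eq_prod_Ico_succ_bot (a := l + 1) (by omega),
      mul_comm, N_eq, Nat.add_sub_cancel_left, Nat.add_sub_cancel, ← pow_succ]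

theorem DkC (h : Dk q m q k d) (e : m = k + l) : d * (q ^ k - 1) = 1 * ∏ j ∈ Ico (l + 1) (m + 1), N q j := by
  subst e; rw [one_mul, ← PkC]; exact h

theorem mainC (hq : 2 ≤ q) (hm : 3 ≤ m) (hc : c = 1 ∨ Odd q ∧ c = 4) (h1 : DD A c q m q (m - 1) q) (h2 : DD A c q m q m 1)
    (h3 : ∀ r s, r.Prime → s.Prime → r ∣ q ^ (m - 1) - 1 → ¬ r ∣ N q 1 → s ∣ q → Cv A r s) :
    Cov A (q ^ (m ^ 2) * ∏ i ∈ range m, (q ^ (2 * (i + 1)) - 1)) := by
  obtain ⟨d, d1, d2⟩ := h1
  obtain ⟨e, e1, e2⟩ := h2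
  obtain ⟨-, a1, a2⟩ := canc hq (DkC (l := 1) d1 (by omega)) (by omega) (by omega) (by omega)
  obtain ⟨-, b1, b2⟩ := canc hq (DkC (l := 0) e1 (by omega)) (by omega) (by omega) (by omega)
  have c4 : c ∣ 4 := by rcases hc with rfl | ⟨-, rfl⟩ <;> norm_num
  have a3 : ∀ j, 1 ≤ j → j ≤ m → j ≠ m - 1 → N q j ∣ d := fun j x y z => by
    by_cases o : j = 1
    · exact (N_dvd (o ▸ one_dvd m)).trans (a2 m (by omega) (by omega) (by omega))
    · exact a2 j (by omega) (by omega) z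
  have p : ∀ r, r.Prime → r ∣ q ^ (m ^ 2) * ∏ i ∈ range m, (q ^ (2 * (i + 1)) - 1) → r ∣ q ∨ ∃ j, 1 ≤ j ∧ j ≤ m ∧ r ∣ N q j :=
    fun r hr h => (pd (U := 1) hr (by rwa [mul_one])).imp_right fun h => h.resolve_left hr.not_dvd_one
  refine cov_bad (· ∣ d * q) (fun r => Even m ∧ r ∣ q ^ (m - 1) - 1 ∧ ¬ r ∣ N q 1) (fun r hr h => ?_)
    (fun r s hr hs x y => lo d2 c4 hr hs x y fun z => ?_) fun r s hr hs x h => ?_
  · by_cases z : r ∣ d * q
    · exact .inl z
    have z' : ¬ r ∣ d := fun e => z (e.mul_right _)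
    obtain ⟨j, x, y, h⟩ := (p r hr h).resolve_left fun e => z (e.mul_left _)
    obtain rfl : j = m - 1 := by_contra fun e => z' (h.trans (a3 j x y e))
    rw [N_eq] at h
    have h := ((Nat.Prime.dvd_mul hr).1 h).resolve_right fun e => z' (e.trans a1)
    refine .inr ⟨Nat.not_odd_iff_even.1 fun ⟨k, hk⟩ => z' (.trans ?_ (a3 k (by omega) (by omega) (by omega))), h,
      fun e => z' (e.trans (a3 1 le_rfl (by omega) (by omega)))⟩
    rwa [show m - 1 = 2 * k by omega] at h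
  · rcases hc with rfl | ⟨o, rfl⟩
    · rcases z with rfl | rfl <;> assumption
    · exact ((N8 o m).trans (a3 m (by omega) le_rfl (by omega))).mul_right _
  · obtain ⟨⟨k, hk⟩, x, y⟩ := x
    rcases p s hs h with z | ⟨j, z1, z2, z⟩
    · exact h3 r s hr hs x y z
    have r1 : r ∣ e := (x.trans (N_eq q _ ▸ dvd_mul_right _ _)).trans (b2 (m - 1) (by omega) (by omega) (by omega))
    have s1 : s ∣ e := by
      by_cases o : j = m
      · rw [o, N_eq] at z
        refine ((Nat.Prime.dvd_mul hs).1 z).elim (fun z => .trans ?_ (b2 k (by omega) (by omega) (by omega))) (·.trans b1)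
        rwa [show m = 2 * k by omega] at z
      · exact z.trans (b2 j z1 (by omega) o)
    refine lo e2 c4 hr hs (r1.mul_right _) (s1.mul_right _) fun z => ?_
    rcases hc with rfl | ⟨o, rfl⟩
    · rcases z with rfl | rfl
      · exact r1.mul_right _
      · exact s1.mul_right _
    · exact ((N8 o 1).trans (b2 1 le_rfl (by omega) (by omega))).mul_right _

theorem sub1 (q : ℕ) : q - 1 ∣ N q 1 := by rw [N_eq, pow_one]; exact dvd_mul_right _ _
theorem add1 (q : ℕ) : q + 1 ∣ N q 1 := by rw [N_eq, pow_one]; exact dvd_mul_left _ _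

theorem ab : AB := fun q m A hq o hm h1 h2 ⟨g, g1, g2⟩ => by
  have q2 := hq.two_le
  refine mainC q2 hm (.inr ⟨o, rfl⟩) h1 h2 fun r s hr hs x y z => ⟨g, g2, ?_, ?_⟩
  · have : r ∣ g * ((q - 1) * (q + q)) := g1 ▸ (x.mul_left _).mul_right _
    refine ((Nat.Prime.dvd_mul hr).1 this).resolve_right fun e => ?_
    rcases (Nat.Prime.dvd_mul hr).1 e with e | e
    · exact y (e.trans (sub1 q))
    rw [← two_mul] at e
    rcases (Nat.Prime.dvd_mul hr).1 e with e | e
    · exact y (e.trans ((by norm_num : 2 ∣ 8).trans (N8 o 1)))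
    · exact ndq hr q2 (by omega) x e
  · have : g * ((q - 1) * 2) * q = q * ((q ^ (m - 1) - 1) * (q ^ (m - 1) * q + 1)) * q := by
      have := g1
      rw [GB] at this
      linear_combination this
    have : s ∣ g * ((q - 1) * 2) := Nat.eq_of_mul_eq_mul_right (by omega) this ▸ z.mul_right _
    refine ((Nat.Prime.dvd_mul hs).1 this).resolve_right fun e => ?_
    rcases (Nat.Prime.dvd_mul hs).1 e with e | e
    · exact ndq hs q2 le_rfl (by rwa [pow_one]) z
    · rw [(Nat.prime_dvd_prime_iff_eq hs Nat.prime_two).1 e] at z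
      exact (Nat.not_even_iff_odd.2 o) (even_iff_two_dvd.2 z)

theorem cov1 (h : A d) (k : ℕ) (e : n ∣ d ^ k) : Cov A n := cov_of fun _ _ a b _ f g =>
  ⟨d, h, a.dvd_of_dvd_pow (f.trans e), b.dvd_of_dvd_pow (g.trans e)⟩

theorem as : AS := fun q m A hq hm h0 h1 h2 ⟨d, d1, d2⟩ ⟨f, f1, f2⟩ => by
  have q2 := hq.two_le
  by_cases m2 : m = 2
  · subst m2
    by_cases q3 : q = 3
    · subst q3
      obtain rfl : d = 20 := by norm_num [Dk, Pk, prod_range_succ] at d2; omega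
      exact cov1 d1 4 (by norm_num [prod_range_succ])
    have q4 : 4 ≤ q := by have := h0 rfl; omega
    obtain ⟨e, e1, e2⟩ := h2 fun _ => q4
    obtain ⟨-, b1, b2⟩ := canc q2 (DkC (l := 0) e1 rfl) (by omega) (by omega) (by omega)
    obtain ⟨u, rfl⟩ : ∃ u, q = u + 1 := ⟨q - 1, by omega⟩
    have n2 : (u + 1) ^ 2 - 1 = u * (u + 2) := Nat.sub_eq_of_eq_add (by ring)
    have n1 : N (u + 1) 1 = u * (u + 2) := n2
    have hd : d = u * ((u + 1) ^ 2 + 1) := by
      have := DkC (l := 0) d2 rfl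
      rw [prod_Ico_succ_top (by omega), prod_Ico_succ_top (by omega), Ico_self, prod_empty, N_eq _ (1 + 1), n1, n2] at this
      exact Nat.eq_of_mul_eq_mul_right (m := (u + 2) * (u * (u + 2))) (Nat.mul_pos (by omega) (Nat.mul_pos (by omega) (by omega)))
        (by linear_combination this)
    have hf : 2 * f = (u + 1) * (u + 2) ^ 2 := by
      rw [FA, n2, Nat.add_sub_cancel] at f1
      exact Nat.eq_of_mul_eq_mul_right (m := u * (u + 1)) (Nat.mul_pos (by omega) (by omega)) (by linear_combination f1)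
    refine cov_bad (· ∣ e * 1) (· ∣ u + 1) (fun r hr h => ?_) (fun r s hr hs x y => lo e2 (by norm_num) hr hs x y fun z => ?_)
      fun r s hr hs x h => ?_
    · rcases pd (U := 1) hr (by rwa [mul_one]) with z | z | ⟨j, z1, z2, z⟩
      · exact .inr z
      · exact absurd z hr.not_dvd_one
      refine .inl (Dvd.dvd.mul_right ?_ _)
      obtain rfl | rfl : j = 1 ∨ j = 2 := by omega
      · exact z.trans (b2 1 le_rfl (by omega) (by omega))
      · rw [N_eq] at z
        exact ((Nat.Prime.dvd_mul hr).1 z).elim (·.trans (b2 1 le_rfl (by omega) (by omega))) (·.trans b1)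
    · rcases z with rfl | rfl <;> assumption
    have w : s ∣ u + 1 ∨ s ∣ d ∨ s ∣ u + 2 := by
      rcases pd (U := 1) hs (by rwa [mul_one]) with z | z | ⟨j, z1, z2, z⟩
      · exact .inl z
      · exact absurd z hs.not_dvd_one
      have z : s ∣ N (u + 1) 2 := z.trans (N_dvd (by obtain rfl | rfl : j = 1 ∨ j = 2 := by omega
                                                     all_goals norm_num))
      rw [N_eq, n2, mul_right_comm, ← hd] at z
      exact .inr ((Nat.Prime.dvd_mul hs).1 z)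
    rcases w with w | w | w
    · exact ⟨_, d1, x.mul_right _, w.mul_right _⟩
    · exact ⟨_, d1, x.mul_right _, w.mul_left _⟩
    refine ⟨f, f2, sv (c := 2) (by norm_num) hr (x.mul_right _) (fun z => Dvd.dvd.mul_right ?_ _) hf.symm.dvd,
      sv (c := 2) (by norm_num) hs ((w.trans (dvd_pow_self _ two_ne_zero)).mul_left _) (fun z => Dvd.dvd.mul_left ?_ _)
      hf.symm.dvd⟩
    · obtain ⟨p, k, hp, -, e⟩ := (isPrimePow_nat_iff _).1 hq
      obtain rfl : p = 2 := ((Nat.prime_dvd_prime_iff_eq Nat.prime_two hp).1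
        (Nat.prime_two.dvd_of_dvd_pow (e ▸ z ▸ x))).symm
      rw [← e]
      refine pow_dvd_pow 2 (show 2 ≤ k from by_contra fun c => ?_)
      have := Nat.pow_le_pow_right (show 0 < 2 by norm_num) (show k ≤ 1 by omega)
      omega
    · exact pow_dvd_pow_of_dvd (z ▸ w) 2
  by_cases m3 : m = 3 ∧ q ≤ 3
  · obtain ⟨rfl, q3⟩ := m3
    obtain rfl | rfl : q = 2 ∨ q = 3 := by omega
    · obtain rfl : d = 105 := by norm_num [Dk, Pk, prod_range_succ] at d2; omega
      exact cov1 d1 9 (by norm_num [prod_range_succ])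
    · obtain rfl : d = 1820 := by norm_num [Dk, Pk, prod_range_succ] at d2; omega
      exact cov1 d1 9 (by norm_num [prod_range_succ])
  refine mainC q2 (by omega) (.inl rfl) (h1 (by omega) fun e => by omega) (h2 fun e => by omega)
    fun r s hr hs x y z => ⟨_, d1, Dvd.dvd.mul_left ?_ _, z.mul_right _⟩
  have : r ∣ d * (q + 1) * (q ^ 2 - 1) := by
    rw [DkC (l := m - 2) d2 (by omega), one_mul]
    exact (x.trans (N_eq q _ ▸ dvd_mul_right _ _)).trans (dvd_prod_of_mem _ (mem_Ico.2 ⟨by omega, by omega⟩))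
  exact ((Nat.Prime.dvd_mul hr).1 (((Nat.Prime.dvd_mul hr).1 this).resolve_right y)).resolve_right fun e => y (e.trans (add1 q))

end H3.DG
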