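/-
S4984, chunks AP, AM: arithmetic of the degrees, types D and ²D.
-/
import Cfsg.Agent.H3.DG1

set_option autoImplicit false

namespace H3.DG
open H16.DG Finset

variable {A : ℕ → Prop} {q r s c d n m j k l : ℕ}

theorem PkP (q k l : ℕ) : Pk q (k + l + 1) 1 (k + 1) =
    (q ^ (k + l + 1) - 1) * (q ^ l + 1) * ∏ j ∈ Ico (l + 1) (k + l + 1), N q j := by
  induction k generalizing l with
  | zero => simp [Pk]
  | succ k ih =>
    have := ih (l + 1)
    rw [Pk] at this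
    rw [Pk, prod_range_succ, show k + 1 + l + 1 = k + (l + 1) + 1 by omega, this,
      prod_eq_prod_Ico_succ_bot (a := l + 1) (by omega), N_eq, show k + (l + 1) + 1 - (k + 1) = l + 1 by omega,
      Nat.add_sub_cancel]
    ring

theorem DkP (h : Dk q m 1 k d) (e : m = k + l) (hk : 1 ≤ k) :
    d * (q ^ k - 1) = (q ^ m - 1) * (q ^ l + 1) * ∏ j ∈ Ico (l + 1) m, N q j := by
  obtain ⟨k, rfl⟩ : ∃ j, k = j + 1 := ⟨k - 1, by omega⟩
  obtain rfl : m = k + l + 1 := by omega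
  rw [← PkP]; exact h

theorem PkM (q k l : ℕ) : Pk q (k + l + 1) (q ^ 2) (k + 1) =
    (q ^ (k + l + 2) + 1) * (q ^ (l + 1) - 1) * ∏ j ∈ Ico (l + 2) (k + l + 2), N q j := by
  induction k generalizing l with
  | zero => simp [Pk, ← pow_add, mul_comm]
  | succ k ih =>
    have := ih (l + 1)
    rw [Pk] at this
    rw [Pk, prod_range_succ, show k + 1 + l + 1 = k + (l + 1) + 1 by omega, this,
      show k + 1 + l + 2 = k + (l + 1) + 2 by omega,
      prod_eq_prod_Ico_succ_bot (a := l + 2) (by omega), N_eq, show k + (l + 1) + 1 - (k + 1) = l + 1 by omega,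
      Nat.add_sub_cancel, ← pow_add]
    ring

theorem DkM (h : Dk q (m - 1) (q ^ 2) k d) (e : m = k + l) (hk : 1 ≤ k) (hl : 1 ≤ l) :
    d * (q ^ k - 1) = (q ^ m + 1) * (q ^ l - 1) * ∏ j ∈ Ico (l + 1) m, N q j := by
  obtain ⟨k, rfl⟩ : ∃ j, k = j + 1 := ⟨k - 1, by omega⟩
  obtain ⟨l, rfl⟩ : ∃ j, l = j + 1 := ⟨l - 1, by omega⟩
  obtain rfl : m = k + l + 2 := by omega
  rw [← PkM]; exact h

theorem c4 (hc : Odd q ∧ c = 4 ∨ Even q ∧ c = 2) : c ∣ 4 := by rcases hc with ⟨-, rfl⟩ | ⟨-, rfl⟩ <;> norm_num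

/-- no loss for a degree divisible by `q²` and by some `N q j` -/
theorem loT (hc : Odd q ∧ c = 4 ∨ Even q ∧ c = 2) (h : Lo A c d) (h1 : N q j ∣ d) (h2 : q ^ 2 ∣ d) (r s : ℕ) (hr : r.Prime)
    (hs : s.Prime) (x : r ∣ d) (y : s ∣ d) : Cv A r s := lo h (c4 hc) hr hs x y fun _ => by
  rcases hc with ⟨o, rfl⟩ | ⟨o, rfl⟩
  · exact (N8 o j).trans h1
  · exact (pow_dvd_pow_of_dvd (even_iff_two_dvd.1 o) 2).trans h2

/-- no loss for primes not dividing `q` -/
theorem loN (hc : Odd q ∧ c = 4 ∨ Even q ∧ c = 2) (h : Lo A c d) (h1 : N q j ∣ d) (hr : r.Prime)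
    (hs : s.Prime) (x : r ∣ d) (y : s ∣ d) (x' : ¬ r ∣ q) (y' : ¬ s ∣ q) : Cv A r s := lo h (c4 hc) hr hs x y fun z => by
  rcases hc with ⟨o, rfl⟩ | ⟨o, rfl⟩
  · exact (N8 o j).trans h1
  · rcases z with rfl | rfl
    · exact absurd (even_iff_two_dvd.1 o) x'
    · exact absurd (even_iff_two_dvd.1 o) y'

/-- no loss for a bad prime and the characteristic -/
theorem loP (hc : Odd q ∧ c = 4 ∨ Even q ∧ c = 2) (h : Lo A c d) (hr : r.Prime) (hs : s.Prime) (x : r ∣ d) (x' : ¬ r ∣ q)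
    (x'' : ¬ r ∣ N q 1) (y : s ∣ q) (e : q ∣ d) (h4 : Even q → 4 ∣ d) : Cv A r s := lo h (c4 hc) hr hs x (y.trans e) fun z => by
  rcases hc with ⟨o, rfl⟩ | ⟨o, rfl⟩
  · rcases z with rfl | rfl
    · exact absurd ((by norm_num : 2 ∣ 8).trans (N8 o 1)) x''
    · exact absurd (even_iff_two_dvd.2 y) (Nat.not_even_iff_odd.2 o)
  · exact h4 o

theorem four (hq : IsPrimePow q) (o : Even q) (h : 3 ≤ q) : 4 ∣ q := by
  obtain ⟨p, k, hp, -, e⟩ := (isPrimePow_nat_iff _).1 hq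
  obtain rfl : p = 2 := ((Nat.prime_dvd_prime_iff_eq Nat.prime_two hp).1
    (Nat.prime_two.dvd_of_dvd_pow (e ▸ even_iff_two_dvd.1 o))).symm
  rw [← e]
  refine pow_dvd_pow 2 (show 2 ≤ k from by_contra fun c => ?_)
  have := Nat.pow_le_pow_right (show 0 < 2 by norm_num) (show k ≤ 1 by omega)
  omega

theorem N1 (q : ℕ) : N q 1 = (q - 1) * (q + 1) := by rw [N_eq, pow_one]
theorem N1' (q : ℕ) : q ^ 2 - 1 = N q 1 := rfl

theorem cop (hq : 2 ≤ q) : q.Coprime (N q 1) := Nat.coprime_of_dvd fun _ hr x y => ndq hr hq (by omega) y x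

theorem pl {a b : ℕ} (hr : r.Prime) (h : r ∣ a * b) (ha : a ∣ d) (hb : b ∣ d) : r ∣ d :=
  ((Nat.Prime.dvd_mul hr).1 h).elim (·.trans ha) (·.trans hb)

theorem primes {L : List ℕ} (hr : r.Prime) (k : ℕ) (h : r ∣ n) (e : n ∣ L.prod ^ k) (hL : ∀ p ∈ L, p.Prime) : r ∈ L := by
  obtain ⟨p, hp, h⟩ := (Prime.dvd_prod_iff hr.prime).1 (hr.dvd_of_dvd_pow (h.trans e))
  rwa [(Nat.prime_dvd_prime_iff_eq hr (hL p hp)).1 h]

theorem lo' (h : Lo A c d) {e : ℕ} (he : c * e ∣ d) (c0 : 0 < c) : ∃ d, A d ∧ e ∣ d :=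
  h.imp fun _ h => ⟨h.1, Nat.dvd_of_mul_dvd_mul_left c0 (he.trans h.2)⟩

theorem covL (L M : List ℕ) (k : ℕ) (e : n ∣ L.prod ^ k) (hL : ∀ p ∈ L, p.Prime) (hM : ∀ x ∈ M, ∃ d, A d ∧ x ∣ d)
    (h : ∀ r ∈ L, ∀ s ∈ L, ∃ x ∈ M, r ∣ x ∧ s ∣ x) : Cov A n := cov_of fun r s a b _ f g => by
  obtain ⟨x, hx, h1, h2⟩ := h r (primes a k f e hL) s (primes b k g e hL)
  obtain ⟨d, h3, h4⟩ := hM x hx
  exact ⟨d, h3, h1.trans h4, h2.trans h4⟩

theorem ap : AP := fun q m c A hq hc hm h1 h2 h3 h4 h5 h6 h7 h8 => by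
  have q2 := hq.two_le
  have n1 : 0 < N q 1 := pos1 q2 (by omega)
  by_cases m4 : m = 4 ∧ q ≤ 3
  · obtain ⟨rfl, q3⟩ := m4
    obtain ⟨d, d1, d2⟩ := h3
    obtain ⟨f, f1, f2⟩ := h4
    obtain ⟨g, g1, g2⟩ := h5
    obtain rfl | rfl : q = 2 ∨ q = 3 := by omega
    · obtain rfl : c = 2 := (hc.resolve_left fun h => absurd h.1 (by decide)).2
      obtain rfl : d = 5670 := by norm_num [Dk, Pk, prod_range_succ] at d1; omega
      obtain rfl : f = 50 := by norm_num [FA] at f1; omega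
      obtain rfl : g = 84 := by norm_num [GB] at g1; omega
      refine covL [2, 3, 5, 7] [105, 50, 84] 12 (by norm_num [prod_range_succ]) (by norm_num) ?_ (by decide)
      simp only [List.forall_mem_cons]
      exact ⟨lo' d2 (by norm_num) (by norm_num), ⟨_, f2, dvd_rfl⟩, ⟨_, g2, dvd_rfl⟩, by simp⟩
    · obtain rfl : c = 4 := (hc.resolve_right fun h => absurd h.1 (by decide)).2
      obtain rfl : d = 931840 := by norm_num [Dk, Pk, prod_range_succ] at d1; omega
      obtain rfl : f = 300 := by norm_num [FA] at f1; omega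
      obtain rfl : g = 819 := by norm_num [GB] at g1; omega
      refine covL [2, 3, 5, 7, 13] [910, 300, 819] 20 (by norm_num [prod_range_succ]) (by norm_num) ?_ (by decide)
      simp only [List.forall_mem_cons]
      exact ⟨lo' d2 (by norm_num) (by norm_num), ⟨_, f2, dvd_rfl⟩, ⟨_, g2, dvd_rfl⟩, by simp⟩
  obtain ⟨g, g1, d, d1, d2⟩ := h1 fun e => by omega
  obtain rfl : g = q ^ 2 := by
    rw [GB, ← N1] at g1
    exact Nat.eq_of_mul_eq_mul_right n1 (by rw [g1, N1]; simp [mul_assoc])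
  have d1 := DkP (l := 2) d1 (by omega) (by omega)
  have a0 : ∀ j, 3 ≤ j → j < m → j ≠ m - 2 → N q j ∣ d := fun j x y z => by
    by_cases m4 : m = 4
    · subst m4
      obtain rfl : j = 3 := by omega
      rw [show q ^ 4 - 1 = N q 2 from rfl, N_eq _ 2, prod_Ico_succ_top (by omega), Ico_self, prod_empty] at d1
      exact ⟨_, Nat.eq_of_mul_eq_mul_right (pos1 (k := 2) q2 (by omega)) (d1.trans (by ring : _ = N q 3 * ((q ^ 2 + 1) * (q ^ 2 + 1)) * _))⟩
    · exact (canc q2 d1 (by omega) (by omega) (by omega)).2.2 j x y z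
  have a1 : N q 1 ∣ d := (N_dvd (one_dvd _)).trans (a0 (m - 1) (by omega) (by omega) (by omega))
  have a2 : q ^ 2 + 1 ∣ d ∧ q ^ (m - 2) + 1 ∣ d ∧ ∀ r, r.Prime → r ∣ q ^ m - 1 → r ∣ d := by
    by_cases m4 : m = 4
    · subst m4
      rw [show q ^ 4 - 1 = N q 2 from rfl, N_eq _ 2, prod_Ico_succ_top (by omega), Ico_self, prod_empty] at d1
      have : q ^ 2 + 1 ∣ d := ⟨_, Nat.eq_of_mul_eq_mul_right (pos1 (k := 2) q2 (by omega))
        (d1.trans (by ring : _ = (q ^ 2 + 1) * (N q 3 * (q ^ 2 + 1)) * _))⟩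
      exact ⟨this, this, fun r hr h => pl hr (N_eq q 2 ▸ h) a1 this⟩
    · obtain ⟨x, y, -⟩ := canc q2 d1 (by omega) (by omega) (by omega)
      exact ⟨(dvd_mul_left _ _).trans x, y, fun r _ h => h.trans ((dvd_mul_right _ _).trans x)⟩
  have a3 : ∀ r j, r.Prime → 1 ≤ j → j < m → (j = m - 2 → j = 2) → r ∣ N q j → r ∣ d := fun r j hr x y z h => by
    by_cases o : j = 1
    · exact (o ▸ h).trans a1
    by_cases o' : j = 2
    · exact pl hr (N_eq q 2 ▸ o' ▸ h) a1 a2.1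
    · exact h.trans (a0 j (by omega) y fun e => o' (z e))
  refine cov_bad (· ∣ d * q ^ 2) (fun r => Odd m ∧ r ∣ q ^ (m - 2) - 1 ∧ ¬ r ∣ d) (fun r hr h => ?_)
    (loT hc d2 (a1.mul_right _) (dvd_mul_left _ _)) fun r s hr hs x h => ?_
  · by_cases z : r ∣ d * q ^ 2
    · exact .inl z
    have z' : ¬ r ∣ d := fun e => z (e.mul_right _)
    obtain ⟨j, x, y, h⟩ := ((pd hr h).resolve_left fun e => z ((e.trans (dvd_pow_self q two_ne_zero)).mul_left _)).resolve_left
      fun e => z' (a2.2.2 r hr e)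
    obtain rfl : j = m - 2 := by_contra fun e => z' (a3 r j hr x (by omega) (fun e' => absurd e' e) h)
    rw [N_eq] at h
    have h := ((Nat.Prime.dvd_mul hr).1 h).resolve_right fun e => z' (e.trans a2.2.1)
    refine .inr ⟨Nat.not_even_iff_odd.1 fun ⟨k, hk⟩ => z' (a3 r (k - 1) hr (by omega) (by omega) (by omega) ?_), h, z'⟩
    rwa [show m - 2 = 2 * (k - 1) by omega] at h
  obtain ⟨⟨k, hk⟩, x, y⟩ := x
  have y1 : ¬ r ∣ N q 1 := fun e => y (e.trans a1)
  have rq := ndq hr q2 (by omega) x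
  have rN : r ∣ N q (m - 2) := x.trans (N_eq q _ ▸ dvd_mul_right _ _)
  by_cases sq : s ∣ q
  · by_cases m7 : 7 ≤ m
    · obtain ⟨g, g1, e, e1, e2⟩ := h6 m7
      have g2 : q ^ 2 ∣ g := ((cop q2).pow_left 2).dvd_of_dvd_mul_right (by
        rw [N1, g1, mul_assoc]; exact dvd_mul_right _ _)
      have : r ∣ e * (q ^ (m - 3) - 1) := DkP (l := 3) e1 (by omega) (by omega) ▸
        (rN.trans (dvd_prod_of_mem _ (mem_Ico.2 ⟨by omega, by omega⟩))).mul_left _
      refine loP hc e2 hr hs ((((Nat.Prime.dvd_mul hr).1 this).resolve_right fun z =>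
        y (a3 r (k - 1) hr (by omega) (by omega) (by omega) ?_)).mul_right _) rq y1 sq
        (((dvd_pow_self q two_ne_zero).trans g2).mul_left _) fun o =>
          ((pow_dvd_pow_of_dvd (even_iff_two_dvd.1 o) 2).trans g2).mul_left _
      rwa [show m - 3 = 2 * (k - 1) by omega] at z
    obtain rfl : m = 5 := by omega
    by_cases q3 : 3 ≤ q
    · obtain ⟨f, f1, e, -, e2⟩ := h7 rfl q3
      rw [FA, ← N1] at f1
      have f2 : q ∣ f := (cop q2).dvd_of_dvd_mul_right (by rw [f1, mul_one, mul_assoc]; exact dvd_mul_right _ _)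
      exact loP hc e2 hr hs ((((Nat.Prime.dvd_mul hr).1 (f1 ▸ x.mul_left _)).resolve_right y1).mul_left _) rq y1 sq
        (f2.mul_left _) fun o => ((four hq o q3).trans f2).mul_left _
    · obtain rfl : q = 2 := by omega
      obtain ⟨e, e1, e2⟩ := h8 rfl rfl
      exact ⟨e, e1, (x.trans (by norm_num)).trans e2, (sq.trans (by norm_num)).trans e2⟩
  obtain ⟨e, e1, e2⟩ := h2
  obtain ⟨b0, b1, b2⟩ := canc q2 (DkP (l := 1) e1 (by omega) (by omega)) (by omega) (by omega) (by omega)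
  refine loN hc e2 ((b2 2 le_rfl (by omega) (by omega)).mul_right _) hr hs
    ((rN.trans (b2 _ (by omega) (by omega) (by omega))).mul_right _) (Dvd.dvd.mul_right ?_ _) rq sq
  rcases (pd hs h).resolve_left sq with z | ⟨j, z1, z2, z⟩
  · exact z.trans ((dvd_mul_right _ _).trans b0)
  by_cases o : j = 1
  · exact (o ▸ z).trans ((N_dvd (one_dvd _)).trans (b2 2 le_rfl (by omega) (by omega)))
  by_cases o' : j = m - 1
  · rw [o', N_eq] at z
    refine pl hs z ?_ b1
    rw [show m - 1 = 2 * k by omega]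
    exact b2 k (by omega) (by omega) (by omega)
  · exact z.trans (b2 j (by omega) (by omega) o')

theorem am : AM := fun q m c A hq hc hm h1 h2 h3 h4 h5 h6 h7 => by
  have q2 := hq.two_le
  have n1 : 0 < N q 1 := pos1 q2 (by omega)
  obtain ⟨e, e1, e2⟩ := h2
  obtain ⟨g, g1, g2⟩ := h4
  by_cases m4 : m = 4 ∧ q = 2
  · obtain ⟨rfl, rfl⟩ := m4
    obtain ⟨f, f1, f2⟩ := h3
    obtain rfl : c = 2 := (hc.resolve_left fun h => absurd h.1 (by decide)).2
    obtain rfl : e = 2295 := by norm_num [Dk, Pk, prod_range_succ] at e1; omega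
    obtain rfl : f = 84 := by norm_num [FA] at f1; omega
    obtain ⟨x, x1, x2⟩ := e2
    refine covL [2, 3, 5, 7, 17] [255, 84, 1190] 12 (by norm_num [prod_range_succ]) (by norm_num) ?_ (by decide)
    simp only [List.forall_mem_cons]
    exact ⟨⟨x, x1, (by norm_num : Nat.Coprime 255 2).dvd_of_dvd_mul_left ((by norm_num : 255 ∣ 2295 * 1).trans x2)⟩,
      ⟨_, f2, dvd_rfl⟩, h7 rfl rfl, by simp⟩
  obtain ⟨d, d1, d2⟩ := h1 fun e => by omega
  have d1 := DkM (l := 2) d1 (by omega) (by omega) (by omega)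
  obtain ⟨b0, b1, b2⟩ := canc q2 (DkM (l := 1) e1 (by omega) (by omega) le_rfl) (by omega) (by omega) (by omega)
  have b3 : N q 1 ∣ e := (N_dvd (one_dvd _)).trans (b2 2 le_rfl (by omega) (by omega))
  by_cases m4' : m = 4
  · subst m4'
    rw [prod_Ico_succ_top (by omega), Ico_self, prod_empty, one_mul, mul_right_comm] at d1
    obtain rfl := Nat.eq_of_mul_eq_mul_right (pos1 (k := 2) q2 (by omega)) d1
    have a1 : N q 1 ∣ (q ^ 4 + 1) * N q 3 := (N_dvd (one_dvd _)).mul_left _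
    refine cov_bad (· ∣ (q ^ 4 + 1) * N q 3 * q ^ 2) (fun r => r ∣ q ^ 2 + 1 ∧ ¬ r ∣ N q 1) (fun r hr h => ?_)
      (loT hc d2 (a1.mul_right _) (dvd_mul_left _ _)) fun r s hr hs x h => ?_
    · rcases pd hr h with z | z | ⟨j, z1, z2, z⟩
      · exact .inl ((z.trans (dvd_pow_self q two_ne_zero)).mul_left _)
      · exact .inl ((z.mul_right _).mul_right _)
      by_cases y : r ∣ N q 1
      · exact .inl ((y.trans a1).mul_right _)
      obtain rfl | rfl | rfl : j = 1 ∨ j = 2 ∨ j = 3 := by omega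
      · exact absurd z y
      · exact .inr ⟨((Nat.Prime.dvd_mul hr).1 (N_eq q 2 ▸ z)).resolve_left y, y⟩
      · exact .inl ((z.mul_left _).mul_right _)
    obtain ⟨x, y⟩ := x
    have rq := ndq' hr (by omega) x
    have w : s ∣ q ∨ s ∣ q ^ 2 + q + 1 ∨ (s ∣ e ∧ ¬ s ∣ q) := by
      by_cases sq : s ∣ q
      · exact .inl sq
      refine .inr (or_iff_not_imp_left.2 fun n => ⟨?_, sq⟩)
      rcases (pd hs h).resolve_left sq with z | ⟨j, z1, z2, z⟩
      · exact z.trans ((dvd_mul_right _ _).trans b0)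
      obtain rfl | rfl | rfl : j = 1 ∨ j = 2 ∨ j = 3 := by omega
      · exact z.trans b3
      · exact z.trans (b2 2 le_rfl (by omega) (by omega))
      rw [N_eq] at z
      refine ((Nat.Prime.dvd_mul hs).1 z).elim (fun z => ?_) (·.trans b1)
      obtain ⟨u, rfl⟩ : ∃ u, q = u + 1 := ⟨q - 1, by omega⟩
      rw [show (u + 1) ^ 3 - 1 = u * ((u + 1) ^ 2 + (u + 1) + 1) from Nat.sub_eq_of_eq_add (by ring)] at z
      exact (((Nat.Prime.dvd_mul hs).1 z).resolve_right n).trans ((sub1 (u + 1)).trans b3)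
    rw [← or_assoc] at w
    rcases w with w | w
    swap
    · exact loN hc e2 (b3.mul_right _) hr hs ((x.trans ((N_eq q 2 ▸ dvd_mul_left _ _).trans
        (b2 2 le_rfl (by omega) (by omega)))).mul_right _) (w.1.mul_right _) rq w.2
    by_cases q3 : q = 3
    · subst q3
      obtain ⟨a, a1, a2⟩ := h6 rfl rfl
      refine ⟨a, a1, .trans ?_ a2, (w.elim (·.trans (by norm_num)) (·.trans (by norm_num))).trans a2⟩
      exact (((Nat.Prime.dvd_mul hr).1 (show r ∣ 2 * 5 from x)).resolve_left fun e => y (e.trans (by decide))).trans (by norm_num)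
    obtain ⟨f, f1, a, a2, a3⟩ := h5 rfl (by omega)
    obtain ⟨u, rfl⟩ : ∃ u, q = u + 1 := ⟨q - 1, by omega⟩
    obtain rfl : f = (u + 1) ^ 2 * ((u + 1) ^ 2 + 1) := by
      rw [FA, Nat.add_sub_cancel, show (u + 1) ^ 2 - 1 = u * (u + 2) from Nat.sub_eq_of_eq_add (by ring)] at f1
      exact Nat.eq_of_mul_eq_mul_right (m := u * (u + 1 + (u + 1) ^ 2)) (Nat.mul_pos (by omega) (by positivity))
        (by rw [f1]; ring)
    obtain rfl : a = ((u + 1) ^ 2 + (u + 1) + 1) * ((u + 1) ^ 4 + 1) := by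
      have := DkM (m := 4) (l := 3) a2 rfl le_rfl (by omega)
      rw [Ico_self, prod_empty, show (u + 1) ^ 3 - 1 = u * ((u + 1) ^ 2 + (u + 1) + 1) from Nat.sub_eq_of_eq_add (by ring),
        pow_one, Nat.add_sub_cancel] at this
      exact Nat.eq_of_mul_eq_mul_right (m := u) (by omega) (by rw [this]; ring)
    rcases w with w | w
    · exact loP hc a3 hr hs ((x.mul_left _).mul_left _) rq y w (((dvd_pow_self _ two_ne_zero).mul_right _).mul_left _) fun o =>
        ((pow_dvd_pow_of_dvd (even_iff_two_dvd.1 o) 2).mul_right _).mul_left _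
    refine lo a3 (c4 hc) hr hs ((x.mul_left _).mul_left _) ((w.mul_right _).mul_right _) fun z => ?_
    rcases z with rfl | rfl
    · rcases hc with ⟨o, -⟩ | ⟨o, -⟩
      · exact absurd ((by norm_num : 2 ∣ 8).trans (N8 o 1)) y
      · exact absurd (even_iff_two_dvd.1 o) rq
    · refine absurd (even_iff_two_dvd.2 w) (Nat.not_even_iff_odd.2 (Even.add_one ?_))
      rw [sq, ← mul_add_one]
      exact Nat.even_mul_succ_self _
  obtain ⟨a0, a1, a2⟩ := canc q2 d1 (by omega) (by omega) (by omega)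
  have a4 : N q 1 ∣ d := (dvd_mul_left _ _).trans a0
  have a3 : ∀ r j, r.Prime → 1 ≤ j → j < m → j ≠ m - 2 → r ∣ N q j → r ∣ d := fun r j hr x y z h => by
    by_cases o : j = 1
    · exact (o ▸ h).trans a4
    by_cases o' : j = 2
    · by_cases m6 : m = 6
      · subst m6
        exact pl hr (N_eq q 2 ▸ o' ▸ h) a4 ((Odd.nat_add_dvd_pow_add_pow (q ^ 2) 1 (by decide : Odd 3)).trans
          (by rw [← pow_mul, one_pow]; exact (dvd_mul_right _ _).trans a0))
      · exact (o' ▸ h).trans ((N_dvd (by norm_num)).trans (a2 4 (by omega) (by omega) (by omega)))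
    · exact h.trans (a2 j (by omega) y z)
  refine cov_bad (· ∣ d * q ^ 2) (fun r => Odd m ∧ r ∣ q ^ (m - 2) - 1 ∧ ¬ r ∣ d) (fun r hr h => ?_)
    (loT hc d2 (a4.mul_right _) (dvd_mul_left _ _)) fun r s hr hs x h => ?_
  · by_cases z : r ∣ d * q ^ 2
    · exact .inl z
    have z' : ¬ r ∣ d := fun e => z (e.mul_right _)
    obtain ⟨j, x, y, h⟩ := ((pd hr h).resolve_left fun e => z ((e.trans (dvd_pow_self q two_ne_zero)).mul_left _)).resolve_left
      fun e => z' (e.trans ((dvd_mul_right _ _).trans a0))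
    obtain rfl : j = m - 2 := by_contra fun e => z' (a3 r j hr x (by omega) e h)
    rw [N_eq] at h
    have h := ((Nat.Prime.dvd_mul hr).1 h).resolve_right fun e => z' (e.trans a1)
    refine .inr ⟨Nat.not_even_iff_odd.1 fun ⟨k, hk⟩ => z' (a3 r (k - 1) hr (by omega) (by omega) (by omega) ?_), h, z'⟩
    rwa [show m - 2 = 2 * (k - 1) by omega] at h
  obtain ⟨⟨k, hk⟩, x, y⟩ := x
  have y1 : ¬ r ∣ N q 1 := fun e => y (e.trans a4)
  have rq := ndq hr q2 (by omega) x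
  have rN : r ∣ N q (m - 2) := x.trans (N_eq q _ ▸ dvd_mul_right _ _)
  by_cases sq : s ∣ q
  · have g3 : g * N q 1 = q * ((q ^ (m - 2) - 1) * (q ^ (m - 2) * q ^ 2 + 1)) := by
      rw [GB, show m - 1 - 1 = m - 2 by omega] at g1
      exact Nat.eq_of_mul_eq_mul_left (show 0 < q by omega) (by rw [N1]; linear_combination g1)
    exact ⟨g, g2, ((Nat.Prime.dvd_mul hr).1 (g3 ▸ (x.mul_right _).mul_left _)).resolve_right y1,
      sq.trans ((cop q2).dvd_of_dvd_mul_right (g3 ▸ dvd_mul_right _ _))⟩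
  refine loN hc e2 (b3.mul_right _) hr hs
    ((rN.trans (b2 _ (by omega) (by omega) (by omega))).mul_right _) (Dvd.dvd.mul_right ?_ _) rq sq
  rcases (pd hs h).resolve_left sq with z | ⟨j, z1, z2, z⟩
  · exact z.trans ((dvd_mul_right _ _).trans b0)
  by_cases o : j = 1
  · exact (o ▸ z).trans b3
  by_cases o' : j = m - 1
  · rw [o', N_eq] at z
    refine pl hs z ?_ b1
    rw [show m - 1 = 2 * k by omega]
    exact b2 k (by omega) (by omega) (by omega)
  · exact z.trans (b2 j (by omega) (by omega) o')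

end H3.DG
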