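/-
Simple groups with few conjugacy classes, VI: group-theoretic lemmas.
-/
import Cfsg.Agent.H24.ClassSize
import Cfsg.Agent.H24.ClassCount
import Cfsg.Agent.H10.Count
import Cfsg.Agent.H10.Taussky
import Cfsg.Agent.S4212
import Cfsg.Prelude.Def_CaseTheorems

set_option autoImplicit false

namespace H3.KC
open Subgroup H24

variable {G : Type*} [Group G] [Finite G] {r p : ℕ} {x y z g : G}

local notation "𝐂" x:max => centralizer ({x} : Set _)
local notation "#" H:max => Nat.card H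

omit [Finite G] in
theorem card_inf_cent (H : Subgroup G) (b : H) : #(𝐂 b) = #↥(H ⊓ 𝐂 (b : G)) := by
  rw [cent_subgroupOf, ← inf_subgroupOf_left, Nat.card_congr (subgroupOfEquivOfLe inf_le_left).toEquiv]

/-- a central element of a large `r`-subgroup -/
theorem exists_central' (hr : r.Prime) {k : ℕ} (h : r ^ (k + 1) ∣ #G) :
    ∃ z : G, orderOf z = r ∧ r ^ (k + 1) ∣ #(𝐂 z) := by
  have := Fact.mk hr
  obtain ⟨Q, hQ⟩ := Sylow.exists_subgroup_card_pow_prime r h
  have : Nontrivial Q := Finite.one_lt_card_iff_nontrivial.1 (hQ ▸ Nat.one_lt_pow (by omega) hr.one_lt)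
  have pQ : IsPGroup r Q := IsPGroup.of_card hQ
  have := pQ.center_nontrivial
  obtain ⟨z, hz⟩ := exists_prime_orderOf_dvd_card' (G := center Q) r
    (((pQ.to_subgroup _).card_eq_or_dvd).resolve_left Finite.one_lt_card.ne')
  refine ⟨z.1.1, by rw [orderOf_coe, orderOf_coe, hz], hQ ▸ card_dvd_of_le fun a ha => mem_cent.2 ?_⟩
  exact congrArg Subtype.val (mem_center_iff.1 z.2 ⟨a, ha⟩)

theorem exists_central (hr : r.Prime) (H : Subgroup G) {k : ℕ} (h : r ^ (k + 1) ∣ #H) :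
    ∃ z ∈ H, orderOf z = r ∧ r ^ (k + 1) ∣ #↥(H ⊓ 𝐂 z) := by
  obtain ⟨z, a, b⟩ := exists_central' hr h
  exact ⟨z, z.2, by simpa using a, card_inf_cent H z ▸ b⟩

theorem sq_dvd' (hr : r.Prime) (hz : orderOf z = r) (h : r * r ∣ #G) : r * r ∣ #(𝐂 z) := by
  have := Fact.mk hr
  obtain ⟨P, hP⟩ := exists_sylow_mem (k := 1) (by simpa using hz)
  have h1 : r ^ (1 + 1) ∣ #P := by
    rw [P.card_eq_multiplicity]
    exact pow_dvd_pow _ ((hr.pow_dvd_iff_le_factorization Nat.card_pos.ne').1 (by rwa [pow_two]))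
  obtain ⟨k, hk⟩ := P.isPGroup'.exists_card_eq
  obtain ⟨k, rfl⟩ : ∃ j, k = j + 1 := by
    have := (Nat.pow_dvd_pow_iff_le_right hr.one_lt).1 (hk ▸ h1)
    exact ⟨k - 1, by omega⟩
  obtain ⟨u, u1, u2, u3⟩ := exists_central hr (P : Subgroup G) hk.symm.dvd
  have u4 : (P : Subgroup G) ≤ 𝐂 u := inf_eq_left.1 (eq_of_le_of_card_ge inf_le_left
    (hk ▸ Nat.le_of_dvd Nat.card_pos u3))
  by_cases e : z ∈ zpowers u
  · rw [← pow_two]
    exact h1.trans (card_dvd_of_le (u4.trans (cent_le_cent_of_mem_zpowers e)))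
  · have a1 : zpowers u < (P : Subgroup G) ⊓ 𝐂 z :=
      lt_of_le_of_ne (zpowers_le_of_mem ⟨u1, mem_cent_comm.1 (u4 hP)⟩) fun f => e (f ▸ ⟨hP, self_mem_cent z⟩)
    obtain ⟨j, hj⟩ := (P.isPGroup'.to_le (inf_le_left (b := 𝐂 z))).exists_card_eq
    have a2 : #(zpowers u) < #↥((P : Subgroup G) ⊓ 𝐂 z) :=
      (card_le_of_le a1.le).lt_of_ne fun f => a1.ne (eq_of_le_of_card_ge a1.le f.ge)
    rw [Nat.card_zpowers, u2, hj] at a2
    have : 1 < j := (Nat.pow_lt_pow_iff_right hr.one_lt).1 (by simpa using a2)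
    rw [← pow_two]
    exact ((pow_dvd_pow r this).trans hj.symm.dvd).trans (card_dvd_of_le inf_le_right)

theorem sq_dvd (hr : r.Prime) {H : Subgroup G} (h1 : z ∈ H) (hz : orderOf z = r) (h : r * r ∣ #H) :
    r * r ∣ #↥(H ⊓ 𝐂 z) := card_inf_cent H ⟨z, h1⟩ ▸ sq_dvd' hr (by simpa using hz) h

theorem conj_pow' (hr : r.Prime) (hy : orderOf y = r) (hz : orderOf z = r) (h : ¬ r * r ∣ #G) :
    ∃ k, 0 < k ∧ k < r ∧ IsConj (y ^ k) z := by
  have := Fact.mk hr
  obtain ⟨P, hP⟩ := exists_sylow_mem (x := y) (k := 1) (by simpa using hy)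
  obtain ⟨g, hg⟩ := exists_conj_mem_sylow (x := z) (k := 1) (by simpa using hz) P
  obtain ⟨k, hk⟩ := P.isPGroup'.exists_card_eq
  have k1 : k ≤ 1 := by
    by_contra! e
    exact h (pow_two r ▸ ((pow_dvd_pow r e).trans hk.symm.dvd).trans (card_subgroup_dvd_card _))
  have : zpowers y = P := eq_of_le_of_card_ge (zpowers_le_of_mem hP) (by
    rw [Nat.card_zpowers, hy, hk]; exact (Nat.pow_le_pow_right hr.pos k1).trans (by simp))
  rw [← this, ← mem_powers_iff_mem_zpowers] at hg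
  obtain ⟨j, hj⟩ := hg
  refine ⟨j % r, Nat.pos_of_ne_zero fun e => ?_, Nat.mod_lt _ hr.pos, ?_⟩
  · have a := orderOf_conj' g z
    rw [← show y ^ j = _ from hj, ← pow_mod_orderOf, hy, e, pow_zero, orderOf_one, hz] at a
    exact hr.one_lt.ne a
  · rw [← hy, pow_mod_orderOf, show y ^ j = _ from hj]
    exact isConj_iff.2 ⟨g, by group⟩

theorem conj_pow_in (hr : r.Prime) {H : Subgroup G} (h1 : y ∈ H) (h2 : z ∈ H) (hy : orderOf y = r) (hz : orderOf z = r)
    (h : ¬ r * r ∣ #H) : ∃ k, 0 < k ∧ k < r ∧ ∃ g ∈ H, g * y ^ k * g⁻¹ = z := by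
  obtain ⟨k, a, b, c⟩ := conj_pow' (y := (⟨y, h1⟩ : H)) (z := ⟨z, h2⟩) hr (by simpa using hy) (by simpa using hz) h
  obtain ⟨g, hg⟩ := isConj_iff.1 c
  exact ⟨k, a, b, g, g.2, congrArg Subtype.val hg⟩

/-- the exponent of the `d`-part -/
def ex (o d : ℕ) : ℕ := if d.Coprime (o / d) then (o / d) ^ d.totient else o / d
/-- the `d`-part -/
noncomputable def pt (g : G) (d : ℕ) : G := g ^ ex (orderOf g) d

omit [Finite G] in
theorem pt_conj (h : IsConj x y) (d : ℕ) : IsConj (pt x d) (pt y d) := by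
  rw [pt, pt, orderOf_eq_of_isConj h]; exact h.pow _

theorem pt_mul (h : Commute y z) (hc : (orderOf y).Coprime (orderOf z)) : pt (y * z) (orderOf y) = y := by
  rw [pt, h.orderOf_mul_eq_mul_orderOf_of_coprime hc, ex, Nat.mul_div_cancel_left _ (orderOf_pos y), if_pos hc,
    h.mul_pow, orderOf_dvd_iff_pow_eq_one.1 (dvd_pow_self _ (Nat.totient_pos.2 (orderOf_pos y)).ne'), mul_one,
    ← pow_mod_orderOf, Nat.ModEq.pow_totient hc.symm, pow_mod_orderOf, pow_one]

theorem parts {d s : ℕ} (h : orderOf g = d * s) (hc : d.Coprime s) :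
    ∃ z, Commute (pt g d) z ∧ pt g d * z = g ∧ orderOf (pt g d) = d ∧ orderOf z = s := by
  obtain ⟨a, b, -, -, rfl, h1, h2, h3⟩ := exists_parts g hc h.dvd
  have k := (hc.coprime_dvd_left h2).coprime_dvd_right h3
  rw [h1.orderOf_mul_eq_mul_orderOf_of_coprime k] at h
  have h0 : 0 < d * s := h ▸ Nat.mul_pos (orderOf_pos a) (orderOf_pos b)
  have a1 := Nat.le_of_dvd (Nat.pos_of_mul_pos_right h0) h2
  have a2 := Nat.le_of_dvd (Nat.pos_of_mul_pos_left h0) h3
  obtain rfl : orderOf a = d := by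
    by_contra e
    have := Nat.mul_lt_mul_of_lt_of_le (lt_of_le_of_ne a1 e) a2 (Nat.pos_of_mul_pos_left h0)
    omega
  rw [pt_mul h1 k]
  exact ⟨b, h1, rfl, rfl, Nat.eq_of_mul_eq_mul_left (orderOf_pos a) h⟩

theorem ord_pt {d : ℕ} (h : d ∣ orderOf g) : orderOf (pt g d) = d := by
  obtain ⟨s, hs⟩ := h
  have h0 : 0 < d := Nat.pos_of_mul_pos_right (hs ▸ orderOf_pos g)
  by_cases e : d.Coprime s
  · obtain ⟨z, -, -, a, -⟩ := parts hs e
    exact a
  · rw [pt, ex, hs, Nat.mul_div_cancel_left _ h0, if_neg e, orderOf_pow_of_dvd (by rintro rfl; simp [(orderOf_pos g).ne'] at hs)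
      (Dvd.intro_left _ hs.symm), hs, Nat.mul_div_cancel _ (Nat.pos_of_mul_pos_left (hs ▸ orderOf_pos g))]

omit [Finite G] in
theorem pw_mod (hx : orderOf x = p) (n : ℕ) : x ^ (n % p) = x ^ n := hx ▸ pow_mod_orderOf x n

omit [Finite G] in
theorem pw_mul (hx : orderOf x = p) [NeZero p] (a b : (ZMod p)ˣ) :
    (x ^ (a : ZMod p).val) ^ (b : ZMod p).val = x ^ ((a * b : (ZMod p)ˣ) : ZMod p).val := by
  rw [Units.val_mul, ZMod.val_mul, ← pow_mul, pw_mod hx]

omit [Finite G] in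
theorem pw_one (hx : orderOf x = p) : x ^ ((1 : (ZMod p)ˣ) : ZMod p).val = x := by
  rw [Units.val_one, ZMod.val_one_eq_one_mod, pw_mod hx, pow_one]

/-- the automizer of a subgroup of prime order -/
def U (x : G) (hx : orderOf x = p) [NeZero p] : Subgroup (ZMod p)ˣ where
  carrier := {u | IsConj x (x ^ (u : ZMod p).val)}
  one_mem' := by simp only [Set.mem_ofPred_eq, pw_one hx, IsConj.refl]
  mul_mem' := fun {u v} a b => IsConj.trans b (pw_mul hx u v ▸ IsConj.pow _ a)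
  inv_mem' := fun {u} a => by
    have := (show IsConj x (x ^ (u : ZMod p).val) from a).pow ((u⁻¹ : (ZMod p)ˣ) : ZMod p).val
    rw [pw_mul hx, mul_inv_cancel, pw_one hx] at this
    exact this.symm

omit [Finite G] in
theorem U_iff (hx : orderOf x = p) [NeZero p] (u v : (ZMod p)ˣ) :
    IsConj (x ^ (u : ZMod p).val) (x ^ (v : ZMod p).val) ↔ u⁻¹ * v ∈ U x hx := by
  refine ⟨fun h => ?_, fun h => ?_⟩
  · have := h.pow ((u⁻¹ : (ZMod p)ˣ) : ZMod p).val
    rwa [pw_mul hx, pw_mul hx, mul_inv_cancel, pw_one hx, mul_comm] at this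
  · have := (show IsConj x (x ^ ((u⁻¹ * v : (ZMod p)ˣ) : ZMod p).val) from h).pow (u : ZMod p).val
    rwa [pw_mul hx, mul_comm, mul_inv_cancel_left] at this

theorem U_ord (hx : orderOf x = p) [Fact p.Prime] : ∃ g : G, orderOf g = #(U x hx) := by
  obtain ⟨u, hu⟩ := IsCyclic.exists_ofOrder_eq_natCard (α := U x hx)
  obtain ⟨g, hg⟩ := isConj_iff.1 (show IsConj x (x ^ (u.1 : ZMod p).val) from u.2)
  have k : ∀ n, g ^ n * x * (g ^ n)⁻¹ = x ^ (u.1 : ZMod p).val ^ n := fun n => by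
    induction n with
    | zero => simp
    | succ n ih => rw [pow_succ', mul_inv_rev, pow_succ', pow_mul, ← hg, conj_pow, ← ih]; group
  have h1 := k (orderOf g)
  rw [pow_orderOf_eq_one, one_mul, inv_one, mul_one] at h1
  have h2 := pow_eq_pow_iff_modEq.1 ((pow_one x).trans h1)
  rw [hx] at h2
  have h3 : #(U x hx) ∣ orderOf g := by
    rw [← hu, orderOf_dvd_iff_pow_eq_one]
    refine Subtype.ext (Units.ext ?_)
    simpa using ((ZMod.natCast_eq_natCast_iff _ _ _).2 h2).symm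
  exact ⟨pt g _, ord_pt h3⟩

omit [Finite G] in
theorem exists_unit (hx : orderOf x = p) [hp : Fact p.Prime] {j : ℕ} (h : x ^ j ≠ 1) :
    ∃ u : (ZMod p)ˣ, x ^ (u : ZMod p).val = x ^ j :=
  ⟨ZMod.unitOfCoprime j ((hp.out.coprime_iff_not_dvd.2 fun e => h (orderOf_dvd_iff_pow_eq_one.1 (hx ▸ e))).symm), by
    rw [ZMod.coe_unitOfCoprime, ZMod.val_natCast, pw_mod hx]⟩

theorem U_ne [IsSimpleGroup G] (hG : ¬ IsMulCommutative G) (hx : orderOf x = p) [hp : Fact p.Prime]
    (h : ¬ p * p ∣ #G) : #(U x hx) ≠ 1 := fun e => by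
  have h1 : IsPGroup p (zpowers x) := isPGroup_zpowers (k := 1) (by simpa using hx)
  have h2 : ¬ p ∣ (zpowers x).index := fun a => h (by
    rw [← (zpowers x).card_mul_index, Nat.card_zpowers, hx]; exact mul_dvd_mul_left _ a)
  have x1 : x ≠ 1 := by rintro rfl; exact hp.out.one_lt.ne (orderOf_one.symm.trans hx)
  have h3 : normalizer ((h1.toSylow h2 : Subgroup G) : Set G) ≤ centralizer (h1.toSylow h2 : Subgroup G) := by
    intro g hg
    obtain ⟨j, hj⟩ := (mem_powers_iff_mem_zpowers (x := x)).2 ((mem_normalizer_iff.1 hg x).1 (mem_zpowers x))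
    obtain ⟨u, hu⟩ := exists_unit hx (j := j) (by simpa [show x ^ j = _ from hj] using x1)
    have : u ∈ U x hx := isConj_iff.2 ⟨g, (hu.trans hj).symm⟩
    rw [card_eq_one.1 e, mem_bot] at this
    rw [this, pw_one hx, show x ^ j = _ from hj] at hu
    rintro _ ⟨k, rfl⟩
    exact ((mem_cent_iff_commute.1 (mem_cent_iff_conj.2 hu.symm)).zpow_right k).symm
  rcases (MonoidHom.normal_ker (MonoidHom.transferSylow _ h3)).eq_bot_or_eq_top with a | a
  · have := MonoidHom.ker_transferSylow_isComplement' _ h3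
    rw [a, isComplement'_bot_left] at this
    have : IsCyclic G := ⟨x, fun g => (this.ge (mem_top g) : g ∈ zpowers x)⟩
    exact hG inferInstance
  · have := MonoidHom.not_dvd_card_ker_transferSylow _ h3
    rw [a, card_top] at this
    exact this (hx ▸ orderOf_dvd_natCard x)

/-- the Brauer–Fowler bound -/
theorem bf_bound {k : ℕ} (hk : #(ConjClasses G) ≤ k + 1) (hx : orderOf x = 2) :
    #G ≤ #(𝐂 x) * (k * #(𝐂 x) + 1) := by
  classical
  have := Fintype.ofFinite G
  have h1 := H10.sum_pairCount (G := G)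
  have h2 := Finset.sum_le_sum (s := Finset.univ.erase (1 : G)) fun x _ => H10.pairCount_le x
  have h3 := card_classes_mul_card' (G := G)
  rw [← Finset.add_sum_erase _ _ (Finset.mem_univ 1)] at h1 h3
  rw [H10.pairCount_one] at h1
  rw [cent_eq_top_iff.2 (one_mem _), card_top] at h3
  have h4 : cs x ≤ #{t : G // orderOf t = 2} := card_isConj x ▸ Nat.card_le_card_of_injective
    (fun t => ⟨t.1, orderOf_eq_of_isConj t.2 ▸ hx⟩) fun a b e => Subtype.ext (by simpa using e)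
  have h5 := cs_mul_card x
  have h6 := cs_pos x
  have h7 := Nat.mul_le_mul_right (Nat.card G) hk
  generalize #{t : G // orderOf t = 2} = n at *
  generalize #(𝐂 x) = c at *
  generalize cs x = s at *
  obtain ⟨s, rfl⟩ : ∃ t, s = t + 1 := ⟨s - 1, by omega⟩
  have h8 : (s + 1) * s ≤ (s + 1) * (k * c) := by
    obtain ⟨n, rfl⟩ := Nat.exists_eq_add_of_le h4
    nlinarith
  have := Nat.le_of_mul_le_mul_left h8 h6
  nlinarith

theorem eight' (h2 : IsPGroup 2 G) (hr : ¬ Cfsg.PRankLE 2 2 G) (x : G) : 8 ∣ #(𝐂 x) := by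
  obtain ⟨k, hk⟩ := (h2.to_subgroup (𝐂 x)).exists_card_eq
  by_contra h
  have k2 : k ≤ 2 := by
    by_contra! e
    exact h (hk ▸ pow_dvd_pow 2 e)
  have h1 : cs x ≤ #(commutator G) := card_isConj x ▸ Nat.card_le_card_of_injective
    (fun t => ⟨t.1 * x⁻¹, by
      obtain ⟨g, hg⟩ := isConj_iff.1 t.2
      exact hg ▸ commutator_mem_commutator (mem_top g) (mem_top x)⟩)
    fun a b e => Subtype.ext (mul_right_cancel (congrArg Subtype.val e))
  have h3 : (commutator G).index ≤ 4 := by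
    have a := cs_mul_card x
    have b := (commutator G).card_mul_index
    have c : 2 ^ k ≤ 2 ^ 2 := Nat.pow_le_pow_right two_pos k2
    have d := cs_pos x
    by_contra! e
    nlinarith
  obtain ⟨a, ha⟩ := H10.taussky h2 h3
  refine hr fun A _ hA => ?_
  have b1 : (zpowers a).relIndex A ≤ 2 :=
    (relIndex_le_of_le_right le_top (by simp [index_ne_zero_of_finite])).trans (by simpa using Nat.le_of_dvd two_pos ha)
  have b2 : #((zpowers a).subgroupOf A) ≤ 2 := by
    have : IsCyclic ((zpowers a).subgroupOf A) := by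
      rw [← inf_subgroupOf_right]
      have := isCyclic_of_le (inf_le_left (a := zpowers a) (b := A))
      exact isCyclic_of_surjective _ (subgroupOfEquivOfLe inf_le_right).symm.surjective
    rw [← IsCyclic.exponent_eq_card]
    exact Nat.le_of_dvd two_pos (Monoid.exponent_dvd_of_forall_pow_eq_one fun g =>
      Subtype.ext (Subtype.ext (hA _ g.1.2)))
  rw [← ((zpowers a).subgroupOf A).card_mul_index]
  exact Nat.mul_le_mul b2 b1

theorem eight (hr : ¬ Cfsg.PRankLE 2 2 G) {k : ℕ} (hx : orderOf x = 2 ^ k) : 8 ∣ #(𝐂 x) := by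
  simp only [Cfsg.PRankLE, not_forall] at hr
  obtain ⟨A, a1, a2, a3⟩ := hr
  have : IsPGroup 2 A := fun g => ⟨1, Subtype.ext (a2 _ g.2)⟩
  obtain ⟨P, hP⟩ := this.exists_le_sylow
  obtain ⟨g, hg⟩ := exists_conj_mem_sylow hx P
  have := eight' P.isPGroup' (fun h => a3 (by
    rw [← Nat.card_congr (subgroupOfEquivOfLe hP).toEquiv]
    exact h _ inferInstance fun a ha => Subtype.ext (a2 _ ha))) ⟨_, hg⟩
  rw [card_inf_cent] at this
  rw [H10.card_centralizer_of_isConj (y := g⁻¹ * x * g) (isConj_iff.2 ⟨g⁻¹, by simp⟩)]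
  exact this.trans (card_dvd_of_le inf_le_right)

end H3.KC
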