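/-
Simple groups with few conjugacy classes, IX: class numbers of the known groups.
-/
import Cfsg.Agent.H27.DG2
import Cfsg.Agent.H27.CN5
import Cfsg.Agent.H27.CN9
import Cfsg.Agent.H23.SzChar
import Cfsg.Agent.H24.ClassCount
import Cfsg.Agent.H13.SL2Cls
import Cfsg.Agent.H11.Congr
import Cfsg.Agent.S2384
import Cfsg.Agent.S2386
import Cfsg.Agent.S2578
import Cfsg.Agent.S2643

set_option autoImplicit false

namespace H3.KC
open Subgroup Equiv Equiv.Perm Matrix Cfsg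
open scoped MatrixGroups

local notation "𝐂" x:max => centralizer ({x} : Set _)
local notation "‖" H "‖" => Nat.card H
local notation "𝐤" G:max => Nat.card (ConjClasses G)

theorem parts7 (s : Multiset ℕ) (h1 : ∀ n ∈ s, 2 ≤ n) (h2 : s.sum ≤ 7) (h3 : Even (s.sum + s.card)) :
    s ∈ [0, {2, 2}, {3}, {3, 3}, {3, 2, 2}, {4, 2}, {5}, {7}] := by
  have := Multiset.card_nsmul_le_sum h1
  rw [smul_eq_mul] at this
  have : s.card = 0 ∨ s.card = 1 ∨ s.card = 2 ∨ s.card = 3 := by omega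
  rw [Multiset.card_eq_zero, Multiset.card_eq_one, Multiset.card_eq_two, Multiset.card_eq_three] at this
  rcases this with rfl | ⟨a, rfl⟩ | ⟨a, b, rfl⟩ | ⟨a, b, c, rfl⟩
  · simp
  all_goals simp only [Multiset.insert_eq_cons, Multiset.mem_cons, Multiset.mem_singleton, forall_eq_or_imp, forall_eq,
    Multiset.sum_cons, Multiset.sum_singleton] at h1 h2
  · interval_cases a <;> revert h3 <;> decide
  · have : a ≤ 5 ∧ b ≤ 5 := by omega
    obtain ⟨⟨_, _⟩, _, _⟩ := And.intro h1 this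
    interval_cases a <;> interval_cases b <;> revert h2 h3 <;> decide
  · have : a ≤ 3 ∧ b ≤ 3 ∧ c ≤ 3 := by omega
    obtain ⟨⟨_, _, _⟩, _, _, _⟩ := And.intro h1 this
    interval_cases a <;> interval_cases b <;> interval_cases c <;> revert h2 h3 <;> decide

/-- class representatives of `A₇` -/
def RA : Fin 9 → Perm (Fin 7) := ![1, c[0, 1] * c[2, 3], c[0, 1, 2], c[0, 1, 2] * c[3, 4, 5],
  c[0, 1, 2] * c[3, 4] * c[5, 6], c[0, 1, 2, 3] * c[4, 5], c[0, 1, 2, 3, 4], c[0, 1, 2, 3, 4, 5, 6],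
  c[1, 0, 2, 3, 4, 5, 6]]
/-- odd permutations -/
def SA : Fin 9 → Perm (Fin 7) := ![c[0, 1], c[0, 1], c[3, 4], c[0, 3] * c[1, 4] * c[2, 5], c[3, 4], c[4, 5], c[5, 6],
  c[0, 1], c[0, 1]]

theorem kA7 : 𝐤 (alternatingGroup (Fin 7)) ≤ 9 := by
  have k1 : ∀ i, sign (RA i) = 1 ∧ sign (SA i) = -1 ∧ ∃ j, RA j = SA i * RA i * (SA i)⁻¹ := by decide +kernel
  have k2 : ∀ s ∈ ([0, {2, 2}, {3}, {3, 3}, {3, 2, 2}, {4, 2}, {5}, {7}] : List (Multiset ℕ)),
    ∃ i, (RA i).cycleType = s := by decide +kernel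
  refine (Nat.card_le_card_of_surjective (fun i => ConjClasses.mk ⟨RA i, (k1 i).1⟩) fun c => ?_).trans (Nat.card_fin 9).le
  obtain ⟨g, rfl⟩ := c.exists_rep
  obtain ⟨i, e⟩ := k2 _ (parts7 _ (fun _ => two_le_of_mem_cycleType) g.1.sum_cycleType_le (by
    have := sign_of_cycleType g.1
    rwa [mem_alternatingGroup.1 g.2, eq_comm, neg_one_pow_eq_one_iff_even (by decide)] at this))
  obtain ⟨r, hr⟩ := isConj_iff.1 (isConj_iff_cycleType_eq.2 e)
  rcases Int.units_eq_one_or (sign r) with a | a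
  · exact ⟨i, ConjClasses.mk_eq_mk_iff_isConj.2 (isConj_iff.2 ⟨⟨r, a⟩, Subtype.ext hr⟩)⟩
  · obtain ⟨-, b, j, c⟩ := k1 i
    exact ⟨j, ConjClasses.mk_eq_mk_iff_isConj.2 (isConj_iff.2 ⟨⟨r * (SA i)⁻¹, by simp [a, b]⟩,
      Subtype.ext (by simp [c, ← hr, mul_assoc])⟩)⟩

theorem k33 : 12 ≤ 𝐤 SL(3, ZMod 3) := by
  let R : Fin 12 → Matrix (Fin 3) (Fin 3) (ZMod 3) := ![1, !![1, 1, 0; 0, 1, 0; 0, 0, 1], !![1, 0, 0; 0, 2, 0; 0, 0, 2],
    !![0, 0, 1; 1, 0, 0; 0, 1, 0], !![0, 0, 1; 1, 0, 0; 0, 1, 1], !![0, 0, 1; 1, 0, 0; 0, 1, 2],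
    !![0, 0, 1; 1, 0, 1; 0, 1, 0], !![0, 0, 1; 1, 0, 1; 0, 1, 1], !![0, 0, 1; 1, 0, 1; 0, 1, 2],
    !![0, 0, 1; 1, 0, 2; 0, 1, 0], !![0, 0, 1; 1, 0, 2; 0, 1, 1], !![0, 0, 1; 1, 0, 2; 0, 1, 2]]
  have d : ∀ i, (R i).det = 1 := fun i => by rw [det_fin_three]; revert i; decide +kernel
  let ρ : SL(3, ZMod 3) →* Matrix (Fin 3) (Fin 3) (ZMod 3) := Matrix.SpecialLinearGroup.coeMonoidHom
  have k : ∀ i j, (R i).trace = (R j).trace → (R i * R i).trace = (R j * R j).trace → (R i * R i = 1 ↔ R j * R j = 1) →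
      (R i * R i + 1 = R i + R i ↔ R j * R j + 1 = R j + R j) → i = j := by decide +kernel
  obtain ⟨g, hg⟩ : ∃ g : Fin 12 → SL(3, ZMod 3), ∀ i, ρ (g i) = R i := ⟨fun i => ⟨R i, d i⟩, fun _ => rfl⟩
  have inj : Function.Injective ρ := Subtype.val_injective
  refine (Nat.card_fin 12).ge.trans (Nat.card_le_card_of_injective (fun i => ConjClasses.mk (g i)) fun i j h => ?_)
  obtain ⟨c, hc⟩ := isConj_iff.1 (ConjClasses.mk_eq_mk_iff_isConj.1 h)
  refine k i j ?_ ?_ ?_ ?_ <;> rw [← hg i, ← hg j, ← hc]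
  · rw [map_mul, trace_mul_comm, ← map_mul, inv_mul_cancel_left]
  · rw [← map_mul, ← map_mul, conj_mul, map_mul _ (c * _), trace_mul_comm, ← map_mul, inv_mul_cancel_left]
  · rw [← map_mul, ← map_mul, ← map_one ρ, inj.eq_iff, inj.eq_iff, conj_mul, conj_eq_one_iff]
  · refine ⟨H27.DG.conj_inv ρ c _, fun e => ?_⟩
    simpa only [mul_assoc, inv_mul_cancel_left, inv_inv, inv_mul_cancel, mul_one] using H27.DG.conj_inv ρ c⁻¹ _ e

variable {G : Type*} [Group G] [Finite G]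

theorem k_le (G : Type*) [Group G] [Finite G] : 𝐤 G ≤ ‖center G‖ * 𝐤 (G ⧸ center G) :=
  (H27.CN.burnside' G).elim fun _ h => h.1 ▸ Nat.le_add_right _ _

/-- central multiples of classes of `p`-elements -/
theorem twist {p : ℕ} (hz : ‖center G‖.Coprime p) (P : G → Prop) (hP : ∀ u, P u → u ≠ 1 ∧ u ^ p ^ 2 = 1) :
    ‖{c : ConjClasses G // ∃ g, .mk g = c ∧ (orderOf g).Coprime p}‖ +
      ‖center G‖ * ‖{c : ConjClasses G // ∃ u, .mk u = c ∧ P u}‖ ≤ 𝐤 G := by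
  rw [← Nat.card_prod, ← Nat.card_sum]
  have cz : ∀ (z : center G) (u : G) n, (z * u : G) ^ n = z ^ n * u ^ n := fun z u n =>
    Commute.mul_pow (mem_center_iff.1 z.2 u).symm n
  have key : ∀ (g : G) (z : center G) (u : G), (orderOf g).Coprime p → P u → ¬ IsConj g (z * u) := fun g z u a b e => by
    have := e.pow (orderOf g * ‖center G‖)
    rw [pow_mul, pow_orderOf_eq_one, one_pow, isConj_one_right, cz, mul_comm (orderOf g), pow_mul, ← Subgroup.coe_pow,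
      pow_card_eq_one', Subgroup.coe_one, one_pow, one_mul] at this
    have := pow_gcd_eq_one.2 ⟨this, (hP u b).2⟩
    rw [((Nat.Coprime.mul_left hz a).pow_right 2).gcd_eq_one, pow_one] at this
    exact (hP u b).1 this
  refine Nat.card_le_card_of_injective (Sum.elim (·.1) fun x => .mk (x.1 * x.2.2.choose)) ?_
  rintro (a | ⟨z, a⟩) (b | ⟨w, b⟩) e
  · exact congrArg _ (Subtype.ext e)
  · obtain ⟨g, g1, g2⟩ := a.2
    exact (key g w _ g2 b.2.choose_spec.2 (ConjClasses.mk_eq_mk_iff_isConj.1 (g1.trans e))).elim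
  · obtain ⟨g, g1, g2⟩ := b.2
    exact (key g z _ g2 a.2.choose_spec.2 (ConjClasses.mk_eq_mk_iff_isConj.1 (g1.trans e.symm))).elim
  obtain ⟨g, hg⟩ := isConj_iff.1 (ConjClasses.mk_eq_mk_iff_isConj.1 e)
  obtain ⟨a1, a2⟩ := a.2.choose_spec
  obtain ⟨b1, b2⟩ := b.2.choose_spec
  generalize a.2.choose = u at *
  generalize b.2.choose = v at *
  change g * (z * u) * g⁻¹ = w * v at hg
  rw [← mul_assoc, mem_center_iff.1 z.2 g, mul_assoc, mul_assoc, ← mul_assoc g] at hg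
  obtain rfl : z = w := by
    have := congrArg (· ^ p ^ 2) hg
    simp only [cz, conj_pow, (hP u a2).2, (hP v b2).2, mul_one, mul_inv_cancel, ← Subgroup.coe_pow, Subtype.coe_inj] at this
    exact (hz.pow_right 2).pow_left_bijective.1 this
  rw [show a = b from Subtype.ext (a1.symm.trans (.trans
    (ConjClasses.mk_eq_mk_iff_isConj.2 (isConj_iff.2 ⟨g, mul_left_cancel hg⟩)) b1))]

variable {F : Type*} [Field F] [Fintype F]

omit [Finite G] [Fintype F] in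
theorem unip {p : ℕ} [hp : Fact p.Prime] [CharP F p] (ρ : G →* Matrix (Fin 3) (Fin 3) F) (h : Function.Injective ρ) {u : G}
    (e : (ρ u - 1) ^ 3 = 0) : u ^ p ^ 2 = 1 := h <| by
  rw [map_pow, map_one, ← sub_eq_zero, ← one_pow (p ^ 2), ← sub_pow_char_pow_of_commute _ _ (Commute.one_right _)]
  exact pow_eq_zero_of_le (by nlinarith [hp.out.two_le]) e

theorem k_psl2 (F : Type*) [Field F] [Fintype F] : Even (Fintype.card F) ∧ 𝐤 PSL(2, F) = Fintype.card F + 1 ∨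
    Odd (Fintype.card F) ∧ 2 * 𝐤 PSL(2, F) = Fintype.card F + 5 := by
  classical
  have a := k_le SL(2, F)
  have b := (H27.CN.psl_bound F 0).2
  obtain ⟨S, c, d⟩ := H27.CN.burnside' SL(2, F)
  have := Fintype.one_lt_card (α := F)
  rw [H11.card_center_sl, H13.GL2.card_conjClasses_SL, Fintype.card_fin] at a c
  rw [H11.card_center_sl, Fintype.card_fin] at d
  refine (Nat.even_or_odd _).imp (fun e => ⟨e, ?_⟩) fun e => ⟨e, ?_⟩
  · rw [(Nat.coprime_two_left.2 (Nat.Even.sub_odd this.le e odd_one)).gcd_eq_one] at c d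
    have := d (2 * 𝐤 SL(2, F)) fun z _ => Nat.mul_le_mul_left 2 (H27.CN.card_sub_le _)
    change 1 * 𝐤 PSL(2, F) = _ at c
    omega
  · change Nat.gcd 2 _ * 𝐤 PSL(2, F) ≤ _ at b
    rw [Nat.gcd_eq_left (Nat.Odd.sub_odd e odd_one).two_dvd] at a b
    change _ ≤ 2 * 𝐤 PSL(2, F) at a
    obtain ⟨r, e⟩ := e
    simp only [zero_add, pow_one, pow_zero] at b
    omega

theorem k34 (h : Fintype.card F = 4) : 𝐤 PSL(3, F) = 10 := by
  have : CharP F 2 := charP_of_card_eq_prime_pow (p := 2) (f := 2) h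
  have hz := H11.card_center_sl (ι := Fin 3) (F := F)
  rw [h, Fintype.card_fin, show Nat.gcd 3 (4 - 1) = 3 from rfl] at hz
  obtain ⟨S, a, b⟩ := H27.CN.burnside' SL(3, F)
  obtain ⟨ζ, hc⟩ := H27.CN.ctx_gl (F := F) (K := AlgebraicClosure F) (p := 2)
  have b := b 2 fun z e => (H27.CN.psl_fix (p := 2) (n := 1) hc e).elim fun m ⟨c, c1, c2, c3⟩ => by
    obtain rfl : m = 0 := by omega
    exact Nat.mul_le_mul_left 2 (c3.trans (hc.bb_one c1))
  have c := (H27.CN.sl_bound F 2).2 le_rfl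
  let ρ : SL(3, F) →* Matrix (Fin 3) (Fin 3) F := Matrix.SpecialLinearGroup.coeMonoidHom
  let t : SL(3, F) := ⟨1 + vecMulVec ![1, 0, 0] ![0, 1, 0], by simp [det_fin_three, vecMulVec]⟩
  have t1 : ρ t - 1 = vecMulVec ![1, 0, 0] ![0, 1, 0] := add_sub_cancel_left _ _
  have d := twist (p := 2) (by rw [hz]; decide) (fun u => (ρ u - 1) ^ 3 = 0 ∧ u ≠ 1)
    fun u e => ⟨e.2, unip ρ Subtype.val_injective e.1⟩
  have e := Cfsg.Agent.S2578.result h (n := 3) (by decide)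
  have f : ‖{c : ConjClasses SL(3, F) // ∃ u, .mk u = c ∧ (ρ u - 1) ^ 3 = 0 ∧ (ρ u - 1).rank = 3 - 1}‖ <
      ‖{c : ConjClasses SL(3, F) // ∃ u, .mk u = c ∧ (ρ u - 1) ^ 3 = 0 ∧ u ≠ 1}‖ := by
    refine Set.ncard_lt_ncard (s := {c | _}) (t := {c | _}) ((Set.ssubset_iff_of_subset ?_).2 ⟨.mk t, ⟨t, rfl, ?_, ?_⟩, ?_⟩)
    · rintro _ ⟨u, rfl, u1, u2⟩
      exact ⟨u, rfl, u1, by rintro rfl; simp at u2⟩
    · rw [t1, pow_succ, sq, vecMulVec_mul_vecMulVec]; simp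
    · intro e
      rw [e, map_one, sub_self] at t1
      simpa [vecMulVec] using congrFun (congrFun t1 0) 1
    · rintro ⟨u, u1, -, u2⟩
      obtain ⟨g, rfl⟩ := isConj_iff.1 (ConjClasses.mk_eq_mk_iff_isConj.1 u1.symm)
      have : ρ (g * t * g⁻¹) - 1 = ρ g * (ρ t - 1) * ρ g⁻¹ := by
        rw [mul_sub, sub_mul, mul_one, ← map_mul, ← map_mul, ← map_mul, mul_inv_cancel, map_one]
      have := (this ▸ (rank_mul_le_left _ _).trans (rank_mul_le_right _ _)).trans (t1 ▸ rank_vecMulVec_le _ _)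
      omega
  rw [Cfsg.Agent.S2384.result h 2 3 (by decide), hz] at d
  rw [hz] at a b
  rw [h] at c
  change 3 * 𝐤 PSL(3, F) = _ at a
  change ‖{c : ConjClasses SL(3, F) // ∃ u, .mk u = c ∧ (ρ u - 1) ^ 3 = 0 ∧ (ρ u - 1).rank = 3 - 1}‖ = 3 at e
  change 𝐤 SL(3, F) ≤ 28 at c
  omega

theorem k_psl3 (h : 3 ≤ Fintype.card F) : Fintype.card F = 4 ∨ 12 ≤ 𝐤 PSL(3, F) := by
  refine or_iff_not_imp_left.2 fun h4 => ?_
  rcases h.eq_or_lt with h | h
  · rw [H27.CN.card_cc (H11.pslCongr (Equiv.refl _) (FiniteField.ringEquivOfCardEq (h.symm.trans (ZMod.card 3).symm)))]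
    have := k33.trans (k_le _)
    rwa [H11.card_center_sl, ZMod.card, Fintype.card_fin, show Nat.gcd 3 (3 - 1) = 1 from rfl, one_mul] at this
  have b := (H27.CN.psl_bound F 1).1
  change _ ^ 2 ≤ Nat.gcd 3 _ * 𝐤 PSL(3, F) at b
  generalize Fintype.card F = q at *
  rcases (show q = 5 ∨ 6 ≤ q by omega) with rfl | h
  · norm_num at b; omega
  · have := b.trans (Nat.mul_le_mul_right _ (Nat.gcd_le_left _ three_pos))
    nlinarith

theorem k_psu3 {q : ℕ} (hF : Fintype.card F = q ^ 2) (h : 3 ≤ q) : 12 ≤ 𝐤 (PSU 3 F q) := by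
  have a := k_le (SU 3 F q)
  have b := (H27.CN.su_bound F hF 1).1
  have hz := H11.card_center_SU hF (n := 3) (by decide)
  change q ^ 2 ≤ 𝐤 (SU 3 F q) at b
  change _ ≤ _ * 𝐤 (PSU 3 F q) at a
  rcases (show q = 3 ∨ q = 4 ∨ q = 5 ∨ 6 ≤ q by omega) with rfl | rfl | rfl | h
  · rw [H27.CN.card_cc (H11.suCongr 3 3 (FiniteField.ringEquivOfCardEq (hF.trans H27.DG.F9.card.symm))), hz] at a
    have : 14 ≤ 𝐤 (SU 3 H27.DG.F9 3) := H27.DG.F9.cls
    norm_num at a; omega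
  · rw [hz] at a; norm_num at a; omega
  · have := Fact.mk Nat.prime_five
    have : CharP F 5 := charP_of_card_eq_prime_pow hF
    let ρ : SU 3 F 5 →* Matrix (Fin 3) (Fin 3) F := Matrix.SpecialLinearGroup.coeMonoidHom.comp (SU 3 F 5).subtype
    have d := twist (p := 5) (by rw [hz]; decide) (fun u => (ρ u - 1) ^ 3 = 0 ∧ (ρ u - 1).rank = 3 - 1)
      fun u e => ⟨by rintro rfl; simp at e, unip ρ (Subtype.val_injective.comp Subtype.val_injective) e.1⟩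
    have e := Cfsg.Agent.S2643.result hF (n := 3) (by decide)
    change ‖{c : ConjClasses (SU 3 F 5) // ∃ u, .mk u = c ∧ (ρ u - 1) ^ 3 = 0 ∧ (ρ u - 1).rank = 3 - 1}‖ = 3 at e
    rw [Cfsg.Agent.S2386.result hF 5 3 (by decide), e, hz] at d
    rw [hz] at a
    norm_num at a d; omega
  · have := (b.trans a).trans (Nat.mul_le_mul_right _ (hz.trans_le (Nat.gcd_le_left _ three_pos)))
    nlinarith

open H23 H23.Sz in
theorem k_sz' [Tits F] [Big F] (G : Type*) [Group G] [Model F G] {s : ℕ} (hq : ‖F‖ = 2 * s ^ 2) : 𝐤 G = ‖F‖ + 3 := by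
  classical
  have := finite_G F G
  have := Fintype.ofFinite G
  obtain ⟨u, v, hu, hv, h1, h2, h3, h4⟩ := tori' F G (r := 2 * s) (by rw [hq]; ring)
  have cc : ∀ x g : G, ‖𝐂 g‖ = ‖𝐂 (x⁻¹ * g * x)‖ := fun x g => by rw [cent_eq_smul x g, card_smul]
  have q8 := eight_le_q (F := F)
  have s2 : 2 ≤ s := by nlinarith
  have e1 : ((‖F‖ - 1 : ℕ) : ℂ) = 2 * s ^ 2 - 1 := by rw [Nat.cast_sub (by omega), hq]; push_cast; rfl
  have := sum_types hq hu hv h1 h2 h3 h4 (fun g => (‖𝐂 g‖ : ℂ)) (b := (2 * s ^ 2) ^ 2) (c := 2 * (2 * s ^ 2))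
    (d := 2 * s ^ 2 - 1) (e₁ := 2 * s ^ 2 + 2 * s + 1) (e₂ := 2 * s ^ 2 - 2 * s + 1) rfl (fun g a b _ => ?_)
    (fun g a b => ?_) (fun g a => ?_) (fun g a => ?_) fun g a => ?_
  · have k : (‖G‖ : ℂ) = (2 * s ^ 2) ^ 2 * (2 * s ^ 2 - 1) * ((2 * s ^ 2) ^ 2 + 1) := by
      rw [card_G F G, Nat.cast_mul, Nat.cast_mul, e1, hq]; push_cast; rfl
    rw [← Nat.cast_sum, ← H24.card_classes_mul_card', Nat.cast_mul, centralizer_eq_top_iff_subset.2 (by simp),
      card_top] at this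
    refine Nat.cast_injective (R := ℂ) (mul_right_cancel₀ (Nat.cast_ne_zero.2 (Nat.card_pos (α := G)).ne') ?_)
    rw [this, k, hq]; push_cast; ring
  · obtain ⟨x, hx⟩ := exists_conj_mem_Z (F := F) b
    rw [cc x, centralizer_Z hx (conj_ne_one a), card_Q, hq]; push_cast; rfl
  · obtain ⟨-, x, hx⟩ := mem_tiCls.1 a
    obtain ⟨c, d, e⟩ := mem_Q.1 hx
    have c0 : c ≠ 0 := fun f => b (by
      have := (sq_eq_one_of_mem_Q hx).2 (e ▸ T_mem_Z_iff.2 f)
      simpa [mul_assoc, inv_mul_eq_one] using congrArg (x * · * x⁻¹) this)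
    have : (𝐂 (T c d : G) : Set G) = (fun y : F × F => (T y.1 y.2 : G)) '' ({0, c} ×ˢ Set.univ) := by
      ext y
      refine ⟨fun f => ?_, ?_⟩
      · obtain ⟨a, b, rfl⟩ := mem_Q.1 (centralizer_le_Q (T_mem_Q c d) (fun k => c0 (T_mem_Z_iff.1 (k ▸ one_mem _))) f)
        exact ⟨(a, b), by simpa [c0] using T_commute.1 (mem_centralizer_singleton_iff.1 f), rfl⟩
      · rintro ⟨⟨a, b⟩, f, rfl⟩
        exact mem_centralizer_singleton_iff.2 (T_commute.2 (by simpa [c0] using f))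
    rw [cc x, e, ← SetLike.coe_sort_coe, Nat.card_coe_set_eq, this, Set.ncard_image_of_injective _ fun y z e =>
      Prod.ext (T_inj.1 e).1 (T_inj.1 e).2, Set.ncard_prod, Set.ncard_pair c0.symm, Set.ncard_univ, hq]
    push_cast; rfl
  · obtain ⟨b, x, hx⟩ := mem_tiCls.1 a
    obtain ⟨k, e⟩ := mem_H.1 hx
    rw [cc x, e, centralizer_M fun f => conj_ne_one b (by rw [e, f]; simp), card_H, e1]
  · rw [hu.card_eq_of_mem a, h3, hq]; push_cast; rfl
  · rw [hv.card_eq_of_mem a, h4, Nat.cast_add, Nat.cast_sub (by nlinarith), hq]; push_cast; rfl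

open H23.Sz in
theorem k_sz {m : ℕ} (hm : 1 ≤ m) (hF : Fintype.card F = 2 ^ (2 * m + 1)) :
    𝐤 (Lie.Sz F (2 ^ (m + 1))) = Fintype.card F + 3 := by
  let _ := titsOfCard hF
  have := big_of_card_eq hm hF
  let _ := lieModel hF
  rw [k_sz' (F := F) _ (s := 2 ^ m) (by rw [Nat.card_eq_fintype_card, hF]; ring), Nat.card_eq_fintype_card]

end H3.KC
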