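import Cfsg.Agent.H3.KL3

/-! Class numbers of sections IV: solvable complex linear groups modulo the Fitting subgroup. -/

set_option autoImplicit false
set_option linter.unusedSectionVars false

open Subgroup H6.BS Cfsg Polynomial
open scoped commutatorElement IsMulCommutative

namespace H3.KL

universe u v

section Quasi
variable {G : Type u} [Group G]

theorem cm_right {g x y : G} (h : (x : G ⧸ center G) = y) : ⁅g, x⁆ = ⁅g, y⁆ := by
  have := mem_center_iff.1 (QuotientGroup.eq.1 h)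
  rw [← mul_inv_cancel_left x y]
  generalize x⁻¹ * y = z at this
  simp only [commutatorElement_def, mul_inv_rev, ← mul_assoc]
  rw [mul_assoc _ z, ← this, ← mul_assoc, mul_inv_cancel_right]

theorem cm_left {g x y : G} (h : (x : G ⧸ center G) = y) : ⁅x, g⁆ = ⁅y, g⁆ := by
  rw [← commutatorElement_inv, cm_right h, commutatorElement_inv]

theorem cm_mul_right {g x y : G} (h : ⁅g, y⁆ ∈ center G) : ⁅g, x * y⁆ = ⁅g, x⁆ * ⁅g, y⁆ := by
  have := mem_center_iff.1 h x
  calc ⁅g, x * y⁆ = ⁅g, x⁆ * (x * ⁅g, y⁆) * x⁻¹ := by simp only [commutatorElement_def]; group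
    _ = _ := by rw [this]; group

theorem cm_mul_left {g x y : G} (h : ⁅y, g⁆ ∈ center G) : ⁅x * y, g⁆ = ⁅x, g⁆ * ⁅y, g⁆ := by
  have := mem_center_iff.1 h
  calc ⁅x * y, g⁆ = (x * ⁅y, g⁆) * x⁻¹ * ⁅x, g⁆ := by simp only [commutatorElement_def]; group
    _ = _ := by rw [this x, mul_inv_cancel_right, this]

theorem cm_mem {x y : G} : ⁅x, y⁆ ∈ center G ↔ (x : G ⧸ center G) * y = y * x := by
  rw [← QuotientGroup.eq_one_iff, ← commutatorElement_eq_one_iff_mul_comm]; rfl

theorem quasi [Finite G] [Group.IsSolvable G] [IsCyclic (center G)]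
    (hA : ∀ A : Subgroup G, A.Normal → (∀ a ∈ A, ∀ b ∈ A, a * b = b * a) → A ≤ center G) :
    ∃ (e : ℕ) (W : Type u) (_ : Finite W) (s : W → G), kq (fittingSubgroup G) (3 ^ (e - 1)) ∧
      Nat.card W = e ^ 2 ∧
      ∀ a b, a ≠ b → ∃ y, ⁅(s a)⁻¹ * s b, y⁆ ∈ center G ∧ ⁅(s a)⁻¹ * s b, y⁆ ≠ 1 := by
  obtain ⟨W, _, _, -, hcr, hW⟩ := exists_socle (⊤ : Subgroup (G ⧸ center G))
  let π := QuotientGroup.mk' (center G)
  have hπ : Function.Surjective π := QuotientGroup.mk'_surjective _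
  let E := W.comap π
  let s : Ad W → G := fun w => w.val.out
  have hs : ∀ w, (s w : G ⧸ center G) = w.val := fun w => QuotientGroup.out_eq' _
  have hsE : ∀ w, s w ∈ E := fun w => by
    change (s w : G ⧸ center G) ∈ W
    rw [hs]; exact w.val_mem
  have hE : ∀ x ∈ E, ∀ y ∈ E, ⁅x, y⁆ ∈ center G := fun x hx y hy =>
    cm_mem.2 (setLike_mul_comm (s := W) hx hy)
  have hC : ∀ g, (∀ w, ⁅g, s w⁆ = 1) → g ∈ center G := by
    have h1 : (centralizer (E : Set G)).map π = ⊥ := by
      by_contra h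
      refine hW _ (Normal.map inferInstance π hπ) le_top h (eq_bot_iff.2 ?_)
      rintro _ ⟨⟨x, hx, rfl⟩, hx'⟩
      exact (QuotientGroup.eq_one_iff x).2 (hA (E ⊓ centralizer (E : Set G)) inferInstance
        (fun a ha b hb => hb.2 a ha.1) ⟨hx', hx⟩)
    intro g hg
    refine (QuotientGroup.eq_one_iff g).1 (h1.le ⟨g, fun x hx => ?_, rfl⟩)
    refine (commutatorElement_eq_one_iff_mul_comm.1 ?_).symm
    rw [cm_right (hs (Ad.mk _ hx)).symm, hg]
  have hadd : ∀ a b, (s (a + b) : G ⧸ center G) = (s a * s b : G) := fun a b => by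
    rw [QuotientGroup.mk_mul, hs, hs, hs]; rfl
  let β : Ad W → Ad W → center G := fun a b => ⟨⁅s a, s b⁆, hE _ (hsE a) _ (hsE b)⟩
  have hβ : Form β := by
    refine ⟨⟨fun a b c => Subtype.ext ?_, fun a b c => Subtype.ext ?_, fun a => Subtype.ext ?_⟩,
      fun a ha => Ad.ext ?_⟩
    · exact (cm_left (hadd a b)).trans (cm_mul_left (β b c).2)
    · exact (cm_right (hadd b c)).trans (cm_mul_right (β a c).2)
    · exact commutatorElement_self _
    · rw [← hs]
      exact (QuotientGroup.eq_one_iff _).2 (hC _ fun w => congrArg Subtype.val (ha w))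
  obtain ⟨e, he⟩ := hβ.card_sq
  refine ⟨e, Ad W, inferInstance, s, ((kw hcr he).comap π).mono (fun g hg => ?_) le_rfl, he,
    fun a b hab => ?_⟩
  · refine H1.le_fitting (N := E) inferInstance (H1.isNilpotent_of_commutator_le_centralizer
      (commutator_le.2 fun x hx y hy => center_le_centralizer _ (hE x hx y hy))) ?_
    have h1 : ∀ w, ⁅g, s w⁆ ∈ center G := fun w => cm_mem.2 (by
      rw [hs, ← mul_inv_eq_iff_eq_mul]
      exact congrArg Ad.val (mem_ker.1 hg w))
    obtain ⟨w, hw⟩ := hβ.hom_eq (fun w => ⟨_, h1 w⟩) fun a b =>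
      Subtype.ext ((cm_right (hadd a b)).trans (cm_mul_right (h1 b)))
    have h2 := hC ((s w)⁻¹ * g) fun y => by
      have h3 : ⁅g, s y⁆ = ⁅s w, s y⁆ := congrArg Subtype.val (hw y)
      rw [cm_mul_left (h1 y), h3, ← cm_mul_left (β w y).2]; simp
    rw [← mul_inv_cancel_left (s w) g]
    refine mul_mem (hsE w) ?_
    change π _ ∈ W
    rw [show π _ = 1 from (QuotientGroup.eq_one_iff _).2 h2]; exact one_mem _
  · by_contra h
    push Not at h
    have := hC _ fun w => h _ (hE _ (mul_mem (inv_mem (hsE a)) (hsE b)) _ (hsE w))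
    exact hab (Ad.ext (by rw [← hs, ← hs]; exact QuotientGroup.eq.2 this))

end Quasi

variable {G : Type u} [Group G] [Finite G] {V : Type v} [AddCommGroup V] [Module ℂ V]
  [FiniteDimensional ℂ V] (ρ : G →* Module.End ℂ V)

theorem rho_inv (g : G) (v : V) : ρ g⁻¹ (ρ g v) = v := by
  rw [← Module.End.mul_apply, ← map_mul, inv_mul_cancel, map_one]; rfl

theorem gen_eq (g : G) (μ : ℂ) : (ρ g).maxGenEigenspace μ = (ρ g).eigenspace μ := by
  refine (Module.End.isSemisimple_of_squarefree_aeval_eq_zero (p := X ^ Nat.card G - C 1)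
    (separable_X_pow_sub_C 1 (by simp [Nat.card_pos.ne']) one_ne_zero).squarefree
    ?_).isFinitelySemisimple.maxGenEigenspace_eq_eigenspace μ
  rw [map_sub, aeval_X_pow, ← map_pow, pow_card_eq_one', map_one, aeval_C, map_one, sub_self]

def wt (A : Subgroup G) (χ : A → ℂ) : Submodule ℂ V := ⨅ a : A, (ρ a).maxGenEigenspace (χ a)

theorem mem_wt {A : Subgroup G} {χ : A → ℂ} {v : V} :
    v ∈ wt ρ A χ ↔ ∀ a : A, ρ a v = χ a • v := by
  simp only [wt, gen_eq, Submodule.mem_iInf, Module.End.mem_eigenspace_iff]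

theorem scalar_case [Nontrivial V] [Group.IsSolvable G] (hρ : Function.Injective ρ)
    (h : ∀ A : Subgroup G, A.Normal → (∀ a ∈ A, ∀ b ∈ A, a * b = b * a) → ∀ a ∈ A,
      ∃ c : ℂ, ρ a = algebraMap ℂ _ c) :
    kq (fittingSubgroup G) (3 ^ (Module.finrank ℂ V - 1)) := by
  classical
  have hi : Function.Injective (algebraMap ℂ (Module.End ℂ V)) := (algebraMap ℂ _).injective
  choose c hc using fun z : center G =>
    h _ inferInstance (fun a _ b hb => mem_center_iff.1 hb a) z z.2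
  have : IsCyclic (center G) := isCyclic_of_injective_ringHom (R := ℂ)
    ⟨⟨c, hi (by rw [← hc]; simp)⟩, fun a b => hi (by rw [map_mul, ← hc, ← hc, ← hc]; simp)⟩
    fun a b e => Subtype.ext (hρ (by rw [hc, hc]; exact congrArg _ e))
  obtain ⟨e, W, _, s, h1, h2, h3⟩ := quasi (G := G) fun A hA hc a ha => mem_center_iff.2 fun g => by
    obtain ⟨c, e⟩ := h A hA hc a ha
    exact hρ (by rw [map_mul, map_mul, e, Algebra.commutes])
  refine h1.mono le_rfl (Nat.pow_le_pow_right (by norm_num) (Nat.sub_le_sub_right ?_ 1))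
  have := Fintype.ofFinite W
  have h4 : ∀ a b, a ≠ b → LinearMap.trace ℂ V (ρ ((s a)⁻¹ * s b)) = 0 := fun a b hab => by
    obtain ⟨y, h4, h5⟩ := h3 a b hab
    generalize (s a)⁻¹ * s b = x at *
    have h6 : x = ⁅x, y⁆ * (y * (x * y⁻¹)) := by simp [commutatorElement_def, mul_assoc]
    have h7 := congrArg (fun g => LinearMap.trace ℂ V (ρ g)) h6
    simp only [map_mul ρ ⁅x, y⁆] at h7
    rw [hc ⟨_, h4⟩, ← Algebra.smul_def, map_smul, map_mul ρ y, LinearMap.trace_mul_comm, ← map_mul,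
      inv_mul_cancel_right, smul_eq_mul] at h7
    by_contra h8
    exact h5 (hρ (by rw [hc ⟨_, h4⟩, (mul_left_eq_self₀.1 h7.symm).resolve_right h8]; simp))
  have h5 : LinearIndependent ℂ fun w => ρ (s w) := by
    refine Fintype.linearIndependent_iff.2 fun t ht a => ?_
    have h6 := congrArg (fun f => LinearMap.trace ℂ V (ρ (s a)⁻¹ * f)) ht
    simp only [Finset.mul_sum, mul_smul_comm, ← map_mul, map_sum, map_smul, mul_zero,
      map_zero] at h6
    rw [Finset.sum_eq_single a (fun b _ hb => by rw [h4 a b hb.symm, smul_zero]) (by simp)] at h6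
    simpa [Module.finrank_pos.ne'] using h6
  have h6 := h5.fintype_card_le_finrank
  rw [Module.finrank_linearMap, ← Nat.card_eq_fintype_card, h2, ← pow_two] at h6
  exact (Nat.pow_le_pow_iff_left (by norm_num)).1 h6

def res {K : Subgroup G} {U : Submodule ℂ V} (h : ∀ g ∈ K, ∀ v ∈ U, ρ g v ∈ U) :
    K →* Module.End ℂ U where
  toFun g := (ρ g).restrict (h g g.2)
  map_one' := by ext; simp
  map_mul' a b := by ext; simp

theorem lin_aux (n : ℕ) : ∀ (G : Type u) [Group G] [Finite G] [Group.IsSolvable G] (V : Type v)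
    [AddCommGroup V] [Module ℂ V] [FiniteDimensional ℂ V] [Nontrivial V]
    (ρ : G →* Module.End ℂ V), Function.Injective ρ → Module.finrank ℂ V = n →
    kq (fittingSubgroup G) (3 ^ (n - 1)) := by
  classical
  induction n using Nat.strong_induction_on with
  | _ n ih =>
  intro G _ _ _ V _ _ _ _ ρ hρ hn
  by_contra hh
  obtain ⟨A, hA, hc, a, ha, h⟩ : ∃ A : Subgroup G, A.Normal ∧ (∀ a ∈ A, ∀ b ∈ A, a * b = b * a) ∧
      ∃ a ∈ A, ∀ c : ℂ, ρ a ≠ algebraMap ℂ _ c := by
    by_contra h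
    push Not at h
    exact hh (hn ▸ scalar_case ρ hρ h)
  refine hh ?_
  have hm : ∀ (i j : A) μ, Set.MapsTo (ρ i) ((ρ j).maxGenEigenspace μ) ((ρ j).maxGenEigenspace μ) :=
    fun i j μ => Module.End.mapsTo_maxGenEigenspace_of_comm (by
      rw [Commute, SemiconjBy, ← map_mul, ← map_mul, hc _ i.2 _ j.2]) μ
  have h1 : iSupIndep (wt ρ A) := Module.End.independent_iInf_maxGenEigenspace_of_forall_mapsTo _ hm
  have h2 : iSup (wt ρ A) = ⊤ := Module.End.iSup_iInf_maxGenEigenspace_eq_top_of_forall_mapsTo _ hm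
    fun i => Module.End.iSup_maxGenEigenspace_eq_top _
  have h3 : ∀ g χ, ∀ v ∈ wt ρ A χ, ρ g v ∈ wt ρ A (χ ∘ MulAut.conjNormal g⁻¹) := fun g χ v hv => by
    rw [mem_wt] at hv ⊢
    intro a
    rw [Function.comp_apply, ← map_smul, ← hv, ← Module.End.mul_apply, ← Module.End.mul_apply,
      ← map_mul, ← map_mul]
    simp [mul_assoc]
  let Ω := {χ // wt ρ A χ ≠ ⊥}
  have : Finite Ω := Submodule.finite_ne_bot_of_iSupIndep h1
  have := Fintype.ofFinite Ω
  let _ : MulAction G Ω :=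
    { smul := fun g χ => ⟨χ.1 ∘ MulAut.conjNormal g⁻¹, fun e => χ.2 (eq_bot_iff.2 fun v hv => by
        have := h3 g _ v hv
        rw [e, Submodule.mem_bot] at this
        rw [Submodule.mem_bot, ← rho_inv ρ g v, this, map_zero])⟩
      one_smul := fun χ => Subtype.ext (by
        change χ.1 ∘ MulAut.conjNormal 1⁻¹ = _
        simp)
      mul_smul := fun a b χ => Subtype.ext (by
        change χ.1 ∘ MulAut.conjNormal _ = (χ.1 ∘ MulAut.conjNormal _) ∘ MulAut.conjNormal _
        rw [mul_inv_rev, map_mul]; rfl) }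
  have h4 : ⨆ χ : Ω, wt ρ A χ.1 = ⊤ := (iSup_ne_bot_subtype _).trans h2
  have : Nonempty Ω := by
    by_contra e
    rw [not_nonempty_iff] at e
    rw [iSup_of_empty] at h4
    exact bot_ne_top h4
  let K := (MulAction.toPermHom G Ω).ker
  have h5 : ∀ χ : Ω, ∀ g ∈ K, ∀ v ∈ wt ρ A χ.1, ρ g v ∈ wt ρ A χ.1 := fun χ g hg v hv => by
    have e : (g • χ).1 = χ.1 := congrArg Subtype.val (DFunLike.congr_fun (MonoidHom.mem_ker.1 hg) χ)
    exact e ▸ h3 g _ v hv
  let r := fun χ : Ω => res ρ (h5 χ)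
  let M := fun χ : Ω => (fittingSubgroup (K ⧸ (r χ).ker)).comap (QuotientGroup.mk' _)
  have h6 : ∀ χ : Ω, kq (M χ) (3 ^ (Module.finrank ℂ (wt ρ A χ.1) - 1)) := fun χ => by
    have := Submodule.nontrivial_iff_ne_bot.2 χ.2
    refine (ih _ (hn ▸ Submodule.finrank_lt fun e => h (χ.1 ⟨a, ha⟩) (LinearMap.ext fun v =>
      (mem_wt ρ).1 (e ▸ Submodule.mem_top) ⟨a, ha⟩)) _ _
      (QuotientGroup.lift _ (r χ) le_rfl) ((injective_iff_map_eq_one _).2 fun x hx => ?_) rfl).comap _
    obtain ⟨x, rfl⟩ := QuotientGroup.mk_surjective x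
    exact (QuotientGroup.eq_one_iff x).2 hx
  have h7 : ⨅ χ, M χ ≤ (fittingSubgroup G).subgroupOf K := by
    rw [← H1.fitting_eq_subgroupOf_of_subnormal (Normal.isSubnormal inferInstance)]
    refine H1.le_fitting (normal_iInf_normal fun _ => inferInstance) ?_
    have := fun χ : Ω => H1.fitting_isNilpotent (G := K ⧸ (r χ).ker)
    let f : ↥(⨅ χ, M χ) →* ∀ χ : Ω, fittingSubgroup (K ⧸ (r χ).ker) := MonoidHom.pi fun χ =>
      ((QuotientGroup.mk' _).comp (Subgroup.subtype _)).codRestrict _ fun x => mem_iInf.1 x.2 χ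
    refine Group.nilpotent_of_mulEquiv (MonoidHom.ofInjective (f := f)
      ((injective_iff_map_eq_one _).2 fun x hx => ?_)).symm
    refine Subtype.ext (Subtype.ext (hρ (LinearMap.ext fun v => ?_)))
    have h8 : LinearMap.ker (ρ x - 1) = ⊤ := eq_top_iff.2 (h4 ▸ iSup_le fun χ w hw => by
      have e : r χ x = 1 := (QuotientGroup.eq_one_iff x.1).1 (congrArg Subtype.val (congrFun hx χ))
      exact sub_eq_zero.2 (congrArg Subtype.val (LinearMap.congr_fun e ⟨w, hw⟩)))
    simpa [sub_eq_zero] using h8.ge (Submodule.mem_top (x := v))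
  refine ((kq_act Ω).ext (kq_fin Finset.univ M (fun _ => inferInstance) _ (fun χ _ => h6 χ)
    fun x hx => h7 (mem_iInf.2 fun χ => hx χ (Finset.mem_univ _)))).mono inf_le_right ?_
  rw [Finset.prod_pow_eq_pow_sum, ← pow_add]
  refine Nat.pow_le_pow_right (by norm_num) ?_
  have h8 := sum_pred_le Finset.univ (fun χ : Ω => Module.finrank ℂ (wt ρ A χ.1)) fun χ _ =>
    have := Submodule.nontrivial_iff_ne_bot.2 χ.2
    Module.finrank_pos
  have h9 := (LinearEquiv.ofBijective (DirectSum.coeLinearMap fun χ : Ω => wt ρ A χ.1)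
    (DirectSum.isInternal_submodule_of_iSupIndep_of_iSup_eq_top
      (h1.comp Subtype.val_injective) h4)).finrank_eq
  rw [Module.finrank_directSum] at h9
  have : 0 < Nat.card Ω := Nat.card_pos
  rw [Finset.card_univ, ← Nat.card_eq_fintype_card] at h8
  omega

end H3.KL
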