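import Cfsg.Agent.H3.KL4
import Cfsg.Agent.S4958

/-! Class numbers of sections V: solvable groups with trivial `p'`-core. -/

set_option autoImplicit false
set_option linter.unusedSectionVars false

open Subgroup H6.BS Cfsg

namespace H3.KL

universe u

variable {X : Type u} [Group X] [Finite X] [Group.IsSolvable X] {p : ℕ} [hp : Fact p.Prime]
  {V : Subgroup X} [V.Normal] [IsMulCommutative V]

theorem toImg_eq_one (hc : centralizer (V : Set X) ≤ V) {g : X} :
    toImg X (Ad V) g = 1 ↔ g ∈ V := by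
  refine ⟨fun h => hc fun x hx => ?_, fun h => eq_one_of_triv (V := Ad V) fun x => Ad.ext ?_⟩
  · have := congrArg Ad.val (toImg_smul g (Ad.mk x hx))
    rw [h, one_smul, Ad.val_smul, Ad.val_mk] at this
    exact eq_mul_inv_iff_mul_eq.1 this
  · rw [toImg_smul, Ad.val_smul, setLike_mul_comm (s := V) h x.val_mem, mul_inv_cancel_right]

theorem prim_case (h0 : V ≠ ⊥) (hV : ∀ v ∈ V, v ^ p = 1) (hi : ¬ p ∣ V.index)
    (hc : centralizer (V : Set X) ≤ V) {s : ℕ} (hs : Nat.card V = p ^ s)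
    (h1 : Irr (Img X (Ad V)) (Ad V)) (h2 : ¬ ∃ ε : Module.End ℤ (Ad V), Sys (Img X (Ad V)) ε) :
    k X * 3 ≤ (3 * p) ^ s := by
  have : Nontrivial (Ad V) := (nontrivial_iff_ne_bot V).2 h0
  have := img_solvable (G := X) (V := Ad V)
  obtain ⟨K, W, _, _, _, _, _, _, U, A, E, sc, σ, π, h⟩ := exists_prim h1 h2
  obtain ⟨q, hq, h3⟩ := h.artin
  obtain ⟨e, he⟩ := h.form.card_sq
  obtain ⟨e1, e2⟩ := h.e_le (he.trans (pow_two e))
  have := h.nA
  have := h.nE
  have h4 := ((kq_index.inf (kw h.cr he)).mono (fun g hg => h.mem_E hg.1 (mem_ker.1 hg.2))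
    le_rfl).comap (toImg X (Ad V))
  set E' := E.comap (toImg X (Ad V))
  have hVE : V ≤ E' := fun x hx => by
    rw [mem_comap, (toImg_eq_one hc).2 hx]; exact one_mem _
  have hi' : ¬ p ∣ (V.subgroupOf E').index := fun e => hi (e.trans (relIndex_dvd_index_of_le hVE))
  have hc' : Nat.card (V.subgroupOf E') = p ^ s :=
    (Nat.card_congr (subgroupOfEquivOfLe hVE).toEquiv).trans hs
  obtain ⟨G, hG⟩ := exists_right_complement'_of_coprime (N := V.subgroupOf E')
    (hc' ▸ (hp.out.coprime_iff_not_dvd.2 hi').pow_left s)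
  obtain ⟨v, hv⟩ := exists_ne (0 : Ad V)
  have h5 := Cfsg.Agent.S4958.result p (V.subgroupOf E') (fun x hx => Subtype.ext (hV _ hx)) hi'
    (le_antisymm (fun x hx => hc fun y hy => congrArg Subtype.val (hx ⟨y, hVE hy⟩ hy))
      fun x hx y hy => Subtype.ext (setLike_mul_comm (s := V) hy hx)) G hG ⟨v.val, hVE v.val_mem⟩
    v.val_mem fun a ha b hb => by
      have h5 : a * b * a⁻¹ * b⁻¹ ∈ G ⊓ centralizer {(⟨v.val, hVE v.val_mem⟩ : E')} :=
        mul_mem (mul_mem (mul_mem ha hb) (inv_mem ha)) (inv_mem hb)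
      have h6 : toImg X (Ad V) (a * b * a⁻¹ * b⁻¹ : E') = 1 := by
        by_contra h6
        have h7 := h.comm_U a.2 b.2
        simp only [← map_mul, ← map_inv] at h7
        refine hv (AddSubgroup.mem_bot.1 (h.Fx_U h7 h6 ▸ mem_Fx.2 (Ad.ext ?_)))
        rw [toImg_smul, Ad.val_smul, mul_inv_eq_iff_eq_mul]
        exact congrArg Subtype.val (mem_centralizer_singleton_iff.1 h5.2)
      have := hG.disjoint.le_bot ⟨(toImg_eq_one hc).1 h6, h5.1⟩
      rwa [mem_bot, mul_inv_eq_one, mul_inv_eq_iff_eq_mul] at this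
  have h6 := h4.le (h5.trans hc'.le)
  have : Module.Finite K (Ad V) := Module.Finite.of_finite
  have h7 := Module.natCard_eq_pow_finrank (K := K) (V := Ad V)
  rw [Ad.card, hs, h3, ← pow_mul] at h7
  have h8 : 0 < A.index := Nat.pos_of_ne_zero index_ne_zero_of_finite
  generalize A.index = f at *
  generalize Module.finrank K (Ad V) = n at *
  obtain ⟨j, -, rfl⟩ := (Nat.dvd_prime_pow hp.out).1
    (h7 ▸ dvd_pow_self q (Nat.mul_pos h8 (e1.trans e2)).ne')
  rw [← pow_mul] at h7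
  have h9 := Nat.pow_right_injective hp.out.two_le h7
  have hj : 0 < j := Nat.pos_of_ne_zero (by rintro rfl; simp at hq)
  obtain ⟨f, rfl⟩ : ∃ g, f = g + 1 := ⟨f - 1, by omega⟩
  obtain ⟨e, rfl⟩ : ∃ g, e = g + 1 := ⟨e - 1, by omega⟩
  have h10 : f + 1 ≤ 3 ^ f := Nat.lt_pow_self (by norm_num)
  have h11 : 3 ^ (f + e + 1) ≤ 3 ^ s := Nat.pow_le_pow_right (by norm_num) (by
    have := Nat.le_mul_of_pos_left ((f + 1) * n) hj
    nlinarith)
  rw [Nat.add_sub_cancel] at h6
  calc k X * 3 ≤ p ^ s * (3 ^ f * 3 ^ e) * 3 :=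
        Nat.mul_le_mul_right _ (h6.trans (Nat.mul_le_mul_left _ (Nat.mul_le_mul_right _ h10)))
    _ = 3 ^ (f + e + 1) * p ^ s := by ring
    _ ≤ _ := by rw [mul_pow]; exact Nat.mul_le_mul_right _ h11

theorem imp_case (hc : centralizer (V : Set X) ≤ V) (h1 : Irr (Img X (Ad V)) (Ad V))
    {ε : Module.End ℤ (Ad V)} (h2 : Sys (Img X (Ad V)) ε) :
    ∃ (K : Subgroup X) (_ : K.Normal) (m : ℕ) (N : ℕ → Subgroup K), K ≠ ⊤ ∧ V ≤ K ∧ 0 < m ∧
      kq K (3 ^ (m - 1)) ∧ (∀ i, (N i).Normal) ∧ (∀ i, N i ≤ V.subgroupOf K) ∧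
      ∀ i < m, N i < N (i + 1) := by
  have := img_solvable (G := X) (V := Ad V)
  let H := stab (Img X (Ad V)) ε
  let K := H.normalCore.comap (toImg X (Ad V))
  let e := Finite.equivFin (Img X (Ad V) ⧸ H)
  let η := fun i => cg (e.symm i).out ε
  let L : ℕ → AddSubgroup (Ad V) := fun j =>
    ⨅ (i : Fin (Nat.card (Img X (Ad V) ⧸ H))) (_ : j ≤ i), (LinearMap.ker (η i)).toAddSubgroup
  have hL : ∀ j x, x ∈ L j ↔ ∀ i : Fin _, j ≤ i → η i x = 0 := fun j x => by
    simp [L, AddSubgroup.mem_iInf]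
  refine ⟨K, inferInstance, H.index, fun j => (Ad.up (L j)).subgroupOf K, fun h => h2.2.2.1 ?_,
    fun x hx => ?_, Nat.pos_of_ne_zero index_ne_zero_of_finite, (kq_core H).comap _,
    fun j => ⟨?_⟩, fun j => comap_mono (Ad.up_le _), fun j hj => lt_of_le_of_ne ?_ fun h => ?_⟩
  · refine inv_idem h1 h2.1 h2.2.1 fun g => ?_
    obtain ⟨g, rfl⟩ := toImg_surj X (Ad V) g
    exact normalCore_le H (h.ge (mem_top g))
  · rw [mem_comap, (toImg_eq_one hc).2 hx]; exact one_mem _
  · rintro x ⟨y, hy, h⟩ g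
    refine ⟨(g : X) • y, (hL _ _).2 fun i hi => ?_, by rw [Ad.val_smul, h]; rfl⟩
    have h3 : cg (toImg X (Ad V) g) (η i) = η i := by
      rw [← cg_mul, cg_eq_iff]
      simpa [mul_assoc] using (inv_mem g.2 : _ ∈ K) (e.symm i).out⁻¹
    rw [← toImg_smul, ← h3, cg_smul, (hL _ _).1 hy i hi, smul_zero]
  · rintro x ⟨y, hy, h⟩
    exact ⟨y, (hL _ _).2 fun i hi => (hL _ _).1 hy i (by omega), h⟩
  · refine h2.ne (e.symm ⟨j, hj⟩).out (LinearMap.ext fun x => ?_)
    have h3 : η ⟨j, hj⟩ x ∈ L (j + 1) := (hL _ _).2 fun i hi => by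
      refine LinearMap.congr_fun (h2.orth fun h => ?_) x
      have h4 := (QuotientGroup.eq (s := H)).2 (cg_eq_iff.1 h)
      rw [QuotientGroup.out_eq', QuotientGroup.out_eq'] at h4
      simp [e.symm.injective h4] at hi
    have h4 : (η ⟨j, hj⟩ x).val ∈ K := by
      rw [mem_comap, (toImg_eq_one hc).2 (Ad.val_mem _)]; exact one_mem _
    have h5 := (hL _ _).1 (Ad.mem_up.1 (SetLike.le_def.1 h.ge (x := ⟨_, h4⟩) (Ad.mem_up.2 h3))) ⟨j, hj⟩ le_rfl
    exact (LinearMap.congr_fun (h2.idem _) x).symm.trans h5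

theorem one {Y : Type u} [Group Y] (V : Subgroup Y) (a : V.Normal) (b : IsPGroup p V) (c : V ≠ ⊥) :
    ∃ N : ℕ → Subgroup Y, (∀ i, (N i).Normal) ∧ (∀ i, IsPGroup p (N i)) ∧
      ∀ i < 1, N i < N (i + 1) :=
  ⟨fun i => Nat.casesOn i ⊥ fun _ => V, fun i => by cases i; exacts [normal_bot, a],
    fun i => by cases i; exacts [IsPGroup.of_bot, b], fun i hi => by
      obtain rfl := Nat.lt_one_iff.1 hi
      exact bot_lt_iff_ne_bot.2 c⟩

theorem sub_of_core (h0 : pPrimeCore p X = ⊥) (h : pCore p X = ⊥) : Subsingleton X := by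
  have hC := H1.centralizer_pCore_le_of_isSolvable (p := p) inferInstance h0
  rw [h] at hC
  have : ∀ a : X, a = 1 := fun a => hC fun x hx => by rw [mem_bot.1 hx, one_mul, mul_one]
  exact ⟨fun a b => (this a).trans (this b).symm⟩

theorem chain_aux (n : ℕ) : ∀ (X : Type u) [Group X] [Finite X] [Group.IsSolvable X],
    Nat.card X = n → pPrimeCore p X = ⊥ → ∀ (m : ℕ) (N : ℕ → Subgroup X), (∀ i, (N i).Normal) →
    (∀ i, IsPGroup p (N i)) → (∀ i < m, N i < N (i + 1)) →
    k X * 3 ^ m ≤ (3 * p) ^ n.factorization p := by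
  induction n using Nat.strong_induction_on with
  | _ n ih =>
  intro X _ _ _ hn h0
  have hC := H1.centralizer_pCore_le_of_isSolvable (p := p) inferInstance h0
  suffices key : ∀ (m : ℕ) (N : ℕ → Subgroup X), (∀ i, (N i).Normal) →
      (∀ i, IsPGroup p (N i)) → (∀ i < m + 1, N i < N (i + 1)) →
      k X * 3 ^ (m + 1) ≤ (3 * p) ^ n.factorization p by
    rintro (_ | m) N h1 h2 h3
    · by_cases h : pCore p X = ⊥
      · have := sub_of_core h0 h
        exact ((mul_one _).trans_le (k_le_card.trans (Nat.card_unique (α := X)).le)).trans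
          (Nat.one_le_pow _ _ (Nat.mul_pos (by norm_num) hp.out.pos))
      obtain ⟨N, a, b, c⟩ := one _ inferInstance H1.pCore_isPGroup h
      exact le_trans (Nat.mul_le_mul_left _ (by norm_num)) (key 0 N a b c)
    · exact key m N h1 h2 h3
  intro m N h1 h2 h3
  have := h1 1
  obtain ⟨V, _, hV1, hV0, hmin⟩ := exists_min_normal (N := N 1) (h3 0 (by omega)).ne_bot
  have hVp : IsPGroup p V := (h2 1).to_le hV1
  obtain ⟨_, q, hq, hV⟩ := H1.elementary_of_minimal_normal V hV0 inferInstance hmin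
  obtain rfl : p = q := by
    have := Fact.mk hq
    by_contra h
    exact hV0 (disjoint_self.1 (IsPGroup.disjoint_of_ne p q h V V hVp (H1.isPGroup_of_pow_eq_one hV)))
  let f := (QuotientGroup.mk' (pPrimeCore p (X ⧸ V))).comp (QuotientGroup.mk' V)
  have hf : Function.Surjective f :=
    (QuotientGroup.mk'_surjective _).comp (QuotientGroup.mk'_surjective _)
  have hY : ∀ P : Subgroup X, IsPGroup p P → ∀ x ∈ P, f x = 1 → x ∈ V := fun P hP x hx e =>
    (QuotientGroup.eq_one_iff x).1 ((H1.inf_eq_bot_of_isPGroup_of_coprime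
      (hP.map (QuotientGroup.mk' V)) H1.pPrimeCore_coprime).le
      ⟨⟨x, hx, rfl⟩, (QuotientGroup.eq_one_iff _).1 e⟩)
  have hVY : V ≤ f.ker := fun x hx => congrArg (QuotientGroup.mk' (pPrimeCore p (X ⧸ V)))
    ((QuotientGroup.eq_one_iff x).2 hx)
  have hN : ∀ i ≤ m, V ≤ N (i + 1) := fun i hi => by
    induction i with
    | zero => exact hV1
    | succ i ih => exact (ih (by omega)).trans (h3 _ (by omega)).le
  have hlt : ∀ K : Subgroup X, K ≠ ⊤ → Nat.card K < n := fun K hK => by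
    have := Nat.mul_le_mul_right (Nat.card K) (two_le_index hK)
    have := Nat.card_pos (α := K)
    rw [K.index_mul_card] at *; omega
  have hQ : Nat.card f.ker * Nat.card ((X ⧸ V) ⧸ pPrimeCore p (X ⧸ V)) = n := by
    rw [← hn, ← f.ker.card_mul_index, index_ker, MonoidHom.range_eq_top.2 hf, card_top]
  by_cases hT : f.ker = ⊤
  · obtain rfl : m = 0 := by
      by_contra h
      exact (h3 1 (by omega)).not_ge fun x hx => hV1 (hY _ (h2 2) x hx (hT.ge (mem_top x)))
    have hc : centralizer (V : Set X) ≤ V := by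
      have e : pCore p X = V := le_antisymm
        (fun x hx => hY _ H1.pCore_isPGroup x hx (hT.ge (mem_top x))) (H1.le_pCore ‹_› hVp)
      rwa [e] at hC
    have hi : ¬ p ∣ V.index := hp.out.coprime_iff_not_dvd.1 (H1.pPrimeCore_eq_top_iff.1
      (eq_top_iff.2 fun x _ => by
        obtain ⟨x, rfl⟩ := QuotientGroup.mk_surjective x
        exact (QuotientGroup.eq_one_iff _).1 (hT.ge (mem_top x)))).symm
    obtain ⟨s, hs⟩ := hVp.exists_card_eq
    have hfac : ∀ K : Subgroup X, V ≤ K → (Nat.card K).factorization p = s := fun K hK => by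
      rw [← (V.subgroupOf K).card_mul_index, Nat.factorization_mul Nat.card_pos.ne'
        index_ne_zero_of_finite, Finsupp.add_apply, Nat.factorization_eq_zero_of_not_dvd
        (n := index _) fun e => hi (e.trans (relIndex_dvd_index_of_le hK)),
        Nat.card_congr (subgroupOfEquivOfLe hK).toEquiv, hs, hp.out.factorization_pow]
      simp
    have hI : Irr (Img X (Ad V)) (Ad V) := Irr.img fun L hL => by
      rcases hmin (Ad.up L) ⟨by
        rintro _ ⟨x, hx, rfl⟩ g
        exact ⟨g • x, hL g x hx, rfl⟩⟩ (Ad.up_le L) with e | e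
      · exact Or.inl (eq_bot_iff.2 fun x hx => Ad.ext (e.le (Ad.mem_up.2 hx)))
      · exact Or.inr (eq_top_iff.2 fun x _ => Ad.mem_up.1 (e.ge x.val_mem))
    rw [← hn, ← card_top (G := X), hfac ⊤ le_top]
    by_cases h : ∃ ε : Module.End ℤ (Ad V), Sys (Img X (Ad V)) ε
    · obtain ⟨K, _, t, M, a, b, c, d, e, g, i⟩ := imp_case hc hI h.choose_spec
      have h4 := ih _ (hlt K a) K rfl
        (H1.pPrimeCore_eq_bot_of_subnormal (Normal.isSubnormal ‹_›) h0) t M e
        (fun i => (hVp.comap_of_injective _ K.subtype_injective).to_le (g i)) i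
      rw [hfac K b] at h4
      refine le_trans ((Nat.mul_le_mul_right _ (d.le le_rfl)).trans_eq ?_) h4
      rw [mul_assoc, ← pow_add, zero_add, Nat.sub_add_cancel c]
    · exact prim_case hV0 hV hi hc hs hI h
  obtain ⟨M, a, b, c⟩ := one (V.subgroupOf f.ker) inferInstance
    (hVp.comap_of_injective _ f.ker.subtype_injective) (by
      rwa [Ne, subgroupOf_eq_bot, disjoint_iff, inf_eq_left.2 hVY])
  have h4 := ih _ (hlt _ hT) f.ker rfl
    (H1.pPrimeCore_eq_bot_of_subnormal (Normal.isSubnormal inferInstance) h0) 1 M a b c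
  have h5 : 1 < Nat.card f.ker := f.ker.one_lt_card_iff_ne_bot.2 fun e => hV0 (le_bot_iff.1 (e ▸ hVY))
  have h6 := ih _ (hQ ▸ lt_mul_of_one_lt_left Nat.card_pos h5) _ rfl
    H1.pPrimeCore_quotient_pPrimeCore m (fun i => (N (i + 1)).map f)
    (fun i => (h1 _).map f hf) (fun i => (h2 _).map f) fun i hi =>
      lt_of_le_of_ne (map_mono (h3 _ (by omega)).le) fun e => (h3 (i + 1) (by omega)).not_ge
        fun x hx => by
      obtain ⟨y, hy, e'⟩ := e.ge ⟨x, hx, rfl⟩
      rw [← mul_inv_cancel_left y x]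
      exact mul_mem hy (hN i hi.le (hY _ (h2 _) _ (mul_mem (inv_mem ((h3 _ (by omega)).le hy)) hx)
        (by rw [map_mul, map_inv, e', inv_mul_cancel])))
  have h7 := (k_le_mul f.ker).trans (Nat.mul_le_mul_left _ (k_surj
    (QuotientGroup.quotientKerEquivOfSurjective f hf).symm.toMonoidHom (MulEquiv.surjective _)))
  rw [← hQ, Nat.factorization_mul Nat.card_pos.ne' Nat.card_pos.ne', Finsupp.add_apply,
    pow_add (3 * p)]
  refine le_trans ((Nat.mul_le_mul_right _ h7).trans_eq ?_) (Nat.mul_le_mul h4 h6)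
  ring

theorem k_le_of_core {X : Type u} [Group X] [Finite X] [Group.IsSolvable X]
    (h0 : pPrimeCore p X = ⊥) (hd : 0 < (Nat.card X).factorization p) :
    k X ≤ 3 ^ ((Nat.card X).factorization p - 1) * p ^ (Nat.card X).factorization p := by
  have h : pCore p X ≠ ⊥ := fun h => by
    have := sub_of_core h0 h
    simp [Nat.card_unique] at hd
  obtain ⟨N, a, b, c⟩ := one _ inferInstance H1.pCore_isPGroup h
  have h1 := chain_aux _ X rfl h0 1 N a b c
  obtain ⟨d, e⟩ : ∃ d, (Nat.card X).factorization p = d + 1 := ⟨_, (Nat.sub_add_cancel hd).symm⟩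
  rw [e] at h1 ⊢
  refine Nat.le_of_mul_le_mul_right (h1.trans_eq ?_) (by norm_num)
  rw [Nat.add_sub_cancel]; ring

end H3.KL
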