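import Cfsg.Agent.H3.KQ6

/-! Blocks with abelian defect groups of order at most `16`. -/

set_option autoImplicit false
set_option linter.unusedSectionVars false

open Cfsg MonoidAlgebra
open H5 H8 H28 H7 H21 Finset
open H25 (ex im)
open scoped ComplexConjugate

namespace H3.KQ

local notation "Z" => Subgroup.zpowers
local notation "C" u:max => Subgroup.centralizer ({u} : Set _)

variable {G : Type*} [Group G] [Fintype G] {p : ℕ} {M : Ideal AlgInt} {B : Set (IrrCharacter G)}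
  {P : Subgroup G} {e : (kk M)[G]} {θ θ' : P → ℂ} {Y : Finset G} {V W : Subgroup P} {v w x : P}
  {χ : IrrCharacter G}

variable (p M e) in
/-- the matrix of the Broué–Puig `*`-construction -/
noncomputable def TT (θ : P → ℂ) (χ ψ : IrrCharacter G) : ℂ :=
  classInner (bstar p M P e θ χ.1) ψ.1

open Classical in
/-- four times the indicator of the complement of `W` -/
noncomputable def ind (W : Subgroup P) (x : P) : ℂ := if x ∈ W then 0 else 4

theorem gen_ind [W.Normal] (h : W.index = 4) : IsGeneralizedCharacter P (ind W) := by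
  convert (isGeneralizedCharacter_one.intCast_smul 4).sub
    ((isCharacter_regChar (G := P ⧸ W)).isGeneralizedCharacter.comp (QuotientGroup.mk' W)) using 1
  funext x
  by_cases hx : x ∈ W
  · simp [ind, hx, (QuotientGroup.eq_one_iff x).2 hx, regChar_one, ← W.index_eq_card, h]
  · simp [ind, hx, regChar_of_ne_one (mt (QuotientGroup.eq_one_iff x).1 hx)]

variable [Fact p.Prime] [CharP (kk M) p]

theorem TT_mul [Fintype B] (hM : IsPModular p M) (hB : IsPBlock M B) (m : MaxP p ⊤ ⊤ (eB M B) P e)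
    (hθ : θ ∈ FSt p P e) (hθ' : θ' ∈ FSt p P e) (χ ξ : IrrCharacter G) :
    ∑ ψ : B, TT p M e θ χ ψ * TT p M e θ' ψ ξ = TT p M e (θ' * θ) χ ξ := by
  classical
  rw [TT, ← bstar_bstar hM hB m hθ' hθ χ.2.isClassFunction,
    ← blockPart_bstar hM hB m hθ χ.2.isClassFunction, H8.blockPart_eq_sum', map_sum,
    classInner_sum_left, sum_subtype (p := (· ∈ B)) (F := inferInstance) _ (by simp)]
  exact sum_congr rfl fun ψ _ => by rw [map_smul, classInner_smul_left]; rfl

theorem mm_pos (hM : IsPModular p M) (hB : IsPBlock M B) (m : MaxP p ⊤ ⊤ (eB M B) P e) {u : G}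
    (hu : u ∈ P) (hc : u ∈ 𝐂 P) (hχ : χ ∈ B) : 0 < (mm p u _ (sblk p M P e u) χ.1 χ.1).re :=
  (mm_self_re_nonneg _).lt_of_ne fun h =>
    (subP_sblk hM m.bp hu).sec_ne_zero_of_central hM hB m hc hχ
      (mm_self_eq_zero_iff.1 (by rw [mm_self_eq_re, ← h, Complex.ofReal_zero]))

theorem sum_mm [Fintype B] (hM : IsPModular p M) (hB : IsPBlock M B)
    (m : MaxP p ⊤ ⊤ (eB M B) P e) {u : G} (hu : u ∈ P) :
    ∑ χ : B, mm p u _ (sblk p M P e u) χ.1.1 χ.1.1 = blockRank p (sblk p M P e u) := by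
  classical
  rw [← (subP_sblk hM m.bp hu).isSec.sum_mm_self_block hM
    ((subP_sblk hM m.bp hu).induced hM hB m)]
  exact (sum_subtype (p := (· ∈ B)) _ (by simp) fun χ => mm p u _ (sblk p M P e u) χ.1 χ.1).symm

section Two

variable [CharP (kk M) 2] [IsMulCommutative P] (hM : IsPModular 2 M) (hB : IsPBlock M B)
  (m : MaxP 2 ⊤ ⊤ (eB M B) P e) (hP : P ≤ 𝐂 P) (h : Grid (inE P e) V W)
include hM hB m hP h

omit hM hB in
theorem Grid.ind_mem : ind V ∈ FSt 2 P e := fun u v h1 => by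
  obtain ⟨α, h2, rfl⟩ := (m.fConj_iff_inE hP).1 h1
  by_cases h3 : u ∈ V <;> simp [ind, h3, h.map_mem h2]

theorem Grid.exists_P4 [Fintype B] (hY : FReps 2 P e Y) (hv : v ∈ V) (hv' : v ≠ 1) (hw : w ∈ W)
    (hx : x ∉ V) (hx' : x ∉ W) (hs : ∀ F : G → ℂ, ∑ y ∈ Y, F y = F 1 + F v + F w + F x) :
    ∃ N : B → B → ℤ, P4 N ∧ ∀ χ ψ, (N χ ψ : ℂ) = TT 2 M e (ind W) χ ψ := by
  have h1 := h.symm.ind_mem m hP
  have h2 : W.index = 4 := Nat.eq_of_mul_eq_mul_left (by norm_num : 0 < 4)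
    (by rw [← h.cW, W.card_mul_index, h.card, h.cW])
  choose N hN using fun χ ψ : B => (gen_bstar hM hB m h1 (gen_ind h2)
    χ.1.2.isGeneralizedCharacter).exists_classInner_int ψ.1.2.isGeneralizedCharacter
  have h3 : v ∉ W := fun h3 => hv' (Subgroup.mem_bot.1 (h.dis ▸ ⟨hv, h3⟩))
  have h4 : ∀ χ ψ : B, (N χ ψ : ℂ) = 4 * (mm 2 (v : G) _ (sblk 2 M P e v) χ.1.1 ψ.1.1 +
      mm 2 (x : G) _ (sblk 2 M P e x) χ.1.1 ψ.1.1) := fun χ ψ => by
    rw [← hN, inner_bstar_left hM hB m hY h1 χ.1.2.isClassFunction ψ.1.2.isClassFunction, hs,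
      extendByZero_of_mem P _ P.one_mem]
    simp only [extendByZero_coe, ind, if_pos hw, if_neg h3, if_neg hx']
    rw [if_pos (show (⟨1, _⟩ : P) ∈ W from W.one_mem)]
    ring
  have h5 := fun (χ : B) (u : P) => mm_pos hM hB m u.2 (hP u.2) χ.2
  refine ⟨N, ⟨fun χ ψ => Int.cast_injective (α := ℂ) ?_, fun χ ξ => Int.cast_injective (α := ℂ) ?_,
    fun χ => ?_, fun χ => ?_, le_of_eq (Int.cast_injective (α := ℂ) ?_)⟩, fun χ ψ => (hN χ ψ).symm⟩
  · rw [← map_intCast (starRingEnd ℂ), h4, h4, map_mul, map_add, conj_mm, conj_mm, map_ofNat]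
  · push_cast
    simp only [← hN]
    refine (TT_mul hM hB m h1 h1 χ ξ).trans ?_
    rw [TT, show ind W * ind W = (4 : ℂ) • ind W from funext fun y => by
      simp only [ind, Pi.mul_apply, Pi.smul_apply, smul_eq_mul]; split_ifs <;> simp,
      map_smul, LinearMap.smul_apply, classInner_smul_left]
  · have := congrArg Complex.re (h4 χ χ)
    have h6 := h5 χ v
    have h7 := h5 χ x
    simp only [Complex.intCast_re, Complex.mul_re, Complex.re_ofNat, Complex.im_ofNat, zero_mul,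
      sub_zero, Complex.add_re] at this
    exact_mod_cast (by linarith : (0 : ℝ) < N χ χ)
  · have := congrArg Complex.re (h4 χ χ)
    have h6 := congrArg Complex.re
      (inner_eq_sum_fReps hM hB m hY χ.1.2.isClassFunction χ.1.2.isClassFunction)
    have h7 := h5 χ w
    have h8 := h5 χ 1
    rw [blockPart_irr χ.2, χ.1.2.classInner_self, hs] at h6
    simp only [Complex.intCast_re, Complex.mul_re, Complex.re_ofNat, Complex.im_ofNat, zero_mul,
      sub_zero, Complex.add_re, Complex.one_re,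
      Subgroup.coe_one] at this h6 h8
    exact_mod_cast (by linarith : (N χ χ : ℝ) < 4)
  · push_cast
    simp only [h4, ← mul_sum, sum_add_distrib, sum_mm hM hB m v.2, sum_mm hM hB m x.2]
    rw [(sblk_of_prime hM m hP v (h.sV v hv hv') (.inr Nat.prime_three)).2 le_rfl (by norm_num),
      (sblk_of_prime hM m hP x (h.s0 x hx hx') (.inl rfl)).2 (by norm_num) (by norm_num)]
    norm_num

theorem Grid.nice (hE : Nat.card (inE P e) = 9) : Nice 2 B := by
  classical
  have := Fintype.ofFinite B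
  obtain ⟨v, hv, hv'⟩ := exists_ne_one_of_card (V := V) (by rw [h.cV]; norm_num)
  obtain ⟨w, hw, hw'⟩ := exists_ne_one_of_card (V := W) (by rw [h.cW]; norm_num)
  have h1 : v ∉ W := fun h3 => hv' (Subgroup.mem_bot.1 (h.dis ▸ ⟨hv, h3⟩))
  have h2 : w ∉ V := fun h3 => hw' (Subgroup.mem_bot.1 (h.dis ▸ ⟨h3, hw⟩))
  have hx : v * w ∉ V := fun h3 => h2 ((V.mul_mem_cancel_left hv).1 h3)
  have hx' : v * w ∉ W := fun h3 => h1 ((W.mul_mem_cancel_right hw).1 h3)
  set x := v * w
  let κ (a : P) : Prop × Prop := (a ∈ V, a ∈ W)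
  have h3 : ∀ a b : P, FConj 2 P e a b → κ a = κ b := fun a b h3 => by
    obtain ⟨α, h4, rfl⟩ := (m.fConj_iff_inE hP).1 h3
    simp only [κ, h.map_mem h4, h.symm.map_mem h4]
  have h4 : Set.InjOn κ ({1, v, w, x} : Finset P) := by
    intro a ha b hb
    simp only [coe_insert, coe_singleton, Set.mem_insert_iff, Set.mem_singleton_iff] at ha hb
    rcases ha with rfl | rfl | rfl | rfl <;> rcases hb with rfl | rfl | rfl | rfl <;>
      simp [κ, hv, hw, h1, h2, hx, hx']
  have hY : FReps 2 P e (({1, v, w, x} : Finset P).image Subtype.val) := by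
    refine ⟨fun y hy => by obtain ⟨y, -, rfl⟩ := mem_image.1 hy; exact y.2, fun u hu => ?_⟩
    obtain ⟨y, h5, h6⟩ : ∃ y ∈ ({1, v, w, x} : Finset P), ∃ α ∈ inE P e, α ⟨u, hu⟩ = y := by
      by_cases h5 : (⟨u, hu⟩ : P) = 1
      · exact ⟨1, by simp, 1, one_mem _, h5⟩
      by_cases h6 : ⟨u, hu⟩ ∈ V
      · exact ⟨v, by simp, h.trV hE h6 h5 hv hv'⟩
      by_cases h7 : ⟨u, hu⟩ ∈ W
      · exact ⟨w, by simp, h.symm.trV hE h7 h5 hw hw'⟩
      exact ⟨x, by simp, h.tr0 hE h6 h7 hx hx'⟩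
    rw [← m.fConj_iff_inE hP] at h6
    refine ⟨y, ⟨mem_image_of_mem _ h5, h6⟩, ?_⟩
    rintro _ ⟨h7, h8⟩
    obtain ⟨z, h9, rfl⟩ := mem_image.1 h7
    rw [h4 h9 h5 ((h3 ⟨u, hu⟩ z h8).symm.trans (h3 _ _ h6))]
  have hs : ∀ {A : Type} [AddCommMonoid A] (F : G → A),
      ∑ y ∈ ({1, v, w, x} : Finset P).image Subtype.val, F y = F 1 + F v + F w + F x := by
    intro A _ F
    have h5 : ∀ a b : P, κ a ≠ κ b → a ≠ b := fun a b h => mt (congrArg κ) h
    rw [sum_image Subtype.val_injective.injOn, sum_insert, sum_insert, sum_pair, ← add_assoc,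
      ← add_assoc, Subgroup.coe_one]
    · exact h5 _ _ (by simp [κ, hw, hx'])
    · simp [h5 v w (by simp [κ, hv, h2]), h5 v x (by simp [κ, hv, hx])]
    · simp [hv'.symm, hw'.symm, h5 1 x (by simp [κ, hx])]
  have r0 := (sblk_of_prime hM m hP x (h.s0 x hx hx') (.inl rfl)).2 (by norm_num) (by norm_num)
  have h5 := card_eq_sum_fReps hM hB m hY
  rw [hs, (sblk_of_prime hM m hP v (h.sV v hv hv') (.inr Nat.prime_three)).2 le_rfl (by norm_num),
    (sblk_of_prime hM m hP w (h.sW w hw hw') (.inr Nat.prime_three)).2 le_rfl (by norm_num), r0,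
    blockRank_eq_of_induced_top hM cent_one_eq_top
      ((subP_sblk hM m.bp P.one_mem).induced hM hB m), Nat.card_eq_fintype_card] at h5
  by_cases h6 : blockRank 2 B ≤ 3
  · exact .inr (.inl ⟨rfl, h6⟩)
  obtain ⟨N, h7, h8⟩ := h.exists_P4 hM hB m hP hY hv hv' hw hx hx' hs
  obtain ⟨N', h9, h10⟩ := h.symm.exists_P4 hM hB m hP hY hw hw' hv hx' hx fun F => by
    rw [hs, add_right_comm (F 1)]
  have h11 := subP_sblk hM m.bp x.2
  have h12 : P ⊓ C (x : G) = P := inf_eq_left.2 fun y hy =>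
    Subgroup.mem_centralizer_singleton_iff.2 (hP x.2 y hy)
  obtain ⟨d, φ, h13⟩ := exists_col_int hM m.bp x.2 (congrArg Subtype.val (h.sq_all hE x))
    (h11.major hM hB m (hP x.2)).1 ((isNilpotentBlock_cent_iff hM m hP h11.isSec.eq_cent h11.blk
      h11.ple).2 fun t ht => by
        obtain ⟨α, h13, h14⟩ := exists_mem_inE ht.1
        have h15 : α ∈ fx (inE P e) (Z x) := mem_fx_zpowers.2 ⟨h13, Subtype.ext (by
          rw [h14, ← ht.2 x (Subgroup.mem_zpowers _), mul_inv_cancel_right])⟩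
        rw [Subgroup.card_eq_one.1 (h.s0 x hx hx'), Subgroup.mem_bot] at h15
        refine fun y hy => ?_
        have := h14 ⟨y, hy⟩
        rw [h15] at this
        exact eq_mul_inv_iff_mul_eq.1 this) (by rwa [h12])
  have h14 := h13.mm_eq
  simp only [h12, h.card, map_intCast] at h14
  have i1 := h.ind_mem m hP
  have i2 := h.symm.ind_mem m hP
  have h15 : ∀ θ ∈ FSt 2 P e, ∀ χ ψ : IrrCharacter G, TT 2 M e θ χ ψ =
      θ 1 * mm 2 1 _ (sblk 2 M P e 1) χ.1 ψ.1 + θ v * mm 2 (v : G) _ (sblk 2 M P e v) χ.1 ψ.1 +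
        θ w * mm 2 (w : G) _ (sblk 2 M P e w) χ.1 ψ.1 +
          θ x * mm 2 (x : G) _ (sblk 2 M P e x) χ.1 ψ.1 := fun θ hθ χ ψ => by
    rw [TT, inner_bstar_left hM hB m hY hθ χ.2.isClassFunction ψ.2.isClassFunction, hs,
      extendByZero_of_mem P _ P.one_mem]
    simp only [extendByZero_coe]
    rfl
  refine (grid_min h7 h9 (d := fun χ => d χ) (fun χ h => ?_) ?_ (fun χ ξ => ?_)
    (by omega)).elim fun h16 h17 => ?_
  rotate_left 3
  · refine .inr (.inr (@minOK_of_ctr G _ _ 2 M B hM _ _ fun n q hq => ?_))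
    rw [show blockRank 2 B = 9 by omega]
    refine h17 (fun χ => n χ) q (hq.trans (sum_congr rfl fun χ _ => sum_congr rfl fun ψ _ => ?_))
    refine congrArg (n χ * n ψ * ·) (Int.cast_injective (α := ℂ) ?_)
    have h18 := inner_eq_sum_fReps hM hB m hY χ.1.2.isClassFunction ψ.1.2.isClassFunction
    have h19 := (subP_sblk hM m.bp P.one_mem).isSec.mm_one hM
      ((subP_sblk hM m.bp P.one_mem).induced hM hB m) χ.1.2.isClassFunction ψ.1.2.isClassFunction
    have h20 : (2 : ℂ) ^ blockDefect 2 B = 16 := by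
      exact_mod_cast (card_isDefectGroup hM hB (m.isDefectGroup hM hB)).symm.trans h.card
    have h21 : classInner χ.1.1 ψ.1.1 = if χ = ψ then 1 else 0 := by
      split_ifs with h
      · rw [h, ψ.1.2.classInner_self]
      · exact χ.1.2.classInner_of_ne ψ.1.2 fun h' => h (Subtype.ext (Subtype.ext h'))
    rw [blockPart_irr χ.2, blockPart_irr ψ.2, ← rp_eq, ← rp_eq, inner_rp_rp] at h19
    rw [blockPart_irr χ.2, h21, hs] at h18
    rw [ctr_cast hM χ.2]
    push_cast
    rw [h8, h10, h15 _ i1, h15 _ i2, ← h14, h20, ← h19]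
    simp only [ind, if_pos V.one_mem, if_pos W.one_mem, if_pos hv, if_pos hw, if_neg h1, if_neg h2,
      if_neg hx, if_neg hx']
    split_ifs at h18 ⊢ <;> linear_combination -16 * h18
  · have h18 := mm_pos hM hB m x.2 (hP x.2) χ.2
    have h19 := h14 χ χ
    rw [h, Int.cast_zero, mul_zero, mul_eq_zero] at h19
    simp [h19.resolve_left (by norm_num)] at h18
  · refine Int.cast_injective (α := ℂ) ?_
    push_cast
    simp only [pow_two, ← h14, ← mul_sum, sum_mm hM hB m x.2, r0]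
    norm_num
  · refine Int.cast_injective (α := ℂ) ?_
    push_cast
    simp only [h8, h10]
    rw [TT_mul hM hB m i2 i1, h15 _ (mul_mem i1 i2), ← h14]
    simp [ind, hv, hw, hx, hx']
    norm_num

omit h

theorem nice_ab_two (h : Nat.card P ∣ 16) (h7 : ¬ 7 ∣ Nat.card (inE P e)) : Nice 2 B := by
  have h1 : Nat.card (inE P e) ∣ 45 := (((by norm_num : Nat.Prime 7).coprime_iff_not_dvd.2
    h7).symm).dvd_of_dvd_mul_left (card_dvd_sixteen h (not_dvd_inE hM m hP))
  by_cases h5 : 5 ∣ Nat.card (inE P e)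
  · exact nice_of_free hM hB m hP (free_of_five h h1 h5)
  obtain ⟨i, h2, h3⟩ := (Nat.dvd_prime_pow Nat.prime_three (m := 2)).1
    (((Nat.prime_five.coprime_iff_not_dvd.2 h5).symm).dvd_of_dvd_mul_left h1)
  interval_cases i
  · exact .inl ((rank_of_prime hM hB m hP h3 (.inl rfl)).1.trans (by norm_num))
  · exact .inr (.inl ⟨rfl, (rank_of_prime hM hB m hP h3 (.inr Nat.prime_three)).1⟩)
  · obtain ⟨V, W, h4⟩ := exists_grid h h3
    exact h4.nice hM hB m hP h3

end Two

end H3.KQ
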