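import Cfsg.Agent.H3.KQ6

/-! Automorphisms of central extensions of small groups; `3'`-automorphisms in rank three. -/

set_option autoImplicit false
set_option linter.unusedSectionVars false

open Cfsg
open H21 (FreeAut)
open scoped Pointwise

namespace H3.KQ

local notation "Z" => Subgroup.zpowers
local notation "C" u:max => Subgroup.centralizer ({u} : Set _)

variable {A A' : Type*} [Group A] [Finite A] [Group A'] [Finite A'] {f : A →* A'}
  {E K : Subgroup (MulAut A)} {E' : Subgroup (MulAut A')} {U V W : Subgroup A}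
  {α β γ ρ σ τ : MulAut A} {a b u v x y : A} {p q n : ℕ}

theorem two_mul_le_of_lt (h : U < V) : 2 * Nat.card U ≤ Nat.card V := by
  obtain ⟨k, hk⟩ := Subgroup.card_dvd_of_le h.le
  have h1 := card_lt_of_ne h.le h.ne
  have h2 : 0 < Nat.card V := Nat.card_pos
  rw [hk] at h1 h2 ⊢
  rw [mul_comm]
  refine Nat.mul_le_mul_left _ ?_
  rcases k with _ | _ | k <;> omega

theorem card_dvd_of_le_zpowers (h : U ≤ Z u) (h1 : ∀ x ∈ U, x ^ n = 1) : Nat.card U ∣ n := by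
  have := Subgroup.isCyclic_of_le h
  rw [← IsCyclic.exponent_eq_card]
  exact Monoid.exponent_dvd_of_forall_pow_eq_one fun x => Subtype.ext (h1 x x.2)

theorem mem_C : x ∈ C y ↔ x * y = y * x := Subgroup.mem_centralizer_singleton_iff

theorem comm_of_index_center [Fact p.Prime] (h : (Subgroup.center A).index ∣ p) :
    IsMulCommutative A :=
  have : IsCyclic (A ⧸ Subgroup.center A) := isCyclic_of_card_dvd_prime h
  isMulCommutative_of_isCyclic_quotient_center_self A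

theorem index_map_of_ker_le (hf : Function.Surjective f) (h : f.ker ≤ U) :
    (U.map f).index = U.index := Subgroup.index_map_eq _ hf h

theorem eq_top_of_map (h : f.ker ≤ U) (h1 : U.map f = ⊤) : U = ⊤ := by
  rw [← Subgroup.comap_map_eq_self h, h1, Subgroup.comap_top]

theorem le_C_of_center (h : U ≤ Subgroup.center A) (a : A) : U ≤ C a := fun _ hx =>
  mem_C.2 (Subgroup.mem_center_iff.1 (h hx) a).symm

theorem mem_center_of_C (h : C a = ⊤) : a ∈ Subgroup.center A :=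
  Subgroup.mem_center_iff.2 fun x => mem_C.1 (h ▸ Subgroup.mem_top x)

theorem normal_of_le_center (h : U ≤ Subgroup.center A) : U.Normal := ⟨fun x hx g => by
  rwa [Subgroup.mem_center_iff.1 (h hx), mul_inv_cancel_right]⟩

theorem map_mem_center (α : MulAut A) (h : a ∈ Subgroup.center A) : α a ∈ Subgroup.center A :=
  Subgroup.mem_center_iff.2 fun x => by
    obtain ⟨x, rfl⟩ := α.surjective x
    rw [← map_mul, ← map_mul, Subgroup.mem_center_iff.1 h]

section Ext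

variable [IsMulCommutative A']

open scoped IsMulCommutative

theorem comm_mem_ker (x y : A) : x * y * x⁻¹ * y⁻¹ ∈ f.ker := by
  rw [MonoidHom.mem_ker, map_mul, map_mul, map_mul, map_inv, map_inv, mul_comm (f x),
    mul_inv_cancel_right, mul_inv_cancel]

theorem mem_C_of_fix (hK : f.ker ≤ Subgroup.center A) (hα : α ∈ fx E f.ker) (h : f (α a) = f a)
    (y : A) : y⁻¹ * α y ∈ C a := by
  have h1 := (mem_fx.1 hα).2 _ (comm_mem_ker (f := f) a y)
  have h2 := Subgroup.mem_center_iff.1 (hK (show a⁻¹ * α a ∈ f.ker by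
    rw [MonoidHom.mem_ker, map_mul, h, map_inv, inv_mul_cancel])) (α y)
  have h3 : α a * α y * (α a)⁻¹ = a * α y * a⁻¹ := by
    rw [← mul_inv_cancel_left a (α a), mul_assoc a, ← h2]
    group
  rw [map_mul, map_mul, map_mul, map_inv, map_inv, h3] at h1
  rw [mem_C]
  calc y⁻¹ * α y * a = y⁻¹ * ((a * α y * a⁻¹ * (α y)⁻¹)⁻¹ * a) * α y := by group
    _ = _ := by rw [h1]; group

theorem Lf.free [Fact p.Prime] (h : Lf f E E') (hK : f.ker ≤ Subgroup.center A)
    (hA : Nat.card A' ∣ p ^ 2) (hE : ¬ p ∣ Nat.card E') (hn : ¬ IsMulCommutative A) :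
    FreeAut E' := fun β hβ a h1 h2 => by
  obtain ⟨a, rfl⟩ := h.surj a
  obtain ⟨α, h3, h4⟩ := h.up β hβ
  have hp : IsPGroup p A' := IsPGroup.iff_card.2
    (((Nat.dvd_prime_pow Fact.out).1 hA).imp fun _ h => h.2)
  have h5 : ∀ U : Subgroup A', f a ∈ U → U.index ∣ p := fun U hU => by
    have := ((hp.to_subgroup U).card_eq_or_dvd).resolve_left (one_lt_card_of_mem hU h1).ne'
    rw [← U.card_mul_index, sq] at hA
    exact Nat.dvd_of_mul_dvd_mul_left (Fact.out : p.Prime).pos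
      ((Nat.mul_dvd_mul_right this _).trans hA)
  have h6 : Z (f a) = (C a).map f := by
    have h6 : Z (f a) ≤ (C a).map f := Subgroup.zpowers_le.2 ⟨a, mem_C.2 rfl, rfl⟩
    have h7 := h5 _ (Subgroup.mem_zpowers _)
    rw [← Subgroup.relIndex_mul_index h6] at h7
    rcases (Nat.dvd_prime Fact.out).1 (Dvd.dvd.trans (Dvd.intro_left _ rfl) h7) with h8 | h8
    · refine absurd (comm_of_index_center (p := p) ?_) hn
      rw [← index_map_of_ker_le h.surj hK]
      exact h5 _ ⟨a, mem_center_of_C (eq_top_of_map (le_C_of_center hK a)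
        (Subgroup.index_eq_one.1 h8)), rfl⟩
    · rw [h8] at h7
      exact le_antisymm h6 (Subgroup.relIndex_eq_one.1 (Nat.eq_one_of_mul_eq_one_right
        (n := 1) (by
          rw [mul_one]
          exact Nat.dvd_one.1 (Nat.dvd_of_mul_dvd_mul_right (Fact.out : p.Prime).pos
            (by rwa [one_mul])))))
  refine MulEquiv.ext fun y => ?_
  obtain ⟨y, rfl⟩ := h.surj y
  have h7 : (f y)⁻¹ * β (f y) ∈ Z (f a) :=
    h6 ▸ ⟨_, mem_C_of_fix hK h3 ((h4 a).trans h2) y, by rw [map_mul, map_inv, h4]⟩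
  exact fix_of_coprime (hp.to_subgroup _) (not_dvd_orderOf hE hβ) h7
    (Subgroup.zpowers_le.2 (mem_Fx.2 h2) h7)

omit [IsMulCommutative A'] in
theorem index_C_dvd (h1 : ∀ x y : A, x * y * x⁻¹ * y⁻¹ ∈ Z u) (h2 : u ∈ Subgroup.center A)
    (h3 : x ^ 2 ∈ Subgroup.center A) : (C x).index ∣ 2 := by
  have h4 := fun y z => Subgroup.mem_center_iff.1 (Subgroup.zpowers_le.2 h2 (h1 x y)) z
  let φ : A →* A := MonoidHom.mk' (fun y => x * y * x⁻¹ * y⁻¹) fun y z => by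
    rw [mul_assoc (x * y * x⁻¹), h4 z]
    group
  have h5 : φ.ker = C x := Subgroup.ext fun y => by
    rw [mem_C, eq_comm, ← mul_inv_eq_one, mul_inv_rev, ← mul_assoc]
    rfl
  rw [← h5, Subgroup.index_ker]
  refine card_dvd_of_le_zpowers (u := u) (by rintro _ ⟨y, rfl⟩; exact h1 x y) ?_
  rintro _ ⟨y, rfl⟩
  calc φ y ^ 2 = x * (x * y * x⁻¹ * y⁻¹) * x⁻¹ * (x * y * x⁻¹ * y⁻¹) := by
        rw [h4 y x, mul_inv_cancel_right, sq]; rfl
    _ = x ^ 2 * y * (x ^ 2)⁻¹ * y⁻¹ := by rw [mul_assoc x, mul_assoc (x * y * x⁻¹), sq]; group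
    _ = 1 := by rw [← Subgroup.mem_center_iff.1 h3]; group

omit [IsMulCommutative A'] in
theorem index_center_ne_eight (h1 : ∀ x y : A, x * y * x⁻¹ * y⁻¹ ∈ Z u)
    (h2 : u ∈ Subgroup.center A) (h3 : ∀ x : A, x ^ 2 ∈ Subgroup.center A) :
    (Subgroup.center A).index ≠ 8 := fun h => by
  obtain ⟨x, y, h4⟩ : ∃ x y : A, y ∉ C x := by
    by_contra! h4
    rw [show Subgroup.center A = ⊤ from eq_top_iff.2 fun x _ => mem_center_of_C
      (eq_top_iff.2 fun y _ => h4 x y), Subgroup.index_top] at h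
    omega
  have h5 : x ∉ C y := fun h5 => h4 (mem_C.2 (mem_C.1 h5).symm)
  obtain ⟨z, h6, h7⟩ : ∃ z ∈ C x ⊓ C y, z ∉ Subgroup.center A := by
    by_contra! h6
    have h7 := Nat.le_of_dvd (by norm_num) (index_C_dvd h1 h2 (h3 x))
    have h8 := Nat.le_of_dvd (by norm_num) (index_C_dvd h1 h2 (h3 y))
    have h9 := (Subgroup.index_inf_le (H := C x) (K := C y)).trans (Nat.mul_le_mul h7 h8)
    have := Subgroup.index_antitone (show C x ⊓ C y ≤ Subgroup.center A from h6)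
    omega
  have h8 : ∀ (U : Subgroup A) a, a ∉ U → 2 * Nat.card U ≤ Nat.card (U ⊔ Z a : Subgroup A) :=
    fun U a ha => two_mul_le_of_lt (left_lt_sup.2 fun h => ha (h (Subgroup.mem_zpowers a)))
  have h9 := h8 _ z h7
  have h10 := h8 (Subgroup.center A ⊔ Z z) x fun h =>
    h5 (sup_le (le_C_of_center le_rfl y) (Subgroup.zpowers_le.2 h6.2) h)
  have h11 := h8 (Subgroup.center A ⊔ Z z ⊔ Z x) y fun h => h4 (sup_le (sup_le
    (le_C_of_center le_rfl x) (Subgroup.zpowers_le.2 h6.1)) (Subgroup.zpowers_le.2 (mem_C.2 rfl)) h)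
  have h12 := Subgroup.card_le_of_le (show Subgroup.center A ⊔ Z z ⊔ Z x ⊔ Z y ≤ C z from
    sup_le (sup_le (sup_le (le_C_of_center le_rfl z) (Subgroup.zpowers_le.2 (mem_C.2 rfl)))
      (Subgroup.zpowers_le.2 (mem_C.2 (mem_C.1 h6.1).symm)))
        (Subgroup.zpowers_le.2 (mem_C.2 (mem_C.1 h6.2).symm)))
  have h13 := (Subgroup.center A).card_mul_index
  rw [h] at h13
  exact h7 (mem_center_of_C (Subgroup.eq_top_of_le_card _ (by omega)))

theorem Lf.not_seven (h : Lf f E E') (hK : f.ker = Z u) (hu : u ∈ Subgroup.center A)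
    (hA : Nat.card A' ∣ 16) (hn : ¬ IsMulCommutative A) : ¬ 7 ∣ Nat.card E' := fun h7 => by
  have := Fact.mk (by norm_num : Nat.Prime 7)
  have hp : IsPGroup 2 A' := IsPGroup.iff_card.2
    (((Nat.dvd_prime_pow Nat.prime_two (m := 4)).1 hA).imp fun _ h => h.2)
  have hK' : f.ker ≤ Subgroup.center A := hK ▸ Subgroup.zpowers_le.2 hu
  obtain ⟨β, hβ, h1⟩ := exists_mem_orderOf (by norm_num) h7
  obtain ⟨α, h2, h3⟩ := h.up β hβ
  have h4 := pow_eq_one_of_orderOf h1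
  have h5 := ne_one_of_orderOf (by norm_num) h1
  have h6 : Nat.card (Fx β) * 8 = Nat.card A' := by
    have h6 := card_modEq_Fx_top h4
    have h8 := card_Fx_lt h5
    have h9 := (Fx β).card_subgroup_dvd_card
    have := Nat.le_of_dvd (by norm_num) hA
    generalize Nat.card A' = x at *
    generalize Nat.card (Fx β) = y at *
    interval_cases x <;> interval_cases y <;> simp_all [Nat.ModEq]
  have h8 := Nat.le_of_dvd (by norm_num) hA
  have h9 : ∀ U : Subgroup A', (∀ v ∈ U, β v ∈ U) → U ≤ Fx β ∨ 8 ≤ Nat.card U := fun U hU => by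
    have h9 := card_modEq_Fx h4 hU
    have h10 := Subgroup.card_le_of_le (inf_le_left : U ⊓ Fx β ≤ U)
    have h11 : 0 < Nat.card (U ⊓ Fx β : Subgroup A') := Nat.card_pos
    rw [or_iff_not_imp_right]
    refine fun h12 => inf_eq_left.1 (Subgroup.eq_of_le_of_card_ge inf_le_left ?_)
    rw [Nat.ModEq] at h9
    omega
  have h10 : Nat.card (cm β).range = 8 :=
    Nat.eq_of_mul_eq_mul_left Nat.card_pos ((card_Fx_mul β).trans h6.symm)
  have h11 : Fx β ≤ (Subgroup.center A).map f := fun a ha => by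
    obtain ⟨a, rfl⟩ := h.surj a
    by_cases h11 : f a = 1
    · exact h11 ▸ one_mem _
    refine ⟨a, mem_center_of_C (eq_top_of_map (le_C_of_center hK' a)
      (Subgroup.eq_top_of_le_card _ ?_)), rfl⟩
    have := two_mul_le_of_lt (U := (cm β).range) (V := (C a).map f) (lt_of_le_of_ne ?_ fun h12 =>
      h11 (Subgroup.mem_bot.1 (Fx_inf_cm hp (by rw [h1]; norm_num) ▸
        ⟨ha, h12 ▸ ⟨a, mem_C.2 rfl, rfl⟩⟩)))
    · omega
    rintro _ ⟨y, rfl⟩
    obtain ⟨y, rfl⟩ := h.surj y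
    exact ⟨_, mem_C_of_fix hK' h2 ((h3 a).trans ha) y, by rw [map_mul, map_inv, h3, cm_apply]⟩
  have h12 : (powMonoidHom 2 : A' →* A').range ≤ Fx β := by
    have h12 := (h9 (powMonoidHom 2 : A' →* A').ker fun v hv => by
      rw [MonoidHom.mem_ker, powMonoidHom_apply] at hv ⊢
      rw [← map_pow, hv, map_one]).resolve_left fun h =>
        h5 (eq_one_of_omega hp (by rw [h1]; norm_num) fun a ha => h (x := a) ha)
    refine (h9 _ ?_).resolve_right fun h13 => ?_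
    · rintro _ ⟨v, rfl⟩
      exact ⟨β v, (map_pow β v 2).symm⟩
    · have := (powMonoidHom 2 : A' →* A').ker.card_mul_index
      rw [Subgroup.index_ker] at this
      nlinarith
  refine index_center_ne_eight (fun x y => hK ▸ comm_mem_ker x y) hu (fun x => ?_) ?_
  · rw [← Subgroup.comap_map_eq_self hK']
    exact h11 (h12 ⟨f x, (map_pow f x 2).symm⟩)
  have h13 := ((Subgroup.center A).map f).card_mul_index
  rw [index_map_of_ker_le h.surj hK'] at h13
  rcases h9 ((Subgroup.center A).map f) (by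
    rintro _ ⟨v, hv, rfl⟩
    exact ⟨α v, map_mem_center α hv, h3 v⟩) with h14 | h14
  · rw [le_antisymm h14 h11, ← h6] at h13
    exact Nat.eq_of_mul_eq_mul_left Nat.card_pos h13
  · refine absurd (comm_of_index_center (p := 2) ?_) hn
    have h15 : (Subgroup.center A).index ≠ 0 := Subgroup.index_ne_zero_of_finite
    have : (Subgroup.center A).index ≤ 2 := by nlinarith
    interval_cases (Subgroup.center A).index <;> simp_all

end Ext

section Three

variable [IsMulCommutative A]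

open scoped IsMulCommutative

theorem eq_or_eq_inv {Q : Type*} [Group Q] [Finite Q] {V : Subgroup Q} (h : Nat.card V ∣ 3)
    {x y : Q} (hx : x ∈ V) (hy : y ∈ V) (h1 : x ≠ 1) (h2 : y ≠ 1) : y = x ∨ y = x⁻¹ := by
  classical
  by_contra! h3
  have h4 : x ≠ x⁻¹ := fun h4 => h1 (by
    have h5 := orderOf_dvd_iff_pow_eq_one.1 ((V.orderOf_dvd_natCard hx).trans h)
    rwa [pow_succ, sq, eq_inv_iff_mul_eq_one.1 h4, one_mul] at h5)
  have h5 := Set.ncard_le_ncard (show ((({1, x, x⁻¹, y} : Finset Q)) : Set Q) ⊆ V by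
    simp [Set.insert_subset_iff, hx, hy])
  rw [Set.ncard_coe_finset, ← Nat.card_coe_set_eq, Finset.card_insert_of_notMem
    (by simp [h1.symm, h1, h2.symm]), Finset.card_insert_of_notMem (by simp [h4, h3.1.symm]),
    Finset.card_pair h3.2.symm] at h5
  exact absurd (h5.trans (Nat.le_of_dvd (by norm_num) h)) (by norm_num)

theorem card_le_two (hA : IsPGroup 3 A) (hK : ¬ 3 ∣ Nat.card K) (hV : ∀ α ∈ K, ∀ v ∈ V, α v ∈ V)
    (hf : ∀ α ∈ K, V ≤ Fx α → α = 1) (hU : ∀ α ∈ K, U ≤ Fx α) (h : U.relIndex V ∣ 3) :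
    Nat.card K ≤ 2 := by
  have := Fact.mk Nat.prime_three
  by_cases h1 : V ≤ U
  · rw [Subgroup.card_eq_one.2 (eq_bot_iff.2 fun α hα => hf α hα (h1.trans (hU α hα)))]
    norm_num
  obtain ⟨x, hx, h2⟩ := SetLike.not_le_iff_exists.1 h1
  have h3 : ∀ y ∈ V, y ∉ U → x⁻¹ * y ∈ U ∨ x * y ∈ U := fun y hy h3 => by
    refine (eq_or_eq_inv (V := V.map (QuotientGroup.mk' U)) (by rwa [H1.card_map_mk'])
      ⟨x, hx, rfl⟩ ⟨y, hy, rfl⟩ (mt (QuotientGroup.eq_one_iff x).1 h2)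
      (mt (QuotientGroup.eq_one_iff y).1 h3)).imp (fun h => QuotientGroup.eq.1 h.symm) fun h => ?_
    simpa using QuotientGroup.eq.1 (h.symm : ((x⁻¹ : A) : A ⧸ U) = y)
  have h4 : ∀ α ∈ K, x⁻¹ * α x ∈ U → α = 1 := fun α hα h4 => by
    have h5 := fix_of_coprime (hA.to_subgroup U) (not_dvd_orderOf hK hα) h4 (hU α hα h4)
    refine hf α hα fun y hy => ?_
    by_cases h6 : y ∈ U
    · exact hU α hα h6
    rcases h3 y hy h6 with h7 | h7
    · exact ((Fx α).mul_mem_cancel_left ((Fx α).inv_mem h5)).1 (hU α hα h7)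
    · exact ((Fx α).mul_mem_cancel_left h5).1 (hU α hα h7)
  have h5 : ∀ α ∈ K, α ≠ 1 → x * α x ∈ U := fun α hα h5 =>
    (h3 _ (hV α hα x hx) fun h => h2 (α.injective (hU α hα h) ▸ h)).resolve_left (mt (h4 α hα) h5)
  refine (Nat.card_le_card_of_injective (fun α : K => α = 1) fun α β h6 => ?_).trans
    (by simp)
  by_cases h7 : α = 1
  · rw [h7, (show α = 1 ↔ β = 1 from h6.to_iff).1 h7]
  have h8 := U.mul_mem (U.inv_mem (h5 α α.2 fun h => h7 (Subtype.ext h)))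
    (h5 β β.2 fun h => h7 ((show α = 1 ↔ β = 1 from h6.to_iff).2 (Subtype.ext h)))
  rw [mul_inv_rev, mul_assoc, inv_mul_cancel_left] at h8
  have h9 := hU _ (α⁻¹).2 h8
  rw [mem_Fx, map_mul, map_inv] at h9
  refine inv_mul_eq_one.1 (Subtype.ext (h4 _ (α⁻¹ * β).2 ?_))
  rw [← h9] at h8
  simpa using h8

theorem card_Fx_le (hV : ∀ v ∈ V, ρ v ∈ V) (h : Nat.card V = 27)
    (h1 : ∀ v ∈ V, v ≠ 1 → σ v = v → σ (ρ v) ≠ ρ v) : Nat.card (V ⊓ Fx σ : Subgroup A) ≤ 5 := by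
  have h2 : Disjoint (V ⊓ Fx σ) ((V ⊓ Fx σ).map ρ.toMonoidHom) := by
    rw [Subgroup.disjoint_def]
    rintro _ h2 ⟨v, h3, rfl⟩
    by_contra h4
    exact h1 v h3.1 (fun h => h4 (by simp [h])) h3.2 h2.2
  have h3 := H1.card_sup_mul_card_inf (H := V ⊓ Fx σ) (N := (V ⊓ Fx σ).map ρ.toMonoidHom)
    Subgroup.le_normalizer_of_normal
  have h4 := Subgroup.card_le_of_le (show V ⊓ Fx σ ⊔ (V ⊓ Fx σ).map ρ.toMonoidHom ≤ V from
    sup_le inf_le_left (by rintro _ ⟨v, h, rfl⟩; exact hV v h.1))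
  rw [h2.eq_bot, Subgroup.card_bot, Subgroup.card_map_of_injective ρ.injective] at h3
  nlinarith

theorem free_of_thirteen (hE : Nat.card E ∣ 416) (h13 : 13 ∣ Nat.card E) (h : Nat.card V ∣ 27)
    (hV : ∀ α ∈ E, ∀ v ∈ V, α v ∈ V) (hf : ∀ α ∈ E, V ≤ Fx α → α = 1) (hα : α ∈ E) (hv : v ∈ V)
    (h1 : v ≠ 1) (h2 : α v = v) : α = 1 := by
  have hq : Nat.Prime 13 := by norm_num
  have := Fact.mk hq
  have h3 : ∀ ρ ∈ E, orderOf ρ = 13 → Nat.card V = 27 ∧ V ⊓ Fx ρ = ⊥ := fun ρ hρ h3 => by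
    have h4 := card_modEq_Fx (pow_eq_one_of_orderOf h3) (hV ρ hρ)
    have h5 := card_lt_of_ne (inf_le_left : V ⊓ Fx ρ ≤ V) fun h =>
      ne_one_of_orderOf hq h3 (hf ρ hρ (inf_eq_left.1 h))
    have h6 := Subgroup.card_dvd_of_le (inf_le_left : V ⊓ Fx ρ ≤ V)
    have := Nat.le_of_dvd (by norm_num) h
    rw [← Subgroup.card_eq_one]
    generalize Nat.card V = x at *
    generalize Nat.card (V ⊓ Fx ρ : Subgroup A) = y at *
    have : x = y + 13 ∨ x = y + 26 := by rw [Nat.ModEq] at h4; omega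
    interval_cases x <;> first | omega | (interval_cases y <;> simp_all)
  by_contra h4
  obtain ⟨q, k, h5, h6, h7⟩ := exists_prime_pow h4
  have h8 := E.pow_mem hα k
  have h9 := pow_fix h2 k
  generalize α ^ k = τ at h7 h8 h9
  obtain rfl | rfl : q = 2 ∨ q = 13 := by
    have h10 : q ∣ 2 ^ 5 * 13 := h6.trans ((E.orderOf_dvd_natCard hα).trans hE)
    exact (h5.dvd_mul.1 h10).imp (fun h => (Nat.prime_dvd_prime_iff_eq h5 Nat.prime_two).1
      (h5.dvd_of_dvd_pow h)) (Nat.prime_dvd_prime_iff_eq h5 hq).1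
  swap
  · exact h1 (Subgroup.mem_bot.1 ((h3 τ h8 h7).2 ▸ ⟨hv, h9⟩))
  obtain ⟨ρ, h10⟩ := exists_prime_orderOf_dvd_card' (G := E) 13 h13
  have h11 := normal_zpowers hq h10 (m := 32) hE (by norm_num) fun d hd _ _ => by
    have := Nat.le_of_dvd (by norm_num) hd
    obtain rfl | rfl | rfl : d = 1 ∨ d = 14 ∨ d = 27 := by omega
    exacts [rfl, by norm_num at hd, by norm_num at hd]
  have h12 := h3 ρ ρ.2 (by rw [Subgroup.orderOf_coe, h10])
  have h13 : τ ≠ 1 := ne_one_of_orderOf Nat.prime_two h7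
  by_cases h14 : Commute τ ρ
  · have h15 := card_modEq_Fx (V := V ⊓ Fx τ) (pow_eq_one_of_orderOf
      (by rw [Subgroup.orderOf_coe, h10] : orderOf ρ.1 = 13))
      fun v hv => ⟨hV ρ ρ.2 v hv.1, map_mem_Fx h14 hv.2⟩
    rw [inf_right_comm, h12.2, bot_inf_eq, Subgroup.card_bot] at h15
    have h16 := one_lt_card_of_mem (V := V ⊓ Fx τ) ⟨hv, h9⟩ h1
    have h17 := card_lt_of_ne (inf_le_left : V ⊓ Fx τ ≤ V) fun h => h13 (hf τ h8 (inf_eq_left.1 h))
    have h18 := Subgroup.card_dvd_of_le (inf_le_left : V ⊓ Fx τ ≤ V)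
    rw [h12.1] at h17 h18
    obtain h19 : Nat.card (V ⊓ Fx τ : Subgroup A) = 14 := by rw [Nat.ModEq] at h15; omega
    rw [h19] at h18
    norm_num at h18
  have h15 : ∀ w ∈ V, w ≠ 1 → τ (ρ.1 (τ⁻¹ w)) ≠ ρ.1 w := fun w hw h15 h16 => by
    have h17 : ρ⁻¹ * (⟨τ, h8⟩ * ρ * ⟨τ, h8⟩⁻¹) ∈ Z ρ := mul_mem (inv_mem (Subgroup.mem_zpowers ρ))
      (h11.conj_mem _ (Subgroup.mem_zpowers ρ) _)
    have h18 := (Nat.dvd_prime hq).1 (h10 ▸ orderOf_dvd_of_mem_zpowers h17)
    rw [orderOf_eq_one_iff, inv_mul_eq_one, eq_mul_inv_iff_mul_eq, ← Subgroup.orderOf_coe] at h18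
    refine h15 (Subgroup.mem_bot.1 ((h3 _ (Subtype.prop _) (h18.resolve_left fun h => h14
      (congrArg Subtype.val h).symm)).2 ▸ ⟨hw, ρ.1.injective ?_⟩))
    simpa using h16
  have h16 := card_Fx_le (σ := τ) (hV ρ ρ.2) h12.1 fun w hw h16 h17 h18 =>
    h15 w hw h16 (by rwa [show τ⁻¹ w = w from τ.injective (by simpa using h17.symm)])
  have h17 := card_Fx_le (σ := τ * MulEquiv.inv A) (hV ρ ρ.2) h12.1 fun w hw h16 h17 h18 =>
    h15 w hw h16 (by
      rwa [show τ⁻¹ w = w⁻¹ from τ.injective (by simpa using h17.symm), map_inv])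
  have h18 := H1.card_map_mul_card_inf_ker (cm τ) V
  have h19 := Subgroup.card_le_of_le (show V.map (cm τ) ≤ V ⊓ Fx (τ * MulEquiv.inv A) by
    rintro _ ⟨w, hw, rfl⟩
    refine ⟨V.mul_mem (V.inv_mem hw) (hV τ h8 w hw), ?_⟩
    have h19 : τ (τ w) = w := by rw [← MulAut.mul_apply, ← sq, ← h7, pow_orderOf_eq_one]; rfl
    simp [mem_Fx, cm_apply, h19, mul_comm])
  rw [ker_cm, h12.1, inf_comm] at h18
  nlinarith

theorem exists_line (hE : IsPGroup 2 E) (h : Nat.card V = 27) (hV : ∀ α ∈ E, ∀ v ∈ V, α v ∈ V) :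
    ∃ a ∈ V, a ≠ 1 ∧ ∀ α ∈ E, α a = a ∨ α a = a⁻¹ := by
  let ι : MulAut A := MulEquiv.inv A
  have h1 : (Z ι).Normal := normal_of_le_center (Subgroup.zpowers_le.2
    (Subgroup.mem_center_iff.2 fun α => MulEquiv.ext fun a => map_inv α a))
  have h2 : IsPGroup 2 (E ⊔ Z ι : Subgroup (MulAut A)) := hE.to_sup_of_normal_right
    (IsPGroup.iff_card.2 (((Nat.dvd_prime_pow Nat.prime_two (m := 1)).1 (by
      rw [Nat.card_zpowers]
      exact orderOf_dvd_of_pow_eq_one (MulEquiv.ext fun a => inv_inv a))).imp fun _ h => h.2))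
  have h3 : E ⊔ Z ι ≤ MulAction.stabilizer (MulAut A) (V : Set A) := by
    have key : ∀ α : MulAut A, (∀ v ∈ V, α v ∈ V) → α ∈ MulAction.stabilizer (MulAut A) (V : Set A) :=
      fun α h => (MulAction.mem_stabilizer_set_iff_smul_set_subset (Set.toFinite _)).2 (by
        rintro _ ⟨v, hv, rfl⟩; exact h v hv)
    exact sup_le (fun α hα => key α (hV α hα)) (Subgroup.zpowers_le.2 (key ι fun v => V.inv_mem))
  obtain ⟨a, h4, h5⟩ : ∃ a ∈ (V : Set A) \ {1}, ¬ 4 ∣ Nat.card (MulAction.orbit (E ⊔ Z ι :) a) := by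
    by_contra! h4
    have := H24.dvd_ncard_of_orbits (E ⊔ Z ι) ((V : Set A) \ {1}) (fun α hα v hv =>
      ⟨(MulAction.mem_stabilizer_set.1 (h3 hα) v).2 hv.1, by simpa using hv.2⟩) h4
    rw [Set.ncard_sdiff_singleton_of_mem V.one_mem, ← Nat.card_coe_set_eq, SetLike.coe_sort_coe,
      h] at this
    norm_num at this
  refine ⟨a, h4.1, h4.2, fun α hα => ?_⟩
  obtain ⟨n, hn⟩ := h2.card_orbit a
  have h6 : n ≤ 1 := by
    by_contra h6
    exact h5 (hn ▸ pow_dvd_pow 2 (not_le.1 h6))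
  have h7 : a ≠ a⁻¹ := fun h7 => h4.2 (by
    have h8 := (V.orderOf_dvd_natCard h4.1).trans h.dvd
    have h9 : orderOf a ∣ 2 := orderOf_dvd_of_pow_eq_one (by
      rw [sq, eq_inv_iff_mul_eq_one.1 h7])
    exact orderOf_eq_one_iff.1 (Nat.eq_one_of_dvd_coprimes (by norm_num) h8 h9))
  have h8 := Set.eq_of_subset_of_ncard_le (s := {a, a⁻¹}) (t := MulAction.orbit (E ⊔ Z ι :) a)
    (Set.insert_subset (MulAction.mem_orbit_self a) (Set.singleton_subset_iff.2
      ⟨⟨ι, Subgroup.mem_sup_right (Subgroup.mem_zpowers ι)⟩, rfl⟩)) (by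
    rw [Set.ncard_pair h7, ← Nat.card_coe_set_eq, hn]
    exact Nat.pow_le_pow_right two_pos h6)
  exact (h8.ge ⟨⟨α, Subgroup.mem_sup_left hα⟩, rfl⟩ :)

theorem exists_small_stab (hA : IsPGroup 3 A) (h : (Z u).index ∣ 9) (hE : ¬ 3 ∣ Nat.card E) :
    ∃ v : A, Nat.card (fx E (Z v)) ≤ 2 := by
  have := Fact.mk Nat.prime_three
  obtain ⟨V, hV⟩ : ∃ V, V = (powMonoidHom 3 : A →* A).ker := ⟨_, rfl⟩
  have h1 : ∀ v, v ∈ V ↔ v ^ 3 = 1 := fun v => hV ▸ Iff.rfl
  have h2 : ∀ α ∈ E, ∀ v ∈ V, α v ∈ V := fun α _ v hv => by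
    rw [h1] at hv ⊢
    rw [← map_pow, hv, map_one]
  have h3 : ∀ α ∈ E, V ≤ Fx α → α = 1 := fun α hα h3 =>
    eq_one_of_omega hA (not_dvd_orderOf hE hα) fun a ha => h3 ((h1 a).2 ha)
  have h4 : Nat.card V ∣ 27 := by
    rw [← H1.relIndex_mul_card (inf_le_right : Z u ⊓ V ≤ V), Subgroup.inf_relIndex_right]
    exact Nat.mul_dvd_mul (((Z u).relIndex_dvd_index_of_normal V).trans h)
      (card_dvd_of_le_zpowers inf_le_left fun x hx => (h1 x).1 hx.2)
  have h5 : ∀ v ∈ V, v ≠ 1 → Nat.card (Z v) = 3 := fun v hv h5 => by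
    rw [Nat.card_zpowers, orderOf_eq_prime ((h1 v).1 hv) h5]
  have key : ∀ v : A, ∀ U ≤ V, (∀ α ∈ fx E (Z v), U ≤ Fx α) → Nat.card V ∣ 3 * Nat.card U →
      Nat.card (fx E (Z v)) ≤ 2 := fun v U h6 h7 h8 =>
    card_le_two hA (fun h => hE (h.trans (Subgroup.card_dvd_of_le fx_le)))
      (fun α hα => h2 α (fx_le hα)) (fun α hα => h3 α (fx_le hα)) h7
      (Nat.dvd_of_mul_dvd_mul_right Nat.card_pos (H1.relIndex_mul_card h6 ▸ h8))
  have h6 : ∀ v, ∀ α ∈ fx E (Z v), Z v ≤ Fx α := fun v α hα => (mem_fx.1 hα).2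
  by_cases h7 : V = ⊥
  · exact ⟨1, key 1 ⊥ bot_le (fun _ _ => bot_le) (by simp [h7])⟩
  obtain ⟨v, hv, h8⟩ := V.bot_or_exists_ne_one.resolve_left h7
  have h9 := card_dvd_three hA h hE
  by_cases h13 : 13 ∣ Nat.card E
  · refine ⟨v, (Subgroup.card_eq_one.2 (eq_bot_iff.2 fun α hα => ?_)).trans_le one_le_two⟩
    exact free_of_thirteen h9 h13 h4 h2 h3 (fx_le hα) hv h8 (mem_fx_zpowers.1 hα).2
  by_cases h10 : Nat.card V = 27
  swap
  · refine ⟨v, key v _ (Subgroup.zpowers_le.2 hv) (h6 v) ?_⟩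
    obtain ⟨i, h11, h12⟩ := (Nat.dvd_prime_pow Nat.prime_three (m := 3)).1 h4
    rw [h5 v hv h8, h12]
    exact pow_dvd_pow 3 (Nat.le_of_lt_succ (h11.lt_of_ne fun h => h10 (by rw [h12, h]; rfl)))
  obtain ⟨a, ha, h11, h12⟩ := exists_line (IsPGroup.iff_card.2 (((Nat.dvd_prime_pow
    Nat.prime_two (m := 5)).1 ((((by norm_num : Nat.Prime 13).coprime_iff_not_dvd.2
      h13).symm).dvd_of_dvd_mul_right h9)).imp fun _ h => h.2)) h10 h2
  obtain ⟨w, hw, h14⟩ := SetLike.exists_of_lt (lt_of_le_of_ne (Subgroup.zpowers_le.2 ha)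
    fun h => by simp [← h, h5 a ha h11] at h10)
  have h15 : ∀ w ∈ V, w ∉ Z a → (∀ α ∈ fx E (Z w), α a = a) → Nat.card (fx E (Z w)) ≤ 2 :=
    fun w hw h14 h15 => by
      have h16 : Z a ⊔ Z w ≤ V := sup_le (Subgroup.zpowers_le.2 ha) (Subgroup.zpowers_le.2 hw)
      refine key w _ h16 (fun α hα => sup_le (Subgroup.zpowers_le.2 (h15 α hα)) (h6 w α hα)) ?_
      obtain ⟨i, -, h17⟩ := (Nat.dvd_prime_pow Nat.prime_three (m := 3)).1
        ((Subgroup.card_dvd_of_le h16).trans h4)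
      have h18 := card_lt_of_ne (le_sup_left : Z a ≤ Z a ⊔ Z w) fun h =>
        h14 (h ▸ Subgroup.mem_sup_right (Subgroup.mem_zpowers w))
      rw [h5 a ha h11, h17] at h18
      rw [h10, h17]
      exact Nat.mul_dvd_mul_left 3 (pow_dvd_pow 3 ((Nat.pow_lt_pow_iff_right (a := 3) (n := 1)
        (by norm_num)).1 h18))
  by_contra! h16
  obtain ⟨τ, h17, h18⟩ := not_forall₂.1 fun h => (h16 w).not_ge (h15 w hw h14 h)
  obtain ⟨σ, h19, h20⟩ := not_forall₂.1 fun h => (h16 (w * a)).not_ge (h15 _ (V.mul_mem hw ha)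
    (fun h => h14 (((Z a).mul_mem_cancel_right (Subgroup.mem_zpowers a)).1 h)) h)
  rw [mem_fx_zpowers] at h17 h19
  have h21 := (h12 τ h17.1).resolve_left h18
  have h22 := (h12 σ h19.1).resolve_left h20
  have h23 : w⁻¹ * (σ * τ) w = a * a := by
    rw [MulAut.mul_apply, h17.2, inv_mul_eq_iff_eq_mul, ← mul_assoc, ← h19.2, map_mul, h22,
      inv_mul_cancel_right]
  have h24 := fix_of_coprime (hA.to_subgroup ⊤) (not_dvd_orderOf hE (E.mul_mem h19.1 h17.1))
    (y := w) trivial (by rw [h23, map_mul, MulAut.mul_apply, h21, map_inv, h22, inv_inv])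
  rw [h24, inv_mul_cancel] at h23
  have h25 := (h1 a).1 ha
  rw [pow_succ, sq, ← h23, one_mul] at h25
  exact h11 h25

end Three

end H3.KQ
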