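import Cfsg.Agent.H3.KQ7
import Cfsg.Agent.H3.KQ8
import Cfsg.Agent.H25.Alperin

/-! The fusion system of a block seen on the abstract defect group. -/

set_option autoImplicit false
set_option linter.unusedSectionVars false

open Cfsg MonoidAlgebra
open H5 H8 H28 H7 H21 Finset
open H25 (ex im)

namespace H3.KQ

local notation "Z" => Subgroup.zpowers
local notation "C" u:max => Subgroup.centralizer ({u} : Set _)

/-- conjugacy and automizers of a saturated fusion system on `S` -/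
structure AF (p : ℕ) {S : Type*} [Group S] (R : S → S → Prop) (E : Subgroup (MulAut S))
    (X : ∀ Q : Subgroup S, Subgroup (MulAut Q)) : Prop where
  isP : IsPGroup p S
  eqv : Equivalence R
  pow : ∀ {u v}, R u v → ∀ n : ℕ, R (u ^ n) (v ^ n)
  ord : ∀ {u v}, R u v → orderOf u = orderOf v
  top : ∀ α ∈ E, ∀ u, R u (α u)
  innE : ∀ s, MulAut.conj s ∈ E
  sylE : ¬ p ∣ (MulAut.conj : S →* MulAut S).range.relIndex E
  aut : ∀ Q, ∀ α ∈ X Q, ∀ y : Q, R y (α y)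
  inn : ∀ Q, Q.normalizerMonoidHom.range ≤ X Q
  syl : ∀ Q : Subgroup S, Q.Normal → ¬ p ∣ Q.normalizerMonoidHom.range.relIndex (X Q)
  burn : ∀ u ∈ Subgroup.center S, ∀ v ∈ Subgroup.center S, R u v → ∃ α ∈ E, α u = v
  ind : ∀ W : S → S → Prop, (∀ u v w, W u v → W v w → W u w) → (∀ u s, W u (s * u * s⁻¹)) →
    (∀ α ∈ E, ¬ p ∣ orderOf α → ∀ u, W u (α u)) →
    (∀ Q : Subgroup S, Q ≠ ⊤ → 𝐂 Q ≤ Q → ¬ p ∣ Q.normalizerMonoidHom.range.relIndex (X Q) →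
      ∀ α ∈ X Q, ¬ p ∣ orderOf α → α ≠ 1 → ∀ y : Q, W y (α y)) → ∀ u v, R u v → W u v

theorem rel_of_syl {A S : Type*} [Group A] [Finite A] {p : ℕ} [Fact p.Prime]
    {T X : Subgroup (MulAut A)} (hT : T ≤ X) (h : ¬ p ∣ T.relIndex X) {W : S → S → Prop}
    (ι : A → S) (h1 : ∀ u v w, W u v → W v w → W u w) (h2 : ∀ α ∈ T, ∀ y, W (ι y) (ι (α y)))
    (h3 : ∀ α ∈ X, ¬ p ∣ orderOf α → α ≠ 1 → ∀ y, W (ι y) (ι (α y))) :
    ∀ α ∈ X, ∀ y, W (ι y) (ι (α y)) := by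
  let K : Submonoid (MulAut A) := ⟨⟨{α | ∀ y, W (ι y) (ι (α y))}, fun ha hb y =>
    h1 _ _ _ (hb y) (ha _)⟩, h2 1 T.one_mem⟩
  let K' : Subgroup (MulAut A) := ⟨K, fun {α} ha => by
    have := K.pow_mem ha (orderOf α - 1)
    rwa [eq_inv_of_mul_eq_one_left (show α ^ (orderOf α - 1) * α = 1 by
      rw [← pow_succ, Nat.sub_add_cancel (orderOf_pos α), pow_orderOf_eq_one])] at this⟩
  intro α hα
  obtain ⟨r, hr, u, hu, rfl⟩ := H25.Syl.exists_resid_mul ⟨hT, h⟩ hα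
  refine K.mul_mem (H25.resid_le_iff (K := K') |>.2 (fun a ha h4 => ?_) hr) (h2 u hu)
  by_cases h5 : a = 1
  · exact h5 ▸ K.one_mem
  · exact h3 a ha ((Nat.Prime.coprime_iff_not_dvd Fact.out).1 h4.symm) h5

universe u

variable {G : Type u} [Group G] [Finite G] {p : ℕ} [Fact p.Prime]

section Abs

variable {k : Type*} [Field k] [CharP k p] {P : Subgroup G} {b e : k[G]} {Q : Subgroup P} {g : G}

/-- the automizer of `Q` in the fusion system -/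
def XA (he : IsBP p ⊤ ⊤ P e) (Q : Subgroup P) : Subgroup (MulAut Q) where
  carrier := {α | ∃ g, Fus p ⊤ ⊤ P e (Q.map P.subtype) g ∧ ∀ y : Q, ((α y : P) : G) = g * y * g⁻¹}
  one_mem' := ⟨1, fus_of_mem top_le_norm_top he (Subgroup.map_subtype_le _) P.one_mem, by simp⟩
  mul_mem' := by
    rintro α β ⟨g, h1, h2⟩ ⟨h, h3, h4⟩
    refine ⟨g * h, h3.comp top_le_norm_top he h1 (H25.cj_le.2 ?_), fun y => ?_⟩
    · rintro _ ⟨y, hy, rfl⟩
      exact ⟨_, (β ⟨y, hy⟩).2, h4 _⟩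
    · rw [MulAut.mul_apply, h2, h4]
      group
  inv_mem' := by
    rintro α ⟨g, h1, h2⟩
    refine ⟨g⁻¹, h1.inv.mono top_le_norm_top he ?_, fun y => ?_⟩
    · rintro _ ⟨y, hy, rfl⟩
      exact ⟨_, ⟨_, (α⁻¹ ⟨y, hy⟩).2, rfl⟩, (h2 _).symm.trans (by simp)⟩
    · have := h2 (α⁻¹ y)
      rw [MulAut.apply_inv_self] at this
      rw [this]
      group

/-- the automorphism of `Q` induced by an element of the normalizer -/
noncomputable def nH (Q : Subgroup P) : 𝐍 (Q.map P.subtype) →* MulAut Q :=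
  (MulAut.congr (Q.equivMapOfInjective _ P.subtype_injective).symm).toMonoidHom.comp
    (Q.map P.subtype).normalizerMonoidHom

theorem coe_nH (a : 𝐍 (Q.map P.subtype)) (y : Q) : ((nH Q a y : P) : G) = a * y * (a : G)⁻¹ := by
  have := congrArg Subtype.val ((Q.equivMapOfInjective _ P.subtype_injective).apply_symm_apply
    ((Q.map P.subtype).normalizerMonoidHom a (Q.equivMapOfInjective _ P.subtype_injective y)))
  exact this

theorem mem_XA_of (he : IsBP p ⊤ ⊤ P e) (h : Fus p ⊤ ⊤ P e (Q.map P.subtype) g)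
    (hg : g ∈ 𝐍 (Q.map P.subtype)) : nH Q ⟨g, hg⟩ ∈ XA he Q := ⟨g, h, coe_nH _⟩

theorem syl_XA (he : IsBP p ⊤ ⊤ P e)
    (h : H25.Syl p (H25.ai P (Q.map P.subtype)) ((bpFS he).A (Q.map P.subtype))) :
    ¬ p ∣ Q.normalizerMonoidHom.range.relIndex (XA he Q) := by
  have h1 := (bpFS he).A_le_nz (Q.map P.subtype)
  have h2 : ((nH Q).comp (Subgroup.inclusion h1)).range = XA he Q := by
    refine le_antisymm ?_ ?_
    · rintro _ ⟨a, rfl⟩
      exact mem_XA_of he (a.2.2 (Subgroup.map_subtype_le _)) _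
    · rintro α ⟨g, h2, h3⟩
      refine ⟨⟨g, H25.FS.T.mem_A' (F := bpFS he) h2 (H25.cj_eq_of_le (H25.cj_le.2 ?_))⟩,
        MulEquiv.ext fun y => Subtype.ext (Subtype.ext ((coe_nH _ y).trans (h3 y).symm))⟩
      rintro _ ⟨y, hy, rfl⟩
      exact ⟨_, (α ⟨y, hy⟩).2, h3 _⟩
  rw [← h2, ← Subgroup.index_comap]
  refine fun h3 => h.2 (h3.trans (Subgroup.index_dvd_of_le fun a ha => ?_))
  obtain ⟨s, hs, h4⟩ := H25.mem_ai'.1 ha
  refine ⟨⟨⟨s, hs.1⟩, ?_⟩, MulEquiv.ext fun y => Subtype.ext (Subtype.ext ?_)⟩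
  · refine H1.mem_normalizer_of_conj_mem fun y hy => ?_
    obtain ⟨z, hz, h5⟩ := (Subgroup.mem_normalizer_iff.1 hs.2 _).1 (⟨y, hy, rfl⟩ :
      (y : G) ∈ Q.map P.subtype)
    exact (Subtype.ext h5 : z = ⟨s, hs.1⟩ * y * ⟨s, hs.1⟩⁻¹) ▸ hz
  · exact ((coe_nH _ y).trans (h4 _ ⟨y, y.2, rfl⟩)).symm

variable [IsAlgClosed k]

theorem MaxP.af (m : MaxP p ⊤ ⊤ b P e) :
    AF p (fun u v : P => FConj p P e u v) (inE P e) (XA m.bp) := by
  have h1 : ∀ α ∈ inE P e, ∀ u : P, FConj p P e u (α u) := fun α hα u => by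
    obtain ⟨t, h1, h2⟩ := mem_inE.1 hα
    exact ⟨t, ((fus_top_iff_mem m.bp).2 h1).mono top_le_norm_top m.bp
      (Subgroup.zpowers_le.2 u.2), (h2 u).symm⟩
  have h2 : ∀ s : P, MulAut.conj s ∈ inE P e := fun s =>
    mem_inE.2 ⟨s, m.bp.le_stab s.2, fun _ => rfl⟩
  have h3 : ¬ p ∣ (MulAut.conj : P →* MulAut P).range.relIndex (inE P e) := by
    have h3 : ¬ p ∣ (H25.ai P P).relIndex ((bpFS m.bp).A P) := (m.sat.syl (bpFS m.bp).FN_S).2
    rw [bpFS_A m.bp (PLE.refl _ _)] at h3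
    have h4 : ⊤ ⊓ 𝐍 P ⊓ stab e ≤ 𝐍 P := inf_le_left.trans inf_le_right
    have h5 : (P.normalizerMonoidHom.comp (Subgroup.inclusion h4)).range = inE P e :=
      Subgroup.ext fun α => ⟨fun ⟨a, h⟩ => ⟨_, a.2, h⟩, fun ⟨a, h, h'⟩ => ⟨⟨a, h⟩, h'⟩⟩
    rw [← h5, ← Subgroup.index_comap]
    refine fun h => h3 (h.trans (Subgroup.index_dvd_of_le fun a ha => ?_))
    obtain ⟨s, hs, h6⟩ := H25.mem_ai'.1 ha
    exact ⟨⟨s, hs.1⟩, MulEquiv.ext fun y => Subtype.ext (h6 _ y.2).symm⟩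
  have h4 : ∀ Q : Subgroup P, Q.normalizerMonoidHom.range ≤ XA m.bp Q := by
    rintro Q _ ⟨s, rfl⟩
    exact ⟨s, fus_of_mem top_le_norm_top m.bp (Subgroup.map_subtype_le _) s.1.2, fun _ => rfl⟩
  refine ⟨m.bp.isP, ⟨fun u => FConj.refl m.bp u.2, FConj.symm, FConj.trans m.bp⟩,
    fun h n => h.pow m.bp n, fun {u v} h => ?_, h1, h2, h3, ?_, h4, fun Q hQ => syl_XA m.bp
      (m.sat.syl (H25.FS.FN_of_le_nz (Subgroup.map_subtype_le _) fun s hs => ?_)),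
    fun u hu v hv ⟨g, h5, h6⟩ => ?_, fun W h5 h6 h7 h8 u v ⟨g, h9, h10⟩ => ?_⟩
  · obtain ⟨g, -, h5⟩ := h
    rw [← Subgroup.orderOf_coe, ← Subgroup.orderOf_coe v, ← h5, H25.orderOf_conj']
  · rintro Q α ⟨g, h5, h6⟩ y
    exact ⟨g, h5.mono top_le_norm_top m.bp (Subgroup.zpowers_le.2 ⟨y, y.2, rfl⟩), (h6 y).symm⟩
  · refine H1.mem_normalizer_of_conj_mem ?_
    rintro _ ⟨y, hy, rfl⟩
    exact ⟨_, hQ.conj_mem y hy ⟨s, hs⟩, rfl⟩
  · have h7 : ∀ u ∈ Subgroup.center P, P ≤ 𝐂 (Z (u : G)) := fun u hu s hs => by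
      rw [centralizer_zpowers]
      exact mem_C.2 (congrArg Subtype.val (Subgroup.mem_center_iff.1 hu ⟨s, hs⟩))
    obtain ⟨h, h8, h9⟩ := m.sat.ext_C (F := bpFS m.bp) h5 (by
      rw [H25.cj_zpowers, h6]
      exact H25.FS.FC_of_le_cz (Subgroup.zpowers_le.2 v.2) (h7 v hv))
    obtain ⟨α, h10, h11⟩ := exists_mem_inE ((fus_top_iff_mem m.bp).1
      (h8.mono (le_sup_of_le_right (le_inf le_rfl (h7 u hu)))))
    exact ⟨α, h10, Subtype.ext ((h11 u).trans ((h9 _ (Subgroup.mem_zpowers _)).trans h6))⟩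
  refine m.sat.alperin (F := bpFS m.bp) (M := fun T g => ∀ u v : P, (u : G) ∈ T →
    g * u * g⁻¹ = v → W u v) (fun T g h h11 _ h12 h13 u v hu h14 => ?_)
    (fun T g h _ h11 h12 u v hu h13 => h11 u v hu ((h12 _ hu).symm.trans h13))
    (fun T h11 a ha T' h12 u v hu h13 => ?_) _ g h9 u v (Subgroup.mem_zpowers _) h10
  · exact h5 _ ⟨_, h11.conj_mem hu⟩ _ (h12 u _ hu rfl)
      (h13 _ v ⟨u, hu, rfl⟩ (h14 ▸ by group))
  rcases h11 with rfl | h11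
  · obtain ⟨α, h14, h15⟩ := exists_mem_inE ((fus_top_iff_mem m.bp).1 (ha.2 le_rfl))
    rw [show v = α u from Subtype.ext (h13.symm.trans (h15 u).symm)]
    exact rel_of_syl (ι := id) (by rintro _ ⟨s, rfl⟩; exact h2 s) h3 h5
      (by rintro _ ⟨s, rfl⟩ y; exact h6 y s) (fun α hα h _ => h7 α hα h) α h14 u
  obtain ⟨Q, rfl⟩ : ∃ Q : Subgroup P, Q.map P.subtype = T :=
    ⟨_, Subgroup.map_subgroupOf_eq_of_le h11.le⟩
  obtain ⟨y, hy, h14⟩ := h12 hu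
  obtain rfl : y = u := Subtype.ext h14
  have h15 := syl_XA m.bp (m.sat.syl h11.fn)
  rw [show v = nH Q ⟨a, ha.1⟩ ⟨y, hy⟩ from Subtype.ext (h13.symm.trans (coe_nH ⟨a, ha.1⟩ ⟨y, hy⟩).symm)]
  refine rel_of_syl (ι := Subtype.val) (h4 Q) h15 h5 (by rintro _ ⟨s, rfl⟩ y; exact h6 y s)
    (h8 Q (fun h => h11.lt.ne ?_) (fun s hs => ?_) h15) _ (mem_XA_of m.bp (ha.2 h11.le) _) ⟨y, hy⟩
  · rw [h, ← MonoidHom.range_eq_map, Subgroup.range_subtype]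
    rfl
  · obtain ⟨z, hz, h16⟩ := h11.centric.C_le (x := s) ⟨s.2, by
      rintro _ ⟨y, hy, rfl⟩
      exact congrArg Subtype.val (hs y hy)⟩
    exact (Subtype.ext h16 : z = s) ▸ hz

end Abs

end H3.KQ
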