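import Cfsg.Agent.H7.ME0
import Cfsg.Agent.H13.BN2

/-! Maximal subgroups of `E₇(2)`: the parabolic subgroups. -/

set_option autoImplicit false
set_option maxRecDepth 100000

namespace H3.ME

open H14 H14.PreSt H14.St H7.ME Cfsg.Lie Subgroup Matrix
open H18.E7 (G M xr M_x)

section gen
variable {ι κ : Type*} [Fintype κ] [DecidableEq κ] [Fintype ι] [DecidableEq ι] {R : RootSys ι κ}
  {C : Chev R} {K Γ : Type*} [Field K] [Group Γ] {S : St C K Γ} (hS : S.Sep) (hG : S.U Set.univ = ⊤)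
include hS hG
theorem n_mem_P_iff {J : Set κ} {i : κ} : S.n (R.simple i) 1 ∈ S.P J ↔ i ∈ J := by
  refine ⟨fun h => ?_, n_mem_P⟩
  obtain ⟨j, hj, e⟩ := H13.BN.mem_of_mem_parabolic (P := bnPair hS hG) (J := {g | ∃ j ∈ J, g = S.n (R.simple j) 1})
    (fun _ ⟨j, _, e⟩ => ⟨j, e⟩) ⟨i, rfl⟩ h
  rwa [sr_inj (NW.unique hS (n_mem_NW (S := S.toPreSt) (R.simple i) one_ne_zero) (e ▸ n_mem_NW (R.simple j) one_ne_zero))]
theorem coatom_P (i : κ) : IsCoatom (S.P {j | j ≠ i}) := by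
  refine ⟨fun e => (n_mem_P_iff hS hG).1 (e.ge (mem_top (S.n (R.simple i) 1))) rfl, fun M hM => ?_⟩
  have hB := (B_le_P _).trans hM.le
  by_cases h : S.n (R.simple i) 1 ∈ M
  · rw [eq_top_iff, ← hG, ← P_univ, P_le]
    exact ⟨hB, fun j _ => if e : j = i then e ▸ h else hM.le (n_mem_P e)⟩
  · refine absurd ((H13.BN.eq_parabolic (P := bnPair hS hG) hB).le.trans (sup_le (B_le_P _) ((closure_le _).2 ?_))) hM.not_ge
    rintro _ ⟨⟨j, rfl⟩, hj⟩
    exact n_mem_P fun e => h (e ▸ hj)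
theorem conj_P {i j : κ} {g : Γ} (h : (S.P {k | k ≠ i}).map (MulAut.conj g).toMonoidHom = S.P {k | k ≠ j}) : i = j := by
  have hg : g ∈ S.P {k | k ≠ j} := H13.BN.mem_of_conj_le (P := bnPair hS hG) (B_le_P _) fun b hb => h.le ⟨b, B_le_P _ hb, rfl⟩
  by_contra e
  obtain ⟨x, hx, e'⟩ := h.ge (mul_mem (mul_mem hg (n_mem_P (S := S) (J := {k | k ≠ j}) e)) (inv_mem hg))
  obtain rfl : x = _ := (MulAut.conj g).injective e'
  exact (n_mem_P_iff hS hG).1 hx rfl
end gen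

theorem X_eq (r : Fin chevE7.nroots) : X r = xr r := dif_pos r.2

theorem pa : PA := by
  refine ⟨fun i => coatom_P (goodE7.SG_sep _) (goodE7.SG_top _) i, fun i j g h => conj_P (goodE7.SG_sep _) (goodE7.SG_top _) h,
    fun i => (closure_le _).2 ?_⟩
  rintro _ ⟨r, hr, h, rfl⟩
  rw [X_eq ⟨r, hr⟩]
  exact B_le_P _ (U_le_B (x_mem_U (S := (goodE7.SG (ZMod 2)).toPreSt)
    (RootSys.pos_of_cf_pos _ (show 0 < goodE7.R.cf ⟨r, hr⟩ ⟨0, by decide⟩ from h)) 1))

theorem bt : BT := fun R hR h => by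
  have : Finite (chevE7.group (ZMod 2)) := H18.E7.finG
  obtain ⟨g, J, hJ, e, -⟩ := borel_tits (goodE7.SG_sep _) (goodE7.SG_top _)
    (exists_conj_U 2 (goodE7.SG_sep _) (goodE7.SG_hmul _) (goodE7.SG_top _) hR) h
  obtain ⟨i, hi⟩ := (Set.ne_univ_iff_exists_notMem J).1 hJ
  exact ⟨g, i, fun k hk => (P_le.2 ⟨B_le_P _, fun j hj => n_mem_P fun e => hi (e ▸ hj)⟩ :
    (goodE7.SG (ZMod 2)).P J ≤ (goodE7.SG (ZMod 2)).P {j | j ≠ i}) (e k hk)⟩

section mat
variable {n : Type*} [Fintype n] [DecidableEq n]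
/-- an element of order 43 has no small invariant subspace -/
theorem small {A : Matrix n n (ZMod 2)} (hA : A ^ 43 = 1) (f : ∀ v, A *ᵥ v = v → v = 0) (W : Submodule (ZMod 2) (n → ZMod 2))
    (hW : ∀ v ∈ W, A *ᵥ v ∈ W) {I : Finset n} (hI : I.card ≤ 12) (h : ∀ v ∈ W, ∀ i ∉ I, v i = 0) : W = ⊥ := by
  classical
  have : Fact (Nat.Prime 43) := ⟨by norm_num⟩
  have d : Module.finrank (ZMod 2) W ≤ 12 := (Submodule.finrank_mono (t := Pi.spanSubset (ZMod 2) (I : Set n))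
    fun v hv => Pi.mem_spanSubset_iff.2 (h v hv)).trans (by rw [Pi.dim_spanSubset, Set.ncard_coe_finset]; exact hI)
  let φ : Function.End W := fun v => ⟨A *ᵥ v, hW v v.2⟩
  have e : ∀ m (v : W), ((φ ^ m) v : n → ZMod 2) = A ^ m *ᵥ v := fun m => by
    induction m with
    | zero => intro v; rw [pow_zero, pow_zero, one_mulVec]; rfl
    | succ m ih => intro v; rw [pow_succ, pow_succ, ← mulVec_mulVec]; exact ih _
  have k := Equiv.Perm.card_fixedPoints_modEq (f := φ) (p := 43) (n := 1) (funext fun v => Subtype.ext (by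
    rw [e, pow_one, hA, one_mulVec]; rfl))
  rw [Fintype.card_eq_one_iff.2 ⟨(⟨0, Subtype.ext (mulVec_zero _)⟩ : φ.fixedPoints),
    fun v => Subtype.ext (Subtype.ext (f _ (congrArg Subtype.val v.2)))⟩, Module.card_eq_pow_finrank (K := ZMod 2),
    ZMod.card] at k
  refine Submodule.finrank_eq_zero.1 ?_
  generalize Module.finrank (ZMod 2) W = m at *
  interval_cases m <;> first | rfl | exact absurd k (by decide)
/-- the stabilizer of a subspace -/
def stab {Γ : Type*} [Group Γ] [Finite Γ] (ρ : Γ →* Matrix n n (ZMod 2)) (W : Submodule (ZMod 2) (n → ZMod 2)) : Subgroup Γ where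
  carrier := {g | ∀ v ∈ W, ρ g *ᵥ v ∈ W}
  one_mem' v hv := by simpa using hv
  mul_mem' a b v hv := by rw [map_mul, ← mulVec_mulVec]; exact a _ (b v hv)
  inv_mem' {g} hg := by
    have k : ∀ m, ∀ v ∈ W, ρ (g ^ m) *ᵥ v ∈ W := fun m => by
      induction m with
      | zero => intro v hv; simpa using hv
      | succ m ih => intro v hv; rw [pow_succ, map_mul, ← mulVec_mulVec]; exact ih _ (hg v hv)
    obtain ⟨m, e⟩ := (mem_powers_iff_mem_zpowers (x := g) (y := g⁻¹)).2 (inv_mem (mem_zpowers g))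
    exact e ▸ k m
theorem span_inv {A : Matrix n n (ZMod 2)} {I : Set n} (h : ∀ b c, c ∈ I → b ∉ I → (A - 1) b c = 0) :
    ∀ v ∈ Pi.spanSubset (ZMod 2) I, A *ᵥ v ∈ Pi.spanSubset (ZMod 2) I := fun v hv => by
  rw [← sub_add_cancel A 1, add_mulVec, one_mulVec]
  refine add_mem (Pi.mem_spanSubset_iff.2 fun b hb => Finset.sum_eq_zero fun c _ => ?_) hv
  by_cases hc : c ∈ I
  · exact mul_eq_zero_of_left (h b c hc hb) _
  · rw [Pi.mem_spanSubset_iff.1 hv c hc, mul_zero]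
theorem small1 {A : Matrix n n (ZMod 2)} (hA : A ^ 43 = 1) (f : ∀ v, A *ᵥ v = v → v = 0) {I : Finset n} (hI : I.card ≤ 12)
    (h : ∀ v ∈ Pi.spanSubset (ZMod 2) (I : Set n), A *ᵥ v ∈ Pi.spanSubset (ZMod 2) (I : Set n)) (c : n) : c ∉ I := fun hc => by
  have e : Pi.single c (1 : ZMod 2) ∈ Pi.spanSubset (ZMod 2) (I : Set n) :=
    Pi.mem_spanSubset_iff.2 fun b hb => Pi.single_eq_of_ne (fun e => hb (by rw [e]; exact hc)) _
  simpa using congrFun ((small hA f _ h hI fun v hv => Pi.mem_spanSubset_iff.1 hv).le e) c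
theorem small2 {A Z : Matrix n n (ZMod 2)} (hA : A ^ 43 = 1) (f : ∀ v, A *ᵥ v = v → v = 0) {I : Finset n} (hI : I.card ≤ 12)
    (h : A * Z = Z * A) (h' : ∀ b ∉ I, ∀ c, (Z - 1) b c = 0) (b c : n) : (Z - 1) b c = 0 := by
  have := small hA f (LinearMap.range (Z - 1).mulVecLin) (by
    rintro _ ⟨v, rfl⟩
    exact ⟨A *ᵥ v, by simp only [mulVecLin_apply, mulVec_mulVec, sub_mul, mul_sub, h, mul_one, one_mul]⟩) hI (by
    rintro _ ⟨v, rfl⟩ b hb
    exact Finset.sum_eq_zero fun c _ => mul_eq_zero_of_left (h' b hb c) _)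
  have k := congrFun (this.le ⟨Pi.single c 1, rfl⟩) b
  rw [mulVecLin_apply, mulVec_single_one] at k
  exact k
end mat

/-- the top weights -/
noncomputable def top (i : Fin chevE7.rank) : Finset (Fin 56) := Finset.univ.filter fun a => ∀ b, minE7.γ b i ≤ minE7.γ a i
theorem top_card : ∀ i, (top i).card ≤ 12 ∧ (55 ∈ top i ∨ 0 ∈ top i) := by decide +kernel
theorem mem_top' {i : Fin chevE7.rank} {a : Fin 56} : a ∈ top i ↔ ∀ b, minE7.γ b i ≤ minE7.γ a i := by simp [top]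
theorem P_stab (i : Fin chevE7.rank) : (goodE7.SG (ZMod 2)).P {j | j ≠ i} ≤ stab M (Pi.spanSubset (ZMod 2) (top i : Set (Fin 56))) := by
  refine (P_eq (S := goodE7.SG (ZMod 2)) _).le.trans (sup_le (H_le.2 fun r t ht => ?_) (U_le.2 fun r hr t => ?_))
  · obtain rfl : t = 1 := by revert t; decide
    rw [h_one]; exact one_mem _
  · by_cases ht : t = 0
    · rw [ht, x_zero]; exact one_mem _
    obtain rfl : t = 1 := by revert t; decide
    have r0 : 0 ≤ goodE7.R.cf r i := hr.elim (fun h => h i) fun h => (h i fun e => e rfl).ge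
    refine span_inv (A := M (xr r)) fun b c hc hb => ?_
    rw [M_x, if_neg fun e => hb (mem_top'.2 fun d => (mem_top'.1 hc d).trans ?_)]
    rw [e]; exact le_add_of_nonneg_right r0

theorem p43 (f : Fv) : P43 := fun a ha => by
  have hA : M a ^ 43 = 1 := by rw [← map_pow, ← ha, pow_orderOf_eq_one, map_one]
  refine ⟨fun i hi => (top_card i).2.elim (small1 hA (f.a43 a ha) (top_card i).1 (P_stab i hi) _)
    (small1 hA (f.a43 a ha) (top_card i).1 (P_stab i hi) _), fun h => ?_⟩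
  have ez : z = xr ⟨125, by decide⟩ := X_eq ⟨125, by decide⟩
  obtain ⟨b, c, e⟩ : ∃ b c, minE7.γ b = minE7.γ c + goodE7.R.cf ⟨125, by decide⟩ := by decide +kernel
  have := small2 (Z := M z) hA (f.a43 a ha)
    (I := Finset.univ.filter fun b => ∃ c, minE7.γ b = minE7.γ c + goodE7.R.cf ⟨125, by decide⟩) (by decide +kernel)
    (by rw [← map_mul, h.eq, map_mul]) (fun b hb c => by
      rw [ez, M_x, if_neg fun e => hb (Finset.mem_filter.2 ⟨Finset.mem_univ _, c, e⟩)]) b c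
  rw [ez, M_x, if_pos e] at this
  exact one_ne_zero this

end H3.ME
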