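/-
Rank 3 actions of `PSL_n(q)`: Fourier transform, Sylow subgroups and counting.
-/
import Cfsg.Agent.H13.R3_0

set_option autoImplicit false
set_option linter.unusedSectionVars false

open Module MulAction H13.R3

namespace H3.R3
universe u

section four
variable {F A B G : Type*} [Field F] [Finite F] [AddCommGroup A] [Module F A] [AddCommGroup B] [Module F B] [Finite A] [Finite B]

/-- closed under translations along `t` -/
def Cl (F : Type*) [Field F] [Module F B] (O : Set B) (t : B) : Prop := ∀ c : F, ∀ u ∈ O, u + c • t ∈ O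

theorem trick {χ : AddChar F ℂ} {a : F} (h : χ a ≠ 1) (f : B →ₗ[F] F) {O : Finset B} {t : B} (k : f t ≠ 0) (c : Cl F (O : Set B) t) :
    ∑ u ∈ O, χ (f u) = 0 := by
  have e : ∑ u ∈ O, χ (f u) = ∑ u ∈ O, χ (f u) * χ a := (Finset.sum_equiv (Equiv.addRight ((a / f t) • t))
    (fun u => ⟨c _ u, fun l => by simpa using c (-(a / f t)) _ l⟩) fun u _ => by simp [AddChar.map_add_eq_mul, k]).symm
  rw [← Finset.sum_mul, ← sub_eq_zero, ← mul_one_sub, mul_eq_zero, sub_eq_zero] at e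
  exact e.resolve_right h.symm

theorem fourier [Group G] [DistribMulAction G A] [DistribMulAction G B] (p : A →ₗ[F] B →ₗ[F] F) (nd : ∀ a, a ≠ 0 → ∃ b, p a b ≠ 0)
    (inv : ∀ (g : G) a b, p (g • a) (g • b) = p a b) (J : Subgroup G) {a₁ a₂ : A}
    (h : ∀ b, b ≠ 0 → (∀ j ∈ J, p a₁ (j • b) = p a₂ (j • b)) ∨ ∃ O t₁ t₂, (O = {u | ∃ j ∈ J, j • b = u} ∨
      O = insert 0 {u | ∃ j ∈ J, j • b = u}) ∧ p a₁ t₁ ≠ 0 ∧ p a₂ t₂ ≠ 0 ∧ Cl F O t₁ ∧ Cl F O t₂) : ∃ j ∈ J, j • a₁ = a₂ := by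
  classical
  have := Fintype.ofFinite A
  have := Fintype.ofFinite B
  obtain ⟨χ, hχ⟩ := AddChar.exists_apply_ne_zero.2 (one_ne_zero (α := F))
  let O : Finset A := Finset.univ.filter fun a => ∃ j ∈ J, j • a₁ = a
  let φ : B → ℂ := fun u => ∑ a ∈ O, χ (p (-a) u)
  have k1 : ∀ a', ∑ u, φ u * χ (p a' u) = if a' ∈ O then (Fintype.card B : ℂ) else 0 := fun a' => by
    simp only [φ, Finset.sum_mul, ← AddChar.map_add_eq_mul, ← LinearMap.add_apply, ← map_add]
    rw [Finset.sum_comm, ← Finset.sum_ite_eq O a' fun _ => (Fintype.card B : ℂ)]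
    refine Finset.sum_congr rfl fun a _ => ?_
    split_ifs with e
    · simp [e]
    · obtain ⟨t, k⟩ := nd (-a + a') fun l => e (neg_add_eq_zero.1 l).symm
      exact trick hχ _ k fun _ _ _ => by simp
  have k2 : ∀ j ∈ J, ∀ u, φ (j • u) = φ u := fun j hj u => (Finset.sum_equiv (MulAction.toPerm j) (fun a => by
    simp only [O, Finset.mem_filter, Finset.mem_univ, true_and, toPerm_apply]
    exact ⟨fun ⟨i, hi, e⟩ => ⟨j * i, mul_mem hj hi, by rw [mul_smul, e]⟩,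
      fun ⟨i, hi, e⟩ => ⟨j⁻¹ * i, mul_mem (inv_mem hj) hi, by rw [mul_smul, e, inv_smul_smul]⟩⟩)
    fun a _ => by rw [toPerm_apply, ← smul_neg, inv]).symm
  have k3 : ∑ u, φ u * χ (p a₁ u) = ∑ u, φ u * χ (p a₂ u) := by
    rw [← Finset.sum_fiberwise _ (Quotient.mk (orbitRel J B)), ← Finset.sum_fiberwise _ (Quotient.mk (orbitRel J B))]
    refine Finset.sum_congr rfl fun q _ => ?_
    obtain ⟨b, rfl⟩ := q.exists_rep
    have m : ∀ u, u ∈ Finset.univ.filter (fun u => Quotient.mk (orbitRel J B) u = Quotient.mk _ b) ↔ ∃ j ∈ J, j • b = u := fun u => by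
      simp only [Finset.mem_filter, Finset.mem_univ, true_and, Quotient.eq]
      exact ⟨fun ⟨j, e⟩ => ⟨j, j.2, e⟩, fun ⟨j, hj, e⟩ => ⟨⟨j, hj⟩, e⟩⟩
    generalize Finset.univ.filter (fun u => Quotient.mk (orbitRel J B) u = Quotient.mk _ b) = S at m
    have k : ∀ a, ∑ u ∈ S, φ u * χ (p a u) = φ b * ∑ u ∈ S, χ (p a u) := fun a => by
      rw [Finset.mul_sum]
      exact Finset.sum_congr rfl fun u hu => by obtain ⟨j, hj, rfl⟩ := (m u).1 hu; rw [k2 j hj]
    rw [k, k]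
    congr 1
    by_cases b0 : b = 0
    · exact Finset.sum_congr rfl fun u hu => by obtain ⟨j, hj, rfl⟩ := (m u).1 hu; simp [b0]
    have eS : {u | ∃ j ∈ J, j • b = u} = (S : Set B) := Set.ext fun u => (m u).symm
    rcases h b b0 with h | ⟨_, t₁, t₂, rfl | rfl, h1, h2, c1, c2⟩
    · exact Finset.sum_congr rfl fun u hu => by obtain ⟨j, hj, rfl⟩ := (m u).1 hu; rw [h j hj]
    · rw [trick hχ _ h1 (eS ▸ c1), trick hχ _ h2 (eS ▸ c2)]
    · rw [eS, ← Finset.coe_insert] at c1 c2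
      have n : 0 ∉ S := fun l => let ⟨j, _, e⟩ := (m 0).1 l; b0 ((smul_eq_zero_iff_eq j).1 e)
      have := (trick hχ _ h1 c1).trans (trick hχ _ h2 c2).symm
      simpa [Finset.sum_insert n] using this
  rw [k1, k1, if_pos (by simpa [O] using ⟨1, one_mem J, one_smul _ _⟩)] at k3
  by_contra n
  rw [if_neg (by simpa [O] using n)] at k3
  exact Fintype.card_ne_zero (Nat.cast_eq_zero.1 k3)

theorem ort {V : Type*} [AddCommGroup V] [Module F V] [Finite V] (A : AddSubgroup (Dual F V)) (B : AddSubgroup V)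
    (Λ : AddSubgroup F) {a : F} (ha : a ∉ Λ) (h : ∀ f ∈ A, ∀ w ∈ B, f w ∈ Λ) : Nat.card A * Nat.card B ≤ Nat.card V := by
  classical
  have := Fintype.ofFinite V
  have : Finite (Dual F V) := Module.finite_of_finite F
  have := Fintype.ofFinite A
  obtain ⟨ψ, hψ⟩ := AddChar.exists_apply_ne_zero.2 (mt (QuotientAddGroup.eq_zero_iff a).1 ha)
  let χ := ψ.compAddMonoidHom (QuotientAddGroup.mk' Λ)
  let c : V → AddChar A ℂ := fun u => χ.compAddMonoidHom ((Dual.eval F V u).toAddMonoidHom.comp A.subtype)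
  have k : ∑ u, ∑ f : A, c u f = Fintype.card V := by
    rw [Finset.sum_comm, Finset.sum_eq_single 0 (fun f _ n => ?_) (by simp)]
    · simp
    · obtain ⟨t, k⟩ := DFunLike.ne_iff.1 (mt Subtype.ext n)
      exact trick (χ := χ) hψ f.1 k fun _ _ _ => by simp
  simp only [AddChar.sum_eq_ite, ← Finset.sum_filter, Finset.sum_const, nsmul_eq_mul, ← Nat.cast_mul, Nat.cast_inj] at k
  rw [Nat.card_eq_fintype_card, Nat.card_eq_fintype_card (α := V), ← k, mul_comm, ← Fintype.card_subtype,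
    ← Nat.card_eq_fintype_card (α := {u // c u = 0})]
  exact Nat.mul_le_mul_right _ (Nat.card_le_card_of_injective (β := {u // c u = 0}) (fun w : B => ⟨w.1, AddChar.ext _ _ fun f => by
    simpa [c, χ] using congrArg ψ ((QuotientAddGroup.eq_zero_iff _).2 (h f f.2 w w.2))⟩) fun _ _ e => Subtype.ext (congrArg (·.1) e))
end four

theorem syl_tr {G A : Type*} [Group G] [Finite G] [MulAction G A] (J : Subgroup G) (a : A) {p k : ℕ} [Fact p.Prime]
    (h : {b | ∃ j ∈ J, j • a = b}.ncard = p ^ k) :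
    ∃ P ≤ J, IsPGroup p P ∧ ∀ j ∈ J, ∃ i ∈ P, i • a = j • a := by
  obtain ⟨P⟩ : Nonempty (Sylow p J) := inferInstance
  have e : ∀ H : Subgroup G, {b | ∃ j ∈ H, j • a = b}.ncard = (stabilizer G a).relIndex H := fun H => by
    rw [Subgroup.relIndex, show (stabilizer G a).subgroupOf H = stabilizer H a from rfl, index_stabilizer]
    congr 1; ext b; exact ⟨fun ⟨j, hj, e⟩ => ⟨⟨j, hj⟩, e⟩, fun ⟨j, e⟩ => ⟨j, j.2, e⟩⟩
  have l := J.map_subtype_le P.1
  refine ⟨_, l, P.2.map _, fun j hj => (Set.eq_of_subset_of_ncard_le (s := {b | ∃ j ∈ P.1.map J.subtype, j • a = b})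
    (t := {b | ∃ j ∈ J, j • a = b}) (fun b ⟨j, hj, e⟩ => ⟨j, l hj, e⟩) ?_
    ((Set.toFinite (J : Set G)).image (· • a))).ge ⟨j, hj, rfl⟩⟩
  have k1 : p ^ k ∣ (stabilizer G a).relIndex (P.1.map J.subtype) * P.1.index := by
    rw [← h, e, ← Subgroup.inf_relIndex_right _ (P.1.map _), show P.1.index = (P.1.map J.subtype).relIndex J by
      rw [Subgroup.relIndex, Subgroup.subgroupOf, Subgroup.comap_map_eq_self_of_injective J.subtype_injective],
      Subgroup.relIndex_mul_relIndex _ _ _ inf_le_right l]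
    exact Subgroup.relIndex_dvd_of_le_left J inf_le_left
  rw [h, e]
  exact Nat.le_of_dvd (Nat.pos_of_ne_zero Subgroup.FiniteIndex.index_ne_zero)
    ((Nat.Coprime.pow_left k ((Nat.Prime.coprime_iff_not_dvd Fact.out).2 P.not_dvd_index)).dvd_of_dvd_mul_right k1)

section geo
variable {F V G : Type u} [Field F] [Fintype F] [AddCommGroup V] [Module F V] [Finite V] [Group G] [DistribMulAction G V]
  [SMulCommClass G F V] {J : Subgroup G} {x y z w : V} {f f' : Dual F V} {g : G}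

instance instFinDual : Finite (Dual F V) := Module.finite_of_finite F
theorem card_sub (W : Submodule F V) : (W : Set V).ncard = Fintype.card F ^ finrank F W := by
  rw [← Nat.card_coe_set_eq, ← Nat.card_eq_fintype_card, ← Module.natCard_eq_pow_finrank]; rfl
theorem ex_p (F : Type u) [Field F] [Fintype F] : ∃ p k : ℕ, p.Prime ∧ Fintype.card F = p ^ (k + 1) :=
  let ⟨p, _, k, h, e⟩ := FiniteField.card' F; ⟨p, k - 1, h, e.trans (congrArg _ (Nat.sub_add_cancel k.2).symm)⟩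
theorem dinv (g : G) (f : Dual F V) (v : V) : (g • f) (g • v) = f v := by simp
theorem ex_dual {W : Submodule F V} (h : x ∉ W) : ∃ f : Dual F V, f x ≠ 0 ∧ ∀ w ∈ W, f w = 0 :=
  let ⟨f, h1, h2⟩ := W.exists_dual_map_eq_bot_of_notMem h inferInstance
  ⟨f, h1, fun _ hw => h2.le (Submodule.mem_map_of_mem hw)⟩
theorem ex_ne (h : f ≠ 0) : ∃ v, f v ≠ 0 := DFunLike.ne_iff.1 h
theorem smul_mem_span {c : F} (h : g • x = c • x) (hy : y ∈ F ∙ x) : g • y ∈ F ∙ x := by
  obtain ⟨a, rfl⟩ := Submodule.mem_span_singleton.1 hy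
  rw [smul_comm, h]; exact Submodule.smul_mem _ _ (Submodule.smul_mem _ _ (Submodule.mem_span_singleton_self x))
theorem c_ne {c : F} (x0 : x ≠ 0) (h : g • x = c • y) : c ≠ 0 := by
  rintro rfl; exact x0 ((smul_eq_zero_iff_eq g).1 (h.trans (zero_smul _ _)))
theorem st_of {c : F} (x0 : x ≠ 0) (h : g • x = c • x) : g ∈ St G (F ∙ x) := fun u =>
  ⟨fun k => inv_smul_smul g u ▸ smul_mem_span (c := c⁻¹) (by
    rw [inv_smul_eq_iff, smul_comm, h, inv_smul_smul₀ (c_ne x0 h)]) k, smul_mem_span h⟩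
theorem ind_symm (h : Ind F x y) : Ind F y x := ⟨fun e => h.2 (e ▸ zero_mem _), fun k => by
  obtain ⟨a, rfl⟩ := Submodule.mem_span_singleton.1 k
  exact h.2 (Submodule.mem_span_singleton.2 ⟨a⁻¹, inv_smul_smul₀ (left_ne_zero_of_smul h.1) y⟩)⟩
theorem ind_smul (g : G) (h : Ind F x y) : Ind F (g • x) (g • y) := ⟨(smul_ne_zero_iff_ne g).2 h.1, fun k => by
  obtain ⟨a, e⟩ := Submodule.mem_span_singleton.1 k
  exact h.2 (Submodule.mem_span_singleton.2 ⟨a, smul_left_cancel g (by rw [smul_comm, e])⟩)⟩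

theorem pt_dual (h : PT V J) (h1 : f ≠ 0) (h2 : f' ≠ 0) : ∃ j ∈ J, j • f = f' := by
  obtain ⟨t, k⟩ := ex_ne h1
  obtain ⟨t', k'⟩ := ex_ne h2
  exact fourier (LinearMap.id (R := F)) (fun _ => ex_ne) dinv J fun b b0 => Or.inr ⟨_, t, t', Or.inr rfl, k, k',
    fun _ _ _ => or_iff_not_imp_left.2 (h _ _ b0), fun _ _ _ => or_iff_not_imp_left.2 (h _ _ b0)⟩

theorem anti (sc : Sc F V J) (h : ∀ y, y ∉ F ∙ x → ∀ c : F, ∃ j ∈ J, j • x = x ∧ ∃ d : F, j • y = d • (y + c • x))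
    (h1 : f x = 1) (h2 : f' x = 1) : ∃ j ∈ J, j • x = x ∧ j • f = f' := by
  have x0 : x ≠ 0 := by rintro rfl; simp at h1
  have sc' : ∀ c : F, c ≠ 0 → ∃ z ∈ J ⊓ St G (F ∙ x), ∀ u : V, z • u = c • u := fun c c0 =>
    let ⟨z, hz, e⟩ := sc c c0; ⟨z, ⟨hz, st_of x0 (e x)⟩, e⟩
  obtain ⟨j, hj, e⟩ := fourier (a₁ := f) (a₂ := f') (LinearMap.id (R := F)) (fun _ => ex_ne) dinv (J ⊓ St G (F ∙ x)) fun b b0 => by
    by_cases k : b ∈ F ∙ x
    · have : ∀ u, u ∈ insert 0 {u | ∃ j ∈ J ⊓ St G (F ∙ x), j • b = u} ↔ u ∈ F ∙ x := fun u =>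
        ⟨by rintro (rfl | ⟨j, hj, rfl⟩); exacts [zero_mem _, (hj.2 b).2 k], fun l => or_iff_not_imp_left.2 fun n => by
          obtain ⟨a, rfl⟩ := Submodule.mem_span_singleton.1 k
          obtain ⟨c, rfl⟩ := Submodule.mem_span_singleton.1 l
          have a0 := left_ne_zero_of_smul b0
          obtain ⟨z, hz, e⟩ := sc' (c / a) (div_ne_zero (left_ne_zero_of_smul n) a0)
          exact ⟨z, hz, by rw [e, smul_smul, div_mul_cancel₀ _ a0]⟩⟩
      have c : Cl F _ x := fun c u hu => (this _).2 (add_mem ((this u).1 hu)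
        (Submodule.smul_mem _ c (Submodule.mem_span_singleton_self x)))
      exact Or.inr ⟨_, x, x, Or.inr rfl, by simp [h1], by simp [h2], c, c⟩
    · have c : Cl F {u | ∃ j ∈ J ⊓ St G (F ∙ x), j • b = u} x := by
        rintro c _ ⟨j, hj, rfl⟩
        obtain ⟨i, hi, e, d, e'⟩ := h _ (mt (hj.2 b).1 k) c
        have d0 := c_ne ((smul_ne_zero_iff_ne j).2 b0) e'
        obtain ⟨z, hz, e''⟩ := sc' d⁻¹ (inv_ne_zero d0)
        exact ⟨z * (i * j), mul_mem hz (mul_mem ⟨hi, st_of x0 (e.trans (one_smul F x).symm)⟩ hj), by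
          rw [mul_smul, mul_smul, e', e'', inv_smul_smul₀ d0]⟩
      exact Or.inr ⟨_, x, x, Or.inl rfl, by simp [h1], by simp [h2], c, c⟩
  obtain ⟨c, k⟩ := Submodule.mem_span_singleton.1 ((hj.2 x).2 (Submodule.mem_span_singleton_self x))
  have := dinv j f x
  rw [e, ← k, map_smul, h1, h2, smul_eq_mul, mul_one] at this
  exact ⟨j, hj.1, by rw [← k, this, one_smul], e⟩

theorem fixp {p k : ℕ} (hp : p.Prime) (q : Fintype.card F = p ^ (k + 1)) (hJ : IsPGroup p J) {W : Submodule F V} (W0 : W ≠ ⊥)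
    (h : ∀ j ∈ J, ∀ w ∈ W, j • w ∈ W) : ∃ w ∈ W, w ≠ 0 ∧ ∀ j ∈ J, j • w = w := by
  have := Fact.mk hp
  let S : SubMulAction J V := ⟨W, fun j _ => h j j.2 _⟩
  obtain ⟨b, hb, n⟩ := hJ.exists_fixed_point_of_prime_dvd_card_of_fixed_point S (a := ⟨0, W.zero_mem⟩) (by
    rw [show Nat.card S = (W : Set V).ncard from Nat.card_coe_set_eq _, card_sub, q, ← pow_mul]
    exact dvd_pow_self p (mul_ne_zero k.succ_ne_zero (mt Submodule.finrank_eq_zero.1 W0))) fun j => Subtype.ext (smul_zero j)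
  exact ⟨b, b.2, fun e => n (Subtype.ext e.symm), fun j hj => congrArg Subtype.val (hb ⟨j, hj⟩)⟩

theorem sylf [Finite G] {p k : ℕ} (hp : p.Prime) (q : Fintype.card F = p ^ (k + 1)) (h1 : f x = 1) (h2 : ∀ j ∈ J, f (j • x) = 1)
    (h3 : ∀ y, f y = 1 → ∃ j ∈ J, j • x = y) : ∃ P ≤ J, IsPGroup p P ∧ ∀ y z, f y = 1 → f z = 1 → ∃ j ∈ P, j • y = z := by
  have := Fact.mk hp
  obtain ⟨P, l, hP, e⟩ := syl_tr J x (p := p) (k := (k + 1) * finrank F (LinearMap.ker f)) (by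
    rw [pow_mul, ← q, ← card_sub, ← Set.ncard_image_of_injective (LinearMap.ker f : Set V) (add_right_injective x)]
    congr 1; ext y
    exact ⟨by rintro ⟨j, hj, rfl⟩; exact ⟨j • x - x, by simp [h1, h2 j hj], by simp⟩,
      by rintro ⟨w, hw, rfl⟩; exact h3 _ (by simpa [h1] using hw)⟩)
  refine ⟨P, l, hP, fun y z hy hz => ?_⟩
  obtain ⟨j, hj, rfl⟩ := h3 y hy
  obtain ⟨j', hj', rfl⟩ := h3 z hz
  obtain ⟨i, hi, e1⟩ := e j hj
  obtain ⟨i', hi', e2⟩ := e j' hj'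
  exact ⟨i' * i⁻¹, mul_mem hi' (inv_mem hi), by rw [← e1, mul_smul, inv_smul_smul, e2]⟩
end geo

theorem m1 : M1.{u} := by
  intro F V G _ _ _ _ _ _ _ _ _ H sc two x y z w ⟨h1, hz⟩ hw
  obtain ⟨p, k, hp, q⟩ := ex_p F
  have A : ∀ x y : V, Ind F x y → ∀ f f' : Dual F V, f x ≠ 0 → f x = f' x → f y = f' y →
      ∃ h ∈ H, h • x = x ∧ h • y = y ∧ h • f = f' := fun x y h1 => by
    have an := fun f f' : Dual F V => anti (f := f) (f' := f') sc fun y hy c => two x y x _ ⟨h1.1, hy⟩ ⟨h1.1, fun k => hy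
      ((add_mem_cancel_right (Submodule.smul_mem _ c (Submodule.mem_span_singleton_self x))).1 k)⟩
    obtain ⟨f0, n, -⟩ := ex_dual (ind_symm h1).2
    obtain ⟨P, l, hP, tr⟩ := sylf (J := H ⊓ stabilizer G x) (f := Dual.eval F V x) (x := (f0 x)⁻¹ • f0) hp q (by simp [n])
      (fun j hj => by simp [show j⁻¹ • x = x from (inv_mem hj).2, n]) fun f hf =>
        let ⟨j, hj, e, e'⟩ := an _ f (by simp [n]) hf; ⟨j, ⟨hj, e⟩, e'⟩
    have : Finite (V ⧸ F ∙ x) := Finite.of_surjective _ (Submodule.mkQ_surjective _)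
    obtain ⟨y0, -, n0, fx⟩ := fixp (J := P.subgroupOf (St G (F ∙ x))) hp q hP.comap_subtype (W := (⊤ : Submodule F (V ⧸ F ∙ x)))
      (fun e => h1.2 ((Submodule.Quotient.mk_eq_zero _).1 (e.le (Submodule.mem_top (x := Submodule.Quotient.mk y)))))
      fun _ _ _ _ => trivial
    obtain ⟨y0, rfl⟩ := Submodule.Quotient.mk_surjective _ y0
    obtain ⟨j, hj, e1, c, e2⟩ := two x y0 x y ⟨h1.1, mt (Submodule.Quotient.mk_eq_zero _).2 n0⟩ h1
    have c0 := c_ne (mt (by rintro rfl; rfl) n0) e2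
    intro f f' f0 k1 k2
    obtain ⟨i, hi, e⟩ := tr ((f x)⁻¹ • j⁻¹ • f) ((f x)⁻¹ • j⁻¹ • f') (by simp [e1, f0]) (by simp [e1, f0, ← k1])
    have ix : i⁻¹ • x = x := (inv_mem (l hi)).2
    obtain ⟨s, hs⟩ := Submodule.mem_span_singleton.1 ((Submodule.Quotient.eq _).1
      (fx ⟨i⁻¹, st_of h1.1 (ix.trans (one_smul F x).symm)⟩ (inv_mem hi)))
    change _ = i⁻¹ • y0 - y0 at hs
    rw [smul_comm, smul_right_inj (inv_ne_zero f0)] at e
    have := DFunLike.congr_fun e y0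
    rw [dsmul_apply, eq_add_of_sub_eq hs.symm] at this
    simp only [dsmul_apply, inv_inv, map_add, map_smul, e1, e2, k2, add_eq_right, smul_eq_mul, mul_eq_zero, f0, or_false] at this
    rw [this, zero_smul, eq_comm, sub_eq_zero, inv_smul_eq_iff] at hs
    refine ⟨j * i * j⁻¹, mul_mem (mul_mem hj (l hi).1) (inv_mem hj), ?_, ?_, by rw [mul_smul, mul_smul, e, smul_inv_smul]⟩
    · rw [mul_smul, mul_smul, inv_smul_eq_iff.2 e1.symm, (l hi).2, e1]
    · rw [← smul_right_inj c0, ← smul_comm, ← e2, mul_smul, mul_smul, inv_smul_smul, ← hs]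
  obtain ⟨g, g0, g1⟩ := ex_dual hz
  have hx := g1 x (Submodule.subset_span (by simp))
  have hy := g1 y (Submodule.subset_span (by simp))
  obtain ⟨j, hj, e⟩ := fourier (a₁ := z) (a₂ := z + w) (Dual.eval F V) (fun a n => by
      simpa using mt (forall_dual_apply_eq_zero_iff F a).1 n) (fun g a b => by simp)
    (H ⊓ stabilizer G x ⊓ stabilizer G y) fun f _ => by
    have fx : ∀ j ∈ H ⊓ stabilizer G x ⊓ stabilizer G y, (j • f) x = f x ∧ (j • f) y = f y := fun j hj => by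
      simp [show j⁻¹ • x = x from (inv_mem hj).1.2, show j⁻¹ • y = y from (inv_mem hj).2]
    by_cases k : f x = 0 ∧ f y = 0
    · obtain ⟨a, b, rfl⟩ := Submodule.mem_span_pair.1 hw
      exact Or.inl fun j hj => by simp [-dsmul_apply, fx j hj, k]
    have c : Cl F {u | ∃ j ∈ H ⊓ stabilizer G x ⊓ stabilizer G y, j • f = u} g := by
      rintro c _ ⟨j, hj, rfl⟩
      obtain ⟨i, hi, e1, e2, e⟩ : ∃ i ∈ H, i • x = x ∧ i • y = y ∧ i • j • f = j • f + c • g := by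
        rcases not_and_or.1 k with k | k
        · exact A x y h1 _ _ ((fx j hj).1 ▸ k) (by simp [hx]) (by simp [hy])
        · obtain ⟨i, hi, e1, e2, e⟩ := A y x (ind_symm h1) _ (j • f + c • g) ((fx j hj).2 ▸ k) (by simp [hy]) (by simp [hx])
          exact ⟨i, hi, e2, e1, e⟩
      exact ⟨i * j, mul_mem ⟨⟨hi, e1⟩, e2⟩ hj, by rw [mul_smul, e]⟩
    exact Or.inr ⟨_, g, g, Or.inl rfl, g0, by simpa [g1 w hw] using g0, c, c⟩
  exact ⟨j, hj.1.1, hj.1.2, hj.2, e⟩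

end H3.R3
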