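/-
Rank 3 actions of `PSL_n(q)`: point-transitive groups containing a transvection.
-/
import Cfsg.Agent.H3.R3a
import Cfsg.Agent.H13.R3_2

set_option autoImplicit false
set_option linter.unusedSectionVars false

open Module MulAction H13.R3

namespace H3.R3
universe u

theorem cst {G α β : Type*} [Group G] [MulAction G α] [MulAction G β] {J : Subgroup G} {r : α → β → Prop}
    (h : ∀ j ∈ J, ∀ a b, r a b → r (j • a) (j • b)) {a a' : α} (e : ∃ j ∈ J, j • a = a') :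
    {b | r a' b}.ncard = {b | r a b}.ncard := by
  obtain ⟨j, hj, rfl⟩ := e
  rw [← Set.ncard_image_of_injective {b | r a b} (MulAction.injective j)]
  congr 1; ext b
  exact ⟨fun k => ⟨j⁻¹ • b, by simpa using h _ (inv_mem hj) _ _ k, by simp⟩, by rintro ⟨b, k, rfl⟩; exact h j hj _ _ k⟩

section geo
variable {F V G : Type u} [Field F] [Fintype F] [AddCommGroup V] [Module F V] [Finite V] [Group G] [DistribMulAction G V]
  [SMulCommClass G F V] {J : Subgroup G} {x y z v w : V} {f g : Dual F V} {j : G} {c : F}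

theorem dim_eq {A B : Submodule F V} (h : (A : Set V).ncard = (B : Set V).ncard) : finrank F A = finrank F B :=
  Nat.pow_right_injective (q2 F) (by simpa only [card_sub] using h)

theorem big {U : Submodule F V} {m : ℕ} (h : finrank F U = m + 1) (A : AddSubgroup V)
    (k : ∀ u ∈ U, u ≠ 0 → ∃ c : F, c ≠ 0 ∧ c • u ∈ A) : Fintype.card F ^ m < Nat.card A := by
  have e := dcount_le {u | u ∈ U ∧ u ≠ 0} {a | a ∈ A ∧ a ≠ 0} (fun u a => u ∈ F ∙ a) (m := 1) (n := Fintype.card F - 1)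
    (fun u hu => (Set.ncard_pos).2 (let ⟨c, c0, l⟩ := k u hu.1 hu.2
      ⟨c • u, ⟨l, smul_ne_zero c0 hu.2⟩, Submodule.mem_span_singleton.2 ⟨c⁻¹, inv_smul_smul₀ c0 u⟩⟩))
    fun a ha => (Set.ncard_le_ncard (t := {u | u ∈ F ∙ a ∧ u ≠ 0}) (fun u hu => ⟨hu.2, hu.1.2⟩)).trans_eq
      ((ncard_ne0 (F ∙ a)).trans (by rw [finrank_span_singleton ha.2, pow_one]))
  have e2 : {a | a ∈ A ∧ a ≠ 0}.ncard + 1 = Nat.card A := Set.ncard_sdiff_singleton_add_one (s := (A : Set V)) A.zero_mem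
  rw [ncard_ne0, h, pow_succ] at e
  have := q2 F
  have := Nat.one_le_pow m _ (lt_of_lt_of_le two_pos this)
  obtain ⟨q, hq⟩ := Nat.exists_eq_add_of_le' (q2 F)
  rw [← e2]
  generalize Fintype.card F ^ m = a at *
  rw [hq] at e
  by_contra n
  have : a * (q + 2) ≤ _ + 1 := tsub_le_iff_right.1 (by simpa using e)
  nlinarith

/-- `J` contains the transvection `u ↦ u + f u • v` -/
def Rr (J : Subgroup G) (v : V) (f : Dual F V) : Prop := f v = 0 ∧ ∃ t ∈ J, ∀ u, t • u = u + f u • v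

theorem Rr.smul (h : Rr J v f) (hj : j ∈ J) : Rr J (j • v) (j • f) :=
  let ⟨a, t, ht, e⟩ := h
  ⟨by simp [a], j * t * j⁻¹, mul_mem (mul_mem hj ht) (inv_mem hj), fun u => by simp [mul_smul, e, gsc]⟩
theorem Rr.sc (c0 : c ≠ 0) : Rr J (c • v) f ↔ Rr J v (c • f) := by simp [Rr, c0, smul_smul, mul_comm]
theorem Rr.inv {t : G} (a : f v = 0) (e : ∀ u, t • u = u + f u • v) (u : V) : t⁻¹ • u = u - f u • v := by
  rw [inv_smul_eq_iff, e]; simp [a]

variable (J) in
/-- the transvections with a given centre -/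
def tA (v : V) : AddSubgroup (Dual F V) where
  carrier := {f | Rr J v f}
  zero_mem' := ⟨rfl, 1, one_mem J, by simp⟩
  add_mem' := fun ⟨a, t, ht, e⟩ ⟨a', s, hs, e'⟩ => ⟨by simp [a, a'], t * s, mul_mem ht hs, fun u => by
    simp [mul_smul, e, e', a, add_smul, add_comm, add_left_comm]⟩
  neg_mem' := fun ⟨a, t, ht, e⟩ => ⟨by simp [a], t⁻¹, inv_mem ht, fun u => by simp [Rr.inv a e, sub_eq_add_neg]⟩
variable (J) in
/-- the transvections with a given axis -/
def tB (f : Dual F V) : AddSubgroup V where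
  carrier := {v | Rr J v f}
  zero_mem' := ⟨by simp, 1, one_mem J, by simp⟩
  add_mem' := fun ⟨a, t, ht, e⟩ ⟨a', s, hs, e'⟩ => ⟨by simp [a, a'], t * s, mul_mem ht hs, fun u => by
    simp [mul_smul, e, e', a', add_comm, add_left_comm]⟩
  neg_mem' := fun ⟨a, t, ht, e⟩ => ⟨by simp [a], t⁻¹, inv_mem ht, fun u => by simp [Rr.inv a e, sub_eq_add_neg]⟩

theorem Rr.comm (h : Rr J v f) (h' : Rr J w g) (k : g v = 0) : Rr J v (f w • g) := by
  obtain ⟨a, s, hs, e⟩ := h'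
  have := h.smul hs
  rw [e, k, zero_smul, add_zero] at this
  rw [show f w • g = f - s • f by ext u; simp [Rr.inv a e, mul_comm]]
  exact (tA J v).sub_mem h this

variable (F J) in
/-- the common axis -/
def tR (v : V) : Submodule F V where
  carrier := {w | ∀ f : Dual F V, Rr J v f → f w = 0}
  zero_mem' _ _ := map_zero _
  add_mem' a b f k := by simp [a f k, b f k]
  smul_mem' c _ a f k := by simp [a f k]
end geo

theorem tv : TV.{u} := by
  intro F V G _ _ _ _ _ _ _ _ _ H n4 fa pt nt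
  obtain ⟨t, ht, v0, f0, v00, f00, k0⟩ : ∃ t ∈ H, IsTv F V t := by simpa [NoTv] using nt
  have r0 : Rr H v0 f0 := ⟨k0.1, t, ht, k0.2⟩
  have e1 : ∀ v : V, v ≠ 0 → ∃ f : Dual F V, f ≠ 0 ∧ Rr H v f := fun v n =>
    let ⟨j, hj, e⟩ := pt v0 v v00 n; ⟨j • f0, (smul_ne_zero_iff_ne j).2 f00, e ▸ r0.smul hj⟩
  have e2 : ∀ f : Dual F V, f ≠ 0 → ∃ v : V, v ≠ 0 ∧ Rr H v f := fun f n =>
    let ⟨j, hj, e⟩ := pt_dual pt f00 n; ⟨j • v0, (smul_ne_zero_iff_ne j).2 v00, e ▸ r0.smul hj⟩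
  have eqv : ∀ j ∈ H, ∀ v w : V, w ∈ tR F H v → j • w ∈ tR F H (j • v) := fun j hj v w k f l => by
    simpa using k (j⁻¹ • f) (by simpa using l.smul (inv_mem hj))
  have dim : ∀ v : V, v ≠ 0 → finrank F (tR F H v) = finrank F (tR F H v0) := fun v n => dim_eq (cst eqv (pt v0 v v00 n))
  have slf : ∀ v : V, v ∈ tR F H v := fun v f k => k.1
  have key : ∀ x y : V, ∀ f : Dual F V, Rr H y f → f x = 0 → y ∉ tR F H x → ∃ c : F, c ≠ 0 ∧ Rr H x (c • f) := fun x y f k l n => by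
    obtain ⟨g, a, b⟩ : ∃ g : Dual F V, Rr H x g ∧ g y ≠ 0 := by simpa [tR] using n
    exact ⟨_, b, a.comm k l⟩
  generalize finrank F (tR F H v0) = d at dim
  by_cases d1 : d + 1 = finrank F V
  · refine Or.inr ⟨tR F H, d, ⟨dim, fun v _ => slf v, fun v w v1 w1 k => by_contra fun n => ?_, fun j hj v w _ => eqv j hj v w⟩, d1⟩
    obtain ⟨f, f1, l⟩ := e1 v v1
    obtain ⟨c, c0, l'⟩ := key w v f l (k f l) n
    refine n ((Submodule.eq_of_le_of_finrank_eq (S₂ := LinearMap.ker f) (fun u hu => by simpa [c0] using hu _ l') ?_).ge l.1)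
    have := finrank_ker f1
    have := dim w w1
    omega
  by_cases d2 : d = 1
  · have all : ∀ x : V, x ≠ 0 → ∀ f : Dual F V, f ≠ 0 → f x = 0 → ∃ c : F, c ≠ 0 ∧ Rr H x (c • f) := fun x x0 f f1 k => by
      obtain ⟨y, y0, l⟩ := e2 f f1
      by_cases m : y ∈ tR F H x
      · obtain ⟨c, rfl⟩ := Submodule.mem_span_singleton.1 ((Submodule.eq_of_le_of_finrank_eq
          ((Submodule.span_singleton_le_iff_mem _ _).2 (slf x)) (by rw [dim x x0, finrank_span_singleton x0, d2])).ge m)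
        exact ⟨c, left_ne_zero_of_smul y0, (Rr.sc (left_ne_zero_of_smul y0)).1 l⟩
      · exact key x y f l k m
    refine Or.inl fun t ⟨v, g, v1, g1, k, e⟩ => by_contra fun n => ?_
    obtain ⟨m, hm⟩ := Nat.exists_eq_add_of_le' n4
    have b1 := big (m := m + 2) (U := (F ∙ v).dualAnnihilator) (by
      have := finrank_ann (F ∙ v); rw [finrank_span_singleton v1] at this; omega) (tA H v) fun f l f1 =>
        all v v1 f f1 (not_not.1 (mt notMem_ann_sp.2 (not_not.2 l)))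
    have b2 := big (m := m + 2) (U := LinearMap.ker g) (by have := finrank_ker g1; omega) (tB H g) fun w l w1 =>
      let ⟨c, c0, l⟩ := all w w1 g g1 l; ⟨c, c0, (Rr.sc c0).2 l⟩
    have b3 := ort (tA H v) (tB H g) ((tA H v).comap (LinearMap.toSpanSingleton F _ g).toAddMonoidHom) (a := 1)
      (fun ⟨_, s, hs, e'⟩ => n (by
        rwa [show t = s from inv_mul_eq_one.1 (fa _ fun u => by rw [mul_smul, inv_smul_eq_iff, e, e']; simp)]))
      fun f l w l' => Rr.comm l l' k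
    rw [card_V F V, hm] at b3
    have := (Nat.mul_lt_mul'' b1 b2).trans_le b3
    rw [← pow_add, Nat.pow_lt_pow_iff_right (q2 F)] at this
    omega
  exfalso
  have re : ∀ j ∈ H, ∀ (v : V) (f : Dual F V), (∃ c : F, c ≠ 0 ∧ Rr H v (c • f)) → ∃ c : F, c ≠ 0 ∧ Rr H (j • v) (c • j • f) :=
    fun j hj v f ⟨c, c0, k⟩ => ⟨c, c0, smul_comm j c f ▸ k.smul hj⟩
  have n0 : ∀ (j : G) (v : V), v ≠ 0 → j • v ≠ 0 := fun j _ => (smul_ne_zero_iff_ne j).2
  have c1 := dcount {v : V | v ≠ 0} {f : Dual F V | f ≠ 0} (fun v f => ∃ c : F, c ≠ 0 ∧ Rr H v (c • f))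
    (fun v n => cst (r := fun (v : V) (f : Dual F V) => f ≠ 0 ∧ ∃ c : F, c ≠ 0 ∧ Rr H v (c • f))
      (fun j hj v f k => ⟨(smul_ne_zero_iff_ne j).2 k.1, re j hj _ _ k.2⟩) (pt v0 v v00 n))
    fun f n => cst (r := fun (f : Dual F V) (v : V) => v ≠ 0 ∧ ∃ c : F, c ≠ 0 ∧ Rr H v (c • f))
      (fun j hj f v k => ⟨n0 j _ k.1, re j hj _ _ k.2⟩) (pt_dual pt f00 n)
  have c2 := dcount {v : V | v ≠ 0} {v : V | v ≠ 0} (fun v w => w ∈ tR F H v) (m := Fintype.card F ^ d - 1)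
    (fun v n => by rw [← dim v n, ← ncard_ne0]; simp only [and_comm, Set.mem_ofPred_eq])
    fun w n => cst (r := fun w v : V => v ≠ 0 ∧ w ∈ tR F H v) (fun j hj w v k => ⟨n0 j _ k.1, eqv j hj _ _ k.2⟩) (pt v0 w v00 n)
  have q1 : 1 < Fintype.card F := q2 F
  have N0 : 0 < Fintype.card F ^ finrank F V - 1 := tsub_pos_of_lt (Nat.one_lt_pow (by omega) q1)
  rw [ncard_ne0' (F := F), ncard_ne0' (F := F), Subspace.dual_finrank_eq] at c1
  rw [ncard_ne0' (F := F)] at c2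
  replace c1 := Nat.eq_of_mul_eq_mul_left N0 c1
  replace c2 := Nat.eq_of_mul_eq_mul_left N0 c2
  have c3 := (Set.ncard_le_ncard (s := {u | u ∈ LinearMap.ker f0 ∧ u ≠ 0}) fun u hu => (Set.mem_union _ _ _).2
    (or_iff_not_imp_left.2 fun n => And.intro hu.2 (key u v0 f0 r0 hu.1 fun k => n (And.intro hu.2 k)))).trans (Set.ncard_union_le
      {x | x ≠ 0 ∧ v0 ∈ tR F H x} {x | x ≠ 0 ∧ ∃ c : F, c ≠ 0 ∧ Rr H x (c • f0)})
  have c4 := (Set.ncard_le_ncard (s := {f | f ≠ 0 ∧ ∃ c : F, c ≠ 0 ∧ Rr H v0 (c • f)})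
    fun f ⟨f1, c, c0, k⟩ => by exact ⟨(Submodule.mem_dualAnnihilator f).2 fun w hw => by simpa [c0] using hw _ k, f1⟩).trans_eq
      (ncard_ne0 (tR F H v0).dualAnnihilator)
  rw [← c1, ← c2, ncard_ne0] at c3
  have d3 := finrank_ann (tR F H v0)
  have d4 := finrank_ker f00
  have d5 := Submodule.finrank_mono (show tR F H v0 ≤ LinearMap.ker f0 from fun w hw => hw _ r0)
  have d6 := Submodule.finrank_mono ((Submodule.span_singleton_le_iff_mem _ _).2 (slf v0))
  rw [finrank_span_singleton v00, dim v0 v00] at *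
  obtain ⟨m, hm⟩ := Nat.exists_eq_add_of_le' n4
  have p1 := Nat.pow_le_pow_right q1.le (show d ≤ m + 2 by omega)
  have p2 := Nat.pow_le_pow_right q1.le (show finrank F (tR F H v0).dualAnnihilator ≤ m + 2 by omega)
  have p3 := Nat.mul_le_mul_left (Fintype.card F ^ (m + 2)) (q2 F)
  have p4 := Nat.one_lt_pow (show m + 2 ≠ 0 by omega) q1
  rw [show finrank F (LinearMap.ker f0) = m + 2 + 1 by omega, pow_succ] at c3
  omega

end H3.R3
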