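/-
Rank 3 actions of `PSL_n(q)`: two orbits on pairs of points.
-/
import Cfsg.Agent.H3.R3b

set_option autoImplicit false
set_option linter.unusedSectionVars false

open Module MulAction H13.R3

namespace H3.R3
universe u

theorem ari {q i k m j : ℕ} (hq : 2 ≤ q) (h : (q ^ (i + 3 + k) - q) * (q ^ (i + 3 + k) - q ^ (i + 2)) =
    (q ^ (i + 3 + k + m + 2) - q ^ (i + 3 + k)) * (q ^ j - 1)) : k = 0 ∧ j = 1 ∧ m = i := by
  have q0 : 0 < q := by omega
  have l := fun a b => Nat.pow_le_pow_right q0 (i := a) (j := b)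
  zify [(pow_one q).ge.trans (l 1 (i + 3 + k) (by omega)), l (i + 2) (i + 3 + k) (by omega),
    l (i + 3 + k) (i + 3 + k + m + 2) (by omega), Nat.one_le_pow j q q0] at h
  have q2 : (2 : ℤ) ≤ q := by exact_mod_cast hq
  have nd : ¬ (q : ℤ) ∣ 1 := fun k => by have := Int.le_of_dvd one_pos k; omega
  have e : ((q : ℤ) ^ (i + 2 + k) - 1) * (q ^ (k + 1) - 1) = q ^ k * (q ^ (m + 2) - 1) * (q ^ j - 1) :=
    mul_left_cancel₀ (pow_ne_zero (i + 3) (by omega : (q : ℤ) ≠ 0)) (by linear_combination h)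
  obtain rfl | k := k
  · obtain _ | _ | j := j
    · have := one_lt_pow₀ (by omega : (1 : ℤ) < q) (n := i + 2 + 0) (by omega)
      simp only [pow_zero, sub_self, mul_zero, mul_eq_zero, zero_add, pow_one] at e
      omega
    · have : (q : ℤ) ^ (m + 2) = q ^ (i + 2) := mul_right_cancel₀ (by omega : (q : ℤ) - 1 ≠ 0) (by linear_combination -e)
      have := Nat.pow_right_injective hq (by exact_mod_cast this : q ^ (m + 2) = q ^ (i + 2))
      omega
    · exact (nd ⟨q ^ (i + 1) - q ^ i - q ^ (m + j + 2) + q ^ m + q ^ j,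
        mul_left_cancel₀ (by omega : (q : ℤ) ≠ 0) (by linear_combination -e)⟩).elim
  · exact (nd ⟨q ^ k * (q ^ (m + 2) - 1) * (q ^ j - 1) - q ^ (i + 2 * k + 4) + q ^ (i + 2 + k) + q ^ (k + 1),
      by linear_combination e⟩).elim

theorem st2 (pent : PENT.{u}) {F V : Type u} [Field F] [Fintype F] [AddCommGroup V] [Module F V] [Finite V]
    {R : V → Submodule F V} {d i j : ℕ} {x y : V} (dim : ∀ v, v ≠ 0 → finrank F (R v) = d) (slf : ∀ v, v ≠ 0 → v ∈ R v)
    (sy : ∀ v w, v ≠ 0 → w ≠ 0 → w ∈ R v → v ∈ R w) (rs : ∀ v w, w ≠ 0 → w ∈ F ∙ v → R w = R v)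
    (hi : ∀ v w, Ind F v w → w ∈ R v → finrank F (R v ⊓ R w : Submodule F V) = i)
    (hj : ∀ v w, v ≠ 0 → w ∉ R v → finrank F (R v ⊓ R w : Submodule F V) = j)
    (xy : Ind F x y) (hy : y ∈ R x) (dn : d < finrank F V) : Spr R ∨ d + 1 = finrank F V := by
  by_cases id : i = d
  · refine Or.inl fun v w v0 w0 k => by_contra fun n => n ?_
    have := hi v w ⟨v0, fun l => n (rs v w w0 l)⟩ k
    rw [← Submodule.eq_of_le_of_finrank_eq (inf_le_left (b := R w)) (this.trans (id.trans (dim v v0).symm)),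
      Submodule.eq_of_le_of_finrank_eq inf_le_right (this.trans (id.trans (dim w w0).symm))]
  refine Or.inr (by_contra fun n => ?_)
  have x0 := xy.1
  have xy' := sy x y x0 xy.ne0 hy
  have i1 := hi x y xy hy
  have i2 := Submodule.finrank_mono (ln_le.2 ⟨⟨slf x x0, xy'⟩, hy, slf y xy.ne0⟩ : ln F x y ≤ R x ⊓ R y)
  have i3 := Submodule.finrank_mono (inf_le_left : R x ⊓ R y ≤ _)
  rw [xy.finrank, i1] at i2
  rw [dim x x0, i1] at i3
  have c := dcount {y | y ∈ R x ∧ y ∉ F ∙ x} {z | z ∉ R x} (fun y z => z ∈ R y)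
    (m := Fintype.card F ^ d - Fintype.card F ^ i) (n := Fintype.card F ^ j - 1) (fun y hy => by
      rw [← hi x y ⟨x0, hy.2⟩ hy.1, ← dim y (Ind.ne0 ⟨x0, hy.2⟩), ← ncard_diff inf_le_right]
      congr 1; ext z; exact ⟨fun k => ⟨k.2, fun l => k.1 l.1⟩, fun k => ⟨fun l => k.2 ⟨l, k.1⟩, k.1⟩⟩) fun z hz => by
      have z0 : z ≠ 0 := fun e => hz (e ▸ zero_mem _)
      rw [← hj x z x0 hz, ← ncard_ne0]
      congr 1; ext y
      exact ⟨fun k => have := Ind.ne0 ⟨x0, k.1.2⟩; ⟨⟨k.1.1, sy _ _ this z0 k.2⟩, this⟩, fun k =>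
        have := sy _ _ z0 k.2 k.1.2; ⟨⟨k.1.1, fun l => hz (rs _ _ k.2 l ▸ this)⟩, this⟩⟩
  rw [ncard_off x0 (slf x x0), ncard_compl, dim x x0] at c
  obtain ⟨i, rfl⟩ := Nat.exists_eq_add_of_le' i2
  obtain ⟨k, rfl⟩ := Nat.exists_eq_add_of_le (show i + 3 ≤ d by omega)
  obtain ⟨m, hm⟩ := Nat.exists_eq_add_of_le (show i + 3 + k + 2 ≤ finrank F V by omega)
  rw [show finrank F V = i + 3 + k + m + 2 by omega] at c
  obtain ⟨rfl, rfl, rfl⟩ := ari (q2 F) c
  obtain ⟨z, hz, nz⟩ := ex_notMem (A := R x ⊓ R y) (B := R x) (by rw [i1, dim x x0]; omega)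
  have zy : z ∉ R y := fun l => nz ⟨hz, l⟩
  have a1 := hi x z ⟨x0, fun l => zy ((Submodule.span_singleton_le_iff_mem _ _).2 xy' l)⟩ hz
  have a2 := Submodule.finrank_sup_add_finrank_inf_eq (R x ⊓ R y) (R x ⊓ R z)
  have a3 := Submodule.finrank_mono (sup_le inf_le_left inf_le_left : R x ⊓ R y ⊔ R x ⊓ R z ≤ R x)
  have a4 := Submodule.finrank_mono (inf_le_inf inf_le_right inf_le_right : R x ⊓ R y ⊓ (R x ⊓ R z) ≤ R y ⊓ R z)
  rw [hj y z xy.ne0 zy, dim x x0, i1, a1] at *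
  obtain rfl : m = 0 := by omega
  exact pent F V R hm (fun v n => ⟨dim v n, slf v n⟩) sy hi hj

theorem st (pent : PENT.{u}) : H13.R3.ST.{u} := by
  intro F V G _ _ _ _ _ _ _ _ _ J T sc pt ti tl tr ⟨v, w, vw, h1⟩ h2
  obtain ⟨p, k, hp, q⟩ := ex_p F
  obtain ⟨f, fv⟩ := ex_dual1 (F := F) vw.1
  have an : ∀ (x : V) (f f' : Dual F V), f x = 1 → f' x = 1 → ∃ j ∈ J, j • x = x ∧ j • f = f' := fun x f f' k =>
    anti sc (fun y hy c => by
      have x0 : x ≠ 0 := by rintro rfl; simp at k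
      have : Ind F x (y + c • x) := ⟨x0, fun k => hy
        ((add_mem_cancel_right (Submodule.smul_mem _ c (Submodule.mem_span_singleton_self x))).1 k)⟩
      exact tr x y x _ ⟨x0, hy⟩ this (tl _ _ _ _ ⟨x0, hy⟩ this (ln_eq this l_ln (add_mem r_ln (Submodule.smul_mem _ _ l_ln))).symm)) k
  have fj : ∀ j ∈ J ⊓ stabilizer G f, ∀ u, f (j • u) = f u := fun j hj u => by rw [← dinv j f u, hj.2]
  obtain ⟨P, l, hP, sy⟩ := sylf (J := J ⊓ stabilizer G f) hp q fv (fun j hj => (fj j hj v).trans fv) fun y hy => by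
    obtain ⟨j, hj, rfl⟩ := pt v y vw.1 (by rintro rfl; simp at hy)
    obtain ⟨i, hi, e, e'⟩ := an _ (j • f) f ((dinv j f v).trans fv) hy
    exact ⟨i * j, ⟨mul_mem hi hj, (mul_smul i j f).trans e'⟩, (mul_smul i j v).trans e⟩
  obtain ⟨x, fx, x0, px⟩ := fixp hp q hP (W := LinearMap.ker f) (fun e => vw.2 (Submodule.mem_span_singleton.2
    ⟨f w, (sub_eq_zero.1 (e.le (show w - f w • v ∈ LinearMap.ker f by simp [fv]))).symm⟩)) fun j hj u hu => (fj j (l hj) u).trans hu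
  have ix : ∀ y, f y ≠ 0 → Ind F x y := fun y n => ⟨x0, fun k => n ((Submodule.span_singleton_le_iff_mem _ _).2 fx k)⟩
  have xv := ix v (by simp [fv])
  have sm : ∀ y, f y ≠ 0 → (T x y ↔ T x v) := fun y n => by
    obtain ⟨j, hj, e⟩ := sy ((f y)⁻¹ • y) v (by simp [n]) fv
    have := ix ((f y)⁻¹ • y) (by simp [n])
    rw [← e, ← tl _ _ _ _ this (ix y n) (ln_eq this l_ln (Submodule.smul_mem _ _ r_ln)), ← ti j (l hj).1, px j hj]
  let R : V → Submodule F V := fun a => Submodule.span F (insert a {u | Ind F a u ∧ (T a u ↔ ¬T x v)})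
  have slf : ∀ a, a ∈ R a := fun a => Submodule.subset_span (Or.inl rfl)
  have inc : ∀ a u, Ind F a u → (T a u ↔ ¬T x v) → u ∈ R a := fun a u h k => Submodule.subset_span (Or.inr ⟨h, k⟩)
  have eqv : ∀ j ∈ J, ∀ a u, u ∈ R a → j • u ∈ R (j • a) := fun j hj a u hu =>
    (Submodule.span_le (p := (R (j • a)).comap (lin F V j).toLinearMap)).2
      (by rintro u (rfl | ⟨h, k⟩); exacts [slf _, inc _ _ (h.smul j) ((ti j hj _ _).trans k)]) hu
  have rx : R x ≤ LinearMap.ker f := Submodule.span_le.2 (by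
    rintro u (rfl | ⟨-, k⟩); exacts [fx, by_contra fun n => iff_not_self ((sm u n).symm.trans k)])
  have ch : ∀ a u, Ind F a u → (u ∈ R a ↔ (T a u ↔ ¬T x v)) := fun a u h => ⟨fun k => by_contra fun n => by
    obtain ⟨j, hj, e, c, e'⟩ := tr a u x v h xv (by tauto)
    have := rx (e ▸ e' ▸ eqv j hj a u k)
    exact c_ne h.ne0 e' (by simpa [fv] using this), inc a u h⟩
  have sym : ∀ a u, a ≠ 0 → u ≠ 0 → u ∈ R a → a ∈ R u := fun a u a0 u0 k => by
    by_cases m : u ∈ F ∙ a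
    · exact (Submodule.span_singleton_le_iff_mem _ _).2 (slf u) (sp_eq u0 m ▸ Submodule.mem_span_singleton_self a)
    · have h : Ind F a u := ⟨a0, m⟩
      exact inc _ _ h.symm ((tl _ _ _ _ h.symm h (ln_comm _ _)).trans ((ch a u h).1 k))
  have dim : ∀ a, a ≠ 0 → finrank F (R a) = finrank F (R x) := fun a n => dim_eq (cst eqv (pt x a x0 n))
  have rs : ∀ a u, u ≠ 0 → u ∈ F ∙ a → R u = R a := fun a u u0 m => by
    obtain ⟨c, rfl⟩ := Submodule.mem_span_singleton.1 m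
    have c0 := left_ne_zero_of_smul u0
    obtain ⟨z, hz, e⟩ := sc c c0
    refine (Submodule.eq_of_le_of_finrank_eq (fun u k => ?_) ((dim _ (right_ne_zero_of_smul u0)).trans (dim _ u0).symm)).symm
    rw [← (R _).smul_mem_iff c0, ← e, ← e]
    exact eqv z hz _ _ k
  have cs : ∀ a u a' u', Ind F a u → Ind F a' u' → (T a u ↔ T a' u') →
      finrank F (R a' ⊓ R u' : Submodule F V) = finrank F (R a ⊓ R u : Submodule F V) := fun a u a' u' h h' k => by
    obtain ⟨j, hj, rfl, c, e⟩ := tr a u a' u' h h' k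
    rw [← rs u' (j • u) (h.smul j).ne0 (Submodule.mem_span_singleton.2 ⟨c, e.symm⟩)]
    exact dim_eq (cst (r := fun (a : V × V) u => u ∈ R a.1 ⊓ R a.2) (fun j hj a u k => ⟨eqv j hj _ _ k.1, eqv j hj _ _ k.2⟩)
      (a := (a, u)) (a' := (j • a, j • u)) ⟨j, hj, rfl⟩)
  obtain ⟨a, u, au, k⟩ : ∃ a u, Ind F a u ∧ (T a u ↔ ¬T x v) := by
    by_cases t : T x v
    · exact let ⟨a, u, h, k⟩ := h2; ⟨a, u, h, by tauto⟩
    · exact ⟨v, w, vw, by tauto⟩
  have d2 := Submodule.finrank_mono (ln_le.2 ⟨slf a, inc a u au k⟩)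
  have dn := Submodule.finrank_mono rx
  have := finrank_ker (f := f) (by rintro rfl; simp at fv)
  rw [au.finrank, dim a au.1] at d2
  refine ⟨_, R, _, ⟨dim, fun a _ => slf a, sym, fun j hj a u _ => eqv j hj a u⟩, d2, by omega, ch,
    st2 (j := finrank F (R x ⊓ R v : Submodule F V)) pent dim (fun a _ => slf a) sym rs (fun a' u' h m => cs a u a' u' au h (k.trans ((ch _ _ h).1 m).symm))
      (fun a' u' a0 m => ?_) au (inc a u au k) (by omega)⟩
  have h : Ind F a' u' := ⟨a0, fun l => m ((Submodule.span_singleton_le_iff_mem _ _).2 (slf a') l)⟩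
  exact cs x v a' u' xv h (by have := mt (ch _ _ h).2 m; tauto)

end H3.R3
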