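import Cfsg.Agent.H9.RL0
import Cfsg.Agent.H17.HT27

/-! S3860: Holt's theorem gives a strongly embedded subgroup. -/

set_option autoImplicit false
set_option linter.unusedVariables false
set_option linter.unusedSectionVars false

namespace H3.RL
open Cfsg Subgroup H19 H17.GS H9.RL

universe u
variable {G B : Type u} [Group G] [Finite G] [Group B] [Finite B] {a b : ℕ} {L : Subgroup G} {φ : G →* B}
  {f g r s y : G}

theorem zL (h : y ∈ L) (k : y ∈ center G) : y ∈ Z(L) := ⟨h, mem_cent.2 fun x _ => mem_center_iff.1 k x⟩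

theorem inv_of (k : f * f = g * g) : f * (f⁻¹ * g) * f⁻¹ = (f⁻¹ * g)⁻¹ := by
  have : g * f⁻¹ = g⁻¹ * (g * g) * f⁻¹ := by group
  rw [← k] at this
  rw [mul_inv_cancel_left, this]; group

theorem cen_of (c : Cf a b L) (hφ : Bar L φ) (hf : f ∈ L) (k : f * f = g * g) (e : φ f = φ g) :
    f⁻¹ * g ∈ center G := by
  have z := (hφ.ker (f⁻¹ * g)).1 (by rw [map_mul, map_inv, e, inv_mul_cancel])
  refine c.zi _ z.2 ?_
  have := inv_of k
  rw [mem_cent.1 z.2 f hf, mul_inv_cancel_right] at this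
  exact mul_eq_one_iff_eq_inv.2 this

theorem sq_J (k : r * r ∈ center G) (y : G) : r * r = y * r * y⁻¹ * (y * r * y⁻¹) := by
  rw [show y * r * y⁻¹ * (y * r * y⁻¹) = y * (r * r) * y⁻¹ by group, mem_center_iff.1 k y, mul_inv_cancel_right]

theorem syl2 (r2 : R2.{u}) (c : Cf a b L) (hr : r ∈ L) (k : Rr r) :
    ∃ S, Syl 2 S ⊤ ∧ r ∈ S ∧ ∀ y ∈ S, y * r * y⁻¹ * r⁻¹ ∈ center G := by
  have e : PiE {2} (r ^ 2) := c.pz.elt (zL (pow_mem hr 2) (by rw [pow_two]; exact k.sq))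
  have p : H19.PG 2 (zpowers r) := piG_zpowers.2 (PiN.dvd (PiN.mul e (by simpa using PiN.prime_pow Nat.prime_two 1))
    (orderOf_dvd_of_pow_eq_one (by rw [mul_comm, pow_mul, pow_orderOf_eq_one])))
  obtain ⟨P, p1, p2⟩ := p.exists_syl (zpowers_le.2 (mem_cent1_self r))
  obtain ⟨S, s1, s2⟩ := p1.pi.exists_syl (le_top : P ≤ ⊤)
  exact ⟨S, s1, s2 (p2 (mem_zpowers r)), r2 c.toSt k s1
    (p1.max (le_inf s2 p1.le) inf_le_right (s1.pi.infl _) ▸ p1)⟩

local notation "π" => QuotientGroup.mk' (center G)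

theorem comm_q : Commute (π f) (π g) ↔ f * g * f⁻¹ * g⁻¹ ∈ center G := by
  rw [← QuotientGroup.eq_one_iff, ← QuotientGroup.mk'_apply, map_mul, map_mul, map_mul, map_inv, map_inv,
    mul_inv_eq_one, mul_inv_eq_iff_eq_mul]
  rfl

theorem comm_b (hφ : Bar L φ) (hf : f ∈ L) (hg : g ∈ L) (k : f * g * f⁻¹ * g⁻¹ ∈ center G) :
    φ f * φ g = φ g * φ f := by
  have := (hφ.ker _).2 (zL (mul_mem (mul_mem (mul_mem hf hg) (inv_mem hf)) (inv_mem hg)) k)
  rwa [map_mul, map_mul, map_mul, map_inv, map_inv, mul_inv_eq_one, mul_inv_eq_iff_eq_mul] at this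

theorem ln_J {H A : Type u} [Group H] [Group A] {K : Set H} {c : H → H → A} (k : Geo K c) {p v : H}
    (h : p ∈ Ln K v) (y : H) : y * p * y⁻¹ ∈ Ln K (y * v * y⁻¹) := ⟨k.J p h.1 y, by
  have := h.2.eq
  show _ = _
  rw [show y * p * y⁻¹ * (y * v * y⁻¹) = y * (p * v) * y⁻¹ by group, this]; group⟩

theorem hol (lz : LZ.{u}) (r2 : R2.{u}) : HOL.{u} := by
  intro G B _ _ _ _ a b L φ s c hφ a2 sL rs sC k ll lu
  have := c.nm
  have nL : L ⊴ ⊤ := normalIn_top
  have cj' : ∀ y, ∀ x ∈ L, y * x * y⁻¹ ∈ L := fun y x p => c.nm.conj_mem x p y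
  obtain ⟨S, s1, s2, s3⟩ := syl2 r2 c sL rs
  obtain ⟨l, l1, ⟨g1, gL⟩, g0⟩ := lz c.qs c.pz (s1.inf_normal nL) ⟨s2, sL⟩ sC
  have ss := sq_J rs.sq l
  have gK : QuotientGroup.mk' (center G) (l * s * l⁻¹) ∈ Kh s := ⟨l, rfl⟩
  generalize l * s * l⁻¹ = g at g1 gL g0 ss gK
  have sK : QuotientGroup.mk' (center G) s ∈ Kh s := ⟨1, by simp⟩
  have cm : Commute (QuotientGroup.mk' (center G) s) (QuotientGroup.mk' (center G) g) := (comm_q.2 (s3 g g1)).symm
  have zc : ∀ x ∈ center G, x ∈ C(L) := fun x p => mem_cent.2 fun w _ => mem_center_iff.1 p w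
  have ne : QuotientGroup.mk' (center G) s ≠ QuotientGroup.mk' (center G) g := fun e =>
    g0 (zc _ (QuotientGroup.eq.1 e))
  have uL := mul_mem (inv_mem sL) gL
  have eu : QuotientGroup.mk' (center G) (s⁻¹ * g) = QuotientGroup.mk' (center G) s * QuotientGroup.mk' (center G) g := by
    rw [map_mul, map_inv, inv_eq_of_mul_eq_one_right (k.inv _ sK)]
  have ru : Rr (s⁻¹ * g) := ⟨⟨s, inv_of ss⟩, fun p => g0 (zc _ p), by
    rw [← QuotientGroup.eq_one_iff, ← QuotientGroup.mk'_apply, map_mul, eu, cm.symm.mul_mul_mul_comm, k.inv _ sK,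
      k.inv _ gK, mul_one]⟩
  generalize s⁻¹ * g = w at uL eu ru g0
  obtain ⟨T, t1, t2, t3⟩ := syl2 r2 c uL ru
  let X := Ln (Kh s) (QuotientGroup.mk' (center G) w)
  let P := (normalizer X).comap (QuotientGroup.mk' (center G))
  have mP : ∀ y, (∀ p ∈ X, QuotientGroup.mk' (center G) y * p * (QuotientGroup.mk' (center G) y)⁻¹ ∈ X) → y ∈ P :=
    fun y p => mem_normalizer_fintype p
  have mP' : ∀ y, (∀ p ∈ X, Commute (QuotientGroup.mk' (center G) y) p) → y ∈ P :=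
    fun y p => mP y fun q r => by rwa [(p q r).eq, mul_inv_cancel_right]
  have pP : ∀ y, φ y ∈ P.map φ → y ∈ P := by
    rintro y ⟨x, x1, x2⟩
    have z := (hφ.ker (x⁻¹ * y)).1 (by rw [map_mul, map_inv, x2, inv_mul_cancel])
    have : x⁻¹ * y ∈ P := mP' _ (by
      rintro _ ⟨⟨v, rfl⟩, -⟩
      exact Commute.map (mem_cent.1 z.2 _ (cj' v s sL)).symm (QuotientGroup.mk' (center G)))
    simpa using mul_mem x1 this
  have lX : ∀ p ∈ X, ∀ q ∈ X, Commute p q := by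
    have := ll _ sK _ gK ne cm
    rwa [← eu] at this
  have sX : QuotientGroup.mk' (center G) s ∈ X := ⟨sK, eu ▸ (Commute.refl _).mul_right cm⟩
  have ns : ¬ Sim (L.map φ ⊓ P.map φ) := fun m => by
    have s0 : φ s ≠ 1 := fun e => sC ((hφ.ker s).1 e).2
    have sM : zpowers (φ s) ≤ L.map φ ⊓ P.map φ :=
      zpowers_le.2 ⟨mem_map_of_mem φ sL, mem_map_of_mem φ (mP' s (lX _ sX))⟩
    have z0 : zpowers (φ s) ≠ ⊥ := fun e => s0 (zpowers_eq_bot.1 e)
    have e := (m.cases (Kc_le sM) Kc_norm).resolve_left fun e => z0 (eq_bot_iff.2 (le_Kc.trans e.le))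
    have c1 : L.map φ ⊓ P.map φ ≤ C[φ s] := e.ge.trans (Kc_le_of_cj (by
      rintro _ ⟨⟨y, y1, rfl⟩, y2⟩
      rw [cj_zpowers, zpowers_le, mem_cent1, ← map_inv, ← map_mul, ← map_mul]
      refine comm_b hφ (cj' y s sL) sL (comm_q.1 (lX _ ?_ _ sX))
      rw [map_mul, map_mul, map_inv]
      exact (pP y y2 _).1 sX))
    exact m.nab ((m.cases sM (c1.trans (cent1_le_norm_zpowers _))).resolve_left z0 ▸ comm_of_cyclic (cyc_zpowers _))
  have tm : Syl 2 ((T ⊓ L).map φ) (L.map φ) := (t1.inf_normal nL).map φ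
  refine (H17.HT.holt_rel (P := P.map φ) (z := φ w) hφ.sim (fun p => ns (by rw [inf_eq_left.2 p]; exact hφ.sim)) tm
    (mem_map_of_mem φ ⟨t2, uL⟩) ?_ ?_ ?_ ?_).elim (fun p => ⟨_, p.1⟩) fun ⟨n, p⟩ => absurd p.2.2.2.2 ns
  · rintro _ ⟨y, y1, rfl⟩
    exact mem_cent1.2 (comm_b hφ y1.2 uL (t3 y y1.1))
  · rw [← map_mul]; exact (hφ.ker _).2 (zL (mul_mem uL uL) ru.sq)
  · rintro _ ⟨⟨y, y1, rfl⟩, y2⟩
    have := cen_of c hφ uL (sq_J ru.sq y) (by
      rw [map_mul, map_mul, map_inv, mem_cent1.1 y2, mul_inv_cancel_right])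
    have e : QuotientGroup.mk' (center G) w = QuotientGroup.mk' (center G) (y * w * y⁻¹) := QuotientGroup.eq.2 this
    refine mem_map_of_mem φ (mP y fun p q => ?_)
    have := ln_J k q (QuotientGroup.mk' (center G) y)
    rwa [← map_inv, ← map_mul, ← map_mul, ← e, map_inv] at this
  · rintro _ ⟨y, y1, rfl⟩ p
    refine ⟨φ y, ⟨mem_map_of_mem φ y1, mem_map_of_mem φ (mP y fun q r => ?_)⟩, rfl⟩
    rw [← map_inv, ← map_mul, ← map_mul] at p
    generalize hη : QuotientGroup.mk' (center G) y = η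
    have e : η * QuotientGroup.mk' (center G) s * η⁻¹ * (η * QuotientGroup.mk' (center G) g * η⁻¹) =
        QuotientGroup.mk' (center G) (y * w * y⁻¹) := by
      rw [map_mul, map_mul, map_inv, hη, eu]; group
    have := lu _ (k.J _ sK η) _ (k.J _ gK η) (fun e => ne (by simpa using e)) (by
      show _ = _
      rw [e, map_mul, map_mul, map_inv, hη, eu, cm.eq]; group) _ sK _ gK ne cm (by
      rw [e, ← eu]; exact fun x h => (pP _ p _).1 h)
    rw [← eu, e, map_mul, map_mul, map_inv, hη] at this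
    show _ ∈ Ln _ _
    rw [this]
    exact ln_J k r η

end H3.RL
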