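/-
Standard subgroups of type `Sp₄(2ⁿ)`: the split and the non-split full doubling (chunks `SC`, `FC`).
-/
import Cfsg.Agent.H27.W2
import Cfsg.Agent.H11.StSchur

set_option autoImplicit false
set_option linter.unusedSectionVars false
set_option maxRecDepth 100000

namespace H3.S4
open Cfsg Subgroup H14 Cfsg.Lie H27.S4
open H19 hiding PG Gd
open H1.YG (Big h2 aa ng add0 sqadd sq_inj)

universe u

theorem pairs : ∀ r s : I, s.val ≠ chevB2.neg r →
    (H27.S4.cm s r = true ∧ (chevB2.commTerms r s = [] ∨ ∃ k : I, ∃ e ∈ [2, -2], chevB2.commTerms r s = [(k.val, e, 1, 1)])) ∨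
    (∃ k m, Tri s r k m ∧ ∃ e ∈ [1, -1], ∃ f ∈ [1, -1], chevB2.commTerms r s = [(k.val, e, 1, 1), (m.val, f, 2, 1)]) ∨
    ∃ k m, Tri r s k m ∧ H27.S4.cm k m = true ∧
      ∃ e ∈ [1, -1], ∃ f ∈ [1, -1], chevB2.commTerms r s = [(k.val, e, 1, 1), (m.val, f, 1, 2)] := by
  decide +kernel

/-- the Steinberg presentation of `B₂(K)` in characteristic two -/
theorem hom {K : Type} [Field K] [Big K] {G : Type*} [Group G] (y : I → K → G) (add : ∀ r a b, y r (a + b) = y r a * y r b)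
    (cy : ∀ r s k m, Tri r s k m → ∀ u x, y r u * y s x = y s x * y r u * (y k (x * u) * y m (x ^ 2 * u)))
    (cm : ∀ r s, H27.S4.cm r s = true → ∀ a b, y r a * y s b = y s b * y r a) : ∃ κ : Γ K →* G, ∀ r c, κ (X r c) = y r c := by
  have := goodB2.nontrivial_rank
  have z : ∀ r, y r 0 = 1 := fun r => mul_eq_left.1 ((add r 0 0).symm.trans (by rw [add_zero]))
  have q : ∀ r a, y r a * y r a = 1 := fun r a => by rw [← add, aa, z]
  have o : ∀ e ∈ ([1, -1] : List ℤ), (e : K) = 1 := by simp [ng]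
  refine H11.exists_section goodB2.conn sep top ((injective_iff_map_eq_one _).2 fun c hc => ?_) ⟨y, add, fun r s _ h t u => ?_⟩
  · obtain ⟨l, m, e⟩ : ∃ l m, c = cw l m := ⟨c 0, (c 0)⁻¹ * c 1, cw_ext rfl (mul_inv_cancel_left _ _).symm⟩
    have k : hh l m = 1 := by rw [hh, ← e]; exact hc
    have h7 := hh7 l m 1
    have h4 := hh4 l m 1
    rw [k, one_mul, inv_one, mul_one, mul_one] at h7 h4
    obtain rfl : l = 1 := Units.ext (sq_inj ((X_inj h7).symm.trans (by simp)))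
    obtain rfl : m = 1 := Units.ext (sq_inj ((X_inj h4).symm.trans (by simp)))
    exact e.trans (cw_ext rfl (mul_one _))
  rcases pairs r s (fun e => h (Fin.ext (e.trans (goodB2.neg r).symm))) with
    ⟨c, e | ⟨k, e, he, p⟩⟩ | ⟨k, m, T, e, he, f, hf, p⟩ | ⟨k, m, T, c, e, he, f, hf, p⟩
  · rw [goodB2.terms_eq (L := []) e, cm _ _ c]; simp
  · have : (e : K) = 0 := by simpa [ng, h2] using (show ∀ e ∈ ([2, -2] : List ℤ), (e : K) = 0 by simp [h2]) e he
    rw [goodB2.terms_eq (L := [(k, e, 1, 1)]) p, cm _ _ c]; simp [PreChev.tval, this, z]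
  · rw [goodB2.terms_eq (L := [(k, e, 1, 1), (m, f, 2, 1)]) p, cy _ _ _ _ T]; simp [PreChev.tval, o e he, o f hf, ng]
  · rw [goodB2.terms_eq (L := [(k, e, 1, 1), (m, f, 1, 2)]) p, cy _ _ _ _ T]
    simp only [PreChev.tval, o e he, o f hf, ng, List.map_cons, List.map_nil, List.prod_cons, List.prod_nil, pow_one, one_mul,
      mul_one, mul_comm t, mul_assoc]
    rw [← mul_assoc (y m _), ← cm _ _ c, mul_assoc, q, mul_one, q, mul_one]

theorem inj_of {K : Type} [Field K] [Big K] {G : Type*} [Group G] {κ : Γ K →* G} {c : K} (h : κ (X 7 c) ≠ 1) :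
    Function.Injective κ :=
  (MonoidHom.ker_eq_bot_iff _).1 (((simple _).1.eq_bot_or_eq_top_of_normal _ inferInstance).resolve_right fun e =>
    h (e.ge (mem_top _)))

theorem fc : FC.{u} := fun {F _ _ G _ _} ι t ρ ξ D hρ => by
  have : Fact (∀ r : F, r ^ 2 ≠ ρ + 1 * r) := ⟨fun r e => hρ r (by rw [e, one_mul, add_assoc, aa, add_zero])⟩
  have : Big (E ρ) := ⟨.of_equiv _ (QuadraticAlgebra.equivProd ρ 1).symm,
    by rw [← map_ofNat (algebraMap F _) 2, h2, map_zero],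
    ⟨⟨0, 1⟩, fun e => one_ne_zero (congrArg (·.im) e), fun e => one_ne_zero (congrArg (·.im) e)⟩⟩
  obtain ⟨κ, hκ⟩ := hom ξ D.add D.cy D.cm
  refine ⟨_, _, this, κ, starRingAut, inj_of (c := ⟨1, 0⟩) fun e => ?_, fun e => ?_, fun g => ?_, le_antisymm ?_ ((closure_le _).2 ?_)⟩
  · exact one_ne_zero (X_eq1 (D.inj ((D.em 7 1).symm.trans ((hκ ..).symm.trans (e.trans (map_one _).symm)))))
  · simpa using congrArg (fun τ : E ρ ≃+* _ => (τ ⟨0, 1⟩).re) e
  · exact DFunLike.congr_fun (hom_ext (α := (MulAut.conj t).toMonoidHom.comp κ) (β := κ.comp (φ starRingAut).toMonoidHom)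
      fun r e => by simpa only [MonoidHom.comp_apply, MulEquiv.coe_toMonoidHom, MulAut.conj_apply, φ_X, hκ, starRingAut_apply] using D.tc r e) g
  · rintro _ ⟨g, rfl⟩
    exact (gen (H := (Gd ξ).comap κ) fun r c => subset_closure ⟨r, c, hκ r c⟩).ge (mem_top g)
  · rintro _ ⟨r, c, rfl⟩
    exact ⟨_, hκ r c⟩

theorem sc : SC.{u} := fun {F _ _ G _ _} ι t r ξ D _ _ => by
  let ε : E (r ^ 2 + r) := ⟨r, 1⟩
  have z : ∀ r, ξ r 0 = 1 := fun r => mul_eq_left.1 ((D.add r 0 0).symm.trans (by rw [add_zero]))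
  have e1 : ε * ε = ε := by ext <;> simp [ε] <;> [linear_combination (r ^ 2) * (h2 : (2 : F) = 0); linear_combination r * (h2 : (2 : F) = 0)]
  have e2 : star ε = ⟨r + 1, 1⟩ := by ext <;> simp [ε, ng]
  have e3 : ε * star ε = 0 := by
    rw [e2]; ext <;> simp [ε] <;> [linear_combination (r ^ 2 + r) * (h2 : (2 : F) = 0); linear_combination (r + 1) * (h2 : (2 : F) = 0)]
  have e4 : ∀ c : F, star (c • ε) = c • star ε := fun c => by ext <;> simp [mul_add]
  obtain ⟨κ, hκ⟩ := hom (fun s (c : F) => ξ s (c • ε)) (fun s a b => by rw [add_smul, D.add])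
    (fun r s k m T u x => by
      rw [D.cy _ _ _ _ T, smul_pow, smul_mul_smul_comm, smul_mul_smul_comm, pow_two ε, e1, e1]) fun r s h a b => D.cm r s h _ _
  have c0 : ∀ s s' : I, s.val ≠ chevB2.neg s' → ∀ a b : F, ξ s (a • ε) * ξ s' (b • star ε) = ξ s' (b • star ε) * ξ s (a • ε) :=
    fun s s' n a b => by
      rcases pairs s' s n with ⟨c, -⟩ | ⟨k, m, T, -⟩ | ⟨k, m, T, -⟩
      · exact D.cm _ _ c _ _
      · rw [D.cy _ _ _ _ T, pow_two (b • star ε), mul_assoc _ (b • star ε), smul_mul_smul_comm, mul_comm (star ε), e3, smul_zero, mul_zero, z, z]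
        simp
      · rw [D.cy _ _ _ _ T, pow_two (a • ε), mul_assoc _ (a • ε), smul_mul_smul_comm, e3, smul_zero, mul_zero, z, z]
        simp
  have c1 : ∀ s' (b : F) g, κ g ∈ C[ξ s' (b • star ε)] := fun s' b g => by
    have p : ∀ s : I, s.val ≠ chevB2.neg s' → ∀ a : F, ξ s (a • ε) ∈ C[ξ s' (b • star ε)] := fun s n a => mem_cent1.2 (c0 s s' n a b)
    refine (gen (H := C[ξ s' (b • star ε)].comap κ) fun s a => ?_).ge (mem_top g)
    rw [mem_comap, hκ]
    by_cases n : s.val = chevB2.neg s'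
    · obtain ⟨i, j, k, m, T, h1, h2, h3⟩ := (by decide +kernel : ∀ s s' : I, s.val = chevB2.neg s' → ∃ i j k m, Tri i j k m ∧
        i.val ≠ chevB2.neg s' ∧ j.val ≠ chevB2.neg s' ∧ (k = s ∧ m.val ≠ chevB2.neg s' ∨ m = s ∧ k.val ≠ chevB2.neg s')) s s' n
      have q := D.cy _ _ _ _ T (a • ε) ((1 : F) • ε)
      rw [smul_pow, smul_mul_smul_comm, smul_mul_smul_comm, pow_two ε, e1, e1, one_pow, one_mul] at q
      have q := (mul_mem_cancel_left (mul_mem (p _ h2 1) (p _ h1 a))).1 (q ▸ mul_mem (p _ h1 a) (p _ h2 1))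
      rcases h3 with ⟨rfl, h3⟩ | ⟨rfl, h3⟩
      exacts [(mul_mem_cancel_right (p _ h3 a)).1 q, (mul_mem_cancel_left (p _ h3 a)).1 q]
    · exact p s n a
  have tc : ∀ s (c : F), t * κ (X s c) * t⁻¹ = ξ s (c • star ε) := fun s c => by rw [hκ, D.tc, e4]
  refine ⟨κ, inj_of (c := 1) fun e => ?_, ?_, le_antisymm (sup_le ?_ ?_) ((closure_le _).2 ?_)⟩
  · have h := tc 7 1
    rw [e, mul_one, mul_inv_cancel] at h
    rw [hκ] at e
    refine one_ne_zero (X_eq1 (D.inj ((D.em 7 1).symm.trans ?_)))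
    have := D.add 7 ((1 : F) • ε) ((1 : F) • star ε)
    rw [e, ← h, mul_one, e2] at this
    rw [map_one, ← this]
    congr 1; ext <;> simp [ε, aa, ← add_assoc]
  · rintro _ ⟨g, rfl⟩
    refine mem_cent.2 fun _ hv => ?_
    obtain ⟨_, ⟨v, rfl⟩, rfl⟩ := mem_cj'.1 hv
    exact mem_cent1.1 ((gen (H := C[κ g].comap ((MulAut.conj t).toMonoidHom.comp κ)) fun s c =>
      mem_cent1.2 (((tc s c).symm ▸ mem_cent1.1 (c1 s c g)).symm)).ge (mem_top v))
  · rintro _ ⟨g, rfl⟩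
    exact (gen (H := (Gd ξ).comap κ) fun r c => subset_closure ⟨r, _, hκ r c⟩).ge (mem_top g)
  · rintro _ hv
    obtain ⟨_, ⟨v, rfl⟩, rfl⟩ := mem_cj'.1 hv
    exact (gen (H := (Gd ξ).comap ((MulAut.conj t).toMonoidHom.comp κ)) fun r c => subset_closure ⟨r, _, tc r c⟩).ge (mem_top v)
  · rintro _ ⟨s, x, rfl⟩
    have := mul_mem (mem_sup_left (S := κ.range) (T := cj t κ.range) ⟨_, hκ s (x.im + (x.re + x.im * r))⟩)
      (mem_sup_right (mem_cj'.2 ⟨_, ⟨_, rfl⟩, tc s (x.re + x.im * r)⟩))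
    rw [← D.add, e2] at this
    refine (congrArg (ξ s) (?_ : _ = x)) ▸ this
    ext <;> simp [ε]
    · linear_combination (x.re * r + x.im * r ^ 2 + x.im * r) * (h2 : (2 : F) = 0)
    · linear_combination (x.re + x.im * r) * (h2 : (2 : F) = 0)

end H3.S4
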