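import Cfsg.Agent.H1.SN0

/-! Class multiplication coefficients and integrality of the exceptional characters. -/

open Cfsg
open H5 H7 H8 H21

namespace H3.SN

open Subgroup Finset H1.SN
open scoped ComplexConjugate MatrixGroups Pointwise

universe u

local notation "𝐍" x:max => normalizer (SetLike.coe (zpowers x))
local notation "𝐂" x:max => centralizer ({x} : Set _)

theorem dvd_card_pairs {G : Type*} [Group G] [Finite G] {p : ℕ} {x y g : G} (S : SCent p x)
    (hy1 : y ≠ 1) (hy : ¬ p ∣ orderOf y) :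
    p ∣ Nat.card {q : G × G // IsConj y q.1 ∧ IsConj g q.2 ∧ q.1 * q.2 = x} := by
  classical
  have := Fintype.ofFinite G
  have := Fact.mk S.prime
  let f : Function.End {q : G × G // IsConj y q.1 ∧ IsConj g q.2 ∧ q.1 * q.2 = x} := fun q =>
    ⟨(x * q.1.1 * x⁻¹, x * q.1.2 * x⁻¹), q.2.1.trans (isConj_iff.2 ⟨x, rfl⟩),
      q.2.2.1.trans (isConj_iff.2 ⟨x, rfl⟩), by
        have := q.2.2.2
        calc x * q.1.1 * x⁻¹ * (x * q.1.2 * x⁻¹) = x * (q.1.1 * q.1.2) * x⁻¹ := by group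
          _ = x := by rw [this]; group⟩
  have h1 : ∀ k q, ((f ^ k) q).1 = (x ^ k * q.1.1 * (x ^ k)⁻¹, x ^ k * q.1.2 * (x ^ k)⁻¹) := by
    intro k
    induction k with
    | zero => intro q; simp; rfl
    | succ k ih =>
      intro q
      rw [pow_succ']
      change (x * ((f ^ k) q).1.1 * x⁻¹, x * ((f ^ k) q).1.2 * x⁻¹) = _
      rw [ih, pow_succ']
      simp only [mul_inv_rev, mul_assoc]
  have h2 : f ^ p ^ 1 = 1 := by
    funext q
    refine Subtype.ext ?_
    rw [h1, pow_one, ← S.ord, pow_orderOf_eq_one]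
    simp; rfl
  have h3 := Equiv.Perm.card_fixedPoints_modEq h2
  have h4 : IsEmpty f.fixedPoints := ⟨fun q => by
    have e : x * q.1.1.1 * x⁻¹ = q.1.1.1 := congrArg (fun t => t.1.1) q.2
    have e2 := S.mem_of_comm (g := q.1.1.1) (by rw [mul_inv_eq_iff_eq_mul] at e; exact e.symm)
    have e3 : orderOf q.1.1.1 = orderOf y := by
      obtain ⟨c, hc⟩ := isConj_iff.1 q.1.2.1
      rw [← hc, orderOf_conj']
    refine S.notMem_of_not_dvd (y := q.1.1.1) (fun e4 => hy1 ?_) (e3 ▸ hy) e2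
    rwa [e4, orderOf_one, eq_comm, orderOf_eq_one_iff] at e3⟩
  rw [Fintype.card_eq_zero (α := f.fixedPoints)] at h3
  rw [Nat.card_eq_fintype_card]
  exact (Nat.modEq_zero_iff_dvd).1 h3

theorem cc : CC.{u} := by
  intro G _ _ _ D S η hη y g hy1 hg1 hy hg
  have h := D.pd
  obtain ⟨c, hc⟩ := dvd_card_pairs (g := g) S hy1 hy
  refine ⟨c, ?_⟩
  have e := card_pairs_isConj y g D.x
  rw [hc, card_isConj, card_isConj] at e
  have e1 : ∑ χ : IrrCharacter G, χ.1 y * χ.1 g * conj (χ.1 D.x) / χ.1 1 =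
      (∑ χ, D.a χ * χ.1 y * χ.1 g / χ.1 1) - D.δ * η.1 y * η.1 g / η.1 1 := by
    have e2 := congrArg conj (h.sum_Y h.gen_ne_one)
    rw [map_sum, map_neg, map_intCast] at e2
    have e3 : - (D.δ * η.1 y * η.1 g / η.1 1) =
        ∑ χ, if χ ∈ D.Y then η.1 y * η.1 g / η.1 1 * conj (χ.1 D.x) else 0 := by
      rw [← sum_filter, filter_mem_eq_inter, univ_inter, ← mul_sum]
      erw [e2]
      ring
    rw [sub_eq_add_neg, e3, ← sum_add_distrib]
    refine sum_congr rfl fun χ _ => ?_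
    split_ifs with hχ
    · rw [h.zero χ hχ, h.eq_reg hχ hη hy, h.eq_reg hχ hη hg, h.eq_reg hχ hη h.not_dvd_one]
      simp only [Int.cast_zero, zero_mul, zero_div, zero_add]
      ring
    · have := h.van S.cent χ hχ _ h.gen_ne_one
      erw [this]
      rw [map_intCast]
      ring
  rw [e1] at e
  have k1 : (Nat.card (𝐂 y) * (𝐂 y).index : ℂ) = Nat.card G := by
    exact_mod_cast (𝐂 y).card_mul_index
  have k2 : (Nat.card (𝐂 g) * (𝐂 g).index : ℂ) = Nat.card G := by
    exact_mod_cast (𝐂 g).card_mul_index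
  have k0 := card_ne_zero_complex G
  push_cast at e
  rw [e]
  generalize (∑ χ, D.a χ * χ.1 y * χ.1 g / χ.1 1) - D.δ * η.1 y * η.1 g / η.1 1 = T
  calc _ = (Nat.card (𝐂 y) * (𝐂 y).index : ℂ) * (Nat.card (𝐂 g) * (𝐂 g).index) / Nat.card G * T := by
        ring
    _ = _ := by rw [k1, k2]; field_simp

theorem gi : GI.{u} := by
  intro G _ _ _ D S ht η hη g hg
  have h := D.pd
  refine exists_int_of_fixed (η.2.isCharacter.isIntegral_apply g) fun σ => ?_
  let η' : IrrCharacter G := ⟨_, η.2.map_ringHom (σ : ℂ →+* ℂ)⟩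
  by_cases hY : η' ∈ D.Y
  · exact h.eq_reg hY hη hg
  have e1 : ∀ u : zpowers D.x, u ≠ 1 → η.1 u = D.a η' := fun u hu =>
    σ.injective ((h.van S.cent η' hY u hu).trans (map_intCast σ _).symm)
  have e2 := (h.sP_exc hη).symm.trans (sP_eq h.ord e1)
  rw [irr_apply_one] at e2
  have e3 : (charDegree η.1 : ℤ) - D.δ * aq D.x = charDegree η.1 + (D.p - 1) * D.a η' := by
    exact_mod_cast e2
  have e4 := h.card
  have e5 := aq_pos D.x
  have e6 : (#D.Y : ℤ) * D.a η' = -D.δ := by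
    refine mul_left_cancel₀ (a := (aq D.x : ℤ)) (by omega) ?_
    zify at e4
    linear_combination (-1) * e3 + D.a η' * e4
  exfalso
  have ht' : (2 : ℤ) ≤ #D.Y := by exact_mod_cast ht
  rcases h.pm η' with e | e | e <;> rcases h.sign with e' | e' <;> rw [e, e'] at e6 <;> omega

end H3.SN
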