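import Cfsg.Agent.H3.SN1
import Cfsg.Agent.H21.Q2

/-! The configuration of `PSL(3, 3)`: degrees, orders and the restriction to the normalizer. -/

open Cfsg
open H5 H7 H8 H21

namespace H3.SN

open Subgroup Finset H1.SN
open scoped ComplexConjugate MatrixGroups Pointwise

universe u

local notation "𝐍" x:max => normalizer (SetLike.coe (zpowers x))
local notation "𝐂" x:max => centralizer ({x} : Set _)

variable {G : Type u} [Group G] [Finite G] [DecidableEq (IrrCharacter G)]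

structure Kit (D : Dat G) (A : IrrCharacter G) : Prop where
  cf : D.CF
  p : D.p = (D.u + 1) ^ 2 + (D.u + 1) + 1
  e : aq D.x = D.u + 1
  N : (𝐍 D.x).index = (D.u + 1) ^ 2 * (D.u + 2) ^ 2
  card : Nat.card G = D.p * (D.u + 1) ^ 3 * (D.u + 2) ^ 2
  aA : D.a A = 1
  Ane : A ≠ irrOne G
  dA : charDegree A.1 = (D.u + 1) ^ 3
  pos : ∀ χ, D.a χ = 1 → χ = irrOne G ∨ χ = A
  neg : ∀ χ, D.a χ = -1 → charDegree χ.1 = (D.u + 1) * (D.u + 2)
  dY : ∀ η ∈ D.Y, charDegree η.1 = (D.u + 2) ^ 2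

theorem exists_kit {D : Dat G} (h : D.CF) : ∃ A, Kit D A := by
  obtain ⟨S, hδ, hj, ht, hm, hA, hN, hD, hu⟩ := id h
  have hp : D.p = (D.u + 1) ^ 2 + (D.u + 1) + 1 := by rw [← D.mv, hm]; ring
  have he : aq D.x = D.u + 1 := by
    have e := D.pd.card
    change D.t * _ + 1 = _ at e
    rw [ht, ← D.mv] at e
    exact Nat.eq_of_mul_eq_mul_left (by omega) (Nat.add_right_cancel e)
  have hn : D.n + 2 = D.p := by have := D.nm; omega
  have hI : (𝐍 D.x).index = (D.u + 1) ^ 2 * (D.u + 2) ^ 2 := by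
    rw [D.hN]
    zify at hn hp ⊢
    rw [show (D.n : ℤ) = D.p - 2 by omega, hp]; ring
  obtain ⟨A, hA⟩ := card_eq_one.1 hA
  have hA' : ∀ χ, D.a χ = 1 ∧ charDegree χ.1 = D.u * D.p + 1 ↔ χ = A := fun χ => by
    simpa using Finset.ext_iff.1 hA χ
  have hA1 := (hA' A).2 rfl
  refine ⟨A, h, hp, he, hI, ?_, hA1.1, fun e => ?_, by rw [hA1.2, hp]; ring, fun χ hχ => ?_,
    fun χ hχ => ?_, fun η hη => ?_⟩
  · rw [← (𝐍 D.x).card_mul_index, S.card_normalizer', he, hI]; ring
  · have := hA1.2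
    rw [e, charDegree_irrOne, hp] at this
    nlinarith
  · rcases D.pos χ hχ with e | e | e
    · exact .inl e
    · exact .inr ((hA' χ).1 ⟨hχ, e⟩)
    · simpa [hχ, e] using Finset.ext_iff.1 (card_eq_zero.1 hN) χ
  · rcases D.neg χ hχ with e | e
    · rw [hp] at e; nlinarith
    · simpa [hχ, e] using Finset.ext_iff.1 (card_eq_zero.1 hD) χ
  · have := (D.exc η hη).1
    rw [hj, hδ, he, hp] at this
    zify; rw [this]; push_cast; ring

theorem sum_norm {G : Type*} [Group G] [Finite G] {x : G} [Fintype (𝐍 x)] {α : G → ℂ} {c : ℂ}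
    (h : ∀ y ∈ 𝐍 x, y ∉ zpowers x → α y = c) :
    ∑ y : 𝐍 x, α y = sP x α + (Nat.card (𝐍 x) - orderOf x) * c := by
  classical
  have := Fintype.ofFinite G
  have e : ∑ y : 𝐍 x, (α y - c) = ∑ y : zpowers x, (α y - c) := by
    rw [← sum_subtype (univ.filter (· ∈ 𝐍 x)) (by simp) fun y => α y - c,
      ← sum_subtype (univ.filter (· ∈ zpowers x)) (by simp) fun y => α y - c]
    refine (sum_subset (fun y hy => ?_) fun y hy hy' => ?_).symm
    · simpa using le_normalizer (by simpa using hy)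
    · rw [h y (by simpa using hy) (by simpa using hy'), sub_self]
  simp only [sum_sub_distrib, sum_const, card_univ, nsmul_eq_mul, ← Nat.card_eq_fintype_card,
    Nat.card_zpowers] at e
  rw [sP]
  linear_combination e

namespace Kit

variable {D : Dat G} {A : IrrCharacter G} (k : Kit D A)
include k

theorem S : SCent D.p D.x := k.cf.1

theorem δ : D.δ = 1 := k.cf.2.1

theorem t : #D.Y = D.u + 2 := k.cf.2.2.2.1.trans k.cf.2.2.2.2.1

theorem two : 2 ≤ D.u := k.cf.2.2.2.2.2.2.2.2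

theorem sum {R : Type*} [Ring R] (f : IrrCharacter G → R) :
    ∑ χ, D.a χ * f χ = f (irrOne G) + f A - ∑ χ with D.a χ = -1, f χ := by
  rw [sum_filter, ← Fintype.sum_ite_eq' (irrOne G) f, ← Fintype.sum_ite_eq' A f, ← sum_add_distrib,
    ← sum_sub_distrib]
  refine sum_congr rfl fun χ _ => ?_
  rcases D.pd.pm χ with e | e | e
  · have e1 : χ ≠ irrOne G := fun e' => by simp [e', D.pd.one] at e
    have e2 : χ ≠ A := fun e' => by simp [e', k.aA] at e
    simp [e, e1, e2]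
  · rcases k.pos χ e with e' | e'
    · subst e'; simp [e, k.Ane.symm]
    · subst e'; simp [e, k.Ane]
  · have e1 : χ ≠ irrOne G := fun e' => by simp [e', D.pd.one] at e
    have e2 : χ ≠ A := fun e' => by simp [e', k.aA] at e
    simp [e, e1, e2]

theorem nC : #{χ | D.a χ = -1} + 1 = D.u := by
  obtain ⟨η, hη⟩ := card_pos.1 D.pd.card_Y_pos
  have e := (D.pd.degree_rel hη).trans (k.sum (fun χ => (charDegree χ.1 : ℤ)))
  rw [k.δ, k.dY η hη, k.dA, charDegree_irrOne,
    sum_congr rfl fun χ hχ => by rw [k.neg χ (by simpa using hχ)], sum_const, nsmul_eq_mul] at e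
  refine Nat.eq_of_mul_eq_mul_right (m := (D.u + 1) * (D.u + 2)) (by positivity) ?_
  zify at e ⊢
  linear_combination e

theorem not_dvd_p {r : ℕ} (hr : r.Prime) (h : r ∣ (D.u + 1) * (D.u + 2)) : ¬ r ∣ D.p := fun e => by
  rw [show D.p = (D.u + 1) * (D.u + 2) + 1 by rw [k.p]; ring, Nat.dvd_add_right h,
    Nat.dvd_one] at e
  exact hr.ne_one e

theorem vanA {r : ℕ} {g : G} (hr : r.Prime) (h : r ∣ D.u + 1) (hg : r ∣ orderOf g) : A.1 g = 0 := by
  refine H6.defect_zero A.2 hr (m := D.p * (D.u + 2) ^ 2) (irr_apply_one A)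
    (by rw [k.card, k.dA]; ring) (fun e => ?_) hg
  rcases (Nat.Prime.dvd_mul hr).1 e with e | e
  · exact k.not_dvd_p hr (h.mul_right _) e
  · have := hr.dvd_of_dvd_pow e
    rw [show D.u + 2 = D.u + 1 + 1 from rfl, Nat.dvd_add_right h, Nat.dvd_one] at this
    exact hr.ne_one this

theorem vanY {η : IrrCharacter G} (hη : η ∈ D.Y) {r : ℕ} {g : G} (hr : r.Prime) (h : r ∣ D.u + 2)
    (hg : r ∣ orderOf g) : η.1 g = 0 := by
  refine H6.defect_zero η.2 hr (m := D.p * (D.u + 1) ^ 3) (irr_apply_one η)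
    (by rw [k.card, k.dY η hη]; ring) (fun e => ?_) hg
  rcases (Nat.Prime.dvd_mul hr).1 e with e | e
  · exact k.not_dvd_p hr (h.mul_left _) e
  · have := hr.dvd_of_dvd_pow e
    rw [show D.u + 2 = D.u + 1 + 1 from rfl, Nat.dvd_add_right this, Nat.dvd_one] at h
    exact hr.ne_one h

theorem ord_dvd {y : G} (hy : y ∈ 𝐍 D.x) (hy' : y ∉ zpowers D.x) : orderOf y ∣ D.u + 1 := by
  rw [← k.e, ← (k.S.card_inf_cent hy hy').2]
  exact Subgroup.orderOf_dvd_natCard _ ⟨by simp [mem_centralizer_iff], hy⟩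

theorem not_dvd_ord {y : G} (hy : y ∈ 𝐍 D.x) (hy' : y ∉ zpowers D.x) : ¬ D.p ∣ orderOf y :=
  fun e => k.not_dvd_p k.S.prime ((e.trans (k.ord_dvd hy hy')).mul_right _) dvd_rfl

theorem A_norm {y : G} (hy : y ∈ 𝐍 D.x) (hy' : y ∉ zpowers D.x) : A.1 y = 0 := by
  have h1 : orderOf y ≠ 1 := fun e => hy' (orderOf_eq_one_iff.1 e ▸ one_mem _)
  exact k.vanA (Nat.minFac_prime h1) ((Nat.minFac_dvd _).trans (k.ord_dvd hy hy')) (Nat.minFac_dvd _)

theorem C_norm {χ : IrrCharacter G} (hχ : D.a χ = -1) {y : G} (hy : y ∈ 𝐍 D.x)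
    (hy' : y ∉ zpowers D.x) : χ.1 y = 0 := by
  refine k.S.apply_eq_zero χ.2.isCharacter ?_ hy hy'
  rw [D.pd.sP_nonexc (by omega), k.neg χ hχ, hχ, k.p]
  push_cast; ring

theorem Y_norm {η : IrrCharacter G} (hη : η ∈ D.Y) {y : G} (hy : y ∈ 𝐍 D.x)
    (hy' : y ∉ zpowers D.x) : η.1 y = 1 := by
  have e := D.pd.reg η hη y (k.not_dvd_ord hy hy')
  rw [k.sum (fun χ => χ.1 y), k.δ, k.A_norm hy hy',
    sum_eq_zero fun χ hχ => k.C_norm (by simpa using hχ) hy hy'] at e
  simpa [irrOne] using e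

end Kit

theorem fa : FA.{u} := by
  intro G _ _ _ D h η hη
  obtain ⟨A, k⟩ := exists_kit h
  refine ⟨fun y hy hy' => ⟨k.Y_norm hη hy hy', fun χ h1 h0 => ?_⟩, fun φ ψ hφ hψ => ?_⟩
  · rcases D.pd.pm χ with e | e | e
    · exact absurd e h0
    · rw [(k.pos χ e).resolve_left h1, k.A_norm hy hy']
    · exact k.C_norm e hy hy'
  have := Fintype.ofFinite G
  have P := D.pd
  obtain ⟨m, hm⟩ := (φ.2.isCharacter.mul ψ.2.isCharacter.star).exists_eq_sum_nat
  have e4 : ∀ g, ∑ χ, (m χ : ℂ) * χ.1 g = φ.1 g * conj (ψ.1 g) := fun g => by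
    simpa using (congrFun hm g).symm
  choose l hl using fun χ : IrrCharacter G =>
    (χ.2.isCharacter.restrict (𝐍 D.x)).exists_classInner_nat isCharacter_one
  have hM := k.S.card_normalizer'
  rw [k.e] at hM
  have hl' : ∀ χ : IrrCharacter G, ∑ y : 𝐍 D.x, χ.1 y = D.p * (D.u + 1) * l χ := fun χ => by
    have := card_mul_classInner (fun y : 𝐍 D.x => χ.1 y) (fun _ => 1)
    rw [hl, hM] at this
    simpa using this.symm
  have hp0 : (D.p * (D.u + 1) : ℂ) ≠ 0 := by
    have := P.prime.pos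
    exact_mod_cast (by positivity : D.p * (D.u + 1) ≠ 0)
  have hp : (D.p : ℂ) = (D.u + 1) ^ 2 + (D.u + 1) + 1 := by exact_mod_cast k.p
  have l1 : l (irrOne G) = 1 := by
    exact_mod_cast (hl (irrOne G)).symm.trans classInner_one_one
  have lA : l A = 1 := by
    have e := (hl' A).symm.trans (sum_norm fun y hy hy' => k.A_norm hy hy')
    rw [P.sP_nonexc (by rw [k.aA]; omega), k.dA, k.aA] at e
    have : (l A : ℂ) = 1 := mul_left_cancel₀ hp0 (by rw [e, hp]; push_cast; ring)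
    exact_mod_cast this
  have lY : ∀ χ ∈ D.Y, l χ = 1 := fun χ hχ => by
    have e := (hl' χ).symm.trans (sum_norm fun y hy hy' => k.Y_norm hχ hy hy')
    rw [(D.exc χ hχ).2, hM, P.ord, h.2.2.1] at e
    have : (l χ : ℂ) = 1 := mul_left_cancel₀ hp0 (by rw [e]; push_cast; ring)
    exact_mod_cast this
  have hP : ∀ u : zpowers D.x, u ≠ 1 → φ.1 u * conj (ψ.1 u) = 1 := fun u hu => by
    rw [P.nonexc φ (by omega) u hu, P.nonexc ψ (by omega) u hu, hφ, hψ]; simp
  have k1 : ∑ χ, m χ * l χ = D.u + 2 := by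
    have e := sum_norm (x := D.x) (α := fun g => φ.1 g * conj (ψ.1 g)) (c := 0)
      fun y hy hy' => by rw [k.C_norm hφ hy hy', zero_mul]
    rw [sP_eq P.ord hP, irr_apply_one, irr_apply_one, k.neg φ hφ, k.neg ψ hψ, map_natCast] at e
    simp only [← e4] at e
    rw [sum_comm] at e
    simp only [← mul_sum, hl', mul_left_comm (m _ : ℂ)] at e
    have : (∑ χ, m χ * l χ : ℂ) = D.u + 2 := mul_left_cancel₀ hp0 (by rw [e, hp]; push_cast; ring)
    exact_mod_cast this
  have k2 : ∀ χ ∈ D.Y, (m χ : ℤ) = m (irrOne G) + m A - ∑ χ with D.a χ = -1, (m χ : ℤ) - 1 :=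
    fun χ hχ => by
    have e1 := P.rel k.S.cent (fun ψ => m ψ - if ψ = irrOne G then 1 else 0) (fun u hu => by
      simp only [mul_sub, sum_sub_distrib, mul_ite, mul_one, mul_zero, sum_ite_eq', mem_univ,
        if_true]
      rw [sub_eq_zero, sum_congr rfl fun _ _ => mul_comm _ _, e4, hP u hu]
      rfl) χ hχ
    simp only [mul_sub, sum_sub_distrib, mul_ite, mul_one, mul_zero, sum_ite_eq', mem_univ,
      if_true, if_neg (P.ne_irrOne hχ), k.δ, P.one] at e1
    rw [k.sum fun χ => (m χ : ℂ)] at e1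
    rw [← Int.cast_inj (α := ℂ)]
    push_cast at e1 ⊢
    linear_combination e1
  have k3 : m (irrOne G) + (m A + #D.Y * m η) ≤ D.u + 2 := by
    have a1 : A ∉ D.Y := fun e => by simpa [k.aA] using P.zero A e
    have a2 : irrOne G ∉ insert A D.Y := by
      simp only [mem_insert, not_or]
      exact ⟨k.Ane.symm, fun e => P.ne_irrOne e rfl⟩
    have e := sum_le_sum_of_subset (f := fun χ => m χ * l χ) (subset_univ (insert (irrOne G)
      (insert A D.Y)))
    rw [sum_insert a2, sum_insert a1, k1, l1, lA, mul_one, mul_one, sum_congr rfl (g := fun _ => m η)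
      fun χ hχ => by
        rw [lY χ hχ, mul_one]
        exact_mod_cast (k2 χ hχ).trans (k2 η hη).symm, sum_const, smul_eq_mul] at e
    exact e
  have k4 : m η = 0 := by
    have e := k2 η hη
    have e0 : 0 ≤ ∑ χ with D.a χ = -1, (m χ : ℤ) := sum_nonneg fun _ _ => Int.natCast_nonneg _
    rw [k.t] at k3
    by_contra e1
    have : 1 ≤ m η := by omega
    have : m η + 1 ≤ m (irrOne G) + m A := by omega
    nlinarith
  have e := classInner_sum_irr_left (fun χ => (m χ : ℂ)) η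
  rw [← hm, k4] at e
  rw [finsum_eq_sum_of_fintype]
  have e' := card_mul_classInner (φ.1 * fun g => conj (ψ.1 g)) η.1
  rw [e] at e'
  simpa using e'.symm

end H3.SN
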