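import Cfsg.Agent.H3.SN2

/-! The configuration of `PSL(3, 3)`: a large negative value, and the conclusion `u = 2`. -/

open Cfsg
open H5 H7 H8 H21

namespace H3.SN

open Subgroup Finset H1.SN
open scoped ComplexConjugate MatrixGroups Pointwise

universe u

local notation "𝐍" x:max => normalizer (SetLike.coe (zpowers x))
local notation "𝐂" x:max => centralizer ({x} : Set _)

theorem fb : FB.{u} := by
  intro G _ _ _ D h η hη
  classical
  obtain ⟨A, k⟩ := exists_kit h
  have := Fintype.ofFinite G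
  have P := D.pd
  have hu := k.two
  choose! c hc using gi G D k.S (by change 2 ≤ #D.Y; rw [k.t]; omega) η hη
  let s : Finset G := (univ.filter fun g => ¬ D.p ∣ orderOf g).erase 1
  have hs : ∀ g, g ∈ s ↔ g ≠ 1 ∧ ¬ D.p ∣ orderOf g := fun g => by simp [s]
  have key : ∀ α : G → ℂ, IsClassFunction G α → ∑ g, α g = α 1 + ∑ g ∈ s, α g +
      (D.u + 1) ^ 2 * (D.u + 2) ^ 2 * (sP D.x α - α 1) := fun α hα => by
    rw [k.S.sum_eq hα, add_sum_erase _ _ (by simpa using P.prime.ne_one), k.N]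
    push_cast; rfl
  have hp : (D.p : ℂ) = (D.u + 1) ^ 2 + (D.u + 1) + 1 := by exact_mod_cast k.p
  have h1 : η.1 1 = (D.u + 2) ^ 2 := by rw [irr_apply_one, k.dY η hη]; push_cast; rfl
  have h2 : sP D.x η.1 = D.p := by rw [(D.exc η hη).2, h.2.2.1]; simp
  have S1 : ∑ g ∈ s, c g = (D.u + 2) ^ 2 * D.u * D.p := by
    have e := card_mul_classInner η.1 (irrOne G).1
    rw [classInner_irr, if_neg (P.ne_irrOne hη)] at e
    simp only [irrOne, map_one, mul_one, mul_zero] at e
    rw [key _ η.2.isClassFunction, h1, h2, sum_congr rfl fun g hg => hc g ((hs g).1 hg).2] at e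
    rw [← Int.cast_inj (α := ℂ)]
    push_cast
    rw [hp] at e ⊢
    linear_combination -e
  have S2 : ∑ g ∈ s, c g ^ 2 = (D.u + 2) ^ 2 * ((D.u + 1) * D.u - 1) * D.p := by
    have e := card_mul_classInner η.1 η.1
    rw [η.2.classInner_self, key (fun g => η.1 g * conj (η.1 g))
      (η.2.isClassFunction.mul η.2.isClassFunction.star)] at e
    obtain ⟨μ, hμ, rfl⟩ := (P.mem η).1 hη
    have e2 := sP_congr (x := D.x) (α := fun g => (D.ζ μ).1 g * conj ((D.ζ μ).1 g))
      (F := fun u => orbSum (aE D.x) μ u * conj (orbSum (aE D.x) μ u)) fun u hu => by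
        simp [P.exc μ hμ u hu, k.δ]
    rw [sum_orbSum_mul_conj P.free hμ, P.free.orbSum_one hμ, card_aE, k.e, Nat.card_zpowers,
      P.ord] at e2
    rw [e2, add_sub_cancel_left, sum_congr rfl (g := fun g => (c g : ℂ) ^ 2) fun g hg => by
      simp [hc g ((hs g).1 hg).2, sq], k.card] at e
    simp only [h1, map_pow, map_add, map_natCast, map_ofNat] at e
    rw [← Int.cast_inj (α := ℂ)]
    push_cast at e ⊢
    rw [hp] at e ⊢
    linear_combination -e
  have S3 : ∑ g ∈ s, (1 - c g) ^ 2 * c g =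
      -(((D.u : ℤ) - 1) ^ 2 * (D.u + 1) ^ 2 * (D.u + 2) ^ 2 * D.p) := by
    let Φ : G → ℂ := ∑ χ with D.a χ = -1, χ.1
    have hΦ : IsClassFunction G Φ := isClassFunction_sum _ _ fun χ _ => χ.2.isClassFunction
    have hn : (#{χ | D.a χ = -1} : ℂ) = D.u - 1 := by rw [← k.nC]; push_cast; ring
    have e : ∑ g, conj (Φ g * conj (Φ g) * conj (η.1 g)) = 0 := by
      rw [← map_sum, map_eq_zero]
      simp only [Φ, Finset.sum_apply, map_sum, sum_mul]
      rw [sum_comm]
      refine sum_eq_zero fun φ hφ => ?_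
      simp only [mul_sum, sum_mul]
      rw [sum_comm]
      refine sum_eq_zero fun ψ hψ => ?_
      rw [← finsum_eq_sum_of_fintype]
      exact (fa G D h η hη).2 φ ψ (by simpa using hφ) (by simpa using hψ)
    rw [key (fun g => conj (Φ g * conj (Φ g) * conj (η.1 g)))
      ((hΦ.mul hΦ.star).mul η.2.isClassFunction.star).star] at e
    have e1 : Φ 1 = (D.u - 1) * ((D.u + 1) * (D.u + 2)) := by
      simp only [Φ, Finset.sum_apply]
      rw [sum_congr rfl fun χ hχ => by rw [irr_apply_one, k.neg χ (by simpa using hχ)], sum_const,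
        nsmul_eq_mul, hn]
      push_cast; rfl
    have e2 := sP_congr (x := D.x) (α := fun g => conj (Φ g * conj (Φ g) * conj (η.1 g)))
      (F := fun u => (D.u - 1) ^ 2 * η.1 u) fun u hu => by
        have : Φ u = 1 - D.u := by
          simp only [Φ, Finset.sum_apply]
          rw [sum_congr rfl (g := fun _ => -1) fun χ hχ => by
            have : D.a χ = -1 := by simpa using hχ
            rw [P.nonexc χ (by omega) u hu, this]; simp, sum_const, nsmul_eq_mul, hn]
          ring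
        simp only [this, map_mul, map_sub, map_one, map_natCast, Complex.conj_conj]
        ring
    rw [← mul_sum, show ∑ u : zpowers D.x, η.1 u = D.p from h2] at e2
    have e3 : ∀ g ∈ s, conj (Φ g * conj (Φ g) * conj (η.1 g)) = (1 - c g) ^ 2 * c g := by
      intro g hg
      obtain ⟨g1, g2⟩ := (hs g).1 hg
      by_cases h0 : η.1 g = 0
      · rw [← hc g g2, h0]; simp
      have r1 : orderOf g ≠ 1 := by simpa using g1
      have r2 := Nat.minFac_prime r1
      have r3 := (Nat.minFac_dvd _).trans (orderOf_dvd_natCard g)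
      rw [k.card, r2.dvd_mul, r2.dvd_mul] at r3
      have r4 : A.1 g = 0 := by
        rcases r3 with (r3 | r3) | r3
        · exact absurd (((Nat.prime_dvd_prime_iff_eq r2 P.prime).1 r3) ▸ Nat.minFac_dvd _) g2
        · exact k.vanA r2 (r2.dvd_of_dvd_pow r3) (Nat.minFac_dvd _)
        · exact absurd (k.vanY hη r2 (r2.dvd_of_dvd_pow r3) (Nat.minFac_dvd _)) h0
      have r5 := P.reg η hη g g2
      rw [k.sum (fun χ => χ.1 g), k.δ, r4, hc g g2] at r5
      have r6 : Φ g = 1 - c g := by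
        simp only [Φ, Finset.sum_apply]
        simp only [irrOne] at r5
        push_cast at r5
        linear_combination r5
      simp only [r6, hc g g2, map_mul, map_sub, map_one, map_intCast]
      ring
    rw [e2, add_sub_cancel_left, sum_congr rfl e3] at e
    simp only [e1, h1, OneMemClass.coe_one, map_mul, map_pow, map_add, map_sub, map_one, map_natCast,
      map_ofNat] at e
    rw [← Int.cast_inj (α := ℂ)]
    push_cast
    rw [hp] at e ⊢
    linear_combination e
  have hp0 : (0 : ℤ) < D.p := by exact_mod_cast P.prime.pos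
  have hu' : (2 : ℤ) ≤ D.u := by exact_mod_cast hu
  obtain ⟨g, hg, hmin⟩ := s.exists_min_image c (nonempty_of_sum_ne_zero (f := c) (by
    rw [S1]; positivity))
  obtain ⟨g1, g2⟩ := (hs g).1 hg
  have i1 : 0 ≤ ∑ y ∈ s, ((1 - c y) ^ 2 * c y + (1 - c g) * (c y ^ 2 - c y)) :=
    sum_nonneg fun y hy => by
      have := hmin y hy
      have : 0 ≤ c y ^ 2 - c y := by
        rcases le_or_gt (c y) 0 with e | e <;> nlinarith
      nlinarith
  rw [sum_add_distrib, ← mul_sum, sum_sub_distrib, S1, S2, S3] at i1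
  have i2 : ((D.u : ℤ) - 1) * (D.u + 1) ≤ 1 - c g := by
    have : (0 : ℤ) < (D.u - 1) * (D.u + 1) * (D.u + 2) ^ 2 * D.p := by
      have : (0 : ℤ) < D.u - 1 := by omega
      positivity
    refine le_of_mul_le_mul_left ?_ this
    linarith
  obtain ⟨K, hK⟩ : ∃ K : ℕ, c g = -K := ⟨(-c g).toNat, by
    rw [Int.toNat_of_nonneg (by nlinarith), neg_neg]⟩
  refine ⟨g, K, g1, g2, by rw [hc g g2, hK]; simp, by zify; nlinarith, ?_⟩
  have i3 : ((𝐂 g).index : ℤ) * K ^ 2 ≤ ∑ y ∈ s, c y ^ 2 := by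
    have hcl : ∀ y ∈ univ.filter (IsConj g), y ∈ s ∧ c y ^ 2 = K ^ 2 := fun y hy => by
      obtain ⟨z, rfl⟩ := isConj_iff.1 (by simpa using hy : IsConj g y)
      have e : ¬ D.p ∣ orderOf (z * g * z⁻¹) := by rwa [orderOf_conj']
      refine ⟨(hs _).2 ⟨by simpa using g1, e⟩, ?_⟩
      have := (hc _ e).symm.trans ((η.2.isClassFunction.conj_apply z g).trans (hc g g2))
      rw [Int.cast_inj.1 this, hK, neg_sq]
    rw [← card_filter_isConj, ← nsmul_eq_mul, ← sum_const, ← sum_congr rfl fun y hy => (hcl y hy).2]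
    exact sum_le_sum_of_subset_of_nonneg (fun y hy => (hcl y hy).1) fun _ _ _ => sq_nonneg _
  have i4 : (Nat.card (𝐂 g) * (𝐂 g).index : ℤ) = D.p * (D.u + 1) ^ 3 * (D.u + 2) ^ 2 := by
    exact_mod_cast (𝐂 g).card_mul_index.trans k.card
  rw [S2] at i3
  zify [show 1 ≤ (D.u + 1) * D.u by nlinarith]
  refine le_of_mul_le_mul_left (a := (D.u + 2) ^ 2 * (D.p : ℤ)) ?_ (by positivity)
  have := mul_le_mul_of_nonneg_left i3 (Int.natCast_nonneg (Nat.card (𝐂 g)))
  rw [← mul_assoc, i4] at this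
  linarith

theorem f1 : F1.{u} := by
  intro G _ _ _ D h
  obtain ⟨A, k⟩ := exists_kit h
  have P := D.pd
  have hu := k.two
  obtain ⟨η, hη⟩ := card_pos.1 P.card_Y_pos
  obtain ⟨g, K, g1, g2, hK, i1, i2⟩ := fb G D h η hη
  obtain ⟨y, hy, hy'⟩ : ∃ y ∈ 𝐍 D.x, y ∉ zpowers D.x := by
    by_contra! e
    have := Subgroup.card_le_of_le (show 𝐍 D.x ≤ zpowers D.x from e)
    rw [k.S.card_normalizer', k.S.card, k.e] at this
    have := P.prime.pos
    nlinarith
  have y1 : y ≠ 1 := fun e => hy' (e ▸ one_mem _)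
  obtain ⟨c, hc⟩ := cc G D k.S η hη y g y1 g1 (k.not_dvd_ord hy hy') g2
  simp only [mul_assoc, mul_div_assoc] at hc
  rw [k.sum (fun χ => χ.1 y * (χ.1 g / χ.1 1)), k.A_norm hy hy', k.Y_norm hη hy hy', hK, k.δ,
    sum_eq_zero fun χ hχ => by rw [k.C_norm (by simpa using hχ) hy hy', zero_mul], k.card,
    irr_apply_one η, k.dY η hη] at hc
  have e : c * Nat.card (𝐂 y) * Nat.card (𝐂 g) = (D.u + 1) ^ 3 * ((D.u + 2) ^ 2 + K) := by
    have h0 : ((D.u : ℂ) + 2) ≠ 0 := by exact_mod_cast (by omega : D.u + 2 ≠ 0)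
    have hp0 : (D.p : ℂ) ≠ 0 := Nat.cast_ne_zero.2 P.prime.ne_zero
    rw [← Nat.cast_inj (R := ℂ)]
    refine mul_left_cancel₀ hp0 ?_
    simp only [irrOne] at hc
    push_cast at hc ⊢
    rw [mul_assoc, hc]
    field_simp
    ring
  have c1 : 1 ≤ c := Nat.pos_of_ne_zero fun e' => by
    rw [e', zero_mul, zero_mul] at e
    exact absurd e.symm (by positivity)
  have c2 : D.u + 1 ≤ Nat.card (𝐂 y) := by
    rw [← k.e, ← (k.S.card_inf_cent hy hy').2]
    exact Subgroup.card_le_of_le inf_le_left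
  have c3 : Nat.card (𝐂 g) ≤ (D.u + 1) ^ 2 * ((D.u + 2) ^ 2 + K) := by
    refine Nat.le_of_mul_le_mul_left (c := D.u + 1) ?_ (by omega)
    calc _ ≤ c * Nat.card (𝐂 y) * Nat.card (𝐂 g) := Nat.mul_le_mul_right _ (by nlinarith)
      _ = _ := by rw [e]; ring
  have c4 : K ^ 2 * (D.u + 1) ≤ ((D.u + 1) * D.u - 1) * ((D.u + 2) ^ 2 + K) := by
    refine Nat.le_of_mul_le_mul_left (c := (D.u + 1) ^ 2) ?_ (by positivity)
    calc _ = K ^ 2 * (D.u + 1) ^ 3 := by ring
      _ ≤ _ := i2.trans (Nat.mul_le_mul_left _ c3)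
      _ = _ := by ring
  have hp := k.p ▸ P.prime
  by_contra e2
  generalize D.u = u at *
  obtain rfl | h4 : u = 3 ∨ 4 ≤ u := by omega
  · norm_num at hp
  obtain ⟨w, rfl⟩ := Nat.exists_eq_add_of_le' h4
  obtain ⟨d, rfl⟩ := Nat.exists_eq_add_of_le (show w ^ 2 + 8 * w + 14 ≤ K by nlinarith)
  rw [show (w + 4 + 1) * (w + 4) - 1 = w ^ 2 + 9 * w + 19 by
    rw [Nat.sub_eq_iff_eq_add (by nlinarith)]; ring] at c4
  ring_nf at c4
  omega

end H3.SN
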